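import Cfsg.Agent.Lib.DG.Defs

/-! Degree graph of classical groups: arithmetic tools, symplectic and odd orthogonal types. -/

set_option autoImplicit false
set_option linter.unusedSectionVars false

namespace Cfsg.Agent.DG

open Finset

/-- `e` is the order of `q` modulo `r`. -/
structure Od (q r e : ℕ) : Prop where
  pr : r.Prime
  pos : 0 < e
  iff : ∀ a, r ∣ q ^ a - 1 ↔ e ∣ a

theorem exists_od {q r : ℕ} (hr : r.Prime) (h : ¬ r ∣ q) : ∃ e, Od q r e := by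
  have := Fact.mk hr
  have h0 : (q : ZMod r) ≠ 0 := fun e => h ((ZMod.natCast_eq_zero_iff q r).1 e)
  have hq : 0 < q := Nat.pos_of_ne_zero (by rintro rfl; exact h (dvd_zero r))
  refine ⟨orderOf (q : ZMod r), hr, ?_, fun a => ?_⟩
  · exact orderOf_pos_iff.2 (isOfFinOrder_iff_pow_eq_one.2
      ⟨r - 1, by have := hr.two_le; omega, ZMod.pow_card_sub_one_eq_one h0⟩)
  · rw [orderOf_dvd_iff_pow_eq_one, ← ZMod.natCast_eq_zero_iff,
      Nat.cast_sub (Nat.one_le_pow _ _ hq), Nat.cast_pow, Nat.cast_one, sub_eq_zero]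

theorem pow_two_mul_sub_one (q n : ℕ) : q ^ (2 * n) - 1 = (q ^ n - 1) * (q ^ n + 1) := by
  rw [mul_comm 2, pow_mul, mul_comm, ← Nat.sq_sub_sq, one_pow]

theorem Od.plus {q r e n : ℕ} (h : Od q r e) (h1 : e ∣ 2 * n) (h2 : ¬ e ∣ n) : r ∣ q ^ n + 1 := by
  have := (h.iff _).2 h1
  rw [pow_two_mul_sub_one] at this
  exact ((Nat.Prime.dvd_mul h.pr).1 this).resolve_left fun h' => h2 ((h.iff _).1 h')

theorem Od.of_plus {q r e n : ℕ} (h : Od q r e) (h1 : r ∣ q ^ n + 1) : e ∣ 2 * n :=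
  (h.iff _).1 (pow_two_mul_sub_one q n ▸ h1.mul_left _)

/-- The level of an order: `e` itself if it is odd, half of it otherwise. -/
def Lev (e n : ℕ) : Prop := (∃ f, e = 2 * f ∧ 1 ≤ f ∧ f ≤ n) ∨ (e % 2 = 1 ∧ e ≤ n)

theorem lev_of_dvd {e j n : ℕ} (he : 0 < e) (h : e ∣ 2 * j) (h1 : 1 ≤ j) (h2 : j ≤ n) :
    Lev e n := by
  rcases Nat.even_or_odd' e with ⟨f, rfl | rfl⟩
  · have := Nat.le_of_dvd (by omega) h
    exact .inl ⟨f, rfl, by omega, by omega⟩
  · have := Nat.le_of_dvd h1 ((Nat.coprime_two_right.2 ⟨f, rfl⟩).dvd_of_dvd_mul_left h)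
    exact .inr ⟨by omega, by omega⟩

theorem Od.plus' {q r f : ℕ} (h : Od q r (2 * f)) : r ∣ q ^ f + 1 :=
  h.plus dvd_rfl fun h' => by
    have := h.pos
    have := Nat.le_of_dvd (by omega) h'
    omega

theorem two_of_three {A : Set ℕ} {t : Typ} {q m a b c : ℕ} (ha : a ∈ A) (hb : b ∈ A) (hc : c ∈ A)
    (h : ∀ r, Pr t q m r → (r ∣ a ∧ r ∣ b) ∨ (r ∣ a ∧ r ∣ c) ∨ (r ∣ b ∧ r ∣ c)) : Cpl A t q m := by
  intro r r' hr hr' hne
  have k : ∀ d, r ∣ d → r' ∣ d → r * r' ∣ d := fun d =>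
    ((Nat.coprime_primes hr.1 hr'.1).2 hne).mul_dvd_of_dvd_of_dvd
  have : (r ∣ a ∧ r' ∣ a) ∨ (r ∣ b ∧ r' ∣ b) ∨ (r ∣ c ∧ r' ∣ c) := by
    have h1 := h r hr
    have h2 := h r' hr'
    tauto
  rcases this with h | h | h
  exacts [⟨a, ha, k a h.1 h.2⟩, ⟨b, hb, k b h.1 h.2⟩, ⟨c, hc, k c h.1 h.2⟩]

theorem cpl_of_all {A : Set ℕ} {t : Typ} {q m a : ℕ} (ha : a ∈ A) (h : ∀ r, Pr t q m r → r ∣ a) :
    Cpl A t q m := two_of_three ha ha ha fun r hr => .inl ⟨h r hr, h r hr⟩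

/-- The primes dividing a degree `I(k, η)`. -/
theorem HasI.elim {A : Set ℕ} {c : ℕ} {t : Typ} {q m k e : ℕ} (h : HasI A c t q m k e)
    (hq : 2 ≤ q) (hc : c ∣ 4) {i u : ℕ} (hi : i < k) (hu : sn t q (m - i) = (q ^ k - 1) * u) :
    ∃ d ∈ A, ∀ r, r.Prime → (c = 1 ∨ r ≠ 2 ∨ 2 * c ∣ e ∨ ∃ j < k, j ≠ i ∧ 8 ∣ u * sn t q (m - j)) →
      (r ∣ e ∨ r ∣ u ∨ ∃ j < k, j ≠ i ∧ r ∣ sn t q (m - j)) → r ∣ d := by
  obtain ⟨d, hd, D, h1, h2⟩ := h
  have h0 : 0 < q ^ k - 1 := Nat.sub_pos_of_lt (Nat.one_lt_pow (by omega) hq)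
  rw [← mul_prod_erase _ _ (mem_range.2 hi), hu, mul_comm D, mul_assoc, mul_assoc] at h1
  have h3 := Nat.eq_of_mul_eq_mul_left h0 h1
  have h4 : ∀ j < k, j ≠ i → sn t q (m - j) ∣ ∏ x ∈ (range k).erase i, sn t q (m - x) :=
    fun j hj hne => dvd_prod_of_mem (fun x => sn t q (m - x)) (mem_erase.2 ⟨hne, mem_range.2 hj⟩)
  refine ⟨d, hd, fun r hr h5 h6 => ?_⟩
  have h7 : r ∣ D := by
    rw [h3]
    rcases h6 with h | h | ⟨j, hj, hne, h⟩
    exacts [(h.mul_left _).mul_left _, h.mul_right _, ((h.trans (h4 j hj hne)).mul_right _).mul_left _]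
  have hc0 : 0 < c := Nat.pos_of_dvd_of_pos hc (by norm_num)
  by_cases h2' : r = 2
  · subst h2'
    have : 2 * c ∣ D → 2 ∣ d := fun h => Nat.dvd_of_mul_dvd_mul_left hc0 (mul_comm 2 c ▸ h.trans h2)
    rcases h5 with rfl | h | h | ⟨j, hj, hne, h⟩
    · simpa using h7.trans h2
    · exact (h rfl).elim
    · exact this (h3 ▸ (h.mul_left _).mul_left _)
    · exact this (h3 ▸ ((Nat.mul_dvd_mul_left 2 hc).trans h).trans
        (Nat.mul_dvd_mul_left u ((h4 j hj hne).mul_right _)))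
  · refine ((Nat.Prime.dvd_mul hr).1 (h7.trans h2)).resolve_left fun h => h2' ?_
    exact (Nat.prime_dvd_prime_iff_eq hr Nat.prime_two).1
      (hr.dvd_of_dvd_pow (n := 2) (h.trans hc))

theorem eight_dvd {q : ℕ} (hq : Odd q) (j : ℕ) : 8 ∣ q ^ (2 * j) - 1 := by
  obtain ⟨k, rfl⟩ := hq
  refine Dvd.dvd.trans ?_ (Nat.pow_sub_one_dvd_pow_sub_one _ (dvd_mul_right 2 j))
  have : (2 * k + 1) ^ 2 - 1 = 4 * (k * (k + 1)) := by
    rw [show (2 * k + 1) ^ 2 = 4 * (k * (k + 1)) + 1 by ring]; rfl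
  rw [this]
  exact Nat.mul_dvd_mul_left 4 (Nat.even_mul_succ_self k).two_dvd

/-- A prime dividing `a * d = b` and `b` but not `a`. -/
theorem dvd_of_eq {r a d b : ℕ} (hr : r.Prime) (h : a * d = b) (hb : r ∣ b) (ha : ¬ r ∣ a) :
    r ∣ d := ((Nat.Prime.dvd_mul hr).1 (h ▸ hb)).resolve_left ha

theorem not_dvd_pred {r q n : ℕ} (hr : r.Prime) (h : r ∣ q) (hq : 2 ≤ q) (hn : n ≠ 0) :
    ¬ r ∣ q ^ n - 1 := fun h' => by
  have := (Nat.dvd_sub_iff_right (Nat.one_le_pow n q (by omega)) (dvd_pow h hn)).1 h'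
  exact hr.one_lt.ne' (Nat.dvd_one.1 this)

theorem lev_CB {t : Typ} (ht : t = .C ∨ t = .B) {q m r e : ℕ} (hm : 1 ≤ m) (h : Pr t q m r)
    (hq : ¬ r ∣ q) (he : Od q r e) : Lev e m := by
  rcases h.2 with h | h | ⟨i, hi, h⟩
  · exact (hq h).elim
  · exact lev_of_dvd (j := 1) he.pos ((he.iff _).1 h) le_rfl hm
  · rcases ht with rfl | rfl <;>
      exact lev_of_dvd he.pos ((he.iff _).1 h) (by simp only [wi] at hi; omega) (by omega)

section
variable {A : Set ℕ} {c : ℕ} {t : Typ} (ht : t = .C ∨ t = .B) {q m : ℕ} (hq : 2 ≤ q)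
  (hc : c = 1 ∨ (c = 4 ∧ Odd q))
include ht hq hc

theorem sn_CB (j : ℕ) : sn t q j = q ^ (2 * j) - 1 := by rcases ht with rfl | rfl <;> rfl

theorem cb_one (hm : 2 ≤ m) (h : HasI A c t q m m 1) :
    ∃ d ∈ A, ∀ r e, Od q r e → Lev e m → (e = m → e % 2 = 0) → r ∣ d := by
  obtain ⟨d, hd, H⟩ := h.elim hq (by rcases hc with rfl | ⟨rfl, -⟩ <;> norm_num) (i := 0)
    (u := q ^ m + 1) (by omega) (by rw [sn_CB ht hq hc, pow_two_mul_sub_one]; rfl)
  refine ⟨d, hd, fun r e he hl hne => H r he.pr (hc.imp id fun h => .inr (.inr ⟨1, by omega,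
    by omega, (sn_CB ht hq hc _ ▸ eight_dvd h.2 _).mul_left _⟩)) (.inr ?_)⟩
  simp only [sn_CB ht hq hc, he.iff]
  rcases hl with ⟨f, rfl, h1, h2⟩ | ⟨h1, h2⟩
  · rcases h2.eq_or_lt with rfl | h2
    · exact .inl he.plus'
    · exact .inr ⟨m - f, by omega, by omega, by rw [show m - (m - f) = f by omega]⟩
  · exact .inr ⟨m - e, by omega, by omega, by rw [show m - (m - e) = e by omega]; simp⟩

theorem cb_two (hm : 3 ≤ m) (h : HasI A c t q m (m - 1) q) :
    ∃ d ∈ A, (∀ r, r.Prime → r ∣ q → r ∣ d) ∧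
      ∀ r e, Od q r e → Lev e m → (e = m - 1 → e % 2 = 0) → r ∣ d := by
  obtain ⟨d, hd, H⟩ := h.elim hq (by rcases hc with rfl | ⟨rfl, -⟩ <;> norm_num) (i := 1)
    (u := q ^ (m - 1) + 1) (by omega) (by rw [sn_CB ht hq hc, pow_two_mul_sub_one])
  have H' := fun r hr => H r hr (hc.imp id fun h => .inr (.inr ⟨0, by omega,
    by omega, (sn_CB ht hq hc _ ▸ eight_dvd h.2 _).mul_left _⟩))
  refine ⟨d, hd, fun r hr h => H' r hr (.inl h), fun r e he hl hne => H' r he.pr (.inr ?_)⟩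
  simp only [sn_CB ht hq hc, he.iff]
  rcases hl with ⟨f, rfl, h1, h2⟩ | ⟨h1, h2⟩
  · by_cases h3 : f = m - 1
    · exact .inl (h3 ▸ he.plus')
    · rcases h1.eq_or_lt with rfl | h1
      · exact .inr ⟨0, by omega, by omega, by simp⟩
      · exact .inr ⟨m - f, by omega, by omega, by rw [show m - (m - f) = f by omega]⟩
  · by_cases h3 : e = 1
    · exact .inr ⟨0, by omega, by omega, by simp [h3]⟩
    · exact .inr ⟨m - e, by omega, by omega, by rw [show m - (m - e) = e by omega]; simp⟩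

theorem cb_main (hm : 3 ≤ m) (h1 : HasI A c t q m m 1) (h2 : HasI A c t q m (m - 1) q)
    (h3 : ∃ d ∈ A, ∀ r, r.Prime → (r ∣ q ∨ (Od q r (m - 1) ∧ m % 2 = 0)) → r ∣ d) :
    Cpl A t q m := by
  obtain ⟨a, ha, h1⟩ := cb_one ht hq hc (by omega) h1
  obtain ⟨b, hb, h2, h2'⟩ := cb_two ht hq hc hm h2
  obtain ⟨d, hd, h3⟩ := h3
  rcases Nat.mod_two_eq_zero_or_one m with hm2 | hm2
  · refine two_of_three ha hb hd fun r hr => ?_
    by_cases h : r ∣ q
    · exact .inr (.inr ⟨h2 r hr.1 h, h3 r hr.1 (.inl h)⟩)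
    · obtain ⟨e, he⟩ := exists_od hr.1 h
      have hl := lev_CB ht (by omega) hr h he
      by_cases h4 : e = m - 1
      · exact .inr (.inl ⟨h1 r e he hl (by omega), h3 r hr.1 (.inr ⟨h4 ▸ he, hm2⟩)⟩)
      · exact .inl ⟨h1 r e he hl (by omega), h2' r e he hl (by omega)⟩
  · refine cpl_of_all hb fun r hr => ?_
    by_cases h : r ∣ q
    · exact h2 r hr.1 h
    · obtain ⟨e, he⟩ := exists_od hr.1 h
      exact h2' r e he (lev_CB ht (by omega) hr h he) (by omega)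

end

theorem Od.not_dvd {q r e n : ℕ} (h : Od q r e) (hn : 0 < n) (hlt : n < e) : ¬ r ∣ q ^ n - 1 :=
  fun h' => by
    have := Nat.le_of_dvd hn ((h.iff _).1 h')
    omega

theorem arB : ArB := by
  rintro A q m hq ho hm h1 h2 ⟨f, hf, g, -, h3, -⟩
  have hq2 := hq.two_le
  refine cb_main (.inr rfl) hq2 (.inr ⟨rfl, ho⟩) hm h1 h2 ⟨f, hf, fun r hr h => ?_⟩
  have h4 : r = 2 → r ∣ q ^ 1 - 1 := by
    rintro rfl
    obtain ⟨k, rfl⟩ := ho
    simp
  have h5 : ¬ r ∣ q ^ 1 - 1 := by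
    rcases h with h | h
    exacts [not_dvd_pred hr h hq2 one_ne_zero, h.1.not_dvd one_pos (by omega)]
  refine dvd_of_eq hr h3 ?_ fun h6 => ?_
  · rcases h with h | h
    exacts [(h.mul_right _).mul_right _, ((h.1.iff _).2 dvd_rfl).mul_left _]
  · rcases (Nat.Prime.dvd_mul hr).1 h6 with h6 | h6
    exacts [h5 (h4 ((Nat.prime_dvd_prime_iff_eq hr Nat.prime_two).1 h6)), h5 (by rwa [pow_one])]

theorem pr_dvd {t : Typ} {q m r N k : ℕ} (h : Pr t q m r) (h1 : q ∣ N ^ k) (h2 : q ^ 2 - 1 ∣ N ^ k)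
    (h3 : ∀ i < wi t m, sn t q (m - i) ∣ N ^ k) : r ∣ N := by
  refine h.1.dvd_of_dvd_pow (n := k) ?_
  rcases h.2 with h | h | ⟨i, hi, h⟩
  exacts [h.trans h1, h.trans h2, h.trans (h3 i hi)]

theorem arC : ArC := by
  rintro A q m hq hm hm2 h1 h2 ⟨d, hd, h3⟩ ⟨f, -, g, hg, -, h4⟩
  have hq2 := hq.two_le
  by_cases h5 : 4 ≤ m ∨ (m = 3 ∧ 4 ≤ q)
  · refine cb_main (.inl rfl) hq2 (.inl rfl) (by omega) (h1 (by omega)) (h2 h5)
      ⟨d, hd, fun r hr h => ?_⟩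
    have h6 : ¬ r ∣ q ^ 2 - 1 := by
      rcases h with h | h
      exacts [not_dvd_pred hr h hq2 two_ne_zero, h.1.not_dvd two_pos (by omega)]
    refine dvd_of_eq hr ((mul_comm _ _).trans h3) ?_ fun h7 => ?_
    · rcases h with h | h
      exacts [(h.mul_right _).mul_right _, ((h.1.iff _).2 ⟨2, by omega⟩).mul_left _]
    · rcases (Nat.Prime.dvd_mul hr).1 h7 with h7 | h7
      · exact h6 h7
      · have := pow_two_mul_sub_one q 1
        rw [mul_one, pow_one] at this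
        exact h6 (this ▸ h7.mul_left _)
  · rcases (by omega : (m = 2 ∧ 4 ≤ q) ∨ (m = 2 ∧ q = 3) ∨ (m = 3 ∧ q = 2) ∨ (m = 3 ∧ q = 3)) with
      ⟨rfl, h6⟩ | ⟨rfl, rfl⟩ | ⟨rfl, rfl⟩ | ⟨rfl, rfl⟩
    · obtain ⟨a, ha, h7⟩ := cb_one (.inl rfl) hq2 (.inl rfl) le_rfl (h1 (.inr h6))
      obtain ⟨s, rfl⟩ : ∃ s, q = s + 1 := ⟨q - 1, by omega⟩
      have hs : 0 < s := by omega
      have e1 : (s + 1) ^ 2 - 1 = s * (s + 2) := Nat.sub_eq_of_eq_add (by ring)
      have e2 : (s + 1) ^ 4 - 1 = s * (s + 2) * ((s + 1) ^ 2 + 1) := Nat.sub_eq_of_eq_add (by ring)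
      have e3 : d = (s + 1) * ((s + 1) ^ 2 + 1) * s := by
        refine Nat.eq_of_mul_eq_mul_right (show 0 < s * (s + 2) * (s + 1 + 1) by positivity) ?_
        norm_num only [e1, e2] at h3
        rw [h3]; ring
      have e4 : 2 * g = (s + 1) * (s + 2) ^ 2 := by
        refine Nat.eq_of_mul_eq_mul_left hs ?_
        norm_num only [e1, Nat.add_sub_cancel, pow_one] at h4
        linarith
      have h8 : ∀ r, r.Prime → (r ∣ s + 1 ∨ r ∣ s + 2) → r ∣ g := fun r hr h => by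
        by_cases h9 : r = 2
        · subst h9
          refine Nat.dvd_of_mul_dvd_mul_left (k := 2) two_pos (e4 ▸ ?_)
          rcases h with h | h
          · obtain ⟨p, k, hp, hk, e⟩ := (isPrimePow_nat_iff _).1 hq
            obtain rfl : 2 = p := (Nat.prime_dvd_prime_iff_eq hr hp).1 (hr.dvd_of_dvd_pow (e ▸ h))
            have : 2 ≤ k := by
              by_contra h'
              obtain rfl : k = 1 := by omega
              omega
            exact (e ▸ pow_dvd_pow 2 this).mul_right _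
          · exact (pow_dvd_pow_of_dvd h 2).mul_left _
        · refine dvd_of_eq hr e4 ?_ fun h' => h9 ((Nat.prime_dvd_prime_iff_eq hr Nat.prime_two).1 h')
          exact h.elim (·.mul_right _) fun h => (dvd_pow h two_ne_zero).mul_left _
      refine two_of_three ha hd hg fun r hr => ?_
      by_cases h : r ∣ s + 1
      · exact .inr (.inr ⟨e3 ▸ (h.mul_right _).mul_right _, h8 r hr.1 (.inl h)⟩)
      · obtain ⟨e, he⟩ := exists_od hr.1 h
        have hl := lev_CB (.inl rfl) (by omega) hr h he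
        have h9 := h7 r e he hl (by omega)
        by_cases h10 : r ∣ s + 2
        · exact .inr (.inl ⟨h9, h8 r hr.1 (.inr h10)⟩)
        · have : r ∣ (s + 1) ^ 4 - 1 := (he.iff _).2 (by
            rcases hl with ⟨f, rfl, h1, h2⟩ | ⟨h1, h2⟩
            · interval_cases f <;> norm_num
            · interval_cases e <;> simp at h1 ⊢)
          rw [e2, Nat.Prime.dvd_mul hr.1, Nat.Prime.dvd_mul hr.1] at this
          refine .inl ⟨h9, e3 ▸ ?_⟩
          rcases this with (h | h) | h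
          exacts [h.mul_left _, (h10 h).elim, (h.mul_left _).mul_right _]
    · obtain rfl : d = 60 := by norm_num at h3; omega
      exact cpl_of_all hd fun r hr => pr_dvd (k := 4) hr (by norm_num) (by norm_num) (by decide)
    · obtain rfl : d = 210 := by norm_num at h3; omega
      exact cpl_of_all hd fun r hr => pr_dvd (k := 4) hr (by norm_num) (by norm_num) (by decide)
    · obtain rfl : d = 5460 := by norm_num at h3; omega
      exact cpl_of_all hd fun r hr => pr_dvd (k := 4) hr (by norm_num) (by norm_num) (by decide)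

end Cfsg.Agent.DG
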