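import Cfsg.Agent.Lib.DG.Ar1

/-! Degree graph of classical groups: arithmetic for the even dimensional orthogonal groups. -/

set_option autoImplicit false
set_option linter.unusedSectionVars false

namespace Cfsg.Agent.DG

theorem Od.one_of_two {q e : ℕ} (h : Od q 2 e) (hq : ¬ 2 ∣ q) : e = 1 :=
  Nat.dvd_one.1 ((h.iff 1).1 (by rw [pow_one]; omega))

theorem odd_of_not_dvd {q r : ℕ} (hq : Even q) (h : ¬ r ∣ q) : r ≠ 2 := by
  rintro rfl
  exact h hq.two_dvd

theorem two_dvd_plus {q : ℕ} (hq : Odd q) (n : ℕ) : 2 ∣ q ^ n + 1 := (hq.pow.add_one).two_dvd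

theorem two_dvd_minus {q : ℕ} (hq : Odd q) (n : ℕ) : 2 ∣ q ^ n - 1 :=
  (Nat.Odd.sub_odd hq.pow odd_one).two_dvd

theorem eight_dvd_mul {q u : ℕ} (hq : Odd q) (hu : 2 ∣ u) {t : Typ} (ht : t = .P ∨ t = .M) (j : ℕ) :
    8 ∣ u * sn t q j := by
  refine Nat.mul_dvd_mul hu (?_ : 2 * 2 ∣ _)
  rcases ht with rfl | rfl
  exacts [Nat.mul_dvd_mul (two_dvd_minus hq _) (two_dvd_plus hq _),
    Nat.mul_dvd_mul (two_dvd_plus hq _) (two_dvd_minus hq _)]

/-- Elimination for the even dimensional types. -/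
theorem HasI.elim' {A : Set ℕ} {c : ℕ} {t : Typ} {q m k e : ℕ} (h : HasI A c t q m k e)
    (ht : t = .P ∨ t = .M) (hq : 2 ≤ q) (hc : Odd q ∧ c = 4 ∨ Even q ∧ c = 2) {i u : ℕ} (hi : i < k)
    (hk : 2 ≤ k) (hu : sn t q (m - i) = (q ^ k - 1) * u) (hu2 : Odd q → 2 ∣ u) :
    ∃ d ∈ A, ∀ r, r.Prime → (¬ r ∣ q ∨ (Even q → 4 ∣ e)) →
      (r ∣ e ∨ r ∣ u ∨ ∃ j < k, j ≠ i ∧ r ∣ sn t q (m - j)) → r ∣ d := by
  obtain ⟨d, hd, H⟩ := h.elim hq (by rcases hc with ⟨-, rfl⟩ | ⟨-, rfl⟩ <;> norm_num) hi hu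
  refine ⟨d, hd, fun r hr h1 => H r hr (.inr ?_)⟩
  rcases hc with ⟨h2, rfl⟩ | ⟨h2, rfl⟩
  · exact .inr (.inr ⟨if i = 0 then 1 else 0, by split_ifs <;> omega, by split_ifs <;> omega,
      eight_dvd_mul h2 (hu2 h2) ht _⟩)
  · exact h1.imp (odd_of_not_dvd h2) fun h => .inl (h h2)

theorem lev_P {q m r e : ℕ} (hm : 2 ≤ m) (h : Pr .P q m r) (hq : ¬ r ∣ q) (he : Od q r e) :
    e ∣ m ∨ Lev e (m - 1) := by
  rcases h.2 with h' | h' | ⟨i, hi, h'⟩
  · exact (hq h').elim
  · exact .inr (lev_of_dvd (j := 1) he.pos ((he.iff _).1 h') le_rfl (by omega))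
  · simp only [wi] at hi
    rcases (Nat.Prime.dvd_mul h.1).1 h' with h' | h'
    · rcases Nat.eq_zero_or_pos i with rfl | h0
      · exact .inl ((he.iff _).1 h')
      · exact .inr (lev_of_dvd he.pos (((he.iff _).1 h').mul_left 2) (by omega) (by omega))
    · by_cases h0 : m - i - 1 = 0
      · rw [h0] at h'
        obtain rfl := (Nat.prime_dvd_prime_iff_eq h.1 Nat.prime_two).1 h'
        exact .inl (he.one_of_two hq ▸ one_dvd _)
      · exact .inr (lev_of_dvd he.pos (he.of_plus h') (by omega) (by omega))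

theorem lev_M {q m r e : ℕ} (hm : 2 ≤ m) (h : Pr .M q m r) (hq : ¬ r ∣ q) (he : Od q r e) :
    r ∣ q ^ m + 1 ∨ Lev e (m - 1) := by
  rcases h.2 with h' | h' | ⟨i, hi, h'⟩
  · exact (hq h').elim
  · exact .inr (lev_of_dvd (j := 1) he.pos ((he.iff _).1 h') le_rfl (by omega))
  · simp only [wi] at hi
    rcases (Nat.Prime.dvd_mul h.1).1 h' with h' | h'
    · rcases Nat.eq_zero_or_pos i with rfl | h0
      · exact .inl h'
      · exact .inr (lev_of_dvd he.pos (he.of_plus h') (by omega) (by omega))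
    · exact .inr (lev_of_dvd he.pos (((he.iff _).1 h').mul_left 2) (by omega) (by omega))

section
variable {A : Set ℕ} {c q m k e : ℕ} (hq : 2 ≤ q) (hc : Odd q ∧ c = 4 ∨ Even q ∧ c = 2)
include hq hc

theorem p_elim (h : HasI A c .P q m k e) (hk : 2 ≤ k) (h1 : k ≤ m) (h2 : m < 2 * k) :
    ∃ d ∈ A, ∀ r, r.Prime → (¬ r ∣ q ∨ (Even q → 4 ∣ e)) →
      (r ∣ e ∨ (∃ n, m - k ≤ n ∧ n < m ∧ r ∣ q ^ n + 1) ∨
        ∃ n, m - k < n ∧ n ≤ m ∧ n ≠ k ∧ r ∣ q ^ n - 1) → r ∣ d := by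
  obtain ⟨d, hd, H⟩ := h.elim' (.inl rfl) hq hc (i := m - k) (u := q ^ (k - 1) + 1) (by omega) hk
    (by rw [show m - (m - k) = k by omega]; rfl) fun h => two_dvd_plus h _
  refine ⟨d, hd, fun r hr h3 h4 => H r hr h3 (h4.imp id ?_)⟩
  rintro (⟨n, h5, h6, h7⟩ | ⟨n, h5, h6, h7, h8⟩)
  · by_cases h8 : n = k - 1
    · exact .inl (h8 ▸ h7)
    · refine .inr ⟨m - (n + 1), by omega, by omega, ?_⟩
      rw [show m - (m - (n + 1)) = n + 1 by omega]
      exact h7.mul_left _
  · refine .inr ⟨m - n, by omega, by omega, ?_⟩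
    rw [show m - (m - n) = n by omega]
    exact h8.mul_right _

theorem m_elim (h : HasI A c .M q m k e) (hk : 2 ≤ k) (h1 : k < m) (h2 : m ≤ 2 * k) :
    ∃ d ∈ A, ∀ r, r.Prime → (¬ r ∣ q ∨ (Even q → 4 ∣ e)) →
      (r ∣ e ∨ (∃ n, m - k < n ∧ n ≤ m ∧ r ∣ q ^ n + 1) ∨
        ∃ n, m - k ≤ n ∧ n < m ∧ n ≠ k ∧ r ∣ q ^ n - 1) → r ∣ d := by
  obtain ⟨d, hd, H⟩ := h.elim' (.inr rfl) hq hc (i := m - (k + 1)) (u := q ^ (k + 1) + 1)
    (by omega) hk (by rw [show m - (m - (k + 1)) = k + 1 by omega, mul_comm]; rfl)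
    fun h => two_dvd_plus h _
  refine ⟨d, hd, fun r hr h3 h4 => H r hr h3 (h4.imp id ?_)⟩
  rintro (⟨n, h5, h6, h7⟩ | ⟨n, h5, h6, h7, h8⟩)
  · by_cases h8 : n = k + 1
    · exact .inl (h8 ▸ h7)
    · refine .inr ⟨m - n, by omega, by omega, ?_⟩
      rw [show m - (m - n) = n by omega]
      exact h7.mul_right _
  · refine .inr ⟨m - (n + 1), by omega, by omega, ?_⟩
    rw [show m - (m - (n + 1)) = n + 1 by omega]
    exact h8.mul_left _

theorem four_dvd_sq : Even q → 4 ∣ q ^ 2 := fun h => pow_dvd_pow_of_dvd h.two_dvd 2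

theorem p_two (hm : 5 ≤ m) (h : HasI A c .P q m (m - 2) (q ^ 2)) :
    ∃ d ∈ A, (∀ r, r.Prime → r ∣ q → r ∣ d) ∧ ∀ r e, Od q r e → (e ∣ m ∨ Lev e (m - 1)) →
      (e = m - 2 → e % 2 = 0) → r ∣ d := by
  obtain ⟨d, hd, H⟩ := p_elim hq hc h (by omega) (by omega) (by omega)
  have H' := fun r hr => H r hr (.inr (four_dvd_sq hq hc))
  refine ⟨d, hd, fun r hr h => H' r hr (.inl (dvd_pow h two_ne_zero)),
    fun r e he hl hne => H' r he.pr (.inr ?_)⟩
  simp only [he.iff]
  rcases hl with h | ⟨f, rfl, h1, h2⟩ | ⟨h1, h2⟩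
  · exact .inr ⟨m, by omega, le_rfl, by omega, h⟩
  · rcases h1.eq_or_lt with rfl | h1
    · exact .inr ⟨m / 2 * 2, by omega, by omega, by omega, by simp⟩
    · exact .inl ⟨f, by omega, by omega, he.plus'⟩
  · by_cases h3 : e = 1
    · exact .inr ⟨m, by omega, le_rfl, by omega, by simp [h3]⟩
    · exact .inr ⟨e, by omega, by omega, by omega, dvd_rfl⟩

end

theorem arP : ArP := by
  rintro A c q m hq hc hm h1 h2 h3 h4 h5 h6 ⟨f, hf, g, hg, h7, h8⟩
  have hq2 := hq.two_le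
  rcases (by omega : m = 4 ∨ m = 5 ∨ (6 ≤ m ∧ m % 2 = 0) ∨ (7 ≤ m ∧ m % 2 = 1)) with
    rfl | rfl | ⟨hm1, hm2⟩ | ⟨hm1, hm2⟩
  · by_cases hq4 : 4 ≤ q
    · obtain ⟨d, hd, H⟩ := (h3 (.inr hq4)).elim' (.inl rfl) hq2 hc (i := 0)
        (u := (q ^ 2 + 1) * (q ^ 3 + 1)) (by omega) le_rfl
        (by rw [← mul_assoc, ← pow_two_mul_sub_one]; rfl) fun h => (two_dvd_plus h _).mul_left _
      refine cpl_of_all hd fun r hr => H r hr.1 (.inr (four_dvd_sq hq2 hc)) ?_
      by_cases h : r ∣ q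
      · exact .inl (dvd_pow h two_ne_zero)
      · obtain ⟨e, he⟩ := exists_od hr.1 h
        have k : r ∣ sn .P q 3 → ∃ j < 4 - 2, j ≠ 0 ∧ r ∣ sn .P q (4 - j) :=
          fun h => ⟨1, by omega, by omega, h⟩
        have hl : Lev e 3 := (lev_P (by omega) hr h he).elim
          (fun h => lev_of_dvd (j := 2) he.pos h (by omega) (by omega)) id
        rcases hl with ⟨f, rfl, h1, h2⟩ | ⟨h1, h2⟩
        · interval_cases f
          · exact .inr (.inl ((he.plus (n := 3) (by norm_num) (by norm_num)).mul_left _))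
          · exact .inr (.inl (he.plus'.mul_right _))
          · exact .inr (.inl (he.plus'.mul_left _))
        · refine .inr (.inr (k (((he.iff 3).2 ?_).mul_right _)))
          interval_cases e <;> simp at h1 ⊢
    · obtain ⟨d, hd, H⟩ := p_elim hq2 hc h1 (by omega) le_rfl (by omega)
      have key : q ∣ f ∧ q ∣ g ∧ ∀ r, Pr .P q 4 r → r ∣ f * g := by
        rcases (by omega : q = 2 ∨ q = 3) with rfl | rfl
        · obtain rfl : f = 50 := by norm_num at h7; omega
          obtain rfl : g = 84 := by norm_num at h8; omega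
          exact ⟨by norm_num, by norm_num, fun r hr =>
            pr_dvd (k := 4) hr (by norm_num) (by norm_num) (by decide)⟩
        · obtain rfl : f = 300 := by norm_num at h7; omega
          obtain rfl : g = 819 := by norm_num at h8; omega
          exact ⟨by norm_num, by norm_num, fun r hr =>
            pr_dvd (k := 4) hr (by norm_num) (by norm_num) (by decide)⟩
      refine two_of_three hd hf hg fun r hr => ?_
      by_cases h : r ∣ q
      · exact .inr (.inr ⟨h.trans key.1, h.trans key.2.1⟩)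
      · obtain ⟨e, he⟩ := exists_od hr.1 h
        have hl : Lev e 3 := (lev_P (by omega) hr h he).elim
          (fun h => lev_of_dvd (j := 2) he.pos h (by omega) (by omega)) id
        have : r ∣ d := H r hr.1 (.inl h) (.inr (by
          rcases hl with ⟨f, rfl, h1, h2⟩ | ⟨h1, h2⟩
          · exact .inl ⟨f, by omega, by omega, he.plus'⟩
          · exact .inr ⟨e, by omega, by omega, by omega, (he.iff _).2 dvd_rfl⟩))
        exact ((Nat.Prime.dvd_mul hr.1).1 (key.2.2 r hr)).elim (fun h => .inl ⟨this, h⟩)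
          fun h => .inr (.inl ⟨this, h⟩)
  · obtain ⟨a, ha, H⟩ := p_elim hq2 hc h2 (by omega) (by omega) (by omega)
    obtain ⟨b, hb, H1, H2⟩ := p_two hq2 hc le_rfl (h3 (.inl le_rfl))
    obtain ⟨d, hd, H3⟩ : ∃ d ∈ A, ∀ r, r.Prime → (r ∣ q ∨ Od q r 3) → r ∣ d := by
      by_cases hq3 : 3 ≤ q
      · obtain ⟨d, hd, H⟩ := (h5 rfl hq3).elim' (.inl rfl) hq2 hc (i := 1)
          (u := (q ^ 2 + 1) * (q ^ 3 + 1)) (by omega) le_rfl
          (by rw [← mul_assoc, ← pow_two_mul_sub_one]; rfl) fun h => (two_dvd_plus h _).mul_left _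
        refine ⟨d, hd, fun r hr h => H r hr (.inr fun h2 => Dvd.dvd.mul_right ?_ _) (.inl ?_)⟩
        · obtain ⟨p, k, hp, hk, e⟩ := (isPrimePow_nat_iff _).1 hq
          obtain rfl : 2 = p := (Nat.prime_dvd_prime_iff_eq Nat.prime_two hp).1
            (Nat.prime_two.dvd_of_dvd_pow (e ▸ h2.two_dvd))
          have : 2 ≤ k := by
            by_contra h'
            obtain rfl : k = 1 := by omega
            omega
          exact e ▸ pow_dvd_pow 2 this
        · rcases h with h | h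
          · exact h.mul_right _
          · refine (dvd_of_eq (a := q ^ 1 - 1) hr ?_ ((h.iff 3).2 dvd_rfl)
              (h.not_dvd one_pos (by omega))).mul_left _
            obtain ⟨s, rfl⟩ : ∃ s, q = s + 1 := ⟨q - 1, by omega⟩
            rw [pow_one, Nat.add_sub_cancel]
            exact Nat.eq_sub_of_add_eq (by ring)
      · obtain rfl : q = 2 := by omega
        obtain ⟨d, hd, H⟩ := h6 rfl rfl
        refine ⟨d, hd, fun r hr h => Dvd.dvd.trans ?_ H⟩
        exact h.elim (·.trans (by norm_num)) fun h => ((h.iff 3).2 dvd_rfl).trans (by norm_num)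
    refine two_of_three ha hb hd fun r hr => ?_
    by_cases h : r ∣ q
    · exact .inr (.inr ⟨H1 r hr.1 h, H3 r hr.1 (.inl h)⟩)
    · obtain ⟨e, he⟩ := exists_od hr.1 h
      have hl := lev_P (by omega) hr h he
      have : r ∣ a := H r hr.1 (.inl h) (.inr (by
        rcases hl with h | ⟨f, rfl, h1, h2⟩ | ⟨h1, h2⟩
        · exact .inr ⟨5, by omega, by omega, by omega, (he.iff _).2 h⟩
        · exact .inl ⟨f, by omega, by omega, he.plus'⟩
        · refine .inr ⟨3, by omega, by omega, by omega, (he.iff _).2 ?_⟩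
          have : e = 1 ∨ e = 3 := by omega
          rcases this with rfl | rfl <;> simp))
      by_cases h3 : e = 3
      · exact .inr (.inl ⟨this, H3 r hr.1 (.inr (h3 ▸ he))⟩)
      · exact .inl ⟨this, H2 r e he hl (by omega)⟩
  · obtain ⟨b, hb, H1, H2⟩ := p_two hq2 hc (by omega) (h3 (.inl (by omega)))
    refine cpl_of_all hb fun r hr => ?_
    by_cases h : r ∣ q
    · exact H1 r hr.1 h
    · obtain ⟨e, he⟩ := exists_od hr.1 h
      exact H2 r e he (lev_P (by omega) hr h he) (by omega)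
  · obtain ⟨d, hd, H⟩ := p_elim hq2 hc (h4 hm1) (by omega) (by omega) (by omega)
    refine cpl_of_all hd fun r hr => H r hr.1 (.inr fun h => (four_dvd_sq hq2 hc h).mul_right _) ?_
    by_cases h : r ∣ q
    · exact .inl ((dvd_pow h two_ne_zero).mul_right _)
    · obtain ⟨e, he⟩ := exists_od hr.1 h
      simp only [he.iff]
      rcases lev_P (by omega) hr h he with h | ⟨f, rfl, h1, h2⟩ | ⟨h1, h2⟩
      · exact .inr (.inr ⟨m, by omega, le_rfl, by omega, h⟩)
      · rcases (by omega : f = 1 ∨ f = 2 ∨ 3 ≤ f) with rfl | rfl | h3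
        · exact .inr (.inr ⟨m - 1, by omega, by omega, by omega, by omega⟩)
        · exact .inl (he.plus'.mul_left _)
        · exact .inr (.inl ⟨f, by omega, by omega, he.plus'⟩)
      · rcases (by omega : e = 1 ∨ e = 3 ∨ 5 ≤ e) with rfl | rfl | h3
        · exact .inr (.inr ⟨m, by omega, le_rfl, by omega, one_dvd _⟩)
        · exact .inr (.inr ⟨m / 3 * 3, by omega, by omega, by omega, by simp⟩)
        · exact .inr (.inr ⟨e, by omega, by omega, by omega, dvd_rfl⟩)

theorem arM : ArM := by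
  rintro A c q m hq hc hm h1 h2 h3 h4 h5 ⟨f, hf, g, hg, h7, h8⟩
  have hq2 := hq.two_le
  obtain ⟨a, ha, H⟩ := m_elim hq2 hc h1 (by omega) (by omega) (by omega)
  have Ha : ∀ r e, Pr .M q m r → ¬ r ∣ q → Od q r e → (e = m - 1 → e % 2 = 0) → r ∣ a :=
    fun r e hr h he hne => H r hr.1 (.inl h) (.inr (by
      rcases lev_M (by omega) hr h he with h | ⟨f, rfl, h1, h2⟩ | ⟨h1, h2⟩
      · exact .inl ⟨m, by omega, le_rfl, h⟩
      · rcases h1.eq_or_lt with rfl | h1
        · exact .inr ⟨2, by omega, by omega, by omega, (he.iff _).2 dvd_rfl⟩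
        · exact .inl ⟨f, by omega, by omega, he.plus'⟩
      · exact .inr ⟨e, by omega, by omega, by omega, (he.iff _).2 dvd_rfl⟩))
  by_cases hs : m = 4 ∧ q = 2
  · obtain ⟨rfl, rfl⟩ := hs
    obtain ⟨d, hd, H5⟩ := h5 rfl rfl
    obtain rfl : g = 84 := by norm_num at h8; omega
    refine two_of_three ha hd hg fun r hr => ?_
    have h9 : r ∣ 14 * (3 * 85) := pr_dvd (k := 4) hr (by norm_num) (by norm_num) (by decide)
    by_cases h10 : r ∣ 14
    · exact .inr (.inr ⟨(h10.trans (by norm_num)).trans H5, h10.trans (by norm_num)⟩)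
    · have h : ¬ r ∣ 2 := fun h => h10 (h.trans (by norm_num))
      obtain ⟨e, he⟩ := exists_od hr.1 h
      have := Ha r e hr h he fun h => (h10 (((he.iff 3).2 (h ▸ dvd_rfl)).trans (by norm_num))).elim
      rcases (Nat.Prime.dvd_mul hr.1).1 (((Nat.Prime.dvd_mul hr.1).1 h9).resolve_left h10) with
        h | h
      exacts [.inr (.inl ⟨this, h.trans (by norm_num)⟩),
        .inl ⟨this, (h.trans (by norm_num)).trans H5⟩]
  obtain ⟨b, hb, H⟩ := m_elim hq2 hc (h2 (by omega)) (by omega) (by omega) (by omega)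
  have H' := fun r hr => H r hr (.inr (four_dvd_sq hq2 hc))
  have Hq : ∀ r, r.Prime → r ∣ q → r ∣ b := fun r hr h => H' r hr (.inl (dvd_pow h two_ne_zero))
  have Hb : ∀ r e, Pr .M q m r → ¬ r ∣ q → Od q r e → (e = m - 2 → e % 2 = 0) →
      (m = 4 → e ≠ 4) → r ∣ b := fun r e hr h he hne h4 => H' r hr.1 (.inr (by
    rcases lev_M (by omega) hr h he with h | ⟨f, rfl, h1, h2⟩ | ⟨h1, h2⟩
    · exact .inl ⟨m, by omega, le_rfl, h⟩
    · rcases (by omega : f = 1 ∨ f = 2 ∨ 3 ≤ f) with rfl | rfl | h3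
      · exact .inl ⟨3, by omega, by omega, he.plus (by norm_num) (by norm_num)⟩
      · by_cases h6 : m = 6
        · exact .inl ⟨6, by omega, by omega, he.plus (by norm_num) (by norm_num)⟩
        · exact .inr ⟨4, by omega, by omega, by omega, (he.iff _).2 dvd_rfl⟩
      · exact .inl ⟨f, by omega, by omega, he.plus'⟩
    · by_cases h3 : e = 1
      · exact .inr ⟨m - 1, by omega, by omega, by omega, (he.iff _).2 (by simp [h3])⟩
      · exact .inr ⟨e, by omega, by omega, by omega, (he.iff _).2 dvd_rfl⟩))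
  rcases (by omega : m = 4 ∨ (5 ≤ m ∧ m % 2 = 1) ∨ (6 ≤ m ∧ m % 2 = 0)) with
    rfl | ⟨hm1, hm2⟩ | ⟨hm1, hm2⟩
  · obtain ⟨d, hd, H3⟩ : ∃ d ∈ A, ∀ r, r.Prime → (r ∣ q ∨ Od q r 3 ∨ Od q r 4) → r ∣ d := by
      by_cases hq4 : 4 ≤ q
      · have e3 : q ^ 3 - 1 = (q ^ 1 - 1) * (q ^ 2 + q + 1) := by
          obtain ⟨s, rfl⟩ : ∃ s, q = s + 1 := ⟨q - 1, by omega⟩
          rw [pow_one, Nat.add_sub_cancel]
          exact Nat.sub_eq_of_eq_add (by ring)
        obtain ⟨d, hd, H⟩ := (h3 rfl hq4).elim hq2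
          (by rcases hc with ⟨-, rfl⟩ | ⟨-, rfl⟩ <;> norm_num) (i := 0)
          (u := (q ^ 4 + 1) * (q ^ 2 + q + 1)) one_pos
          (by rw [mul_left_comm, ← e3]; rfl)
        refine ⟨d, hd, fun r hr h => H r hr (.inr ?_) ?_⟩
        · rcases hc with ⟨h11, rfl⟩ | ⟨h11, rfl⟩
          · left
            rintro rfl
            have h9 : ¬ 2 ∣ q := h11.not_two_dvd_nat
            rcases h with h | h | h
            exacts [h9 h, by simpa using h.one_of_two h9, by simpa using h.one_of_two h9]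
          · exact .inr (.inl ((pow_dvd_pow_of_dvd h11.two_dvd 2).mul_right _))
        · rcases h with h | h | h
          · exact .inl ((dvd_pow h two_ne_zero).mul_right _)
          · exact .inr (.inl ((dvd_of_eq hr e3.symm ((h.iff 3).2 dvd_rfl)
              (h.not_dvd one_pos (by omega))).mul_left _))
          · exact .inl ((Od.plus' (f := 2) h).mul_left _)
      · obtain rfl : q = 3 := by omega
        obtain ⟨d, hd, H⟩ := h4 rfl rfl
        refine ⟨d, hd, fun r hr h => Dvd.dvd.trans ?_ H⟩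
        rcases h with h | h | h
        · exact h.trans (by norm_num)
        · exact (dvd_of_eq (a := 3 ^ 1 - 1) (d := 13) hr rfl ((h.iff 3).2 dvd_rfl)
            (h.not_dvd one_pos (by omega))).trans (by norm_num)
        · exact (dvd_of_eq (a := 3 ^ 1 - 1) (d := 5) hr rfl (Od.plus' (f := 2) h)
            (h.not_dvd one_pos (by omega))).trans (by norm_num)
    refine two_of_three ha hb hd fun r hr => ?_
    by_cases h : r ∣ q
    · exact .inr (.inr ⟨Hq r hr.1 h, H3 r hr.1 (.inl h)⟩)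
    · obtain ⟨e, he⟩ := exists_od hr.1 h
      by_cases h9 : e = 3
      · exact .inr (.inr ⟨Hb r e hr h he (by omega) (by omega),
          H3 r hr.1 (.inr (.inl (h9 ▸ he)))⟩)
      · by_cases h10 : e = 4
        · exact .inr (.inl ⟨Ha r e hr h he (by omega), H3 r hr.1 (.inr (.inr (h10 ▸ he)))⟩)
        · exact .inl ⟨Ha r e hr h he (by omega), Hb r e hr h he (by omega) (by omega)⟩
  · refine two_of_three ha hb hf fun r hr => ?_
    by_cases h : r ∣ q
    · exact .inr (.inr ⟨Hq r hr.1 h, dvd_of_eq hr.1 h7 ((h.mul_right _).mul_right _)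
        (not_dvd_pred hr.1 h hq2 two_ne_zero)⟩)
    · obtain ⟨e, he⟩ := exists_od hr.1 h
      have := Ha r e hr h he (by omega)
      by_cases h9 : e = m - 2
      · exact .inr (.inl ⟨this, dvd_of_eq hr.1 h7 (((he.iff _).2 (h9 ▸ dvd_rfl)).mul_left _)
          (he.not_dvd two_pos (by omega))⟩)
      · exact .inl ⟨this, Hb r e hr h he (by omega) (by omega)⟩
  · refine cpl_of_all hb fun r hr => ?_
    by_cases h : r ∣ q
    · exact Hq r hr.1 h
    · obtain ⟨e, he⟩ := exists_od hr.1 h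
      exact Hb r e hr h he (by omega) (by omega)

end Cfsg.Agent.DG
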