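import Cfsg.Agent.Lib.Ind.Brauer
import Cfsg.Agent.Lib.Char.Galois
import Cfsg.Agent.Lib.Char.Irr

/-!
Row CUSP, part 1: the Brauer lift of the natural representation is a generalized character.
-/

set_option autoImplicit false

namespace Cfsg.Agent.DG

open Polynomial Module Cfsg.Agent.Char ComplexConjugate

section Lift

variable {K : Type*} [Field K] [Fintype K] {M : Type*} [AddCommGroup M] [Module K M]
  [FiniteDimensional K M]

/-- dimension of an eigenspace -/
noncomputable def ed (g : End K M) (l : K) : ℕ := finrank K (g.eigenspace l)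

/-- the sum of `θ` over the eigenvalues, counted with geometric multiplicity -/
noncomputable def gs (θ : MulChar K ℂ) (g : End K M) : ℂ := ∑ l : K, θ l * ed g l

theorem pow_eq_binom (x d : ℕ) : ∃ r : ℕ, (1 + x) ^ d = 1 + x * d + x ^ 2 * r := by
  induction d with
  | zero => exact ⟨0, by simp⟩
  | succ d ih =>
    obtain ⟨r, hr⟩ := ih
    exact ⟨r + d + x * r, by rw [pow_succ, hr]; ring⟩

variable {E : Type*} [Group E]

/-- the action of `E × Kˣ` -/
noncomputable def actHom (σ : E →* End K M) : E × Kˣ →* End K M where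
  toFun p := ((p.2⁻¹ : Kˣ) : K) • σ p.1
  map_one' := by simp
  map_mul' a b := by
    simp only [Prod.snd_mul, Prod.fst_mul, map_mul, mul_inv_rev, Units.val_mul, smul_mul_smul_comm]
    rw [mul_comm]

theorem isChar_pow_ed (σ : E →* End K M) :
    IsCharacter (E × Kˣ) (fun p => (Fintype.card K : ℂ) ^ ed (σ p.1) p.2) := by
  let _ : MulAction (E × Kˣ) M := MulAction.compHom M (actHom σ)
  have : Finite M := Module.finite_of_finite K
  have h := isChar_fixedBy (G := E × Kˣ) M
  convert h using 2 with p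
  rw [ed, ← Nat.cast_pow, ← Nat.card_eq_fintype_card, ← Module.natCard_eq_pow_finrank]
  congr 1
  refine Nat.card_congr (Equiv.subtypeEquivRight fun v => ?_)
  rw [End.mem_eigenspace_iff, MulAction.mem_fixedBy]
  change _ ↔ ((p.2⁻¹ : Kˣ) : K) • σ p.1 v = v
  constructor
  · intro h
    rw [h, smul_smul, Units.inv_mul, one_smul]
  · intro h
    conv_rhs => rw [← h]
    rw [smul_smul, Units.mul_inv, one_smul]

theorem ed_conj (σ : E →* End K M) (g h : E) (l : Kˣ) :
    ed (σ (h * g * h⁻¹)) l = ed (σ g) l := by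
  have h1 := isClass_of_isChar (isChar_pow_ed σ) (g, l) (h, 1)
  simp only [Prod.mk_mul_mk, Prod.inv_mk, one_mul, inv_one, mul_one] at h1
  have h2 : Fintype.card K ^ ed (σ (h * g * h⁻¹)) l = Fintype.card K ^ ed (σ g) l := by
    exact_mod_cast h1
  exact Nat.pow_right_injective Fintype.one_lt_card h2

omit [Fintype K] [FiniteDimensional K M] in
theorem eig_le_pow (g : End K M) (l : K) (m : ℕ) :
    g.eigenspace l ≤ (g ^ m).eigenspace (l ^ m) := fun v hv => by
  rw [End.mem_eigenspace_iff] at hv ⊢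
  induction m with
  | zero => simp
  | succ m ih => rw [pow_succ, End.mul_apply, hv, map_smul, ih, smul_smul, pow_succ']

theorem pow_pow_eq {R : Type*} [Monoid R] {n m m' : ℕ} (h : m * m' ≡ 1 [MOD n]) {x : R}
    (hx : x ^ n = 1) : (x ^ m) ^ m' = x := by
  rw [← pow_mul, pow_eq_pow_of_modEq h hx, pow_one]

omit [FiniteDimensional K M] in
theorem ed_pow {g : End K M} (hg : g ^ (Fintype.card K - 1) = 1) {m : ℕ}
    (hm : m.Coprime (Fintype.card K - 1)) (l : Kˣ) :
    ed (g ^ m) ((l ^ m : Kˣ) : K) = ed g l := by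
  have hpos : 0 < Fintype.card K - 1 := by have := Fintype.one_lt_card (α := K); omega
  obtain ⟨m', hm'⟩ : ∃ m', m * m' ≡ 1 [MOD (Fintype.card K - 1)] := by
    obtain ⟨m', hm'⟩ := Nat.exists_mul_mod_eq_of_coprime 1 hm hpos.ne'
    exact ⟨m', hm'.2⟩
  have : (g ^ m).eigenspace ((l ^ m : Kˣ) : K) = g.eigenspace l := by
    apply le_antisymm
    · have := eig_le_pow (g ^ m) ((l ^ m : Kˣ) : K) m'
      rwa [pow_pow_eq hm' hg, Units.val_pow_eq_pow_val,
        pow_pow_eq hm' (FiniteField.pow_card_sub_one_eq_one _ l.ne_zero)] at this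
    · simpa using eig_le_pow g l m
  rw [ed, this, ed]

theorem sum_units [Fintype Kˣ] (θ : MulChar K ℂ) (a : K → ℂ) :
    ∑ l : K, θ l * a l = ∑ l : Kˣ, θ l * a l := by
  classical
  rw [← Finset.sum_erase (a := (0 : K)) _ (by simp [θ.map_zero])]
  symm
  refine Finset.sum_bij (fun l _ => (l : K)) (by simp) (fun a _ b _ h => Units.ext h) ?_ (by simp)
  intro b hb
  exact ⟨Units.mk0 b (by simpa using hb), by simp, rfl⟩

theorem mulChar_pow_card (θ : MulChar K ℂ) (l : Kˣ) : θ l ^ (Fintype.card K - 1) = 1 := by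
  rw [← map_pow, FiniteField.pow_card_sub_one_eq_one _ l.ne_zero, map_one]

theorem isIntegral_mulChar (θ : MulChar K ℂ) (l : Kˣ) : IsIntegral ℤ (θ l) := by
  have hpos : 0 < Fintype.card K - 1 := by have := Fintype.one_lt_card (α := K); omega
  exact IsIntegral.of_pow hpos (by rw [mulChar_pow_card]; exact isIntegral_one)

theorem conj_mulChar (θ : MulChar K ℂ) (l : K) : conj (θ l) = θ⁻¹ l := by
  rw [← MulChar.star_apply']; rfl

theorem isClass_gs (σ : E →* End K M) (θ : MulChar K ℂ) :
    IsClassFunction E (fun y => gs θ (σ y)) := fun g h => by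
  classical
  simp only [gs, sum_units, ed_conj]

/-- The Brauer lift on a group of order dividing `|K| - 1`. -/
theorem isGen_gs [Finite E] (σ : E →* End K M) (hE : Nat.card E ∣ Fintype.card K - 1)
    {θ : MulChar K ℂ} (hθ : θ ≠ 1) : IsGeneralizedCharacter E (fun y => gs θ (σ y)) := by
  classical
  have := Fintype.ofFinite E
  have hpos : 0 < Fintype.card K - 1 := by have := Fintype.one_lt_card (α := K); omega
  have hpow : ∀ y : E, y ^ (Fintype.card K - 1) = 1 := fun y => by
    obtain ⟨c, hc⟩ := hE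
    rw [hc, pow_mul, pow_card_eq_one', one_pow]
  refine isGen_of_inner_int (isClass_gs σ θ) fun χ => ?_
  have hχ := isChar_irr χ
  apply exists_int_of_forall_ringEquiv
  · -- integrality
    have h1 : IsCharacter (E × Kˣ) (fun p => (χ : E → ℂ) p.1 * (θ⁻¹ : MulChar K ℂ) p.2) := by
      have a1 := isChar_comp hχ (MonoidHom.fst E Kˣ)
      have a2 := isChar_comp (isChar_of_isIrr (isIrr_unitsHom (θ⁻¹ : MulChar K ℂ).toUnitHom))
        (MonoidHom.snd E Kˣ)
      exact isChar_mul a1 a2
    obtain ⟨n, hn⟩ := exists_nat_inner (isChar_pow_ed σ) h1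
    choose r hr using fun d => pow_eq_binom (Fintype.card K - 1) d
    obtain ⟨c, hc⟩ := hE
    set Q := Fintype.card K - 1 with hQ
    have hQ' : Fintype.card K = 1 + Q := by omega
    have hs : ∑ l : Kˣ, θ l = 0 := by
      have := sum_units θ (fun _ => 1)
      simp only [mul_one] at this
      rw [← this, MulChar.sum_eq_zero_of_ne_one hθ]
    have hQ0 : (Q : ℂ) ≠ 0 := by exact_mod_cast hpos.ne'
    have hE0 : (Nat.card E : ℂ) ≠ 0 := card_ne_zero_complex E
    have key : classInner (fun y => gs θ (σ y)) (χ : E → ℂ) =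
        n - c * ∑ y : E, conj ((χ : E → ℂ) y) * ∑ l : Kˣ, θ l * r (ed (σ y) l) := by
      rw [← hn]
      simp only [classInner, Fintype.sum_prod_type, Nat.card_prod, Nat.card_units,
        Nat.card_eq_fintype_card (α := K), ← hQ, map_mul, conj_mulChar, inv_inv, gs, sum_units]
      have h2 : ∀ y : E, ∑ l : Kˣ, (Fintype.card K : ℂ) ^ ed (σ y) l *
          (conj ((χ : E → ℂ) y) * θ l) = conj ((χ : E → ℂ) y) *
            (Q * ∑ l : Kˣ, θ l * ed (σ y) l + Q ^ 2 * ∑ l : Kˣ, θ l * r (ed (σ y) l)) := by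
        intro y
        have h3 : ∀ l : Kˣ, (Fintype.card K : ℂ) ^ ed (σ y) l =
            1 + Q * ed (σ y) l + Q ^ 2 * r (ed (σ y) l) := fun l => by
          rw [hQ']; exact_mod_cast hr _
        simp only [h3]
        rw [← zero_add (Q * ∑ l : Kˣ, θ l * ed (σ y) l), ← hs]
        simp only [Finset.mul_sum, ← Finset.sum_add_distrib]
        exact Finset.sum_congr rfl fun l _ => by ring
      simp only [h2]
      have hc' : (Q : ℂ) = Nat.card E * c := by exact_mod_cast hc
      rw [eq_sub_iff_add_eq, Finset.mul_sum, Finset.mul_sum, Finset.mul_sum,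
        ← Finset.sum_add_distrib]
      refine Finset.sum_congr rfl fun y _ => ?_
      push_cast
      field_simp
      rw [hc']
      ring
    rw [key]
    refine (isIntegral_natCast n).sub ((isIntegral_natCast c).mul
      (IsIntegral.sum _ fun y _ => (isIntegral_of_isChar (isChar_conj hχ) y).mul
        (IsIntegral.sum _ fun l _ => (isIntegral_mulChar θ l).mul (isIntegral_natCast _))))
  · intro τ
    obtain ⟨m, hm, hτ⟩ := exists_pow_of_ringHom (τ : ℂ →+* ℂ) hpos.ne'
    have h1 := inner_ringHom (fun y => gs θ (σ y)) (isGen_of_isChar hχ) (τ : ℂ →+* ℂ)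
    have h2 : ∀ y, (τ : ℂ →+* ℂ) ((χ : E → ℂ) y) = (χ : E → ℂ) (y ^ m) := fun y =>
      ringHom_apply_of_isChar hχ _ hτ (hpow y)
    have hmK : (Nat.card Kˣ).Coprime m := by
      rw [Nat.card_units, Nat.card_eq_fintype_card]; exact hm.symm
    have h3 : ∀ y, (τ : ℂ →+* ℂ) (gs θ (σ y)) = gs θ (σ (y ^ m)) := fun y => by
      simp only [gs, sum_units, map_sum, map_mul, map_natCast]
      rw [← (powCoprime hmK).sum_comp (fun l : Kˣ => θ l * (ed (σ (y ^ m)) l : ℂ))]
      refine Finset.sum_congr rfl fun l _ => ?_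
      rw [hτ _ (mulChar_pow_card θ l), powCoprime_apply, map_pow σ,
        ed_pow (by rw [← map_pow, hpow, map_one]) hm, Units.val_pow_eq_pow_val, map_pow]
    simp only [h2, h3] at h1
    have hmE : (Nat.card E).Coprime m := (hm.coprime_dvd_right hE).symm
    refine h1.symm.trans ?_
    simp only [classInner]
    rw [← (powCoprime hmE).sum_comp (fun x => gs θ (σ x) * conj ((χ : E → ℂ) x))]
    rfl

omit [Fintype K] in
theorem maxGen_eq_ker (g : End K M) (l : K) {N : ℕ} (hN : finrank K M ≤ N) :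
    g.maxGenEigenspace l = LinearMap.ker ((g - l • 1) ^ N) := by
  rw [← End.genEigenspace_nat]
  apply le_antisymm
  · rw [End.maxGenEigenspace_eq_genEigenspace_finrank]
    exact (g.genEigenspace l).monotone (by exact_mod_cast hN)
  · exact (g.genEigenspace l).monotone le_top

theorem mult_eq_ed (g : End K M) (l : K) {b : ℕ} (hb : finrank K M ≤ b) :
    g.charpoly.rootMultiplicity l = ed (g ^ Fintype.card K ^ b) l := by
  rcases subsingleton_or_nontrivial M with hM | hM
  · rw [← LinearMap.finrank_maxGenEigenspace_eq, ed, finrank_zero_of_subsingleton,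
      finrank_zero_of_subsingleton]
  obtain ⟨p, hp⟩ := CharP.exists K
  obtain ⟨f, hpp, hf⟩ := FiniteField.card K p
  have := Fact.mk hpp
  have : CharP (End K M) p := charP_of_injective_algebraMap (algebraMap K (End K M)).injective p
  have hN : finrank K M ≤ Fintype.card K ^ b :=
    hb.trans (Nat.lt_pow_self Fintype.one_lt_card).le
  rw [← LinearMap.finrank_maxGenEigenspace_eq, maxGen_eq_ker g l hN, ed, End.eigenspace_def]
  have h1 : (g - l • 1) ^ Fintype.card K ^ b = g ^ Fintype.card K ^ b - l • 1 := by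
    have h2 : l ^ Fintype.card K ^ b = l := FiniteField.pow_card_pow b l
    conv_rhs => rw [← h2]
    rw [hf, ← pow_mul, sub_pow_char_pow_of_commute _ _ ((Commute.one_right g).smul_right l),
      _root_.smul_pow, one_pow]
  rw [h1]

end Lift

open scoped IsMulCommutative in
theorem mul_pow_of_central {E : Type*} [Group E] [Finite E] {C : Subgroup E}
    (hC : C ≤ Subgroup.center E) {t : ℕ} (ht : C.index ∣ t) (g h : E) :
    (g * h) ^ t = g ^ t * h ^ t ∧ g ^ t ∈ Subgroup.center E := by
  obtain ⟨c, rfl⟩ := ht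
  have key : ∀ (g : E) (k : ℕ) (g₀ : E), g₀⁻¹ * g ^ k * g₀ ∈ C → g₀⁻¹ * g ^ k * g₀ = g ^ k := by
    intro g k g₀ hk
    have := Subgroup.mem_center_iff.1 (hC hk) g₀
    calc g₀⁻¹ * g ^ k * g₀ = g₀ * (g₀⁻¹ * g ^ k * g₀) * g₀⁻¹ := by rw [this]; group
      _ = g ^ k := by group
  let φ : E →* Subgroup.center E := MonoidHom.transfer (Subgroup.inclusion hC)
  have hφ : ∀ g, (φ g : E) = g ^ C.index := fun g => by
    rw [MonoidHom.transfer_eq_pow _ g (key g)]; rfl
  simp only [pow_mul, ← hφ]
  refine ⟨?_, Subgroup.pow_mem _ (φ g).2 _⟩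
  rw [← Subgroup.coe_pow, ← Subgroup.coe_pow, ← Subgroup.coe_pow, map_mul, mul_pow,
    Subgroup.coe_mul]

/-- the sum of `θ` over the roots of a polynomial -/
noncomputable def rs {F K : Type*} [Field F] [Field K] [Algebra F K] (θ : K → ℂ) (p : F[X]) : ℂ :=
  ((p.aroots K).map θ).sum

theorem rs_mul {F K : Type*} [Field F] [Field K] [Algebra F K] (θ : K → ℂ) {p q : F[X]}
    (hp : p ≠ 0) (hq : q ≠ 0) : rs θ (p * q) = rs θ p + rs θ q := by
  rw [rs, aroots_mul (mul_ne_zero hp hq), Multiset.map_add, Multiset.sum_add]; rfl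

theorem rs_one {F K : Type*} [Field F] [Field K] [Algebra F K] (θ : K → ℂ) :
    rs θ (1 : F[X]) = 0 := by simp [rs]

theorem rs_eq_sum {F K : Type*} [Field F] [Field K] [Fintype K] [Algebra F K] (θ : K → ℂ)
    (p : F[X]) : rs θ p = ∑ l : K, θ l * (p.map (algebraMap F K)).rootMultiplicity l := by
  classical
  rw [rs, Finset.sum_multiset_map_count, Finset.sum_subset (Finset.subset_univ _)]
  · refine Finset.sum_congr rfl fun l _ => ?_
    rw [aroots_def, count_roots, nsmul_eq_mul, mul_comm]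
  · intro l _ hl
    rw [Multiset.count_eq_zero_of_notMem (by simpa using hl), zero_smul]

/-- The Brauer lift is a generalized character. -/
theorem isGen_rs {F K : Type*} [Field F] [Field K] [Fintype K] [Algebra F K] {V : Type*}
    [AddCommGroup V] [Module F V] [FiniteDimensional F V] {H : Type*} [Group H] [Finite H]
    (ρ : H →* End F V) {a : ℕ} (hH : Nat.card H ∣ Fintype.card K ^ a * (Fintype.card K - 1))
    {θ : MulChar K ℂ} (hθ : θ ≠ 1) :
    IsGeneralizedCharacter H (fun h => rs θ (ρ h).charpoly) := by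
  let σ : H →* End K (TensorProduct F K V) :=
    (End.baseChangeHom F K V).toRingHom.toMonoidHom.comp ρ
  set Q := Fintype.card K with hQ
  set b := finrank K (TensorProduct F K V) + a + Nat.card H with hb
  have hQ1 : 1 < Q := Fintype.one_lt_card
  have h1 : ∀ h, rs θ (ρ h).charpoly = gs θ (σ (h ^ Q ^ b)) := fun h => by
    rw [rs_eq_sum, gs, map_pow]
    refine Finset.sum_congr rfl fun l _ => ?_
    rw [← mult_eq_ed _ l (by omega), ← LinearMap.charpoly_baseChange]
    rfl
  simp only [h1]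
  refine Ind.brauer_characterization (fun g h => ?_) fun E p hp hE => ?_
  · simp only [conj_pow]
    exact isClass_gs σ θ _ _
  obtain ⟨x, hx, -, k, hk⟩ := hE
  have hC : Subgroup.zpowers x ≤ Subgroup.center E := Subgroup.zpowers_le.2 hx
  have hEH : Nat.card E ∣ Nat.card H := Subgroup.card_subgroup_dvd_card E
  have hpk : p ^ k ∣ Nat.card H := (hk ▸ Subgroup.index_dvd_card _).trans hEH
  have hmul : ∀ g h : E, (g * h) ^ Q ^ b = g ^ Q ^ b * h ^ Q ^ b := by
    intro g h
    by_cases hpQ : p ∣ Q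
    · refine (mul_pow_of_central hC ?_ g h).1
      rw [hk]
      refine (pow_dvd_pow_of_dvd hpQ k).trans (pow_dvd_pow _ ?_)
      have := Nat.le_of_dvd Nat.card_pos hpk
      have := Nat.lt_pow_self (n := k) hp.one_lt
      omega
    · have h2 : (Subgroup.zpowers x).index ∣ Q ^ b - 1 := by
        rw [hk]
        refine Dvd.dvd.trans ?_ (Nat.sub_one_dvd_pow_sub_one Q b)
        exact (Nat.Coprime.pow _ _ ((Nat.Prime.coprime_iff_not_dvd hp).2 hpQ)).dvd_of_dvd_mul_left
          (hpk.trans hH)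
      obtain ⟨t, ht⟩ : ∃ t, Q ^ b = t + 1 := ⟨Q ^ b - 1, by
        have := Nat.one_le_pow b Q (by omega); omega⟩
      rw [ht, Nat.add_sub_cancel] at h2
      rw [ht, pow_succ, pow_succ, pow_succ, (mul_pow_of_central hC h2 g h).1, mul_assoc, mul_assoc,
        ← mul_assoc (h ^ t), ← mul_assoc g,
        Subgroup.mem_center_iff.1 (mul_pow_of_central hC h2 h g).2 g]
  let φ : E →* E := MonoidHom.mk' (fun g => g ^ Q ^ b) hmul
  have hpow : ∀ y : φ.range, y ^ (Q - 1) = 1 := by
    rintro ⟨_, g, rfl⟩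
    apply Subtype.ext
    change (g ^ Q ^ b) ^ (Q - 1) = 1
    rw [← pow_mul, ← orderOf_dvd_iff_pow_eq_one]
    refine (orderOf_dvd_natCard g).trans (hEH.trans (hH.trans ?_))
    exact Nat.mul_dvd_mul_right (pow_dvd_pow _ (by omega)) _
  have hcard : Nat.card φ.range ∣ Q - 1 := by
    have h2 : Nat.card φ.range ∣ Q ^ a * (Q - 1) :=
      (Subgroup.card_subgroup_dvd_card _).trans (hEH.trans hH)
    refine Nat.Coprime.dvd_of_dvd_mul_left ?_ h2
    refine Nat.Coprime.pow_right _ ?_
    rw [Nat.coprime_iff_gcd_eq_one]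
    by_contra hne
    obtain ⟨r, hr, hrd⟩ := Nat.exists_prime_and_dvd hne
    have := Fact.mk hr
    obtain ⟨y, hy⟩ := exists_prime_orderOf_dvd_card' r (hrd.trans (Nat.gcd_dvd_left _ _))
    have h3 : r ∣ Q - 1 := hy ▸ orderOf_dvd_of_pow_eq_one (hpow y)
    have h4 : r ∣ Q := hrd.trans (Nat.gcd_dvd_right _ _)
    have h5 : r ∣ Q - (Q - 1) := Nat.dvd_sub h4 h3
    rw [show Q - (Q - 1) = 1 by omega] at h5
    exact hr.one_lt.ne' (Nat.dvd_one.1 h5)
  have h2 := isGen_gs (σ.comp (E.subtype.comp φ.range.subtype)) hcard hθ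
  exact isGen_comp h2 φ.rangeRestrict

end Cfsg.Agent.DG
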