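import Cfsg.Agent.Lib.DG.Cu1

/-!
Row CUSP, part 2: Moebius inversion over the lattice of invariant subspaces.
-/

set_option autoImplicit false

namespace Cfsg.Agent.DG

open Polynomial Module Cfsg.Agent.Char

open scoped Classical

/-- sums over fixed points with equivariant coefficients -/
theorem isGen_sum_fixed {H X : Type*} [Group H] [Finite H] [Fintype X] [MulAction H X]
    (a : H → X → ℂ) (ha : ∀ h k x, a (k * h * k⁻¹) (k • x) = a h x)
    (hg : ∀ x, IsGeneralizedCharacter (MulAction.stabilizer H x) (fun h => a h x)) :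
    IsGeneralizedCharacter H (fun h => ∑ x, if h • x = x then a h x else 0) := by
  have := Fintype.ofFinite H
  have := Fintype.ofFinite (MulAction.orbitRel.Quotient H X)
  have key : (fun h => ∑ x, if h • x = x then a h x else 0) =
      ∑ ω : MulAction.orbitRel.Quotient H X,
        indFun (MulAction.stabilizer H ω.out) (fun h => a h ω.out) := by
    funext h
    rw [Finset.sum_apply, ← Finset.sum_fiberwise (s := Finset.univ)
      (g := fun x => (Quotient.mk _ x : MulAction.orbitRel.Quotient H X))]
    refine Finset.sum_congr rfl fun ω _ => ?_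
    set x₀ := ω.out with hx₀
    have h1 : ∀ k : H, extendByZero (MulAction.stabilizer H x₀) (fun h => a h x₀) (k⁻¹ * h * k) =
        if h • k • x₀ = k • x₀ then a h (k • x₀) else 0 := fun k => by
      have e : k⁻¹ * h * k ∈ MulAction.stabilizer H x₀ ↔ h • k • x₀ = k • x₀ := by
        rw [MulAction.mem_stabilizer_iff, mul_smul, mul_smul, inv_smul_eq_iff]
      split_ifs with hk
      · rw [Ind.ebz_of_mem _ _ (e.2 hk), ← ha _ k]
        simp [mul_assoc]
      · exact Ind.ebz_of_not_mem _ _ (fun h' => hk (e.1 h'))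
    rw [indFun]
    simp only [h1]
    rw [← Finset.sum_fiberwise (s := Finset.univ) (g := fun k : H => k • x₀), Finset.mul_sum,
      Finset.sum_filter]
    refine Finset.sum_congr rfl fun x _ => ?_
    rw [Finset.sum_congr rfl (g := fun _ => if h • x = x then a h x else 0)
      (fun k hk => by rw [(Finset.mem_filter.1 hk).2]), Finset.sum_const, nsmul_eq_mul]
    by_cases hx : (Quotient.mk _ x : MulAction.orbitRel.Quotient H X) = ω
    · rw [if_pos hx]
      have hx' : x ∈ MulAction.orbit H x₀ := by
        rw [← MulAction.orbitRel_apply]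
        exact Quotient.exact (hx.trans (Quotient.out_eq ω).symm)
      obtain ⟨k₁, rfl⟩ := hx'
      have hc : (Finset.univ.filter fun k : H => k • x₀ = k₁ • x₀).card =
          Nat.card (MulAction.stabilizer H x₀) := by
        rw [← Fintype.card_subtype, ← Nat.card_eq_fintype_card]
        refine Nat.card_congr ((Equiv.mulLeft k₁⁻¹).subtypeEquiv fun k => ?_)
        simp [mul_smul, inv_smul_eq_iff]
      simp only at hc ⊢
      rw [hc, ← mul_assoc, inv_mul_cancel₀ (card_ne_zero_complex _), one_mul]
    · rw [if_neg hx, Finset.filter_false_of_mem, Finset.card_empty, Nat.cast_zero, zero_mul,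
        mul_zero]
      rintro k - rfl
      apply hx
      rw [← Quotient.out_eq ω]
      exact Quotient.sound ⟨k, rfl⟩
  rw [key]
  exact isGen_sum _ fun ω _ => Ind.isGen_indFun _ (hg _)

variable {F : Type*} [Field F] {V V' : Type*} [AddCommGroup V] [Module F V]
  [AddCommGroup V'] [Module F V']

/-- invariant subspaces -/
def Inv (g : End F V) (W : Submodule F V) : Prop := ∀ x ∈ W, g x ∈ W

theorem inv_top (g : End F V) : Inv g ⊤ := fun _ _ => trivial

theorem inv_bot (g : End F V) : Inv g ⊥ := fun x hx => by
  rw [Submodule.mem_bot] at hx ⊢; rw [hx, map_zero]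

noncomputable scoped instance fintypeSub [Finite V] : Fintype (Submodule F V) :=
  Fintype.ofFinite _

variable [Finite V] [Finite V']

/-- characteristic polynomial on an invariant subspace -/
noncomputable def cp (g : End F V) (W : Submodule F V) : F[X] :=
  if h : Inv g W then (g.restrict h).charpoly else 1

/-- Moebius inverse -/
noncomputable def cw (f : F[X] → ℂ) (g : End F V) : Submodule F V → ℂ :=
  (wellFounded_lt (α := Submodule F V)).fix fun W rec =>
    f (cp g W) - ∑ U, if h : U < W ∧ Inv g U then rec U h.1 else 0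

theorem cw_eq (f : F[X] → ℂ) (g : End F V) (W : Submodule F V) :
    cw f g W = f (cp g W) - ∑ U, if U < W ∧ Inv g U then cw f g U else 0 := by
  rw [cw, WellFounded.fix_eq]
  simp only [dite_eq_ite]

/-- The Moebius inverse on the whole space. -/
noncomputable def cu (f : F[X] → ℂ) (g : End F V) : ℂ := cw f g ⊤

theorem cp_top (g : End F V) : cp g ⊤ = g.charpoly := by
  rw [cp, dif_pos (inv_top g), ← (Submodule.topEquiv (R := F) (M := V)).charpoly_conj]
  congr 1

theorem cp_bot (g : End F V) : cp g ⊥ = 1 := by
  rw [cp, dif_pos (inv_bot g)]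
  exact (LinearMap.charpoly_monic _).natDegree_eq_zero.1
    (by rw [LinearMap.charpoly_natDegree, finrank_bot])

omit [Finite V] [Finite V'] in
theorem inv_map {g : End F V} {g' : End F V'} {i : V →ₗ[F] V'} (hg : ∀ x, g' (i x) = i (g x))
    {W : Submodule F V} (hW : Inv g W) : Inv g' (W.map i) := by
  rintro _ ⟨x, hx, rfl⟩
  exact ⟨g x, hW x hx, (hg x).symm⟩

omit [Finite V] [Finite V'] in
theorem inv_comap {g : End F V} {g' : End F V'} {i : V →ₗ[F] V'} (hg : ∀ x, g' (i x) = i (g x))
    {W : Submodule F V'} (hW : Inv g' W) : Inv g (W.comap i) := fun x hx => by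
  rw [Submodule.mem_comap, ← hg]; exact hW _ hx

theorem cp_map {g : End F V} {g' : End F V'} {i : V →ₗ[F] V'} (hi : Function.Injective i)
    (hg : ∀ x, g' (i x) = i (g x)) {W : Submodule F V} (hW : Inv g W) :
    cp g' (W.map i) = cp g W := by
  rw [cp, dif_pos (inv_map hg hW), cp, dif_pos hW,
    ← (Submodule.equivMapOfInjective i hi W).charpoly_conj]
  congr 1
  ext y
  obtain ⟨x, rfl⟩ := (Submodule.equivMapOfInjective i hi W).surjective y
  simp only [LinearEquiv.conj_apply_apply, LinearEquiv.symm_apply_apply]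
  exact hg x

theorem cw_map (f : F[X] → ℂ) {g : End F V} {g' : End F V'} {i : V →ₗ[F] V'}
    (hi : Function.Injective i) (hg : ∀ x, g' (i x) = i (g x)) (W : Submodule F V)
    (hW : Inv g W) : cw f g' (W.map i) = cw f g W := by
  induction W using (wellFounded_lt (α := Submodule F V)).induction with
  | _ W ih =>
  rw [cw_eq, cw_eq f g, cp_map hi hg hW, ← Finset.sum_filter, ← Finset.sum_filter]
  congr 1
  symm
  refine Finset.sum_bij (fun U _ => U.map i) ?_ ?_ ?_ ?_
  · intro U hU
    simp only [Finset.mem_filter, Finset.mem_univ, true_and] at hU ⊢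
    exact ⟨Submodule.map_strictMono_of_injective hi hU.1, inv_map hg hU.2⟩
  · intro U _ U' _ h
    exact Submodule.map_injective_of_injective hi h
  · intro U hU
    simp only [Finset.mem_filter, Finset.mem_univ, true_and] at hU ⊢
    have h1 : (U.comap i).map i = U := by
      rw [Submodule.map_comap_eq, inf_eq_right]
      exact hU.1.le.trans (LinearMap.map_le_range)
    refine ⟨U.comap i, ⟨?_, inv_comap hg hU.2⟩, h1⟩
    rw [← Submodule.map_lt_map_iff_of_injective hi, h1]
    exact hU.1
  · intro U hU
    simp only [Finset.mem_filter, Finset.mem_univ, true_and] at hU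
    exact (ih U hU.1 hU.2).symm

theorem cw_eq_cu (f : F[X] → ℂ) {g : End F V} {W : Submodule F V} (hW : Inv g W) :
    cw f g W = cu f (g.restrict hW) := by
  rw [cu, ← cw_map f (g' := g) W.subtype_injective (fun _ => rfl) ⊤ (inv_top _),
    Submodule.map_subtype_top]

theorem cw_range (f : F[X] → ℂ) {g : End F V} {g' : End F V'} {i : V →ₗ[F] V'}
    (hi : Function.Injective i) (hg : ∀ x, g' (i x) = i (g x)) :
    cw f g' (LinearMap.range i) = cu f g := by
  rw [cu, ← cw_map f hi hg ⊤ (inv_top _), Submodule.map_top]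

theorem cu_equiv (f : F[X] → ℂ) {g : End F V} {g' : End F V'} (e : V ≃ₗ[F] V')
    (hg : ∀ x, g' (e x) = e (g x)) : cu f g' = cu f g := by
  rw [← cw_range f (i := (e : V →ₗ[F] V')) e.injective hg, LinearEquiv.range, cu]

theorem sum_cw_le (f : F[X] → ℂ) (g : End F V) {W : Submodule F V} (hW : Inv g W) :
    ∑ U, (if U ≤ W ∧ Inv g U then cw f g U else 0) = f (cp g W) := by
  rw [← Finset.add_sum_erase _ _ (Finset.mem_univ W), if_pos ⟨le_rfl, hW⟩, cw_eq,
    ← Finset.add_sum_erase _ _ (Finset.mem_univ W), if_neg (by simp), zero_add, sub_add,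
    sub_eq_self, sub_eq_zero]
  refine Finset.sum_congr rfl fun U hU => ?_
  simp only [lt_iff_le_and_ne, (Finset.mem_erase.1 hU).1, ne_eq, not_false_iff, and_true]

theorem sum_cw (f : F[X] → ℂ) (g : End F V) :
    ∑ U, (if Inv g U then cw f g U else 0) = f g.charpoly := by
  rw [← cp_top, ← sum_cw_le f g (inv_top g)]
  simp

theorem cw_bot (f : F[X] → ℂ) (g : End F V) : cw f g ⊥ = f 1 := by
  rw [cw_eq, cp_bot]; simp

/-- restriction of a representation -/
def resHom {H : Type*} [Group H] (ρ : H →* End F V) (W : Submodule F V)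
    (hW : ∀ h, Inv (ρ h) W) : H →* End F W where
  toFun h := (ρ h).restrict (hW h)
  map_one' := by ext x; simp
  map_mul' a b := by
    ext x
    change ρ (a * b) x = ρ a (ρ b x)
    rw [map_mul, End.mul_apply]

universe v

theorem isGen_cw {K : Type*} [Field K] [Fintype K] [Algebra F K] {θ : MulChar K ℂ} (hθ : θ ≠ 1)
    {a : ℕ} (W : Submodule F V) : ∀ (H : Type v) [Group H] [Finite H] (ρ : H →* End F V),
    Nat.card H ∣ Fintype.card K ^ a * (Fintype.card K - 1) → (∀ h, Inv (ρ h) W) →
    IsGeneralizedCharacter H (fun h => cw (rs θ) (ρ h) W) := by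
  induction W using (wellFounded_lt (α := Submodule F V)).induction with
  | _ W ih =>
  intro H _ _ ρ hH hW
  have hinj : ∀ h, Function.Injective (ρ h) := fun h =>
    Function.LeftInverse.injective (g := ρ h⁻¹) fun x => by
      rw [← End.mul_apply, ← map_mul, inv_mul_cancel, map_one, End.one_apply]
  have hmap : ∀ h (U : Submodule F V), Inv (ρ h) U ↔ U.map (ρ h) = U := fun h U => by
    constructor
    · intro hU
      apply Submodule.eq_of_le_of_finrank_eq
      · rintro _ ⟨x, hx, rfl⟩; exact hU x hx
      · exact (Submodule.equivMapOfInjective _ (hinj h) U).finrank_eq.symm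
    · intro hU x hx
      rw [← hU]; exact ⟨x, hx, rfl⟩
  let _ : MulAction H (Submodule F V) :=
    { smul := fun h U => U.map (ρ h)
      one_smul := fun U => by change U.map (ρ 1) = U; rw [map_one]; exact Submodule.map_id U
      mul_smul := fun a b U => by
        change U.map (ρ (a * b)) = (U.map (ρ b)).map (ρ a)
        rw [map_mul, ← Submodule.map_comp]; rfl }
  have hsm : ∀ (h : H) (U : Submodule F V), h • U = U.map (ρ h) := fun _ _ => rfl
  have h1 := isGen_rs (resHom ρ W hW) hH hθ
  have hlt : ∀ (k : H) (U : Submodule F V), k • U < W ↔ U < W := fun k U => by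
    rw [← Submodule.map_lt_map_iff_of_injective (hinj k) (p := U) (q := W), (hmap k W).1 (hW k), hsm]
  have h2 := isGen_sum_fixed (H := H) (X := Submodule F V)
    (fun h U => if U < W ∧ Inv (ρ h) U then cw (rs θ) (ρ h) U else 0) (fun h k U => by
      have e : ∀ x, ρ (k * h * k⁻¹) (ρ k x) = ρ k (ρ h x) := fun x => by
        rw [← End.mul_apply, ← map_mul, inv_mul_cancel_right, map_mul, End.mul_apply]
      have e2 : Inv (ρ (k * h * k⁻¹)) (k • U) ↔ Inv (ρ h) U := by
        rw [hmap, hmap, ← hsm, ← hsm, ← mul_smul, inv_mul_cancel_right, mul_smul,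
          smul_left_cancel_iff]
      simp only [hlt, e2]
      split_ifs with hU
      · exact cw_map _ (hinj k) e U hU.2
      · rfl) (fun U => by
      have e : ∀ h : MulAction.stabilizer H U, Inv (ρ h) U := fun h => (hmap _ _).2 h.2
      by_cases hU : U < W
      · simp only [hU, e, and_self, if_true]
        exact ih U hU _ (ρ.comp (MulAction.stabilizer H U).subtype)
          ((Subgroup.card_subgroup_dvd_card _).trans hH) e
      · simp only [hU, false_and, if_false]
        exact isGen_zero)
  convert isGen_sub h1 h2 using 1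
  funext h
  rw [cw_eq, cp, dif_pos (hW h), Pi.sub_apply]
  congr 1
  refine Finset.sum_congr rfl fun U _ => ?_
  by_cases hU : Inv (ρ h) U
  · rw [if_pos (show h • U = U from (hmap h U).1 hU)]
  · simp [hU]

theorem isGen_cu {K : Type*} [Field K] [Fintype K] [Algebra F K] {θ : MulChar K ℂ} (hθ : θ ≠ 1)
    {a : ℕ} {H : Type*} [Group H] [Finite H] (ρ : H →* End F V)
    (hH : Nat.card H ∣ Fintype.card K ^ a * (Fintype.card K - 1)) :
    IsGeneralizedCharacter H (fun h => cu (rs θ) (ρ h)) :=
  isGen_cw hθ ⊤ H ρ hH fun _ => inv_top _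

end Cfsg.Agent.DG
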