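import Cfsg.Agent.Lib.DG.Cu2

/-!
Row CUSP, part 3: primitivity of the Moebius inverse of an additive function; the degree.
-/

set_option autoImplicit false

namespace Cfsg.Agent.DG

open Polynomial Module Cfsg.Agent.Char

open scoped Classical

theorem avg_surj {X Y : Type*} [AddCommGroup X] [AddCommGroup Y] [Fintype X] [Fintype Y]
    (π : X →+ Y) (hπ : Function.Surjective π) (ψ : Y → ℂ) :
    (Fintype.card X : ℂ)⁻¹ * ∑ x, ψ (π x) = (Fintype.card Y : ℂ)⁻¹ * ∑ y, ψ y := by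
  set c := (Finset.univ.filter fun x => π x = 0).card with hc
  have h1 : ∀ y, (Finset.univ.filter fun x => π x = y).card = c := fun y =>
    AddMonoidHom.card_fiber_eq_of_mem_range π (hπ y) (hπ 0)
  have key : ∀ ψ : Y → ℂ, ∑ x, ψ (π x) = c * ∑ y, ψ y := fun ψ => by
    rw [← Finset.sum_fiberwise (s := Finset.univ) (g := π), Finset.mul_sum]
    refine Finset.sum_congr rfl fun y _ => ?_
    rw [Finset.sum_congr rfl (g := fun _ => ψ y)
      (fun k hk => by rw [(Finset.mem_filter.1 hk).2]), Finset.sum_const, nsmul_eq_mul, h1]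
  have h2 := key fun _ => 1
  simp only [Finset.sum_const, Finset.card_univ, nsmul_eq_mul, mul_one] at h2
  have hX : (Fintype.card X : ℂ) ≠ 0 := by exact_mod_cast Fintype.card_ne_zero
  have hY : (Fintype.card Y : ℂ) ≠ 0 := by exact_mod_cast Fintype.card_ne_zero
  have hc0 : (c : ℂ) ≠ 0 := fun h => hX (by rw [h2, h, zero_mul])
  rw [key, h2]
  field_simp

variable {F : Type*} [Field F] {A B : Type*} [AddCommGroup A] [Module F A]
  [AddCommGroup B] [Module F B]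

noncomputable scoped instance fintypeHom [Finite A] [Finite B] : Fintype (B →ₗ[F] A) :=
  have := DFunLike.finite (B →ₗ[F] A)
  Fintype.ofFinite _

/-- block triangular endomorphism -/
def blk (g₁ : End F A) (g₂ : End F B) (n : B →ₗ[F] A) : End F (A × B) :=
  (g₁.coprod n).prod (g₂ ∘ₗ LinearMap.snd F A B)

@[simp] theorem blk_apply (g₁ : End F A) (g₂ : End F B) (n : B →ₗ[F] A) (x : A × B) :
    blk g₁ g₂ n x = (g₁ x.1 + n x.2, g₂ x.2) := rfl

theorem charpoly_blk [Finite A] [Finite B] (g₁ : End F A) (g₂ : End F B) (n : B →ₗ[F] A) :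
    (blk g₁ g₂ n).charpoly = g₁.charpoly * g₂.charpoly := by
  let b₁ := Module.Free.chooseBasis F A
  let b₂ := Module.Free.chooseBasis F B
  rw [← LinearMap.charpoly_toMatrix g₁ b₁, ← LinearMap.charpoly_toMatrix g₂ b₂,
    ← LinearMap.charpoly_toMatrix _ (b₁.prod b₂),
    ← Matrix.charpoly_fromBlocks_zero₂₁ _ (LinearMap.toMatrix b₂ b₁ n)]
  congr 1
  ext (i | i) (j | j) <;> simp [LinearMap.toMatrix_apply]

theorem shear_inj (s : B →ₗ[F] A) : Function.Injective (blk 1 1 s) := fun x y h => by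
  simp only [blk_apply, End.one_apply, Prod.mk.injEq] at h
  obtain ⟨h1, h2⟩ := h
  rw [h2] at h1
  exact Prod.ext (add_right_cancel h1) h2

/-- subspaces of a product -/
def sub (W₁ : Submodule F A) (W₂ : Submodule F B) (s : B →ₗ[F] A) : Submodule F (A × B) :=
  (W₁.prod W₂).map (blk 1 1 s)

theorem mem_sub {W₁ : Submodule F A} {W₂ : Submodule F B} {s : B →ₗ[F] A} {x : A × B} :
    x ∈ sub W₁ W₂ s ↔ x.1 - s x.2 ∈ W₁ ∧ x.2 ∈ W₂ := by
  constructor
  · rintro ⟨y, hy, rfl⟩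
    simpa using hy
  · intro h
    exact ⟨(x.1 - s x.2, x.2), h, by simp⟩

/-- maps carrying `W₂` into `W₁` -/
def S0 (W₁ : Submodule F A) (W₂ : Submodule F B) : Submodule F (B →ₗ[F] A) where
  carrier := {s | ∀ b ∈ W₂, s b ∈ W₁}
  add_mem' ha hb b h := W₁.add_mem (ha b h) (hb b h)
  zero_mem' _ _ := W₁.zero_mem
  smul_mem' c _ ha b h := W₁.smul_mem c (ha b h)

theorem mem_S0 {W₁ : Submodule F A} {W₂ : Submodule F B} {s : B →ₗ[F] A} :
    s ∈ S0 W₁ W₂ ↔ ∀ b ∈ W₂, s b ∈ W₁ := Iff.rfl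

theorem sub_eq_iff {W₁ X₁ : Submodule F A} {W₂ X₂ : Submodule F B} {s t : B →ₗ[F] A} :
    sub X₁ X₂ t = sub W₁ W₂ s ↔ X₁ = W₁ ∧ X₂ = W₂ ∧ t - s ∈ S0 W₁ W₂ := by
  constructor
  · intro h
    have h' := fun x => (mem_sub.symm.trans (SetLike.ext_iff.1 h x)).trans mem_sub
    have h1 : X₁ = W₁ := by
      ext a; simpa using h' (a, 0)
    have h2 : X₂ = W₂ := by
      ext b
      constructor
      · intro hb; exact ((h' (t b, b)).1 (by simpa using hb)).2
      · intro hb; exact ((h' (s b, b)).2 (by simpa using hb)).2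
    subst h1 h2
    exact ⟨rfl, rfl, fun b hb => ((h' (t b, b)).1 (by simpa using hb)).1⟩
  · rintro ⟨rfl, rfl, h⟩
    ext x
    rw [mem_sub, mem_sub]
    refine and_congr_left fun hx => ?_
    have := h _ hx
    rw [LinearMap.sub_apply] at this
    constructor
    · intro h1; simpa using X₁.add_mem h1 this
    · intro h1; simpa using X₁.sub_mem h1 this

theorem exists_sub (W : Submodule F (A × B)) : ∃ W₁ W₂ s, W = sub W₁ W₂ s := by
  let π : W →ₗ[F] W.map (LinearMap.snd F A B) := (LinearMap.snd F A B).submoduleMap W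
  obtain ⟨r, hr⟩ := π.exists_rightInverse_of_surjective
    (LinearMap.range_eq_top.2 (LinearMap.submoduleMap_surjective _ _))
  obtain ⟨s, hs⟩ := (LinearMap.fst F A B ∘ₗ W.subtype ∘ₗ r).exists_extend
  have key : ∀ b (hb : b ∈ W.map (LinearMap.snd F A B)), (s b, b) ∈ W := fun b hb => by
    have h1 : s b = (r ⟨b, hb⟩ : A × B).1 := LinearMap.congr_fun hs ⟨b, hb⟩
    have h2 : (r ⟨b, hb⟩ : A × B).2 = b :=
      congrArg Subtype.val (LinearMap.congr_fun hr ⟨b, hb⟩)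
    have := (r ⟨b, hb⟩).2
    rwa [show ((r ⟨b, hb⟩ : W) : A × B) = (s b, b) from Prod.ext h1.symm h2] at this
  refine ⟨W.comap (LinearMap.inl F A B), W.map (LinearMap.snd F A B), s, ?_⟩
  ext x
  rw [mem_sub, Submodule.mem_comap]
  constructor
  · intro hx
    have hb : x.2 ∈ W.map (LinearMap.snd F A B) := ⟨x, hx, rfl⟩
    refine ⟨?_, hb⟩
    have := W.sub_mem hx (key _ hb)
    rwa [show x - (s x.2, x.2) = (x.1 - s x.2, 0) from Prod.ext rfl (sub_self _)] at this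
  · rintro ⟨h1, h2⟩
    simpa using W.add_mem h1 (key _ h2)

variable [Finite A] [Finite B]

theorem sum_sub (h : Submodule F (A × B) → ℂ) :
    ∑ W, h W = ∑ W₁, ∑ W₂, (Fintype.card (S0 W₁ W₂) : ℂ)⁻¹ * ∑ s, h (sub W₁ W₂ s) := by
  have h1 : ∀ (W₁ : Submodule F A) (W₂ : Submodule F B),
      (Fintype.card (S0 W₁ W₂) : ℂ)⁻¹ * ∑ s, h (sub W₁ W₂ s) =
      ∑ W, h W * ((Fintype.card (S0 W₁ W₂) : ℂ)⁻¹ *
        ∑ s, if sub W₁ W₂ s = W then 1 else 0) := fun W₁ W₂ => by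
    simp only [Finset.mul_sum]
    rw [Finset.sum_comm]
    refine Finset.sum_congr rfl fun s _ => ?_
    simp [mul_comm]
  simp only [h1]
  symm
  rw [Finset.sum_congr rfl fun W₁ _ => Finset.sum_comm, Finset.sum_comm]
  refine Finset.sum_congr rfl fun W _ => ?_
  obtain ⟨W₁, W₂, s, rfl⟩ := exists_sub W
  simp only [← Finset.mul_sum, sub_eq_iff]
  rw [Finset.sum_eq_single W₁, Finset.sum_eq_single W₂]
  · simp only [true_and]
    rw [← Equiv.sum_comp (Equiv.addRight s)]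
    simp only [Equiv.coe_addRight, add_sub_cancel_right, Finset.sum_boole, Fintype.card_subtype]
    rw [inv_mul_cancel₀, mul_one]
    rw [← Fintype.card_subtype]
    exact_mod_cast Fintype.card_ne_zero
  · intro b _ hb; simp [hb]
  · simp
  · intro b _ hb; simp [hb]
  · simp

omit [Finite A] [Finite B] in
theorem blk_shear (g₁ : End F A) (g₂ : End F B) (n s : B →ₗ[F] A) (x : A × B) :
    blk g₁ g₂ n (blk 1 1 s x) = blk 1 1 s (blk g₁ g₂ (n + (g₁ ∘ₗ s - s ∘ₗ g₂)) x) := by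
  simp only [blk_apply, End.one_apply, map_add, LinearMap.add_apply, LinearMap.sub_apply,
    LinearMap.comp_apply, Prod.mk.injEq, and_true]
  abel

omit [Finite A] [Finite B] in
theorem inv_prod {g₁ : End F A} {g₂ : End F B} {n : B →ₗ[F] A} {W₁ : Submodule F A}
    {W₂ : Submodule F B} :
    Inv (blk g₁ g₂ n) (W₁.prod W₂) ↔ (Inv g₁ W₁ ∧ Inv g₂ W₂) ∧ n ∈ S0 W₁ W₂ := by
  constructor
  · intro h
    refine ⟨⟨fun a ha => ?_, fun b hb => ?_⟩, fun b hb => ?_⟩
    · simpa using h (a, 0) ⟨ha, W₂.zero_mem⟩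
    · exact (h (0, b) ⟨W₁.zero_mem, hb⟩).2
    · simpa using (h (0, b) ⟨W₁.zero_mem, hb⟩).1
  · rintro ⟨⟨h1, h2⟩, h3⟩ x hx
    exact ⟨W₁.add_mem (h1 _ hx.1) (h3 _ hx.2), h2 _ hx.2⟩

omit [Finite A] [Finite B] in
theorem inv_sub {g₁ : End F A} {g₂ : End F B} {n s : B →ₗ[F] A} {W₁ : Submodule F A}
    {W₂ : Submodule F B} : Inv (blk g₁ g₂ n) (sub W₁ W₂ s) ↔
      Inv (blk g₁ g₂ (n + (g₁ ∘ₗ s - s ∘ₗ g₂))) (W₁.prod W₂) := by
  refine ⟨fun h => ?_, inv_map (blk_shear g₁ g₂ n s)⟩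
  have := inv_comap (blk_shear g₁ g₂ n s) h
  rwa [sub, Submodule.comap_map_eq_of_injective (shear_inj s)] at this

/-- the averaged value on a product of subspaces -/
noncomputable def av (f : F[X] → ℂ) (g₁ : End F A) (g₂ : End F B) (W₁ : Submodule F A)
    (W₂ : Submodule F B) : ℂ :=
  (Fintype.card (S0 W₁ W₂) : ℂ)⁻¹ * ∑ n : S0 W₁ W₂, cw f (blk g₁ g₂ n) (W₁.prod W₂)

theorem mackey (f : F[X] → ℂ) (g₁ : End F A) (g₂ : End F B) :
    f (g₁.charpoly * g₂.charpoly) =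
      ∑ W₁, ∑ W₂, if Inv g₁ W₁ ∧ Inv g₂ W₂ then av f g₁ g₂ W₁ W₂ else 0 := by
  have hc : (Fintype.card (B →ₗ[F] A) : ℂ) ≠ 0 := by exact_mod_cast Fintype.card_ne_zero
  apply mul_left_cancel₀ hc
  have h1 : (Fintype.card (B →ₗ[F] A) : ℂ) * f (g₁.charpoly * g₂.charpoly) =
      ∑ n : B →ₗ[F] A, f (blk g₁ g₂ n).charpoly := by simp [charpoly_blk]
  rw [h1]
  simp only [← sum_cw, sum_sub, Finset.mul_sum]
  rw [Finset.sum_comm]
  refine Finset.sum_congr rfl fun W₁ _ => ?_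
  rw [Finset.sum_comm]
  refine Finset.sum_congr rfl fun W₂ _ => ?_
  rw [Finset.sum_comm, ← nsmul_eq_mul, ← Finset.card_univ (α := B →ₗ[F] A), ← Finset.sum_const]
  refine Finset.sum_congr rfl fun s _ => ?_
  obtain ⟨φ, hφ⟩ : ∃ φ : (B →ₗ[F] A) → ℂ, ∀ m, φ m = if (Inv g₁ W₁ ∧ Inv g₂ W₂) ∧ m ∈ S0 W₁ W₂
      then cw f (blk g₁ g₂ m) (W₁.prod W₂) else 0 := ⟨_, fun _ => rfl⟩
  have h2 : ∀ n, (if Inv (blk g₁ g₂ n) (sub W₁ W₂ s) then cw f (blk g₁ g₂ n) (sub W₁ W₂ s) else 0)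
      = φ (Equiv.addRight (g₁ ∘ₗ s - s ∘ₗ g₂) n) := fun n => by
    simp only [hφ, inv_sub, ← inv_prod, Equiv.coe_addRight]
    split_ifs with h
    · exact cw_map f (shear_inj s) (blk_shear g₁ g₂ n s) _ h
    · rfl
  simp only [h2]
  rw [← Finset.mul_sum, Equiv.sum_comp]
  simp only [hφ]
  split_ifs with h
  · simp only [h, and_self, true_and, av]
    rw [← Finset.sum_filter, Finset.sum_subtype (p := (· ∈ S0 W₁ W₂)) _ (by simp)]
  · simp [h]

/-- restriction of compatible maps -/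
def resS (W₁ : Submodule F A) (W₂ : Submodule F B) : S0 W₁ W₂ →+ (W₂ →ₗ[F] W₁) where
  toFun n := (n.1 ∘ₗ W₂.subtype).codRestrict W₁ fun b => n.2 b b.2
  map_zero' := by ext; rfl
  map_add' a b := by ext; rfl

omit [Finite A] [Finite B] in
theorem resS_surj (W₁ : Submodule F A) (W₂ : Submodule F B) :
    Function.Surjective (resS W₁ W₂) := fun m => by
  obtain ⟨n, hn⟩ := (W₁.subtype ∘ₗ m).exists_extend
  have h : ∀ b : W₂, n b = m b := fun b => LinearMap.congr_fun hn b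
  refine ⟨⟨n, fun b hb => ?_⟩, ?_⟩
  · rw [show n b = m ⟨b, hb⟩ from h ⟨b, hb⟩]; exact (m ⟨b, hb⟩).2
  · ext b; exact h b

theorem av_eq (f : F[X] → ℂ) {g₁ : End F A} {g₂ : End F B} {W₁ : Submodule F A}
    {W₂ : Submodule F B} (h1 : Inv g₁ W₁) (h2 : Inv g₂ W₂) :
    av f g₁ g₂ W₁ W₂ = (Fintype.card (W₂ →ₗ[F] W₁) : ℂ)⁻¹ *
      ∑ m, cu f (blk (g₁.restrict h1) (g₂.restrict h2) m) := by
  rw [← avg_surj _ (resS_surj W₁ W₂), av]
  congr 1
  refine Finset.sum_congr rfl fun n _ => ?_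
  rw [← cw_range f (i := W₁.subtype.prodMap W₂.subtype) (g' := blk g₁ g₂ n)
    (Function.Injective.prodMap W₁.subtype_injective W₂.subtype_injective) (fun x => rfl),
    LinearMap.range_prodMap, Submodule.range_subtype, Submodule.range_subtype]

theorem av_bot_left (f : F[X] → ℂ) (g₁ : End F A) {g₂ : End F B} {W₂ : Submodule F B}
    (h2 : Inv g₂ W₂) : av f g₁ g₂ ⊥ W₂ = cw f g₂ W₂ := by
  have h : ∀ n : S0 (⊥ : Submodule F A) W₂,
      cw f (blk g₁ g₂ n) ((⊥ : Submodule F A).prod W₂) = cw f g₂ W₂ := fun n => by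
    rw [cw_eq_cu f h2, ← cw_range f (i := LinearMap.inr F A B ∘ₗ W₂.subtype) (g' := blk g₁ g₂ n)
      (LinearMap.inr_injective.comp W₂.subtype_injective) (fun x => by
        have := n.2 x x.2
        rw [Submodule.mem_bot] at this
        simp [this]; rfl), LinearMap.range_comp, Submodule.range_subtype, Submodule.map_inr]
  simp only [av, h, Finset.sum_const, Finset.card_univ, nsmul_eq_mul]
  rw [← mul_assoc, inv_mul_cancel₀ (by exact_mod_cast Fintype.card_ne_zero), one_mul]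

theorem av_bot_right (f : F[X] → ℂ) {g₁ : End F A} (g₂ : End F B) {W₁ : Submodule F A}
    (h1 : Inv g₁ W₁) : av f g₁ g₂ W₁ ⊥ = cw f g₁ W₁ := by
  have h : ∀ n : S0 W₁ (⊥ : Submodule F B),
      cw f (blk g₁ g₂ n) (W₁.prod (⊥ : Submodule F B)) = cw f g₁ W₁ := fun n => by
    rw [← cw_map f (i := LinearMap.inl F A B) (g' := blk g₁ g₂ n)
      LinearMap.inl_injective (fun x => by simp) W₁ h1, Submodule.map_inl]
  simp only [av, h, Finset.sum_const, Finset.card_univ, nsmul_eq_mul]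
  rw [← mul_assoc, inv_mul_cancel₀ (by exact_mod_cast Fintype.card_ne_zero), one_mul]

theorem av_top (f : F[X] → ℂ) (g₁ : End F A) (g₂ : End F B) :
    av f g₁ g₂ ⊤ ⊤ = (Fintype.card (B →ₗ[F] A) : ℂ)⁻¹ * ∑ n, cu f (blk g₁ g₂ n) := by
  rw [← avg_surj (S0 (⊤ : Submodule F A) (⊤ : Submodule F B)).subtype.toAddMonoidHom
    (fun n => ⟨⟨n, fun _ _ => trivial⟩, rfl⟩), av, Submodule.prod_top]
  rfl

/-- additive functions of monic polynomials -/
def Add (f : F[X] → ℂ) : Prop := ∀ p q : F[X], p.Monic → q.Monic → f (p * q) = f p + f q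

theorem Add.one {f : F[X] → ℂ} (hf : Add f) : f 1 = 0 := by
  have := hf 1 1 monic_one monic_one
  simpa using this

theorem add_rs {K : Type*} [Field K] [Algebra F K] (θ : K → ℂ) : Add (F := F) (rs θ) :=
  fun _ _ hp hq => rs_mul θ hp.ne_zero hq.ne_zero

universe u v

theorem prim_aux {f : F[X] → ℂ} (hf : Add f) (N : ℕ) : ∀ (A : Type u) (B : Type v)
    [AddCommGroup A] [Module F A] [AddCommGroup B] [Module F B] [Finite A] [Finite B]
    [Nontrivial A] [Nontrivial B] (g₁ : End F A) (g₂ : End F B),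
    finrank F A + finrank F B = N → ∑ n, cu f (blk g₁ g₂ n) = 0 := by
  induction N using Nat.strong_induction_on with
  | _ N ih =>
  intro A B _ _ _ _ _ _ _ _ g₁ g₂ hN
  have h1 := mackey f g₁ g₂
  have h2 : ∀ (W₁ : Submodule F A) (W₂ : Submodule F B),
      (if Inv g₁ W₁ ∧ Inv g₂ W₂ then av f g₁ g₂ W₁ W₂ else 0) =
      (if W₂ = ⊤ then if W₁ = ⊤ then av f g₁ g₂ ⊤ ⊤ else 0 else 0) +
      (if W₂ = ⊥ then if Inv g₁ W₁ then cw f g₁ W₁ else 0 else 0) +
      (if W₁ = ⊥ then if Inv g₂ W₂ then cw f g₂ W₂ else 0 else 0) := fun W₁ W₂ => by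
    by_cases e1 : W₁ = ⊥
    · subst e1
      by_cases i2 : Inv g₂ W₂
      · simp [inv_bot, i2, av_bot_left f g₁ i2, cw_bot, hf.one]
      · simp [inv_bot, i2, cw_bot, hf.one]
    by_cases e2 : W₂ = ⊥
    · subst e2
      by_cases i1 : Inv g₁ W₁
      · simp [inv_bot, i1, av_bot_right f g₂ i1, e1]
      · simp [inv_bot, i1, e1]
    simp only [e1, e2, if_false, add_zero]
    by_cases e : W₂ = ⊤ ∧ W₁ = ⊤
    · obtain ⟨rfl, rfl⟩ := e
      simp [inv_top]
    rw [← ite_and, if_neg e]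
    split_ifs with h
    · have := Submodule.nontrivial_iff_ne_bot.2 e1
      have := Submodule.nontrivial_iff_ne_bot.2 e2
      rw [av_eq f h.1 h.2, ih _ ?_ W₁ W₂ _ _ rfl, mul_zero]
      have l1 := W₁.finrank_le
      have l2 := W₂.finrank_le
      rcases not_and_or.1 e with e | e
      · have := Submodule.finrank_lt e; omega
      · have := Submodule.finrank_lt e; omega
    · rfl
  simp only [h2, Finset.sum_add_distrib, Finset.sum_ite_eq', Finset.mem_univ, if_true,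
    sum_cw] at h1
  rw [Finset.sum_comm] at h1
  simp only [Finset.sum_ite_eq', Finset.mem_univ, if_true, sum_cw] at h1
  rw [hf _ _ (LinearMap.charpoly_monic _) (LinearMap.charpoly_monic _), add_assoc, right_eq_add,
    av_top, mul_eq_zero] at h1
  exact h1.resolve_left (inv_ne_zero (by exact_mod_cast Fintype.card_ne_zero))

theorem prim_blk {f : F[X] → ℂ} (hf : Add f) [Nontrivial A] [Nontrivial B] (g₁ : End F A)
    (g₂ : End F B) : ∑ n, cu f (blk g₁ g₂ n) = 0 := prim_aux hf _ A B g₁ g₂ rfl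

end Cfsg.Agent.DG
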