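import Cfsg.Agent.Lib.DG.Cu3

/-!
Row CUSP, part 4: intrinsic primitivity, cyclic vectors, values on cyclic modules.
-/

set_option autoImplicit false

namespace Cfsg.Agent.DG

open Polynomial Module Cfsg.Agent.Char

open scoped Classical

variable {F : Type*} [Field F] {V V' : Type*} [AddCommGroup V] [Module F V]
  [AddCommGroup V'] [Module F V']

/-- the nilradical of the stabilizer of `W` -/
def NW (W : Submodule F V) : Submodule F (End F V) where
  carrier := {n | (∀ v, n v ∈ W) ∧ ∀ w ∈ W, n w = 0}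
  add_mem' ha hb := ⟨fun v => W.add_mem (ha.1 v) (hb.1 v), fun w hw => by
    rw [LinearMap.add_apply, ha.2 w hw, hb.2 w hw, add_zero]⟩
  zero_mem' := ⟨fun _ => W.zero_mem, fun _ _ => rfl⟩
  smul_mem' c _ ha := ⟨fun v => W.smul_mem c (ha.1 v), fun w hw => by
    rw [LinearMap.smul_apply, ha.2 w hw, smul_zero]⟩

theorem mem_NW {W : Submodule F V} {n : End F V} :
    n ∈ NW W ↔ (∀ v, n v ∈ W) ∧ ∀ w ∈ W, n w = 0 := Iff.rfl

theorem charpoly_equiv [Finite V] [Finite V'] {g : End F V} {g' : End F V'} (e : V ≃ₗ[F] V')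
    (hg : ∀ x, g' (e x) = e (g x)) : g'.charpoly = g.charpoly := by
  rw [← e.charpoly_conj]
  congr 1
  ext y
  obtain ⟨x, rfl⟩ := e.surjective y
  simp [hg]

theorem exists_blk {g : End F V} {W B : Submodule F V} (hW : Inv g W) (h : IsCompl W B) :
    ∃ (g₂ : End F B) (n₀ : B →ₗ[F] W) (π : NW W →+ (B →ₗ[F] W)), Function.Surjective π ∧
      ∀ (n : NW W) x, (g + n) (Submodule.prodEquivOfIsCompl W B h x) =
        Submodule.prodEquivOfIsCompl W B h (blk (g.restrict hW) g₂ (π n + n₀) x) := by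
  set e := Submodule.prodEquivOfIsCompl W B h with he
  let t : B →ₗ[F] W × B := e.symm.toLinearMap ∘ₗ g ∘ₗ B.subtype
  refine ⟨LinearMap.snd F W B ∘ₗ t, LinearMap.fst F W B ∘ₗ t,
    { toFun := fun n => (n.1 ∘ₗ B.subtype).codRestrict W fun b => n.2.1 b
      map_zero' := by ext; rfl
      map_add' := fun a b => by ext; rfl }, fun m => ?_, fun n x => ?_⟩
  · refine ⟨⟨W.subtype ∘ₗ m ∘ₗ LinearMap.snd F W B ∘ₗ e.symm.toLinearMap, fun v => (m _).2,
      fun w hw => ?_⟩, ?_⟩
    · have := (Submodule.prodEquivOfIsCompl_symm_apply_snd_eq_zero W B h).2 hw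
      change (m (e.symm w).2 : V) = 0
      rw [this, map_zero, Submodule.coe_zero]
    · ext b
      change (m (e.symm b).2 : V) = m b
      rw [Submodule.prodEquivOfIsCompl_symm_apply_right]
  · have h1 : ((t x.2).1 : V) + (t x.2).2 = g x.2 := e.apply_symm_apply (g x.2)
    have h2 := n.2.2 x.1 x.1.2
    change (g + n) (x.1 + x.2 : V) = (g x.1 + (n.1 x.2 + (t x.2).1) + (t x.2).2 : V)
    rw [LinearMap.add_apply, map_add, map_add, h2, ← h1]
    abel

variable [Finite V] [Finite V']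

theorem charpoly_add_NW {g : End F V} {W : Submodule F V} (hW : Inv g W) (n : NW W) :
    (g + n : End F V).charpoly = g.charpoly := by
  obtain ⟨B, h⟩ := W.exists_isCompl
  obtain ⟨g₂, n₀, π, -, h2⟩ := exists_blk hW h
  have h3 := charpoly_equiv _ (h2 0)
  rw [Submodule.coe_zero, add_zero] at h3
  rw [charpoly_equiv _ (h2 n), h3, charpoly_blk, charpoly_blk]

/-- primitivity -/
theorem prim_NW {f : F[X] → ℂ} (hf : Add f) {g : End F V} {W : Submodule F V} (hW : Inv g W)
    (h0 : W ≠ ⊥) (h1 : W ≠ ⊤) : ∑ n : NW W, cu f (g + n : End F V) = 0 := by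
  obtain ⟨B, h⟩ := W.exists_isCompl
  obtain ⟨g₂, n₀, π, hπ, h2⟩ := exists_blk hW h
  have := Submodule.nontrivial_iff_ne_bot.2 h0
  have : Nontrivial B := Submodule.nontrivial_iff_ne_bot.2 fun hB => h1 (by
    rw [hB] at h; exact eq_top_of_isCompl_bot h)
  have h3 := avg_surj π hπ fun m => cu f (blk (g.restrict hW) g₂ (Equiv.addRight n₀ m))
  rw [Equiv.sum_comp (Equiv.addRight n₀) fun m => cu f (blk (g.restrict hW) g₂ m), prim_blk hf,
    mul_zero, mul_eq_zero] at h3
  rw [← h3.resolve_left (inv_ne_zero (by exact_mod_cast Fintype.card_ne_zero))]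
  exact Finset.sum_congr rfl fun n _ => cu_equiv f _ (h2 n)

omit [Finite V]

/-- the cyclic subspace generated by a vector -/
def cyc (g : End F V) (v : V) : Submodule F V := sInf {W | Inv g W ∧ v ∈ W}

theorem inv_cyc (g : End F V) (v : V) : Inv g (cyc g v) := fun x hx => by
  rw [cyc, Submodule.mem_sInf] at hx ⊢
  exact fun W hW => hW.1 x (hx W hW)

theorem mem_cyc (g : End F V) (v : V) : v ∈ cyc g v := by
  rw [cyc, Submodule.mem_sInf]; exact fun W hW => hW.2

theorem cyc_le {g : End F V} {v : V} {W : Submodule F V} (h : Inv g W) (hv : v ∈ W) :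
    cyc g v ≤ W := sInf_le ⟨h, hv⟩

theorem cyc_add_of {g : End F V} {v : V} {W : Submodule F V} (n : NW W) (h : cyc g v = W) :
    cyc (g + n : End F V) v = W := by
  have h1 : cyc (g + n : End F V) v ≤ W := cyc_le (fun x hx =>
    W.add_mem (h ▸ inv_cyc g v x (h ▸ hx)) (n.2.1 x)) (h ▸ mem_cyc g v)
  refine le_antisymm h1 (h.symm.le.trans (cyc_le (fun x hx => ?_) (mem_cyc _ v)))
  have := inv_cyc _ v x hx
  rwa [LinearMap.add_apply, n.2.2 x (h1 hx), add_zero] at this

theorem cyc_add_iff {g : End F V} {v : V} {W : Submodule F V} (n : NW W) :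
    cyc (g + n : End F V) v = W ↔ cyc g v = W :=
  ⟨fun h => by simpa using cyc_add_of (-n) h, cyc_add_of n⟩

theorem cyc_eq_bot {g : End F V} {v : V} : cyc g v = ⊥ ↔ v = 0 :=
  ⟨fun h => by have := mem_cyc g v; rwa [h] at this,
    fun h => le_bot_iff.1 (cyc_le (inv_bot g) h)⟩

theorem count_cyc [Finite V] [Nontrivial V] {f : F[X] → ℂ} (hf : Add f) (Φ : F[X] → ℂ) :
    ((Nat.card V : ℂ) - 1) * ∑ g : End F V, cu f g * Φ g.charpoly =
      ∑ g : End F V, (Nat.card {v // cyc g v = ⊤} : ℂ) * (cu f g * Φ g.charpoly) := by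
  have := Fintype.ofFinite V
  have h1 : ∀ (v : V) (W : Submodule F V), W ≠ ⊥ → W ≠ ⊤ →
      ∑ g : End F V, (if cyc g v = W then cu f g * Φ g.charpoly else 0) = 0 := by
    intro v W h0 h1
    have hc : (Fintype.card (NW W) : ℂ) ≠ 0 := by exact_mod_cast Fintype.card_ne_zero
    apply mul_left_cancel₀ hc
    rw [mul_zero, ← nsmul_eq_mul, ← Finset.card_univ, ← Finset.sum_const]
    rw [Finset.sum_congr rfl fun (n : NW W) _ => (Equiv.sum_comp (Equiv.addRight (n : End F V))
      fun g => if cyc g v = W then cu f g * Φ g.charpoly else 0).symm, Finset.sum_comm]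
    refine Finset.sum_eq_zero fun g _ => ?_
    simp only [Equiv.coe_addRight, cyc_add_iff]
    split_ifs with h
    · have hW : Inv g W := h ▸ inv_cyc g v
      simp only [charpoly_add_NW hW]
      rw [← Finset.sum_mul, prim_NW hf hW h0 h1, zero_mul]
    · simp
  have h2 : ∀ v : V, ∑ g : End F V, cu f g * Φ g.charpoly =
      (if v = 0 then ∑ g : End F V, cu f g * Φ g.charpoly else 0) +
      ∑ g : End F V, if cyc g v = ⊤ then cu f g * Φ g.charpoly else 0 := fun v => by
    have h3 : ∑ g : End F V, cu f g * Φ g.charpoly = ∑ W : Submodule F V,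
        ∑ g : End F V, (if cyc g v = W then cu f g * Φ g.charpoly else 0) := by
      rw [Finset.sum_comm]; simp
    conv_lhs => rw [h3]
    rw [Finset.sum_eq_add (⊥ : Submodule F V) ⊤ bot_ne_top (fun W _ h => h1 v W h.1 h.2)
      (by simp) (by simp)]
    congr 1
    simp only [cyc_eq_bot]
    split_ifs <;> simp
  have h4 := Finset.sum_congr rfl fun v (_ : v ∈ Finset.univ) => h2 v
  rw [Finset.sum_add_distrib, Finset.sum_ite_eq', if_pos (Finset.mem_univ _), Finset.sum_const,
    Finset.card_univ, nsmul_eq_mul, Finset.sum_comm] at h4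
  rw [sub_mul, one_mul, Nat.card_eq_fintype_card, h4, add_sub_cancel_left]
  refine Finset.sum_congr rfl fun g _ => ?_
  rw [← Finset.sum_filter, Finset.sum_const, nsmul_eq_mul, Nat.card_eq_fintype_card,
    Fintype.card_subtype]

section Adj

/-- multiplication by the root -/
noncomputable def mr (h : F[X]) : End F (AdjoinRoot h) := LinearMap.mulLeft F (AdjoinRoot.root h)

theorem mr_mk (h p : F[X]) : mr h (AdjoinRoot.mk h p) = AdjoinRoot.mk h (X * p) := by
  rw [map_mul]; rfl

/-- a linear map out of `AdjoinRoot h` -/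
noncomputable def adjLift {h : F[X]} (hm : h.Monic) (L : F[X] →ₗ[F] V) : AdjoinRoot h →ₗ[F] V :=
  L ∘ₗ AdjoinRoot.modByMonicHom hm

theorem adjLift_mk {h : F[X]} (hm : h.Monic) {L : F[X] →ₗ[F] V} (hL : ∀ p, L (h * p) = 0)
    (p : F[X]) : adjLift hm L (AdjoinRoot.mk h p) = L p := by
  rw [adjLift, LinearMap.comp_apply, AdjoinRoot.modByMonicHom_mk, modByMonic_eq_sub_mul_div,
    map_sub, hL, sub_zero]

theorem finrank_adj {h : F[X]} (hm : h.Monic) : finrank F (AdjoinRoot h) = h.natDegree :=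
  (AdjoinRoot.powerBasis' hm).finrank

variable [Finite F]

scoped instance finiteAdj (h : F[X]) [hm : Fact h.Monic] : Finite (AdjoinRoot h) :=
  have := hm.out.finite_adjoinRoot
  Module.finite_of_finite F

theorem charpoly_mr (h : F[X]) [hm : Fact h.Monic] : (mr h).charpoly = h := by
  have h1 := charpoly_leftMulMatrix (AdjoinRoot.powerBasis' hm.out)
  rw [Algebra.leftMulMatrix_apply, LinearMap.charpoly_toMatrix, AdjoinRoot.powerBasis'_gen,
    AdjoinRoot.minpoly_root hm.out.ne_zero, hm.out.leadingCoeff, inv_one, C_1, mul_one] at h1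
  exact h1

omit [Finite F] in
theorem exists_equiv_of_cyc [Finite V] {g : End F V} {v : V} (hv : cyc g v = ⊤) :
    ∃ e : AdjoinRoot g.charpoly ≃ₗ[F] V, (∀ x, g (e x) = e (mr _ x)) ∧ e 1 = v := by
  have hm := g.charpoly_monic
  let L : F[X] →ₗ[F] V := LinearMap.applyₗ v ∘ₗ (aeval g).toLinearMap
  have hL : ∀ p, L p = aeval g p v := fun _ => rfl
  have h0 : ∀ p, L (g.charpoly * p) = 0 := fun p => by
    rw [hL, map_mul, LinearMap.aeval_self_charpoly, zero_mul, LinearMap.zero_apply]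
  have h1 : ∀ x, g (adjLift hm L x) = adjLift hm L (mr _ x) := fun x => by
    obtain ⟨p, rfl⟩ := AdjoinRoot.mk_surjective x
    rw [mr_mk, adjLift_mk hm h0, adjLift_mk hm h0, hL, hL, map_mul, aeval_X, End.mul_apply]
  have h2 : adjLift hm L 1 = v := by
    rw [← map_one (AdjoinRoot.mk _), adjLift_mk hm h0, hL, map_one, End.one_apply]
  have h3 : Function.Surjective (adjLift hm L) := by
    rw [← LinearMap.range_eq_top, eq_top_iff, ← hv]
    refine cyc_le ?_ ⟨1, h2⟩
    rintro _ ⟨x, rfl⟩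
    exact ⟨_, (h1 x).symm⟩
  have := hm.finite_adjoinRoot
  refine ⟨LinearEquiv.ofBijective _ ⟨?_, h3⟩, h1, h2⟩
  exact (LinearMap.injective_iff_surjective_of_finrank_eq_finrank
    (by rw [finrank_adj hm, LinearMap.charpoly_natDegree])).2 h3

omit [Finite F] in
theorem mul_mem_of_inv {h : F[X]} {U : Submodule F (AdjoinRoot h)} (hU : Inv (mr h) U)
    (p : F[X]) : ∀ x ∈ U, AdjoinRoot.mk h p * x ∈ U := by
  induction p using Polynomial.induction_on with
  | C a =>
    intro x hx
    have := U.smul_mem a hx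
    rwa [Algebra.smul_def] at this
  | add p q hp hq =>
    intro x hx
    rw [map_add, add_mul]
    exact U.add_mem (hp x hx) (hq x hx)
  | monomial n a ih =>
    intro x hx
    rw [pow_succ, ← mul_assoc, map_mul, mul_assoc]
    exact ih _ (hU x hx)

omit [Finite F] in
theorem cyc_mr (h : F[X]) : cyc (mr h) 1 = ⊤ := by
  rw [eq_top_iff]
  intro x _
  obtain ⟨p, rfl⟩ := AdjoinRoot.mk_surjective x
  simpa using mul_mem_of_inv (inv_cyc _ _) p 1 (mem_cyc _ _)

/-- the embedding attached to a factorization -/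
noncomputable def emb {e : F[X]} (he : e.Monic) (d h : F[X]) : AdjoinRoot e →ₗ[F] AdjoinRoot h :=
  adjLift he ((AdjoinRoot.mkₐ h).toLinearMap ∘ₗ LinearMap.mulLeft F d)

omit [Finite F] in
theorem emb_mk {e d h : F[X]} (he : e.Monic) (hh : h = e * d) (p : F[X]) :
    emb he d h (AdjoinRoot.mk e p) = AdjoinRoot.mk h (d * p) := by
  rw [emb, adjLift_mk he]
  · rfl
  · intro p
    change AdjoinRoot.mk h (d * (e * p)) = 0
    rw [AdjoinRoot.mk_eq_zero, hh]
    exact ⟨p, by ring⟩

omit [Finite F] in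
theorem emb_inj {e d h : F[X]} (he : e.Monic) (hh : h = e * d) (hd : d ≠ 0) :
    Function.Injective (emb he d h) := by
  rw [injective_iff_map_eq_zero]
  intro x hx
  obtain ⟨p, rfl⟩ := AdjoinRoot.mk_surjective x
  rw [emb_mk he hh, AdjoinRoot.mk_eq_zero, hh, mul_comm e] at hx
  exact AdjoinRoot.mk_eq_zero.2 ((mul_dvd_mul_iff_left hd).1 hx)

omit [Finite F] in
theorem emb_comm {e d h : F[X]} (he : e.Monic) (hh : h = e * d) (x : AdjoinRoot e) :
    mr h (emb he d h x) = emb he d h (mr e x) := by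
  obtain ⟨p, rfl⟩ := AdjoinRoot.mk_surjective x
  rw [mr_mk, emb_mk he hh, emb_mk he hh, mr_mk, mul_left_comm]

omit [Finite F] in
theorem exists_emb {h : F[X]} (hm : h.Monic) {U : Submodule F (AdjoinRoot h)}
    (hU : Inv (mr h) U) : ∃ (e d : F[X]) (he : e.Monic), h = e * d ∧ d ≠ 0 ∧
      U = LinearMap.range (emb he d h) := by
  let I : Ideal F[X] :=
    { carrier := {p | AdjoinRoot.mk h p ∈ U}
      add_mem' := fun {a b} ha hb => by
        change AdjoinRoot.mk h (a + b) ∈ U
        rw [map_add]; exact U.add_mem ha hb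
      zero_mem' := by change AdjoinRoot.mk h 0 ∈ U; rw [map_zero]; exact U.zero_mem
      smul_mem' := fun c x hx => by
        change AdjoinRoot.mk h (c * x) ∈ U
        rw [map_mul]; exact mul_mem_of_inv hU c _ hx }
  have hI : ∀ p, p ∈ I ↔ AdjoinRoot.mk h p ∈ U := fun _ => Iff.rfl
  obtain ⟨d₀, hd₀⟩ := (IsPrincipalIdealRing.principal I).principal
  have hI' : ∀ p, p ∈ I ↔ d₀ ∣ p := fun p => by
    rw [hd₀]; exact Ideal.mem_span_singleton
  obtain ⟨e₀, he₀⟩ := (hI' h).1 (by rw [hI, AdjoinRoot.mk_self]; exact U.zero_mem)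
  have h0 : e₀ ≠ 0 := fun e => hm.ne_zero (by rw [he₀, e, mul_zero])
  have hl : e₀.leadingCoeff ≠ 0 := leadingCoeff_ne_zero.2 h0
  have hh : h = e₀ * C e₀.leadingCoeff⁻¹ * (C e₀.leadingCoeff * d₀) := by
    rw [mul_assoc, ← mul_assoc (C _), ← C_mul, inv_mul_cancel₀ hl, C_1, one_mul, mul_comm, ← he₀]
  refine ⟨_, _, monic_mul_leadingCoeff_inv h0, hh, fun e => hm.ne_zero (by rw [hh, e, mul_zero]), ?_⟩
  ext x
  obtain ⟨p, rfl⟩ := AdjoinRoot.mk_surjective x
  constructor
  · intro hp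
    obtain ⟨r, rfl⟩ := (hI' p).1 hp
    refine ⟨AdjoinRoot.mk _ (C e₀.leadingCoeff⁻¹ * r), ?_⟩
    rw [emb_mk _ hh]
    congr 1
    rw [mul_mul_mul_comm, ← C_mul, mul_inv_cancel₀ hl, C_1, one_mul]
  · rintro ⟨y, hy⟩
    obtain ⟨r, rfl⟩ := AdjoinRoot.mk_surjective y
    rw [← hy, emb_mk _ hh, ← hI, hI']
    exact ⟨C e₀.leadingCoeff * r, by ring⟩

theorem finite_natDegree_le (k : ℕ) : {p : F[X] | p.natDegree ≤ k}.Finite := by
  have : Finite (degreeLT F (k + 1)) := Module.finite_of_finite F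
  refine (Set.toFinite (degreeLT F (k + 1) : Set F[X])).subset fun p hp => ?_
  rw [SetLike.mem_coe, mem_degreeLT]
  exact degree_le_natDegree.trans_lt (by exact_mod_cast Nat.lt_succ_of_le hp)

/-- monic divisors -/
noncomputable def dv (h : F[X]) : Finset F[X] :=
  (finite_natDegree_le h.natDegree).toFinset.filter fun e => e.Monic ∧ e ∣ h

theorem mem_dv {h e : F[X]} (h0 : h ≠ 0) : e ∈ dv h ↔ e.Monic ∧ e ∣ h := by
  simp only [dv, Finset.mem_filter, Set.Finite.mem_toFinset, Set.mem_ofPred_eq, and_iff_right_iff_imp]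
  exact fun he => natDegree_le_of_dvd he.2 h0

/-- value on a cyclic module -/
noncomputable def cc (f : F[X] → ℂ) (e : F[X]) : ℂ :=
  if he : e.Monic then (haveI := Fact.mk he; cu f (mr e)) else 0

theorem cc_eq (f : F[X] → ℂ) (e : F[X]) [he : Fact e.Monic] : cc f e = cu f (mr e) :=
  dif_pos he.out

theorem sum_cc (f : F[X] → ℂ) {h : F[X]} (hm : h.Monic) : ∑ e ∈ dv h, cc f e = f h := by
  have := Fact.mk hm
  conv_rhs => rw [← charpoly_mr h, ← sum_cw f, ← Finset.sum_filter]
  symm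
  have key : ∀ {e d : F[X]} (he : e.Monic), h = e * d → d ≠ 0 →
      cp (mr h) (LinearMap.range (emb he d h)) = e := fun {e d} he hh hd => by
    have := Fact.mk he
    rw [← Submodule.map_top, cp_map (emb_inj he hh hd) (emb_comm he hh) (inv_top _), cp_top,
      charpoly_mr]
  refine Finset.sum_bij (fun U _ => cp (mr h) U) ?_ ?_ ?_ ?_
  · intro U hU
    obtain ⟨e, d, he, hh, hd, rfl⟩ := exists_emb hm (Finset.mem_filter.1 hU).2
    rw [key he hh hd, mem_dv hm.ne_zero]
    exact ⟨he, d, hh⟩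
  · intro U hU U' hU' hUU
    obtain ⟨e, d, he, hh, hd, rfl⟩ := exists_emb hm (Finset.mem_filter.1 hU).2
    obtain ⟨e', d', he', hh', hd', rfl⟩ := exists_emb hm (Finset.mem_filter.1 hU').2
    simp only [key he hh hd, key he' hh' hd'] at hUU
    subst hUU
    rw [mul_left_cancel₀ he.ne_zero (hh.symm.trans hh')]
  · intro e he
    obtain ⟨he, d, hh⟩ := (mem_dv hm.ne_zero).1 he
    have hd : d ≠ 0 := fun e => hm.ne_zero (by rw [hh, e, mul_zero])
    refine ⟨LinearMap.range (emb he d h), ?_, key he hh hd⟩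
    rw [Finset.mem_filter, ← Submodule.map_top]
    exact ⟨Finset.mem_univ _, inv_map (emb_comm he hh) (inv_top _)⟩
  · intro U hU
    obtain ⟨e, d, he, hh, hd, rfl⟩ := exists_emb hm (Finset.mem_filter.1 hU).2
    have := Fact.mk he
    rw [key he hh hd, cw_range f (emb_inj he hh hd) (emb_comm he hh), cc_eq]

theorem cu_of_cyc [Finite V] (f : F[X] → ℂ) {g : End F V} {v : V} (hv : cyc g v = ⊤) :
    cu f g = cc f g.charpoly := by
  obtain ⟨e, he, -⟩ := exists_equiv_of_cyc hv
  have := Fact.mk g.charpoly_monic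
  rw [cc_eq, cu_equiv f e he]

end Adj

end Cfsg.Agent.DG
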