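import Cfsg.Agent.Lib.DG.Cu4

/-!
Row CUSP, part 5: the von Mangoldt function and the inner product formula.
-/

set_option autoImplicit false

namespace Cfsg.Agent.DG

open Polynomial Module Cfsg.Agent.Char

open scoped Classical

variable {F : Type*} [Field F]

/-- prime powers -/
def PP (e φ : F[X]) : Prop := φ.Monic ∧ Irreducible φ ∧ ∃ j, e = φ ^ (j + 1)

theorem PP.unique {e φ ψ : F[X]} (h : PP e φ) (h' : PP e ψ) : φ = ψ := by
  obtain ⟨m, i, j, rfl⟩ := h
  obtain ⟨m', i', j', h⟩ := h'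
  have : φ ∣ ψ := i.prime.dvd_of_dvd_pow (h ▸ dvd_pow_self φ (Nat.succ_ne_zero j))
  exact eq_of_monic_of_associated m m' (i.associated_of_dvd i' this)

/-- von Mangoldt function -/
noncomputable def vm (f : F[X] → ℂ) (e : F[X]) : ℂ := if h : ∃ φ, PP e φ then f h.choose else 0

theorem vm_of_pp (f : F[X] → ℂ) {e φ : F[X]} (h : PP e φ) : vm f e = f φ := by
  have h' : ∃ φ, PP e φ := ⟨φ, h⟩
  rw [vm, dif_pos h', h'.choose_spec.unique h]

theorem vm_of_not (f : F[X] → ℂ) {e : F[X]} (h : ¬ ∃ φ, PP e φ) : vm f e = 0 := dif_neg h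

theorem Add.pow {f : F[X] → ℂ} (hf : Add f) {φ : F[X]} (hφ : φ.Monic) (j : ℕ) :
    f (φ ^ j) = j * f φ := by
  induction j with
  | zero => simp [hf.one]
  | succ j ih => rw [pow_succ, hf _ _ (hφ.pow j) hφ, ih]; push_cast; ring

variable [Finite F]

theorem sum_vm {f : F[X] → ℂ} (hf : Add f) (n : ℕ) : ∀ h : F[X], h.Monic → h.natDegree = n →
    ∑ e ∈ dv h, vm f e = f h := by
  induction n using Nat.strong_induction_on with
  | _ n ih =>
  intro h hm hn
  by_cases hu : IsUnit h
  · obtain rfl := hm.isUnit_iff.1 hu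
    rw [hf.one]
    refine Finset.sum_eq_zero fun e he => vm_of_not f ?_
    rintro ⟨φ, -, hi, j, rfl⟩
    exact hi.not_isUnit (isUnit_of_dvd_one
      ((dvd_pow_self φ (Nat.succ_ne_zero j)).trans ((mem_dv one_ne_zero).1 he).2))
  obtain ⟨φ, hφ, hi, h', rfl⟩ := exists_monic_irreducible_factor h hu
  have hm' : h'.Monic := hφ.of_mul_monic_left hm
  have hsub : dv h' ⊆ dv (φ * h') := fun e he => by
    rw [mem_dv hm'.ne_zero] at he
    exact (mem_dv hm.ne_zero).2 ⟨he.1, he.2.mul_left _⟩
  have hlt : h'.natDegree < n := by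
    rw [← hn, hφ.natDegree_mul hm']
    have := hi.natDegree_pos
    omega
  rw [← Finset.sum_sdiff hsub, ih _ hlt h' hm' rfl, hf _ _ hφ hm']
  congr 1
  obtain ⟨m, u, hu', rfl⟩ := WfDvdMonoid.max_power_factor hm'.ne_zero hi
  have hnd : ¬ φ ^ (m + 1) ∣ φ ^ m * u := fun h => hu' (by
    rw [pow_succ] at h
    exact (mul_dvd_mul_iff_left (pow_ne_zero m hφ.ne_zero)).1 h)
  rw [Finset.sum_eq_single (φ ^ (m + 1)), vm_of_pp f ⟨hφ, hi, m, rfl⟩]
  · intro e he hne
    refine vm_of_not f ?_
    rintro ⟨ψ, hψ, hi', j, rfl⟩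
    rw [Finset.mem_sdiff, mem_dv hm.ne_zero, mem_dv hm'.ne_zero] at he
    obtain ⟨⟨h1, h2⟩, h3⟩ := he
    refine h3 ⟨h1, ?_⟩
    by_cases e : ψ = φ
    · subst e
      rcases lt_trichotomy j m with h | h | h
      · exact (pow_dvd_pow ψ h).mul_right u
      · exact absurd (by rw [h]) hne
      · exfalso
        apply hnd
        have h4 : ψ ^ (m + 1 + 1) ∣ ψ * (ψ ^ m * u) := (pow_dvd_pow ψ (by omega)).trans h2
        rw [pow_succ'] at h4
        exact (mul_dvd_mul_iff_left hψ.ne_zero).1 h4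
    · have : IsCoprime ψ φ := (hi'.coprime_iff_not_dvd).2 fun h =>
        e (eq_of_monic_of_associated hψ hφ (hi'.associated_of_dvd hi h))
      exact this.pow_left.dvd_of_dvd_mul_left h2
  · intro h
    exfalso
    apply h
    rw [Finset.mem_sdiff, mem_dv hm.ne_zero, mem_dv hm'.ne_zero]
    exact ⟨⟨hφ.pow _, u, by ring⟩, fun h => hnd h.2⟩

theorem cc_eq_vm {f : F[X] → ℂ} (hf : Add f) (n : ℕ) : ∀ h : F[X], h.Monic → h.natDegree = n →
    cc f h = vm f h := by
  induction n using Nat.strong_induction_on with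
  | _ n ih =>
  intro h hm hn
  have h1 := (sum_cc f hm).trans (sum_vm hf n h hm hn).symm
  have hh : h ∈ dv h := (mem_dv hm.ne_zero).2 ⟨hm, dvd_rfl⟩
  rw [← Finset.add_sum_erase _ _ hh, ← Finset.add_sum_erase _ _ hh,
    Finset.sum_congr rfl fun e he => ?_] at h1
  · exact add_right_cancel h1
  · obtain ⟨h2, h3⟩ := Finset.mem_erase.1 he
    obtain ⟨h3, h4⟩ := (mem_dv hm.ne_zero).1 h3
    refine ih _ ?_ e h3 rfl
    by_contra hc
    exact h2 (eq_of_monic_of_dvd_of_natDegree_le h3 hm h4 (by omega)).symm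

variable {V : Type*} [AddCommGroup V] [Module F V] [Finite V]

theorem cu_of_cyc' {f : F[X] → ℂ} (hf : Add f) {g : End F V} {v : V} (hv : cyc g v = ⊤) :
    cu f g = vm f g.charpoly :=
  (cu_of_cyc f hv).trans (cc_eq_vm hf _ _ g.charpoly_monic rfl)

theorem card_pairs {h : F[X]} (hm : h.Monic) (hk : h.natDegree = finrank F V) :
    Nat.card {p : End F V × V // p.1.charpoly = h ∧ cyc p.1 p.2 = ⊤} = Nat.card (End F V)ˣ := by
  have := Fact.mk hm
  let e₀ : AdjoinRoot h ≃ₗ[F] V := LinearEquiv.ofFinrankEq _ _ (by rw [finrank_adj hm, hk])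
  have h1 : Nat.card (End F V)ˣ = Nat.card (AdjoinRoot h ≃ₗ[F] V) := by
    refine (Nat.card_congr (LinearMap.GeneralLinearGroup.generalLinearEquiv F V).toEquiv).trans
      (Nat.card_congr ⟨fun e => e₀.trans e, fun e => e₀.symm.trans e, fun e => ?_, fun e => ?_⟩)
    · ext x; simp
    · ext x; simp
  rw [h1]
  symm
  have hc : ∀ (e : AdjoinRoot h ≃ₗ[F] V) x, e.conj (mr h) (e x) = e (mr h x) := fun e x => by
    simp [LinearEquiv.conj_apply]
  refine Nat.card_eq_of_bijective (fun e => ⟨(e.conj (mr h), e 1), ?_, ?_⟩) ⟨?_, ?_⟩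
  · rw [LinearEquiv.charpoly_conj, charpoly_mr]
  · have h2 : cyc (mr h) 1 ≤ (cyc (e.conj (mr h)) (e 1)).comap (e : AdjoinRoot h →ₗ[F] V) :=
      cyc_le (inv_comap (hc e) (inv_cyc _ _)) (mem_cyc _ _)
    rw [cyc_mr] at h2
    rw [eq_top_iff]
    intro y _
    obtain ⟨x, rfl⟩ := e.surjective y
    exact h2 trivial
  · intro e e' hee
    have h2 := congrArg Subtype.val hee
    simp only [Prod.mk.injEq] at h2
    have h3 : cyc (mr h) 1 ≤ LinearMap.eqLocus (e : AdjoinRoot h →ₗ[F] V) e' := by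
      refine cyc_le (fun x hx => ?_) h2.2
      change e (mr h x) = e' (mr h x)
      rw [← hc, ← hc, h2.1]
      exact congrArg _ hx
    rw [cyc_mr] at h3
    ext x
    exact h3 (show x ∈ ⊤ from trivial)
  · rintro ⟨⟨g, v⟩, rfl, hv⟩
    obtain ⟨e, he, he1⟩ := exists_equiv_of_cyc hv
    refine ⟨e, Subtype.ext (Prod.ext ?_ he1)⟩
    ext y
    obtain ⟨x, rfl⟩ := e.surjective y
    exact (hc e x).trans (he x).symm

variable (F) in
/-- monic polynomials of degree `k` -/
noncomputable def mk (k : ℕ) : Finset F[X] :=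
  (finite_natDegree_le k).toFinset.filter fun e => e.Monic ∧ e.natDegree = k

theorem mem_mk {k : ℕ} {e : F[X]} : e ∈ mk F k ↔ e.Monic ∧ e.natDegree = k := by
  simp only [mk, Finset.mem_filter, Set.Finite.mem_toFinset, Set.mem_ofPred_eq,
    and_iff_right_iff_imp]
  exact fun he => he.2.le

theorem sum_cu_eq [Nontrivial V] {f : F[X] → ℂ} (hf : Add f) (Φ : F[X] → ℂ) :
    ((Nat.card V : ℂ) - 1) * ∑ g : End F V, cu f g * Φ g.charpoly =
      Nat.card (End F V)ˣ * ∑ h ∈ mk F (finrank F V), vm f h * Φ h := by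
  have := Fintype.ofFinite V
  rw [count_cyc hf, ← Finset.sum_fiberwise_of_maps_to (t := mk F (finrank F V))
    (g := fun g : End F V => g.charpoly)
    (fun g _ => mem_mk.2 ⟨g.charpoly_monic, g.charpoly_natDegree⟩), Finset.mul_sum]
  refine Finset.sum_congr rfl fun h hh => ?_
  rw [← card_pairs (mem_mk.1 hh).1 (mem_mk.1 hh).2, Nat.card_eq_fintype_card, Fintype.card_subtype,
    Finset.card_filter, Fintype.sum_prod_type, Finset.sum_filter]
  push_cast
  rw [Finset.sum_mul]
  refine Finset.sum_congr rfl fun g _ => ?_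
  split_ifs with hg
  · subst hg
    rw [Nat.card_eq_fintype_card, Fintype.card_subtype, Finset.card_filter]
    push_cast
    rw [Finset.sum_mul, Finset.sum_mul]
    refine Finset.sum_congr rfl fun v _ => ?_
    by_cases hv : cyc g v = ⊤
    · simp [hv, cu_of_cyc' hf hv]
    · simp [hv]
  · simp [hg]

omit [Finite F] in
theorem sum_smul_orbit {H X : Type*} [Group H] [Fintype H] [Fintype X] [MulAction H X] (x₀ : X)
    (A : X → ℂ) : ∑ k : H, A (k • x₀) = Nat.card (MulAction.stabilizer H x₀) *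
      ∑ x, if x ∈ MulAction.orbit H x₀ then A x else 0 := by
  rw [← Finset.sum_fiberwise (s := Finset.univ) (g := fun k : H => k • x₀), Finset.mul_sum]
  refine Finset.sum_congr rfl fun x _ => ?_
  rw [Finset.sum_congr rfl (g := fun _ => A x)
    (fun k hk => by rw [(Finset.mem_filter.1 hk).2]), Finset.sum_const, nsmul_eq_mul]
  split_ifs with hx
  · obtain ⟨k₁, rfl⟩ := hx
    congr 2
    rw [← Fintype.card_subtype, ← Nat.card_eq_fintype_card]
    refine Nat.card_congr ((Equiv.mulLeft k₁⁻¹).subtypeEquiv fun k => ?_)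
    simp [mul_smul, inv_smul_eq_iff]
  · rw [Finset.filter_false_of_mem, Finset.card_empty, Nat.cast_zero, zero_mul, mul_zero]
    rintro k - rfl
    exact hx ⟨k, rfl⟩

section Gal

variable {E K : Type*} [Field E] [Fintype E] [Algebra F E] [Field K] [Algebra F K] [Algebra E K]
  [IsScalarTower F E K]

theorem rs_minpoly (a : K → ℂ) (x : E) : rs a (minpoly F x) =
    ∑ y, if y ∈ MulAction.orbit Gal(E/F) x then a (algebraMap E K y) else 0 := by
  have hs : ((minpoly F x).map (algebraMap F E)).Splits := Normal.splits inferInstance x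
  have hsep : (minpoly F x).Separable := Algebra.IsSeparable.isSeparable F x
  have hi := fun y : E => Algebra.IsIntegral.isIntegral (R := F) y
  have h1 : ((minpoly F x).map (algebraMap F E)).roots =
      (Finset.univ.filter fun y => y ∈ MulAction.orbit Gal(E/F) x).val := by
    rw [Multiset.Nodup.ext (nodup_roots hsep.map) (Finset.nodup _)]
    intro y
    rw [mem_roots (map_ne_zero (minpoly.ne_zero (hi x))), IsRoot.def, eval_map_algebraMap,
      Finset.mem_val, Finset.mem_filter, ← Normal.minpoly_eq_iff_mem_orbit]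
    simp only [Finset.mem_univ, true_and]
    exact ⟨fun h => (minpoly.eq_of_irreducible_of_monic (minpoly.irreducible (hi x)) h
      (minpoly.monic (hi x))).symm, fun h => h ▸ minpoly.aeval F y⟩
  rw [rs, aroots_def, IsScalarTower.algebraMap_eq F E K, ← map_map, hs.roots_map,
    Multiset.map_map, h1, ← Finset.sum_filter]
  rfl

theorem stab_mul_deg (x : E) :
    Nat.card (MulAction.stabilizer Gal(E/F) x) * (minpoly F x).natDegree = finrank F E := by
  have h1 := sum_smul_orbit (H := Gal(E/F)) x fun _ => 1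
  have h2 := rs_minpoly (F := F) (K := E) (fun _ => 1) x
  have hs : ((minpoly F x).map (algebraMap F E)).Splits := Normal.splits inferInstance x
  rw [← h2, rs, Multiset.map_const', Multiset.sum_replicate, aroots_def,
    ← hs.natDegree_eq_card_roots, natDegree_map, Finset.sum_const, Finset.card_univ,
    ← Nat.card_eq_fintype_card, IsGalois.card_aut_eq_finrank] at h1
  simp only [nsmul_eq_mul, mul_one] at h1
  exact_mod_cast h1.symm

variable (F) in
/-- the characteristic polynomial of an element -/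
noncomputable def hp (x : E) : F[X] := minpoly F x ^ Nat.card (MulAction.stabilizer Gal(E/F) x)

theorem hp_mem (x : E) : hp F x ∈ mk F (finrank F E) := by
  have hm := minpoly.monic (Algebra.IsIntegral.isIntegral (R := F) x)
  rw [mem_mk, hp, hm.natDegree_pow, stab_mul_deg]
  exact ⟨hm.pow _, rfl⟩

omit [Finite F] in
theorem pp_hp (x : E) : PP (hp F x) (minpoly F x) := by
  have hi := Algebra.IsIntegral.isIntegral (R := F) x
  refine ⟨minpoly.monic hi, minpoly.irreducible hi,
    Nat.card (MulAction.stabilizer Gal(E/F) x) - 1, ?_⟩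
  rw [Nat.sub_add_cancel Nat.card_pos, hp]

theorem rs_hp (b : K → ℂ) (x : E) :
    rs b (hp F x) = ∑ σ : Gal(E/F), b (algebraMap E K (σ x)) := by
  rw [hp, (add_rs b).pow (minpoly.monic (Algebra.IsIntegral.isIntegral (R := F) x)), rs_minpoly]
  exact (sum_smul_orbit (H := Gal(E/F)) x fun y => b (algebraMap E K y)).symm

theorem sum_vm_gal {a : K → ℂ} (ha : a 0 = 0) (b : K → ℂ) :
    ∑ h ∈ mk F (finrank F E), vm (rs a) h * (if h.coeff 0 ≠ 0 then rs b h else 0) =
      ∑ σ : Gal(E/F), ∑ x : E, a (algebraMap E K x) * b (algebraMap E K (σ x)) := by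
  rw [Finset.sum_comm, ← Finset.sum_fiberwise_of_maps_to (t := mk F (finrank F E))
    (g := fun x : E => hp F x) (fun x _ => hp_mem x)]
  refine Finset.sum_congr rfl fun h hh => ?_
  simp only [← Finset.mul_sum, ← rs_hp]
  rw [Finset.sum_congr rfl (g := fun x => a (algebraMap E K x) * rs b h)
    (fun x hx => by rw [(Finset.mem_filter.1 hx).2]), ← Finset.sum_mul]
  by_cases hpp : ∃ φ, PP h φ
  · obtain ⟨φ, hφ⟩ := hpp
    rw [vm_of_pp _ hφ]
    have hφ' := hφ
    obtain ⟨hm, hi, j, hj⟩ := hφ'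
    have hd : (j + 1) * φ.natDegree = finrank F E := by
      rw [← (mem_mk.1 hh).2, hj, hm.natDegree_pow]
    have := Fact.mk hi
    have := Fact.mk hm
    obtain ⟨ι⟩ : Nonempty (AdjoinRoot φ →ₐ[F] E) := FiniteField.nonempty_algHom_of_finrank_dvd
      (by rw [finrank_adj hm, ← hd]; exact dvd_mul_left _ _)
    have hx : φ = minpoly F (ι (AdjoinRoot.root φ)) :=
      minpoly.eq_of_irreducible_of_monic hi
        (by rw [aeval_algHom_apply, AdjoinRoot.aeval_eq, AdjoinRoot.mk_self, map_zero]) hm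
    have h1 : ∑ x with hp F x = h, a (algebraMap E K x) = rs a φ := by
      rw [hx, rs_minpoly, Finset.sum_filter]
      refine Finset.sum_congr rfl fun y _ => if_congr ?_ rfl rfl
      rw [← Normal.minpoly_eq_iff_mem_orbit, ← hx]
      constructor
      · intro hy
        exact (hy ▸ pp_hp y).unique hφ
      · intro hy
        have h2 := stab_mul_deg (F := F) y
        rw [hy, ← hd] at h2
        rw [hp, hy, Nat.eq_of_mul_eq_mul_right hi.natDegree_pos h2, hj]
    rw [h1]
    split_ifs with h0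
    · rfl
    · rw [not_not, ← X_dvd_iff, hj] at h0
      have h2 : (X : F[X]) = φ := eq_of_monic_of_associated monic_X hm
        (irreducible_X.associated_of_dvd hi (prime_X.dvd_of_dvd_pow h0))
      simp [← h2, rs, ha]
  · rw [vm_of_not _ hpp, zero_mul, Finset.filter_false_of_mem, Finset.sum_empty, zero_mul]
    rintro x - rfl
    exact hpp ⟨_, pp_hp x⟩

/-- pull back of a multiplicative character -/
noncomputable def pull (θ : MulChar K ℂ) (ι : E →+* K) : MulChar E ℂ where
  toFun x := θ (ι x)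
  map_one' := by simp
  map_mul' x y := by simp
  map_nonunit' x hx := by
    rw [isUnit_iff_ne_zero, not_not] at hx
    simp [hx, θ.map_zero]

omit [Finite F] [Algebra F K] [IsScalarTower F E K] in
theorem sum_orth (θ θ' : MulChar K ℂ) (σ : Gal(E/F)) :
    ∑ x : E, θ (algebraMap E K x) * θ'⁻¹ (algebraMap E K (σ x)) =
      if ∀ x : E, θ (algebraMap E K x) = θ' (algebraMap E K (σ x)) then
        (Nat.card E : ℂ) - 1 else 0 := by
  let χ := pull θ (algebraMap E K)
  let χ' := pull θ' ((algebraMap E K).comp (σ : E →+* E))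
  have h1 : ∀ x, θ (algebraMap E K x) * θ'⁻¹ (algebraMap E K (σ x)) = (χ * χ'⁻¹) x := fun x => by
    rw [MulChar.mul_apply, MulChar.inv_apply_eq_inv', MulChar.inv_apply_eq_inv']
    rfl
  simp only [h1]
  split_ifs with h
  · have : χ = χ' := MulChar.ext' h
    rw [this, mul_inv_cancel, MulChar.sum_one_eq_card_units, Fintype.card_units,
      Nat.card_eq_fintype_card, Nat.cast_sub Fintype.card_pos, Nat.cast_one]
  · refine MulChar.sum_eq_zero_of_ne_one fun e => h fun x => ?_
    rw [mul_inv_eq_one] at e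
    exact DFunLike.congr_fun e x

omit [Finite F] in
theorem sum_units_eq (φ : End F V → ℂ) :
    ∑ g : (End F V)ˣ, φ g = ∑ g : End F V, if g.charpoly.coeff 0 ≠ 0 then φ g else 0 := by
  rw [← Finset.sum_filter]
  have h : ∀ g : End F V, g.charpoly.coeff 0 ≠ 0 ↔ IsUnit g := fun g => by
    rw [LinearMap.isUnit_iff_isUnit_det, LinearMap.det_eq_sign_charpoly_coeff, isUnit_iff_ne_zero]
    simp
  refine Finset.sum_bij (fun g _ => (g : End F V)) ?_ (fun a _ b _ h => Units.ext h) ?_
    (fun _ _ => rfl)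
  · intro g _
    simp only [Finset.mem_filter, Finset.mem_univ, true_and, h, Units.isUnit]
  · intro g hg
    obtain ⟨u, rfl⟩ := (h g).1 (Finset.mem_filter.1 hg).2
    exact ⟨u, Finset.mem_univ _, rfl⟩

/-- The inner product formula. -/
theorem inner_cu_rs [Fintype K] [Nontrivial V] (hk : finrank F E = finrank F V)
    (θ θ' : MulChar K ℂ) :
    classInner (fun g : (End F V)ˣ => cu (rs θ) (g : End F V))
      (fun g => rs θ' (g : End F V).charpoly) =
      Nat.card {σ : Gal(E/F) // ∀ x : E, θ (algebraMap E K x) = θ' (algebraMap E K (σ x))} := by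
  have hV : (Nat.card V : ℂ) - 1 ≠ 0 := by
    rw [sub_ne_zero]; exact_mod_cast Finite.one_lt_card.ne'
  have hE : Nat.card E = Nat.card V := by
    rw [Module.natCard_eq_pow_finrank (K := F), Module.natCard_eq_pow_finrank (K := F) (V := V), hk]
  have h1 := sum_cu_eq (V := V) (add_rs (F := F) θ)
    (fun h => if h.coeff 0 ≠ 0 then rs (θ'⁻¹ : MulChar K ℂ) h else 0)
  rw [← hk, sum_vm_gal θ.map_zero] at h1
  simp only [sum_orth, hE] at h1
  have h2 : ∀ p : F[X], (starRingEnd ℂ) (rs θ' p) = rs (θ'⁻¹ : MulChar K ℂ) p := fun p => by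
    rw [rs, rs, map_multiset_sum, Multiset.map_map]
    congr 2
    funext x
    exact conj_mulChar θ' x
  rw [classInner]
  simp only [h2]
  rw [sum_units_eq fun g => cu (rs θ) g * rs (θ'⁻¹ : MulChar K ℂ) g.charpoly]
  simp only [mul_ite, mul_zero] at h1
  rw [← Finset.sum_filter (s := (Finset.univ : Finset Gal(E/F))), Finset.sum_const,
    nsmul_eq_mul] at h1
  rw [Nat.card_eq_fintype_card (α := {σ : Gal(E/F) // _}), Fintype.card_subtype]
  apply mul_left_cancel₀ hV
  rw [mul_left_comm, h1, ← mul_assoc, inv_mul_cancel₀ (card_ne_zero_complex _), one_mul, mul_comm]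

end Gal

end Cfsg.Agent.DG
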