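import Cfsg.Agent.Lib.DG.Cu5

/-!
Row CUSP, part 6: values at scalars, inner products with primitive functions, duality.
-/

set_option autoImplicit false

namespace Cfsg.Agent.DG

open Polynomial Module Cfsg.Agent.Char

open scoped Classical

variable {F : Type*} [Field F] {V V' : Type*} [AddCommGroup V] [Module F V]
  [AddCommGroup V'] [Module F V'] [Finite V] [Finite V']

theorem cw_mul (c : ℂ) (f : F[X] → ℂ) (g : End F V) (W : Submodule F V) :
    cw (fun p => c * f p) g W = c * cw f g W := by
  induction W using (wellFounded_lt (α := Submodule F V)).induction with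
  | _ W ih =>
  rw [cw_eq, cw_eq f, mul_sub, Finset.mul_sum]
  congr 1
  refine Finset.sum_congr rfl fun U _ => ?_
  split_ifs with h
  · exact ih U h.1
  · simp

theorem cu_mul (c : ℂ) (f : F[X] → ℂ) (g : End F V) :
    cu (fun p => c * f p) g = c * cu f g := cw_mul c f g ⊤

theorem Add.mul {f : F[X] → ℂ} (hf : Add f) (c : ℂ) : Add fun p => c * f p :=
  fun p q hp hq => by simp only [hf p q hp hq, mul_add]

theorem sum_dim_equiv (e : V ≃ₗ[F] V') (h : ℕ → ℂ) :
    ∑ W : Submodule F V, h (finrank F W) = ∑ W : Submodule F V', h (finrank F W) := by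
  refine Fintype.sum_equiv (Submodule.orderIsoMapComap e).toEquiv _ _ fun W => ?_
  congr 1
  exact (LinearEquiv.finrank_map_eq e W).symm

theorem sum_dim_prod [Finite F] (h : ℕ → ℂ) :
    ∑ W : Submodule F (V × F), h (finrank F W) = ∑ W : Submodule F V, h (finrank F W) +
      ∑ W : Submodule F V, (Nat.card F : ℂ) ^ (finrank F V - finrank F W) * h (finrank F W + 1) := by
  rw [sum_sub, ← Finset.sum_add_distrib]
  refine Finset.sum_congr rfl fun W _ => ?_
  have h1 : ∀ (W₂ : Submodule F F) s, finrank F (sub W W₂ s) = finrank F W + finrank F W₂ := by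
    intro W₂ s
    have e := LinearMap.finrank_range_of_inj (f := W.subtype.prodMap W₂.subtype)
      (Function.Injective.prodMap W.subtype_injective W₂.subtype_injective)
    rw [LinearMap.range_prodMap, Submodule.range_subtype, Submodule.range_subtype] at e
    rw [sub, ← (Submodule.equivMapOfInjective _ (shear_inj s) _).finrank_eq, e, finrank_prod]
  simp only [h1, Finset.sum_const, Finset.card_univ, nsmul_eq_mul]
  have hq : (Nat.card F : ℂ) ≠ 0 := by exact_mod_cast Nat.card_pos.ne'
  have c0 : (Fintype.card (F →ₗ[F] V) : ℂ) = (Nat.card F : ℂ) ^ finrank F V := by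
    rw [← Nat.card_eq_fintype_card, Nat.card_congr (LinearMap.ringLmapEquivSelf F F V).toEquiv,
      Module.natCard_eq_pow_finrank (K := F), Nat.cast_pow]
  have c1 : Fintype.card (S0 W (⊥ : Submodule F F)) = Fintype.card (F →ₗ[F] V) :=
    Fintype.card_congr (Equiv.subtypeUnivEquiv fun s b hb => by
      rw [Submodule.mem_bot] at hb; rw [hb, map_zero]; exact W.zero_mem)
  have c2 : (Fintype.card (S0 W (⊤ : Submodule F F)) : ℂ) = (Nat.card F : ℂ) ^ finrank F W := by
    rw [← Nat.card_eq_fintype_card, ← Nat.cast_pow, ← Module.natCard_eq_pow_finrank (K := F)]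
    congr 1
    refine Nat.card_congr ((LinearMap.ringLmapEquivSelf F F V).toEquiv.subtypeEquiv fun s => ?_)
    refine ⟨fun h => h 1 trivial, fun h b _ => ?_⟩
    have := W.smul_mem b h
    rwa [show b • (LinearMap.ringLmapEquivSelf F F V).toEquiv s = s b by
      change b • s 1 = s b; rw [← map_smul, smul_eq_mul, mul_one]] at this
  rw [Finset.sum_eq_add (⊥ : Submodule F F) ⊤ bot_ne_top
    (fun c _ h => ((eq_bot_or_eq_top c).elim h.1 h.2).elim)
    (fun h => absurd (Finset.mem_univ _) h) (fun h => absurd (Finset.mem_univ _) h), c1, c2, c0,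
    finrank_bot, finrank_top, finrank_self, pow_sub₀ _ hq W.finrank_le]
  field_simp
  simp [mul_comm]

/-- sums over subspaces of the standard space -/
noncomputable def sd (F : Type*) [Field F] [Finite F] (n : ℕ) (h : ℕ → ℂ) : ℂ :=
  ∑ W : Submodule F (Fin n → F), h (finrank F W)

theorem sd_congr [Finite F] {n : ℕ} {h h' : ℕ → ℂ} (e : ∀ j ≤ n, h j = h' j) :
    sd F n h = sd F n h' :=
  Finset.sum_congr rfl fun W _ => e _ (by simpa using W.finrank_le)

theorem sd_succ [Finite F] (n : ℕ) (h : ℕ → ℂ) : sd F (n + 1) h =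
    sd F n h + sd F n fun j => (Nat.card F : ℂ) ^ (n - j) * h (j + 1) := by
  rw [sd, sum_dim_equiv (LinearEquiv.ofFinrankEq (Fin (n + 1) → F) ((Fin n → F) × F) (by simp)),
    sum_dim_prod]
  simp [sd]

theorem sd_zero [Finite F] (h : ℕ → ℂ) : sd F 0 h = h 0 := by
  rw [sd, Finset.sum_eq_single ⊥ (fun b _ hb => absurd (Subsingleton.elim _ _) hb)
    (fun h => absurd (Finset.mem_univ _) h), finrank_bot]

theorem sd_mul [Finite F] (n : ℕ) (c : ℂ) (h : ℕ → ℂ) :
    sd F n (fun j => c * h j) = c * sd F n h := by rw [sd, sd, Finset.mul_sum]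

theorem sd_rec [Finite F] {d : ℕ → ℂ} {c : ℂ} (hd : ∀ n, sd F n d = n * c) (r : ℕ) :
    ∀ n, sd F n (fun j => (Nat.card F : ℂ) ^ ((r + 1) * (n - j)) * d (j + (r + 1))) =
      c * ∏ i ∈ Finset.range r, (1 - (Nat.card F : ℂ) ^ (i + 1)) := by
  induction r with
  | zero =>
    intro n
    have := sd_succ (F := F) n d
    rw [hd, hd] at this
    simp only [zero_add, one_mul, Finset.range_zero, Finset.prod_empty, mul_one]
    push_cast at this
    linear_combination -this
  | succ r ih =>
    intro n
    have h1 := sd_succ (F := F) n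
      (fun j => (Nat.card F : ℂ) ^ ((r + 1) * (n + 1 - j)) * d (j + (r + 1)))
    rw [ih, sd_congr (h' := fun j => (Nat.card F : ℂ) ^ (r + 1) *
      ((Nat.card F : ℂ) ^ ((r + 1) * (n - j)) * d (j + (r + 1)))) (fun j hj => by
        rw [← mul_assoc, ← pow_add, show n + 1 - j = 1 + (n - j) by omega, mul_add, mul_one]),
      sd_mul, ih, sd_congr (h' := fun j => (Nat.card F : ℂ) ^ ((r + 1 + 1) * (n - j)) *
        d (j + (r + 1 + 1))) (fun j hj => by
        rw [← mul_assoc, ← pow_add, show n + 1 - (j + 1) = n - j by omega,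
          show j + 1 + (r + 1) = j + (r + 1 + 1) by omega]
        congr 2
        ring)] at h1
    rw [Finset.prod_range_succ]
    linear_combination -h1

omit [Finite V] in
theorem charpoly_scalar [FiniteDimensional F V] (z : F) :
    (z • (1 : End F V)).charpoly = (X - C z) ^ finrank F V := by
  have := LinearMap.charpoly_sub_smul (0 : End F V) (-z)
  rw [neg_smul, zero_sub, neg_neg, LinearMap.charpoly_zero] at this
  rw [this]
  simp [sub_eq_add_neg]

theorem cu_scalar [Finite F] {f : F[X] → ℂ} (hf : Add f) (z : F) {r : ℕ}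
    (hr : finrank F V = r + 1) : cu f (z • (1 : End F V)) =
      f (X - C z) * ∏ i ∈ Finset.range r, (1 - (Nat.card F : ℂ) ^ (i + 1)) := by
  let d : ℕ → ℂ := fun j => cu f (z • (1 : End F (Fin j → F)))
  have hd : ∀ (U : Type _) [AddCommGroup U] [Module F U] [Finite U] (g : End F U),
      (∀ x, g x = z • x) → cu f g = d (finrank F U) := fun U _ _ _ g hg =>
    cu_equiv f (LinearEquiv.ofFinrankEq (Fin (finrank F U) → F) U (by simp)) (by simp [hg])
  have h1 : ∀ n, sd F n d = n * f (X - C z) := fun n => by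
    have h2 := sum_cw f (z • (1 : End F (Fin n → F)))
    rw [charpoly_scalar, hf.pow (monic_X_sub_C z), finrank_fin_fun] at h2
    rw [← h2, sd]
    refine Finset.sum_congr rfl fun W _ => ?_
    have hW : Inv (z • (1 : End F (Fin n → F))) W := fun x hx => W.smul_mem z hx
    rw [if_pos hW, cw_eq_cu f hW, hd W _ fun x => rfl]
  have h2 := sd_rec h1 r 0
  rw [sd_zero] at h2
  simp only [Nat.sub_self, mul_zero, pow_zero, one_mul, zero_add] at h2
  rw [← h2, ← hr]
  exact cu_equiv f (LinearEquiv.ofFinrankEq (Fin (finrank F V) → F) V (by simp)) (by simp)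

/-- primitive functions -/
def Prim (a : End F V → ℂ) : Prop :=
  ∀ (g : End F V) (W : Submodule F V), Inv g W → W ≠ ⊥ → W ≠ ⊤ →
    ∑ n : NW W, a (g + n : End F V) = 0

theorem prim_cu {f : F[X] → ℂ} (hf : Add f) : Prim (V := V) (cu f) :=
  fun _ _ hW h0 h1 => prim_NW hf hW h0 h1

omit [Finite V] in
theorem inv_add_NW {g : End F V} {W : Submodule F V} (n : NW W) :
    Inv (g + n : End F V) W ↔ Inv g W :=
  forall₂_congr fun x hx => by rw [LinearMap.add_apply, n.2.2 x hx, add_zero]

theorem Prim.sum_zero {a : End F V → ℂ} (ha : Prim a) {W : Submodule F V} (h0 : W ≠ ⊥)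
    (h1 : W ≠ ⊤) (Ψ : End F V → ℂ)
    (hΨ : ∀ g, Inv g W → ∀ n : NW W, Ψ (g + n : End F V) = Ψ g) :
    ∑ g, (if Inv g W then a g * Ψ g else 0) = 0 := by
  have hc : (Fintype.card (NW W) : ℂ) ≠ 0 := by exact_mod_cast Fintype.card_ne_zero
  apply mul_left_cancel₀ hc
  rw [mul_zero, ← nsmul_eq_mul, ← Finset.card_univ, ← Finset.sum_const]
  rw [Finset.sum_congr rfl fun (n : NW W) _ => (Equiv.sum_comp (Equiv.addRight (n : End F V))
    fun g => if Inv g W then a g * Ψ g else 0).symm, Finset.sum_comm]
  refine Finset.sum_eq_zero fun g _ => ?_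
  simp only [Equiv.coe_addRight, inv_add_NW]
  split_ifs with h
  · simp only [hΨ g h]
    rw [← Finset.sum_mul, ha g W h h0 h1, zero_mul]
  · simp

theorem Prim.inner_cu {a : End F V → ℂ} (ha : Prim a) {f : F[X] → ℂ} (hf : Add f) :
    classInner (fun g : (End F V)ˣ => a g) (fun g => cu f (g : End F V)) =
      classInner (fun g : (End F V)ˣ => a g) (fun g => f (g : End F V).charpoly) := by
  simp only [classInner]
  congr 1
  rw [sum_units_eq fun g => a g * (starRingEnd ℂ) (cu f g),
    sum_units_eq fun g => a g * (starRingEnd ℂ) (f g.charpoly)]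
  have h1 : ∀ g : End F V, (if g.charpoly.coeff 0 ≠ 0 then a g * (starRingEnd ℂ) (f g.charpoly)
      else 0) = ∑ W : Submodule F V, if Inv g W then
        a g * (if g.charpoly.coeff 0 ≠ 0 then (starRingEnd ℂ) (cw f g W) else 0) else 0 := by
    intro g
    split_ifs with h
    · rw [← sum_cw f, map_sum, Finset.mul_sum]
      refine Finset.sum_congr rfl fun W _ => ?_
      split_ifs <;> simp
    · simp
  simp only [h1]
  rw [Finset.sum_comm, Finset.sum_eq_single (⊤ : Submodule F V)]
  · simp only [inv_top, if_true, mul_ite, mul_zero, cu]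
  · intro W _ hW
    by_cases h0 : W = ⊥
    · subst h0
      simp [cw_bot, hf.one]
    refine ha.sum_zero h0 hW _ fun g hg n => ?_
    rw [charpoly_add_NW hg, cw_eq_cu f hg, cw_eq_cu f ((inv_add_NW n).2 hg)]
    congr 3
    ext x
    change g x + n.1 x = g x
    rw [n.2.2 x x.2, add_zero]
  · simp

scoped instance finiteDual [Finite F] : Finite (Module.Dual F V) := Module.finite_of_finite F

theorem prim_dual [Finite F] {f : F[X] → ℂ} (hf : Add f) :
    Prim (fun g : End F V => cu f (g.dualMap : End F (Module.Dual F V))) := by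
  intro g W hW h0 h1
  have hW' : Inv (g.dualMap : End F (Module.Dual F V)) W.dualAnnihilator := fun φ hφ => by
    rw [Submodule.mem_dualAnnihilator] at hφ ⊢
    exact fun w hw => hφ _ (hW w hw)
  have h2 := prim_NW hf hW'
    (fun h => h1 (Subspace.dualAnnihilator_inj.1 (h.trans Submodule.dualAnnihilator_top.symm)))
    (fun h => h0 (Subspace.dualAnnihilator_inj.1 (h.trans Submodule.dualAnnihilator_bot.symm)))
  let π : NW W → NW W.dualAnnihilator := fun n =>
    ⟨n.1.dualMap, fun φ => (Submodule.mem_dualAnnihilator _).2 fun w hw => by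
      rw [LinearMap.dualMap_apply, n.2.2 w hw, map_zero], fun φ hφ => by
      ext v
      exact (Submodule.mem_dualAnnihilator _).1 hφ _ (n.2.1 v)⟩
  have hπ' : Function.Injective π := fun n m h => by
    ext v
    rw [← sub_eq_zero, ← Module.forall_dual_apply_eq_zero_iff F]
    intro φ
    rw [map_sub, sub_eq_zero]
    exact LinearMap.congr_fun (LinearMap.congr_fun (congrArg Subtype.val h) φ) v
  have hπ : Function.Surjective π := fun m => by
    let n : End F V := (Module.evalEquiv F V).symm.toLinearMap ∘ₗ m.1.dualMap ∘ₗ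
      (Module.evalEquiv F V).toLinearMap
    have hn : ∀ φ v, φ (n v) = m.1 φ v := fun φ v => by simp [n]
    refine ⟨⟨n, fun v => ?_, fun w hw => ?_⟩, ?_⟩
    · rw [← Subspace.forall_mem_dualAnnihilator_apply_eq_zero_iff]
      intro φ hφ
      rw [hn, m.2.2 φ hφ, LinearMap.zero_apply]
    · rw [← Module.forall_dual_apply_eq_zero_iff F]
      intro φ
      rw [hn]
      exact (Submodule.mem_dualAnnihilator _).1 (m.2.1 φ) w hw
    · ext φ v
      exact hn φ v
  rw [← h2, ← Function.Bijective.sum_comp ⟨hπ', hπ⟩]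
  refine Finset.sum_congr rfl fun n _ => ?_
  refine congrArg (cu f) ?_
  ext φ v
  simp [π]

theorem charpoly_dualMap [Finite F] (g : End F V) :
    (g.dualMap : End F (Module.Dual F V)).charpoly = g.charpoly := by
  set b := Module.Free.chooseBasis F V
  rw [← LinearMap.charpoly_toMatrix g b, ← LinearMap.charpoly_toMatrix _ b.dualBasis,
    ← Matrix.charpoly_transpose]
  simp [LinearMap.dualMap_def, LinearMap.toMatrix_transpose]

end Cfsg.Agent.DG
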