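import Cfsg.Agent.Lib.DG.Cu6

/-!
Row CUSP, part 7: existence of cuspidal characters of `GL_k(q)`.
-/

set_option autoImplicit false

namespace Cfsg.Agent.DG

open Polynomial Module Cfsg.Agent.Char

open scoped Classical

universe v

/-- `cu f` is the cuspidal character of `GL_k(q)` attached to the character `x ↦ ω x ^ a` of
`𝔽_{q^k}ˣ`, `ω` faithful. -/
structure Cusp (F : Type*) [Field F] [Finite F] (k a : ℕ) (f : F[X] → ℂ) (ω : Fˣ →* ℂˣ) :
    Prop where
  add : Add f
  inj : Function.Injective ω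
  irr : ∀ (V : Type v) [AddCommGroup V] [Module F V] [Finite V], finrank F V = k →
    IsIrrCharacter (End F V)ˣ (fun g => cu f (g : End F V))
  scalar : ∀ (V : Type v) [AddCommGroup V] [Module F V] [Finite V], finrank F V = k →
    ∀ z : Fˣ, cu f ((z : F) • (1 : End F V)) =
      (ω z : ℂ) ^ a * ∏ i ∈ Finset.range (k - 1), ((Nat.card F : ℂ) ^ (i + 1) - 1)
  dual : ∀ (V : Type v) [AddCommGroup V] [Module F V] [Finite V], finrank F V = k →
    ∀ g : (End F V)ˣ, cu f ((g : End F V).dualMap : End F (Module.Dual F V)) = cu f (g : End F V)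
  real : ∀ (V : Type v) [AddCommGroup V] [Module F V] [Finite V], finrank F V = k →
    ((∀ g : (End F V)ˣ, cu f ((g⁻¹ : (End F V)ˣ) : End F V) = cu f (g : End F V)) ↔
      ∃ i < k, Nat.card F ^ k - 1 ∣ a * (Nat.card F ^ i + 1))
  val : ∃ (K : Type) (_ : Field K) (_ : Fintype K) (_ : Algebra F K) (θ : MulChar K ℂ),
    (∀ x : Kˣ, θ x = 1 → x = 1) ∧ (∀ p, f p = (-1) ^ (k - 1) * rs (fun x => θ x ^ a) p) ∧
    ∀ φ : F[X], φ.Monic → Irreducible φ → φ.natDegree ∣ k → (φ.map (algebraMap F K)).Splits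

theorem exists_inj_mulChar (K : Type*) [Field K] [Fintype K] :
    ∃ θ : MulChar K ℂ, ∀ x : Kˣ, θ x = 1 → x = 1 := by
  obtain ⟨g, hg⟩ := IsCyclic.exists_generator (α := Kˣ)
  have hn : Fintype.card Kˣ ≠ 0 := Fintype.card_ne_zero
  have hζ := Complex.isPrimitiveRoot_exp _ hn
  have hζ' := hζ.isUnit_unit hn
  have hm : (hζ.isUnit hn).unit ∈ rootsOfUnity (Fintype.card Kˣ) ℂ := hζ'.pow_eq_one
  refine ⟨MulChar.ofRootOfUnity hm hg, fun x hx => ?_⟩
  obtain ⟨i, rfl⟩ := (mem_powers_iff_mem_zpowers.2 (hg x))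
  simp only [Units.val_pow_eq_pow_val, map_pow, MulChar.ofRootOfUnity_spec, IsUnit.unit_spec] at hx
  obtain ⟨c, rfl⟩ := (hζ.pow_eq_one_iff_dvd i).1 hx
  simp only [pow_mul, pow_card_eq_one, one_pow]

section

variable {E K : Type*} [Field E] [Fintype E] [Field K] [Algebra E K]

theorem forall_pow_eq_one_iff {θ : MulChar K ℂ} (hθ : ∀ x : Kˣ, θ x = 1 → x = 1) (m : ℕ) :
    (∀ x : Eˣ, θ (algebraMap E K x) ^ m = 1) ↔ Nat.card E - 1 ∣ m := by
  have key : ∀ x : Eˣ, θ (algebraMap E K x) ^ m = 1 ↔ x ^ m = 1 := fun x => by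
    constructor
    · intro h
      have := hθ (Units.map (algebraMap E K : E →* K) (x ^ m)) (by simpa using h)
      exact Units.map_injective (algebraMap E K).injective (this.trans (map_one _).symm)
    · intro h
      rw [← map_pow, ← map_pow, ← Units.val_pow_eq_pow_val, h]
      simp
  simp only [key]
  rw [← Monoid.exponent_dvd_iff_forall_pow_eq_one, IsCyclic.exponent_eq_card, Nat.card_units]

end

theorem gal_pow {F E : Type*} [Field F] [Finite F] [Field E] [Finite E] [Algebra F E] :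
    (∀ σ : Gal(E/F), ∃ i < finrank F E, ∀ x, σ x = x ^ Nat.card F ^ i) ∧
      ∀ i, ∃ σ : Gal(E/F), ∀ x, σ x = x ^ Nat.card F ^ i := by
  have := Fintype.ofFinite F
  have h : ∀ (i : ℕ) (x : E), (FiniteField.frobeniusAlgEquivOfAlgebraic F E ^ i) x =
      x ^ Nat.card F ^ i := fun i x => by
    rw [AlgEquiv.coe_pow, FiniteField.coe_frobeniusAlgEquivOfAlgebraic_iterate,
      Nat.card_eq_fintype_card]
  refine ⟨fun σ => ?_, fun i => ⟨_, h i⟩⟩
  obtain ⟨i, rfl⟩ := (FiniteField.bijective_frobeniusAlgEquivOfAlgebraic_pow F E).2 σ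
  exact ⟨i, i.2, h i⟩

variable {F : Type*} [Field F] {V : Type*} [AddCommGroup V] [Module F V] [Finite V]

theorem cw_conj (f : F[X] → ℂ) (g : End F V) (W : Submodule F V) :
    cw (fun p => (starRingEnd ℂ) (f p)) g W = (starRingEnd ℂ) (cw f g W) := by
  induction W using (wellFounded_lt (α := Submodule F V)).induction with
  | _ W ih =>
  rw [cw_eq, cw_eq f, map_sub, map_sum]
  congr 1
  refine Finset.sum_congr rfl fun U _ => ?_
  split_ifs with h
  · exact ih U h.1
  · simp

theorem conj_rs {K : Type*} [Field K] [Fintype K] [Algebra F K] (θ : MulChar K ℂ) (p : F[X]) :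
    (starRingEnd ℂ) (rs θ p) = rs (θ⁻¹ : MulChar K ℂ) p := by
  rw [rs, rs, map_multiset_sum, Multiset.map_map]
  congr 2
  funext x
  exact conj_mulChar θ x

/-- the inverse transpose -/
def dualHom (F V : Type*) [Field F] [AddCommGroup V] [Module F V] :
    (End F V)ˣ →* End F (Module.Dual F V) where
  toFun g := ((g⁻¹ : (End F V)ˣ) : End F V).dualMap
  map_one' := by ext; simp
  map_mul' a b := by ext; simp

theorem exists_alpha [Finite F] : ∃ α : (End F V)ˣ ≃* (End F V)ˣ, ∀ g : (End F V)ˣ,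
    (α g⁻¹ : End F V).charpoly = (g : End F V).charpoly ∧ ∀ f : F[X] → ℂ,
      cu f (α g⁻¹ : End F V) = cu f ((g : End F V).dualMap : End F (Module.Dual F V)) := by
  let e : V ≃ₗ[F] Module.Dual F V := LinearEquiv.ofFinrankEq _ _ Subspace.dual_finrank_eq.symm
  let α : (End F V)ˣ →* (End F V)ˣ :=
    (e.symm.conjRingEquiv.toMonoidHom.comp (dualHom F V)).toHomUnits
  have h1 : ∀ (g : (End F V)ˣ) x, (g : End F V).dualMap (e x) = e ((α g⁻¹ : End F V) x) := by
    intro g x
    change _ = e (e.symm (((g⁻¹⁻¹ : (End F V)ˣ) : End F V).dualMap (e x)))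
    rw [inv_inv, e.apply_symm_apply]
  have h2 : Function.Injective α := by
    rw [injective_iff_map_eq_one]
    intro g hg
    ext v
    rw [← sub_eq_zero, ← Module.forall_dual_apply_eq_zero_iff F]
    intro φ
    obtain ⟨x, rfl⟩ := e.surjective φ
    have := LinearMap.congr_fun (h1 g x) v
    rw [map_inv, hg, inv_one] at this
    rw [map_sub, sub_eq_zero]
    exact this
  refine ⟨MulEquiv.ofBijective α (Finite.injective_iff_bijective.1 h2), fun g => ⟨?_, fun f => ?_⟩⟩
  · exact (charpoly_equiv e (h1 g)).symm.trans (charpoly_dualMap _)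
  · exact (cu_equiv f e (h1 g)).symm

omit [Finite V] in
theorem card_units_eq {V' : Type*} [AddCommGroup V'] [Module F V'] (e : V ≃ₗ[F] V') :
    Nat.card (End F V)ˣ = Nat.card (End F V')ˣ :=
  Nat.card_congr (Units.mapEquiv e.conjRingEquiv.toMulEquiv).toEquiv

theorem prod_one_sub (q : ℂ) (r : ℕ) : (-1) ^ r * ∏ i ∈ Finset.range r, (1 - q ^ (i + 1)) =
    ∏ i ∈ Finset.range r, (q ^ (i + 1) - 1) := by
  induction r with
  | zero => simp
  | succ r ih => rw [Finset.prod_range_succ, Finset.prod_range_succ, ← ih]; ring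

theorem cusp_of [Finite F] {E K : Type} [Field E] [Fintype E] [Algebra F E] [Field K] [Fintype K]
    [Algebra F K] [Algebra E K] [IsScalarTower F E K] {k a b : ℕ} (hk : finrank F E = k)
    (hK : Nat.card (End F (Fin k → F))ˣ ∣ Fintype.card K ^ b * (Fintype.card K - 1))
    (h0 : ¬ Nat.card F ^ k - 1 ∣ a)
    (hreg : ∀ i, 0 < i → i < k → ¬ Nat.card F ^ k - 1 ∣ a * (Nat.card F ^ i - 1)) :
    ∃ f ω, Cusp.{v} F k a f ω := by
  obtain ⟨θ₀, hθ₀⟩ := exists_inj_mulChar K
  have hE : Nat.card E = Nat.card F ^ k := by rw [Module.natCard_eq_pow_finrank (K := F), hk]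
  have ha : a ≠ 0 := by rintro rfl; exact h0 (dvd_zero _)
  obtain ⟨r, rfl⟩ : ∃ r, k = r + 1 := ⟨k - 1, by have := finrank_pos (R := F) (M := E); omega⟩
  set θ := θ₀ ^ a with hθ
  have hθa : ∀ x, θ x = θ₀ x ^ a := fun x => MulChar.pow_apply' _ ha x
  have hne : ∀ x : Eˣ, θ₀ (algebraMap E K x) ≠ 0 := fun x =>
    ((x.isUnit.map (algebraMap E K)).map θ₀).ne_zero
  have hθ1 : θ ≠ 1 := fun e => h0 (by
    rw [← hE, ← forall_pow_eq_one_iff hθ₀]
    intro x
    rw [← hθa, e]
    exact MulChar.one_apply (x.isUnit.map (algebraMap E K)))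
  have hq : ∀ i, 1 ≤ Nat.card F ^ i := fun i => Nat.one_le_pow _ _ Nat.card_pos
  have hall : ∀ {P : E → Prop}, P 0 → ((∀ x, P x) ↔ ∀ x : Eˣ, P x) := fun {P} h =>
    ⟨fun h' x => h' x, fun h' x => if hx : x = 0 then hx ▸ h else h' (Units.mk0 x hx)⟩
  have e1 : ∀ (σ : Gal(E/F)) i, (∀ x, σ x = x ^ Nat.card F ^ i) →
      ((∀ x : E, θ (algebraMap E K x) = θ (algebraMap E K (σ x))) ↔
        Nat.card F ^ (r + 1) - 1 ∣ a * (Nat.card F ^ i - 1)) := fun σ i hσ => by
    rw [hall (by simp), ← hE, ← forall_pow_eq_one_iff hθ₀]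
    refine forall_congr' fun x => ?_
    rw [hσ, map_pow, map_pow, hθa, ← pow_mul]
    conv_lhs => rw [← Nat.sub_add_cancel (hq i), mul_add, mul_one, pow_add]
    rw [eq_comm, mul_eq_right₀ (pow_ne_zero _ (hne x))]
  have e2 : ∀ (σ : Gal(E/F)) i, (∀ x, σ x = x ^ Nat.card F ^ i) →
      ((∀ x : E, θ (algebraMap E K x) = θ⁻¹ (algebraMap E K (σ x))) ↔
        Nat.card F ^ (r + 1) - 1 ∣ a * (Nat.card F ^ i + 1)) := fun σ i hσ => by
    rw [hall (by simp [MulChar.map_zero]), ← hE, ← forall_pow_eq_one_iff hθ₀]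
    refine forall_congr' fun x => ?_
    rw [hσ, MulChar.inv_apply_eq_inv', map_pow, map_pow, hθa, ← pow_mul, mul_add, mul_one, pow_add,
      mul_comm (_ ^ (a * _)), mul_eq_one_iff_eq_inv₀ (pow_ne_zero _ (hne x))]
  have hcard : Nat.card {σ : Gal(E/F) //
      ∀ x : E, θ (algebraMap E K x) = θ (algebraMap E K (σ x))} = 1 := by
    rw [Nat.card_eq_one_iff_exists]
    refine ⟨⟨1, fun _ => rfl⟩, fun σ => Subtype.ext ?_⟩
    obtain ⟨i, hi, hσ⟩ := gal_pow.1 σ.1
    rcases Nat.eq_zero_or_pos i with rfl | h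
    · ext x; simp [hσ]
    · exact absurd ((e1 _ i hσ).1 σ.2) (hreg i h (hk ▸ hi))
  set ε : ℂ := (-1) ^ r with hε
  have hε2 : ε * (starRingEnd ℂ) ε = 1 := by
    rw [hε, map_pow, map_neg, map_one, ← mul_pow]; simp
  have hadd : Add (F := F) fun p => ε * rs θ p := (add_rs θ).mul ε
  let ω : Fˣ →* ℂˣ := θ₀.toUnitHom.comp (Units.map (algebraMap F K : F →* K))
  have hsc : ∀ (V : Type v) [AddCommGroup V] [Module F V] [Finite V], finrank F V = r + 1 →
      ∀ z : Fˣ, cu (fun p => ε * rs θ p) ((z : F) • (1 : End F V)) =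
      (ω z : ℂ) ^ a * ∏ i ∈ Finset.range (r + 1 - 1), ((Nat.card F : ℂ) ^ (i + 1) - 1) := by
    intro V _ _ _ hV z
    rw [cu_mul, cu_scalar (add_rs θ) _ hV, mul_left_comm, hε, prod_one_sub, Nat.add_sub_cancel]
    congr 1
    simp [rs, hθa, ω]
  have hin : ∀ (V : Type v) [AddCommGroup V] [Module F V] [Finite V], finrank F V = r + 1 →
      ∀ c : End F V → ℂ, Prim c → ∀ θ' : MulChar K ℂ,
      classInner (fun g : (End F V)ˣ => c g) (fun g => rs θ' (g : End F V).charpoly) =
        classInner (fun g : (End F V)ˣ => cu (rs θ) (g : End F V))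
          (fun g => rs θ' (g : End F V).charpoly) →
      classInner (fun g : (End F V)ˣ => ε * c g)
        (fun g => cu (fun p => ε * rs θ' p) (g : End F V)) = Nat.card {σ : Gal(E/F) //
          ∀ x : E, θ (algebraMap E K x) = θ' (algebraMap E K (σ x))} := by
    intro V _ _ _ hV c hc θ' h
    have : Nontrivial V := Module.nontrivial_of_finrank_eq_succ hV
    rw [← inner_cu_rs (hk.trans hV.symm), ← h, ← hc.inner_cu (add_rs θ')]
    simp only [cu_mul, classInner, map_mul]
    congr 1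
    exact Finset.sum_congr rfl fun g _ => by rw [mul_mul_mul_comm, hε2, one_mul]
  have hdvd : ∀ (V : Type v) [AddCommGroup V] [Module F V] [Finite V], finrank F V = r + 1 →
      Nat.card (End F V)ˣ ∣ Fintype.card K ^ b * (Fintype.card K - 1) := fun V _ _ _ hV => by
    rwa [card_units_eq (LinearEquiv.ofFinrankEq V (Fin (r + 1) → F) (by simp [hV]))]
  have hirr : ∀ (V : Type v) [AddCommGroup V] [Module F V] [Finite V], finrank F V = r + 1 →
      IsIrrCharacter (End F V)ˣ (fun g => cu (fun p => ε * rs θ p) (g : End F V)) := by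
    intro V _ _ _ hV
    refine isIrr_of_isGen_of_inner_self ?_ ?_ ?_
    · simp only [cu_mul]
      have := isGen_intCast_smul ((-1) ^ r) (isGen_cu hθ1 (Units.coeHom (End F V)) (hdvd V hV))
      push_cast at this
      exact this
    · have := hin V hV _ (prim_cu (add_rs θ)) θ rfl
      rw [hcard, Nat.cast_one] at this
      simpa only [cu_mul] using this
    · have := hsc V hV 1
      simp only [Units.val_one, one_smul, map_one, one_pow, one_mul] at this
      simp only [Units.val_one, this]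
      rw [Finset.prod_congr rfl (g := fun i => ((Nat.card F ^ (i + 1) - 1 : ℕ) : ℂ)) fun i _ => by
        rw [Nat.cast_sub (hq _)]; simp, ← Nat.cast_prod, Complex.natCast_re]
      exact Nat.cast_nonneg _
  refine ⟨_, ω, hadd, ?_, hirr, hsc, fun V _ _ _ hV => ?_, fun V _ _ _ hV => ?_,
    K, inferInstance, inferInstance, inferInstance, θ₀, hθ₀, fun p => ?_, fun φ hm hi hd => ?_⟩
  · rw [injective_iff_map_eq_one]
    intro z hz
    exact Units.map_injective (algebraMap F K).injective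
      ((hθ₀ _ (congrArg Units.val hz)).trans (map_one _).symm)
  · obtain ⟨α, hα⟩ := exists_alpha (F := F) (V := V)
    have h1 := hin V hV _ (prim_dual (add_rs θ)) θ (by
      simp only [classInner]
      congr 1
      refine Fintype.sum_equiv ((Equiv.inv _).trans α.toEquiv) _ _ fun g => ?_
      rw [← (hα g).1, ← (hα g).2]
      rfl)
    simp only [← cu_mul, ← (hα _).2] at h1
    have h2 := isIrr_comp_of_surjective (hirr V hV) α.toMonoidHom α.surjective
    have h3 := isIrr_conj h2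
    simp only [← apply_inv_of_isChar (isChar_of_isIrr h2)] at h3
    have h4 := eq_of_inner_ne_zero h3 (hirr V hV) (by
      rw [hcard] at h1
      exact fun e => one_ne_zero (by rw [← e]; exact_mod_cast h1.symm))
    intro g
    rw [← (hα _).2]
    exact congrFun h4 g
  · have h1 := hin V hV _ (prim_cu (add_rs θ)) θ⁻¹ rfl
    have h2 : (fun g : (End F V)ˣ => cu (fun p => ε * rs (θ⁻¹ : MulChar K ℂ) p) (g : End F V)) =
        fun g : (End F V)ˣ => (starRingEnd ℂ) (cu (fun p => ε * rs θ p) (g : End F V)) := by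
      funext g
      rw [cu, cu, ← cw_conj]
      simp only [map_mul, conj_rs, hε, map_pow, map_neg, map_one]
    simp only [← cu_mul] at h1
    rw [h2] at h1
    have h3 := fun g => apply_inv_of_isChar (isChar_of_isIrr (hirr V hV)) g
    simp only [h3]
    constructor
    · intro h
      simp only [h] at h1
      rw [inner_self_of_isIrr (hirr V hV)] at h1
      obtain ⟨σ, hσ⟩ := (Nat.card_ne_zero.1 fun e => one_ne_zero (h1.trans (by rw [e]; simp))).1
      obtain ⟨i, hi, hσ'⟩ := gal_pow.1 σ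
      exact ⟨i, hk ▸ hi, (e2 σ i hσ').1 hσ⟩
    · rintro ⟨i, -, hi⟩ g
      obtain ⟨σ, hσ⟩ := (gal_pow (F := F) (E := E)).2 i
      have : Nonempty {σ : Gal(E/F) //
        ∀ x : E, θ (algebraMap E K x) = θ⁻¹ (algebraMap E K (σ x))} := ⟨σ, (e2 σ i hσ).2 hi⟩
      have h4 := eq_of_inner_ne_zero (hirr V hV) (isIrr_conj (hirr V hV))
        (by rw [h1]; exact_mod_cast Nat.card_pos.ne')
      exact (congrFun h4 g).symm
  · rw [funext hθa]; rfl
  · have := Fact.mk hi
    have := Fact.mk hm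
    obtain ⟨ι⟩ : Nonempty (AdjoinRoot φ →ₐ[F] E) := FiniteField.nonempty_algHom_of_finrank_dvd
      (by rwa [finrank_adj hm, hk])
    have hx : φ = minpoly F (ι (AdjoinRoot.root φ)) :=
      minpoly.eq_of_irreducible_of_monic hi
        (by rw [aeval_algHom_apply, AdjoinRoot.aeval_eq, AdjoinRoot.mk_self, map_zero]) hm
    rw [hx, IsScalarTower.algebraMap_eq F E K, ← Polynomial.map_map]
    exact (Normal.splits inferInstance _).map _

/-- Existence of cuspidal characters. -/
theorem exists_cusp (F : Type*) [Field F] [Finite F] {k a : ℕ} (hk : 0 < k)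
    (h0 : ¬ Nat.card F ^ k - 1 ∣ a)
    (hreg : ∀ i, 0 < i → i < k → ¬ Nat.card F ^ k - 1 ∣ a * (Nat.card F ^ i - 1)) :
    ∃ f ω, Cusp.{v} F k a f ω := by
  obtain ⟨p, hp⟩ := CharP.exists F
  have := Fintype.ofFinite F
  obtain ⟨n, hpp, hn⟩ := FiniteField.card F p
  have := Fact.mk hpp
  have := NeZero.mk hk.ne'
  let E := FiniteField.Extension F p k
  have : CharP E p := charP_of_injective_algebraMap (algebraMap F E).injective p
  obtain ⟨b, m, hm, hbm⟩ := Nat.exists_eq_pow_mul_and_not_dvd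
    (Nat.card_pos (α := (End F (Fin k → F))ˣ)).ne' p hpp.ne_one
  have hm0 : 0 < m := Nat.pos_of_ne_zero (by rintro rfl; exact hm (dvd_zero _))
  have := NeZero.mk (Nat.totient_pos.2 hm0).ne'
  let K := FiniteField.Extension E p m.totient
  let _ : Algebra F K := ((algebraMap E K).comp (algebraMap F E)).toAlgebra
  have : IsScalarTower F E K := IsScalarTower.of_algebraMap_eq fun _ => rfl
  have := Fintype.ofFinite E
  have := Fintype.ofFinite K
  refine cusp_of (E := E) (K := K) (b := b) (FiniteField.finrank_extension F p k) ?_ h0 hreg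
  have hE : Nat.card E = p ^ (n * k) := by
    rw [FiniteField.natCard_extension, Nat.card_eq_fintype_card, hn, ← pow_mul]
  have hK : Fintype.card K = Nat.card E ^ m.totient := by
    rw [← Nat.card_eq_fintype_card, FiniteField.natCard_extension]
  rw [hbm]
  refine mul_dvd_mul (pow_dvd_pow_of_dvd ?_ b) ?_
  · rw [hK, hE, ← pow_mul]
    exact dvd_pow_self p (mul_ne_zero (mul_ne_zero n.ne_zero hk.ne') (NeZero.ne _))
  · have h1 : Nat.Coprime (Nat.card E) m := by
      rw [hE]; exact ((Nat.Prime.coprime_iff_not_dvd hpp).2 hm).pow_left _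
    rw [hK]
    exact (Nat.modEq_iff_dvd' (Nat.one_le_pow _ _ Nat.card_pos)).1 (Nat.ModEq.pow_totient h1).symm

namespace Cusp

variable [Finite F] {k a : ℕ} {f : F[X] → ℂ} {ω : Fˣ →* ℂˣ} (h : Cusp.{v} F k a f ω)
  {W : Type v} [AddCommGroup W] [Module F W] [Finite W] (hW : finrank F W = k)
include h hW

theorem deg : cu f (1 : End F W) =
    ((∏ i ∈ Finset.range (k - 1), (Nat.card F ^ (i + 1) - 1) : ℕ) : ℂ) := by
  have := h.scalar W hW 1
  simp only [Units.val_one, one_smul, map_one, one_pow, one_mul] at this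
  rw [this, Nat.cast_prod]
  refine Finset.prod_congr rfl fun i _ => ?_
  rw [Nat.cast_sub (Nat.one_le_pow _ _ Nat.card_pos)]
  simp

theorem smul (z : Fˣ) (g : (End F W)ˣ) :
    cu f ((z : F) • (g : End F W)) = (ω z : ℂ) ^ a * cu f (g : End F W) := by
  let u : (End F W)ˣ := Units.map (algebraMap F (End F W) : F →* End F W) z
  have hu : ∀ x : (End F W)ˣ, IsConj u x ↔ x = u := fun x => by
    refine ⟨fun hx => ?_, fun hx => hx ▸ IsConj.refl _⟩
    obtain ⟨c, rfl⟩ := isConj_iff.1 hx
    rw [mul_inv_eq_iff_eq_mul]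
    exact Units.ext (Algebra.commutes (z : F) (c : End F W)).symm
  have h1 := sum_mul_apply_mul (h.irr W hW) (isClass_classInd u) g
  simp only [classInd, hu, ite_mul, one_mul, zero_mul, Finset.sum_ite_eq', Finset.mem_univ,
    if_true] at h1
  have h2 : (u : End F W) = (z : F) • (1 : End F W) := Algebra.algebraMap_eq_smul_one _
  have h3 := h.scalar W hW 1
  simp only [Units.val_one, one_smul, map_one, one_pow, one_mul] at h3
  have h4 := apply_one_ne_zero_of_isIrr (h.irr W hW)
  rw [Units.val_mul, h2, smul_mul_assoc, one_mul, h.scalar W hW z, ← h3, Units.val_one] at h1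
  rw [Units.val_one] at h4
  rw [h1, mul_div_assoc, div_self h4, mul_one]

theorem neg (h2 : (2 : F) ≠ 0) (g : (End F W)ˣ) :
    cu f (-(g : End F W)) = (-1) ^ a * cu f (g : End F W) := by
  have h1 := h.smul hW (-1) g
  have h3 : (ω (-1) : ℂ) = -1 := by
    have h4 : (ω (-1) : ℂ) * ω (-1) = 1 := by
      rw [← Units.val_mul, ← map_mul]; simp
    refine (mul_self_eq_one_iff.1 h4).resolve_left fun e => h2 ?_
    have := h.inj (Units.ext (e.trans (by simp)) : ω (-1) = ω 1)
    have h5 : (-1 : F) = 1 := by simpa using congrArg Units.val this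
    linear_combination -h5
  simpa [h3] using h1

theorem inv (g : (End F W)ˣ) :
    cu f ((g⁻¹ : (End F W)ˣ) : End F W) = (starRingEnd ℂ) (cu f (g : End F W)) :=
  apply_inv_of_isChar (isChar_of_isIrr (h.irr W hW)) g

/-- non-real case -/
theorem inner_inv (hn : ∀ i < k, ¬ Nat.card F ^ k - 1 ∣ a * (Nat.card F ^ i + 1)) :
    classInner (fun g : (End F W)ˣ => cu f (g : End F W))
      (fun g => cu f ((g⁻¹ : (End F W)ˣ) : End F W)) = 0 := by
  refine inner_eq_zero_of_isIrr (h.irr W hW) ?_ fun e => ?_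
  · simp only [h.inv hW]
    exact isIrr_conj (h.irr W hW)
  · obtain ⟨i, hi, h1⟩ := (h.real W hW).1 fun g => (congrFun e g).symm
    exact hn i hi h1

end Cusp

/-- the unipotent radical of the stabilizer of `W` -/
def UW (W : Submodule F V) : Subgroup (End F V)ˣ where
  carrier := {u | (u : End F V) - 1 ∈ NW W}
  one_mem' := by simp
  mul_mem' {a b} ha hb := by
    refine ⟨fun v => ?_, fun w hw => ?_⟩
    · have := W.add_mem (ha.1 ((b : End F V) v)) (hb.1 v)
      simpa using this
    · have h1 := ha.2 w hw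
      have h2 := hb.2 w hw
      simp only [LinearMap.sub_apply, End.one_apply, sub_eq_zero] at h1 h2
      simp [h1, h2]
  inv_mem' {a} ha := by
    refine ⟨fun v => ?_, fun w hw => ?_⟩
    · have := W.neg_mem (ha.1 (((a⁻¹ : (End F V)ˣ) : End F V) v))
      simpa [← End.mul_apply] using this
    · have h1 := ha.2 w hw
      simp only [LinearMap.sub_apply, End.one_apply, sub_eq_zero] at h1 ⊢
      conv_lhs => rw [← h1, ← End.mul_apply, Units.inv_mul, End.one_apply]

/-- cuspidality in multiplicative form -/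
theorem Prim.sum_UW {c : End F V → ℂ} (hc : Prim c) {W : Submodule F V} (h0 : W ≠ ⊥) (h1 : W ≠ ⊤)
    (g : (End F V)ˣ) (hg : Inv (g : End F V) W) [Fintype (UW W)] :
    ∑ u : UW W, c ((g * u : (End F V)ˣ) : End F V) = 0 := by
  rw [← hc g W hg h0 h1]
  let π : UW W → NW W := fun u => ⟨(g : End F V) * ((u.1 : End F V) - 1),
    fun v => hg _ (u.2.1 v), fun w hw => by rw [End.mul_apply, u.2.2 w hw, map_zero]⟩
  have hg' : Inv ((g⁻¹ : (End F V)ˣ) : End F V) W := by
    have : W.map (g : End F V) = W := Submodule.eq_of_le_of_finrank_eq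
      (by rintro _ ⟨x, hx, rfl⟩; exact hg x hx)
      (Submodule.equivMapOfInjective _ ((End.isUnit_iff _).1 g.isUnit).1 W).finrank_eq.symm
    intro x hx
    rw [← this] at hx
    obtain ⟨y, hy, rfl⟩ := hx
    rwa [← End.mul_apply, Units.inv_mul, End.one_apply]
  refine Fintype.sum_bijective π ⟨fun u u' e => ?_, fun n => ?_⟩ _ _ fun u => ?_
  · have := congrArg Subtype.val e
    simp only [π, Units.mul_right_inj, sub_left_inj] at this
    exact Subtype.ext (Units.ext this)
  · let m : End F V := ((g⁻¹ : (End F V)ˣ) : End F V) * n.1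
    have hm : m ∈ NW W :=
      ⟨fun v => hg' _ (n.2.1 v), fun w hw => by rw [End.mul_apply, n.2.2 w hw, map_zero]⟩
    have hmm : m * m = 0 := LinearMap.ext fun v => hm.2 _ (hm.1 v)
    have e1 : (1 + m) * (1 - m) = 1 := by rw [add_mul, mul_sub, mul_sub, hmm]; simp
    have e2 : (1 - m) * (1 + m) = 1 := by rw [sub_mul, mul_add, mul_add, hmm]; simp
    have e3 : 1 + m - 1 ∈ NW W := by rwa [add_sub_cancel_left]
    refine ⟨⟨⟨1 + m, 1 - m, e1, e2⟩, e3⟩, Subtype.ext ?_⟩
    simp [π, m]
  · simp [π, mul_sub]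

end Cfsg.Agent.DG
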