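import Cfsg.Agent.Lib.DG.Cu7

/-!
Row CUSP, part 8: the cuspidal characters that are used.
-/

set_option autoImplicit false

namespace Cfsg.Agent.DG

open Polynomial Module

universe v

variable (F : Type*) [Field F] [Finite F]

/-- the parameter `a` gives a character that is not self dual -/
def NSD (k a : ℕ) : Prop := ∀ i < k, ¬ Nat.card F ^ k - 1 ∣ a * (Nat.card F ^ i + 1)

theorem exists_cusp_of_lt {k a : ℕ} (hk : 0 < k) (ha : 0 < a)
    (h : a * (Nat.card F ^ (k - 1) + 1) < Nat.card F ^ k - 1) :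
    (∃ f ω, Cusp.{v} F k a f ω) ∧ NSD F k a := by
  have hq : 1 < Nat.card F := Finite.one_lt_card
  have hle : ∀ i < k, Nat.card F ^ i ≤ Nat.card F ^ (k - 1) := fun i hi =>
    Nat.pow_le_pow_right hq.le (by omega)
  have key : ∀ n, 0 < n → n ≤ Nat.card F ^ (k - 1) + 1 → ¬ Nat.card F ^ k - 1 ∣ a * n :=
    fun n h0 hn hd => by
      have h1 := Nat.le_of_dvd (Nat.mul_pos ha h0) hd
      have h2 := Nat.mul_le_mul_left a hn
      omega
  refine ⟨exists_cusp F hk (by simpa using key 1 one_pos (by omega)) fun i h0 hi => ?_,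
    fun i hi => key _ (by omega) (by have := hle i hi; omega)⟩
  have := Nat.one_lt_pow h0.ne' hq
  exact key _ (by omega) (by have := hle i hi; omega)

/-- cuspidal, not self dual -/
theorem exists_nsd {k : ℕ}
    (h : 3 ≤ k ∨ (k = 2 ∧ 3 ≤ Nat.card F) ∨ (k = 1 ∧ 4 ≤ Nat.card F)) :
    (∃ f ω, Cusp.{v} F k 1 f ω) ∧ NSD F k 1 := by
  have hq : 1 < Nat.card F := Finite.one_lt_card
  refine exists_cusp_of_lt F (by omega) one_pos ?_
  rcases h with h | ⟨rfl, h⟩ | ⟨rfl, h⟩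
  · obtain ⟨j, rfl⟩ : ∃ j, k = j + 3 := ⟨k - 3, by omega⟩
    have h1 : 2 ^ 2 ≤ Nat.card F ^ (j + 2) :=
      (Nat.pow_le_pow_left hq 2).trans (Nat.pow_le_pow_right hq.le (by omega))
    have h2 := Nat.mul_le_mul_left (Nat.card F ^ (j + 2)) hq
    rw [show j + 3 - 1 = j + 2 from rfl, pow_succ _ (j + 2)]
    omega
  · have h2 := Nat.mul_le_mul_left (Nat.card F) h
    simp only [Nat.add_one_sub_one, pow_one, sq]
    omega
  · simp; omega

/-- cuspidal, not self dual, trivial on `-1` -/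
theorem exists_nsd_neg {k : ℕ}
    (h : 3 ≤ k ∨ (k = 2 ∧ 4 ≤ Nat.card F) ∨ (k = 1 ∧ 4 ≤ Nat.card F ∧ Nat.card F ≠ 5)) :
    ∃ a f ω, Cusp.{v} F k a f ω ∧ NSD F k a ∧
      ∀ (W : Type v) [AddCommGroup W] [Module F W] [Finite W], finrank F W = k →
        ∀ g : (End F W)ˣ, cu f (-(g : End F W)) = cu f (g : End F W) := by
  by_cases h2 : (2 : F) = 0
  · obtain ⟨⟨f, ω, hf⟩, hn⟩ := exists_nsd F (k := k) (by omega)
    refine ⟨1, f, ω, hf, hn, fun W _ _ _ _ g => ?_⟩
    congr 1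
    rw [neg_eq_iff_add_eq_zero, ← two_smul F, h2, zero_smul]
  · have := Fintype.ofFinite F
    have hodd : Nat.card F % 2 = 1 := by
      rw [Nat.card_eq_fintype_card]
      refine FiniteField.odd_card_of_char_ne_two fun e => h2 ?_
      exact_mod_cast (ringChar.spec F 2).2 (e ▸ dvd_rfl)
    have hq : 1 < Nat.card F := Finite.one_lt_card
    obtain ⟨⟨f, ω, hf⟩, hn⟩ := exists_cusp_of_lt F (k := k) (a := 2) (by omega) two_pos (by
      rcases h with h | ⟨rfl, h⟩ | ⟨rfl, h⟩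
      · obtain ⟨j, rfl⟩ : ∃ j, k = j + 3 := ⟨k - 3, by omega⟩
        have h1 : 2 ^ 2 ≤ Nat.card F ^ (j + 2) :=
          (Nat.pow_le_pow_left hq 2).trans (Nat.pow_le_pow_right hq.le (by omega))
        have h2 := Nat.mul_le_mul_left (Nat.card F ^ (j + 2)) (show 3 ≤ Nat.card F by omega)
        rw [show j + 3 - 1 = j + 2 from rfl, pow_succ _ (j + 2)]
        omega
      · have h2 := Nat.mul_le_mul_left (Nat.card F) h
        simp only [Nat.add_one_sub_one, pow_one, sq]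
        omega
      · rw [Nat.sub_self, pow_zero, pow_one]; omega)
    exact ⟨2, f, ω, hf, hn, fun W _ _ _ hW g => by simpa using hf.neg hW h2 g⟩

/-- self dual cuspidal character of `GL₂(q)`, trivial on scalars -/
theorem exists_sd2 : ∃ f ω, Cusp.{v} F 2 (Nat.card F - 1) f ω ∧
    ∀ (W : Type v) [AddCommGroup W] [Module F W] [Finite W], finrank F W = 2 →
      (∀ g : (End F W)ˣ, cu f ((g⁻¹ : (End F W)ˣ) : End F W) = cu f (g : End F W)) ∧
      ∀ (z : Fˣ) (g : (End F W)ˣ), cu f ((z : F) • (g : End F W)) = cu f (g : End F W) := by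
  have hq : 1 < Nat.card F := Finite.one_lt_card
  have e : Nat.card F ^ 2 - 1 = (Nat.card F - 1) * (Nat.card F + 1) := by
    rw [mul_comm, ← Nat.sq_sub_sq, one_pow]
  have key : ∀ n, 0 < n → n < Nat.card F + 1 → ¬ Nat.card F ^ 2 - 1 ∣ (Nat.card F - 1) * n :=
    fun n h0 hn hd => by
      rw [e] at hd
      have := Nat.le_of_dvd h0 (Nat.dvd_of_mul_dvd_mul_left (by omega) hd)
      omega
  obtain ⟨f, ω, hf⟩ := exists_cusp F (k := 2) (a := Nat.card F - 1) two_pos
    (by simpa using key 1 one_pos (by omega)) fun i h0 hi => by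
      obtain rfl : i = 1 := by omega
      exact key _ (by rw [pow_one]; omega) (by rw [pow_one]; omega)
  refine ⟨f, ω, hf, fun W _ _ _ hW => ⟨(hf.real W hW).2 ⟨1, one_lt_two, by simp [e]⟩,
    fun z g => ?_⟩⟩
  rw [hf.smul hW, ← Units.val_pow_eq_pow_val, ← map_pow, ← Nat.card_units, pow_card_eq_one']
  simp

/-- self dual cuspidal character of `GL₄(2)` -/
theorem exists_sd4 (h : Nat.card F = 2) : ∃ f ω, Cusp.{v} F 4 3 f ω ∧
    ∀ (W : Type v) [AddCommGroup W] [Module F W] [Finite W], finrank F W = 4 →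
      ∀ g : (End F W)ˣ, cu f ((g⁻¹ : (End F W)ˣ) : End F W) = cu f (g : End F W) := by
  obtain ⟨f, ω, hf⟩ := exists_cusp F (k := 4) (a := 3) (by norm_num) (by rw [h]; decide)
    fun i h0 hi => by rw [h]; interval_cases i <;> decide
  exact ⟨f, ω, hf, fun W _ _ _ hW => (hf.real W hW).2 ⟨2, by norm_num, by rw [h]; decide⟩⟩

/-- the sign character of `GL₁(3)` -/
theorem exists_sd1 (h : Nat.card F = 3) : ∃ f ω, Cusp.{v} F 1 1 f ω ∧
    ∀ (W : Type v) [AddCommGroup W] [Module F W] [Finite W], finrank F W = 1 →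
      ∀ g : (End F W)ˣ, cu f ((g⁻¹ : (End F W)ˣ) : End F W) = cu f (g : End F W) := by
  obtain ⟨f, ω, hf⟩ := exists_cusp F (k := 1) (a := 1) one_pos (by rw [h]; decide)
    fun i h0 hi => by omega
  exact ⟨f, ω, hf, fun W _ _ _ hW => (hf.real W hW).2 ⟨0, one_pos, by rw [h]; decide⟩⟩

end Cfsg.Agent.DG
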