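import Cfsg.Agent.Lib.DG.Cu8

/-!
Row SP2, part 1: the sum of the self dual cuspidal character of `GL₂` over traceless matrices.
-/

set_option autoImplicit false

namespace Cfsg.Agent.DG

open Polynomial Module

open scoped Classical

universe v

variable {F : Type*} [Field F] [Finite F]

theorem card_units_two {W : Type*} [AddCommGroup W] [Module F W] [Finite W]
    (hW : finrank F W = 2) :
    (Nat.card (End F W)ˣ : ℂ) = ((Nat.card F : ℂ) ^ 2 - 1) * ((Nat.card F : ℂ) ^ 2 - Nat.card F) := by
  have := Fintype.ofFinite F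
  rw [card_units_eq (LinearEquiv.ofFinrankEq W (Fin 2 → F) (by simp [hW])),
    ← Nat.card_congr (Matrix.GeneralLinearGroup.toLin (n := Fin 2) (R := F)).toEquiv,
    Matrix.card_GL_field, Fin.prod_univ_two, Nat.card_eq_fintype_card]
  have h := Fintype.card_pos (α := F)
  simp only [Fin.val_zero, pow_zero, Fin.val_one, pow_one]
  rw [Nat.cast_mul, Nat.cast_sub (Nat.one_le_pow _ _ h), Nat.cast_sub (Nat.le_self_pow two_ne_zero _)]
  simp

omit [Finite F] in
theorem trace_eq_coeff {W : Type*} [AddCommGroup W] [Module F W] [Finite W]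
    (hW : finrank F W = 2) (g : End F W) : LinearMap.trace F W g = -g.charpoly.coeff 1 := by
  let b := Module.finBasisOfFinrankEq F W hW
  rw [LinearMap.trace_eq_matrix_trace F b, Matrix.trace_eq_neg_charpoly_coeff,
    LinearMap.charpoly_toMatrix]
  simp

theorem vm_two [Fintype Fˣ] {f : F[X] → ℂ} {ω : Fˣ →* ℂˣ} (h : Cusp.{v} F 2 (Nat.card F - 1) f ω) :
    (∑ d : Fˣ, vm f (X ^ 2 - C (d : F))) ^ 2 = ((Nat.card F : ℂ) - 1) ^ 2 := by
  have := Fintype.ofFinite F
  obtain ⟨K, _, _, _, θ, hθ, hf, hs⟩ := h.val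
  have hq : ((Fintype.card Fˣ : ℕ) : ℂ) = (Nat.card F : ℂ) - 1 := by
    rw [← Nat.card_eq_fintype_card, Nat.card_units, Nat.cast_sub Nat.card_pos, Nat.cast_one]
  by_cases h2 : ringChar F = 2
  · have key : ∀ d : Fˣ, vm f (X ^ 2 - C (d : F)) = -1 := fun d => by
      obtain ⟨a, ha⟩ := FiniteField.isSquare_of_char_two h2 (d : F)
      have ha0 : a ≠ 0 := fun e => d.ne_zero (by simp [ha, e])
      have h3 : (2 : F[X]) = 0 := by
        rw [← C_ofNat, show (OfNat.ofNat 2 : F) = 0 by
          exact_mod_cast (ringChar.spec F 2).2 (h2 ▸ dvd_rfl), C_0]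
      rw [vm_of_pp f (φ := X - C a) ⟨monic_X_sub_C a, irreducible_X_sub_C a, 1, by
        rw [ha, C_mul]; linear_combination (X * C a - C a ^ 2) * h3⟩, hf]
      simp [rs, ← map_pow, Nat.card_eq_fintype_card, FiniteField.pow_card_sub_one_eq_one a ha0]
    simp only [key, Finset.sum_const, Finset.card_univ, nsmul_eq_mul]
    rw [← hq]
    ring
  · have h3 : (2 : F) ≠ 0 := Ring.two_ne_zero h2
    have key : ∀ d : Fˣ, vm f (X ^ 2 - C (d : F)) = 1 - (quadraticChar F d : ℤ) := fun d => by
      have hm : (X ^ 2 - C (d : F)).Monic := monic_X_pow_sub_C _ two_ne_zero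
      have hd : (X ^ 2 - C (d : F)).natDegree = 2 := natDegree_X_pow_sub_C
      by_cases hsq : IsSquare (d : F)
      · rw [(quadraticChar_one_iff_isSquare d.ne_zero).2 hsq, vm_of_not]
        · simp
        obtain ⟨a, ha⟩ := hsq
        rintro ⟨φ, hφ, hi, j, hj⟩
        have k : ∀ b : F, b * b = d → X - C b = φ := fun b hb => by
          have : X - C b ∣ φ ^ (j + 1) := by
            rw [← hj, dvd_iff_isRoot]; simp [← hb, sq]
          exact eq_of_monic_of_associated (monic_X_sub_C b) hφ
            ((irreducible_X_sub_C b).associated_of_dvd hi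
              ((prime_X_sub_C b).dvd_of_dvd_pow this))
        have h4 := (k a ha.symm).trans (k (-a) (by simp [ha])).symm
        have h5 : a = -a := C_injective (sub_right_injective h4)
        have h6 : a = 0 := (mul_eq_zero.1 (show 2 * a = 0 by linear_combination h5)).resolve_left h3
        exact d.ne_zero (by simp [ha, h6])
      · have hi : Irreducible (X ^ 2 - C (d : F)) := by
          rw [hm.irreducible_iff_roots_eq_zero_of_degree_le_three (by omega) (by omega),
            Multiset.eq_zero_iff_forall_notMem]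
          intro a ha
          rw [mem_roots hm.ne_zero] at ha
          exact hsq ⟨a, by simpa [sub_eq_zero, sq, eq_comm] using ha⟩
        rw [quadraticChar_neg_one_iff_not_isSquare.2 hsq,
          vm_of_pp f (φ := X ^ 2 - C (d : F)) ⟨hm, hi, 0, by simp⟩, hf, rs]
        have h4 : θ (-1) = -1 := by
          refine (mul_self_eq_one_iff.1 (by rw [← map_mul]; simp)).resolve_left fun e => h3 ?_
          have h5 : (-1 : K) = 1 := by simpa using congrArg Units.val (hθ (-1) (by simpa using e))
          apply (algebraMap F K).injective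
          rw [map_ofNat, map_zero]
          linear_combination -h5
        have h5 : (d : F) ^ (Fintype.card F / 2) = -1 :=
          (FiniteField.pow_dichotomy h2 d.ne_zero).resolve_left fun e =>
            hsq ((FiniteField.isSquare_iff h2 d.ne_zero).2 e)
        rw [Multiset.map_congr rfl (g := fun _ => -1) fun x hx => by
          have h6 : x ^ 2 = algebraMap F K d := by
            simpa [sub_eq_zero] using (mem_aroots.1 hx).2
          have h7 := FiniteField.odd_card_of_char_ne_two h2
          rw [← map_pow, Nat.card_eq_fintype_card,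
            show Fintype.card F - 1 = 2 * (Fintype.card F / 2) by omega, pow_mul, h6, ← map_pow,
            h5, map_neg, map_one, h4], Multiset.map_const', Multiset.sum_replicate, aroots_def,
          ← (hs _ hm hi (by rw [hd])).natDegree_eq_card_roots, natDegree_map, hd]
        norm_num
    have h4 : ∑ d : Fˣ, ((quadraticChar F d : ℤ) : ℂ) = 0 := by
      have h5 := sum_units ((quadraticChar F).ringHomComp (Int.castRingHom ℂ)) fun _ => 1
      simp only [mul_one, MulChar.ringHomComp_apply, eq_intCast] at h5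
      rw [← h5, ← Int.cast_sum, quadraticChar_sum_zero h2, Int.cast_zero]
    simp only [key, Finset.sum_sub_distrib, h4, Finset.sum_const, Finset.card_univ, nsmul_eq_mul,
      mul_one, sub_zero]
    rw [← hq]

theorem sum_traceless {f : F[X] → ℂ} {ω : Fˣ →* ℂˣ} (h : Cusp.{v} F 2 (Nat.card F - 1) f ω)
    {W : Type*} [AddCommGroup W] [Module F W] [Finite W] (hW : finrank F W = 2) :
    (∑ g : (End F W)ˣ, if LinearMap.trace F W g = 0 then cu f (g : End F W) else 0) ^ 2 =
      ((Nat.card F : ℂ) * ((Nat.card F : ℂ) - 1) ^ 2) ^ 2 := by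
  have : Nontrivial W := Module.nontrivial_of_finrank_eq_succ hW
  have := Fintype.ofFinite Fˣ
  have h1 := sum_cu_eq (V := W) h.add fun p => if p.coeff 0 ≠ 0 ∧ p.coeff 1 = 0 then 1 else 0
  have h2 : ∑ p ∈ mk F (finrank F W), vm f p * (if p.coeff 0 ≠ 0 ∧ p.coeff 1 = 0 then 1 else 0) =
      ∑ d : Fˣ, vm f (X ^ 2 - C (d : F)) := by
    simp only [mul_ite, mul_one, mul_zero]
    rw [← Finset.sum_filter, hW]
    symm
    refine Finset.sum_bij (fun d _ => X ^ 2 - C (d : F)) (fun d _ => ?_)
      (fun a _ b _ e => Units.ext (by simpa using e)) (fun p hp => ?_) fun _ _ => rfl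
    · simp [mem_mk, monic_X_pow_sub_C, coeff_X_pow]
    · obtain ⟨hp, h0, h1⟩ := Finset.mem_filter.1 hp
      obtain ⟨hm, hd⟩ := mem_mk.1 hp
      refine ⟨Units.mk0 (-p.coeff 0) (neg_ne_zero.2 h0), Finset.mem_univ _, ?_⟩
      conv_rhs => rw [hm.as_sum, hd]
      simp [Finset.sum_range_succ, h1]
  have hq : ((Nat.card F : ℂ) ^ 2 - 1) ≠ 0 := by
    rw [sub_ne_zero]
    exact_mod_cast (Nat.one_lt_pow two_ne_zero Finite.one_lt_card).ne'
  rw [h2, card_units_two hW, Module.natCard_eq_pow_finrank (K := F), hW, Nat.cast_pow,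
    mul_assoc] at h1
  rw [sum_units_eq fun g => if LinearMap.trace F W g = 0 then cu f g else 0]
  simp only [trace_eq_coeff hW, neg_eq_zero, ← ite_and]
  simp only [mul_ite, mul_one, mul_zero] at h1
  rw [mul_left_cancel₀ hq h1, mul_pow, vm_two h]
  ring

end Cfsg.Agent.DG
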