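import Cfsg.Agent.Lib.DG.Form
import Cfsg.Prelude.Def_Classical
import Cfsg.Prelude.Def_DegreeGraph

/-!
# Degree graph of symplectic and orthogonal groups: types, points, statements

See `docs/DG_PLAN.md`.
-/

set_option autoImplicit false

namespace Cfsg.Agent.DG

open Module

/-- The four families. -/
inductive Typ | C | B | P | M
  deriving DecidableEq

/-- number of nonzero singular vectors in the space of type `t` and rank `j` -/
def sn : Typ → ℕ → ℕ → ℕ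
  | .C, q, j => q ^ (2 * j) - 1
  | .B, q, j => q ^ (2 * j) - 1
  | .P, q, j => (q ^ j - 1) * (q ^ (j - 1) + 1)
  | .M, q, j => (q ^ j + 1) * (q ^ (j - 1) - 1)

/-- the Witt index of the space of type `t` and rank `j` -/
def wi : Typ → ℕ → ℕ
  | .M, j => j - 1
  | _, j => j

theorem wi_M (j : ℕ) : wi .M j = j - 1 := by simp only [wi]

namespace FSp

variable {F V : Type*} [Field F] [AddCommGroup V] [Module F V] (s : FSp F V)

/-- the orthogonal complement -/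
def perp (A : Submodule F V) : Submodule F V where
  carrier := {v | ∀ a ∈ A, s.B v a = 0}
  add_mem' h h' a ha := by simp [h a ha, h' a ha]
  zero_mem' a _ := by simp
  smul_mem' c v h a ha := by simp [h a ha]

theorem mem_perp {A : Submodule F V} {v : V} : v ∈ s.perp A ↔ ∀ a ∈ A, s.B v a = 0 := Iff.rfl

/-- the Witt index is `w`: some maximal totally singular subspace has dimension `w` -/
def WI (w : ℕ) : Prop :=
  ∃ M, s.TS M ∧ finrank F M = w ∧ ∀ v ∈ s.perp M, s.Q v = 0 → v ∈ M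

/-- type and rank of a space -/
def Ty : Typ → ℕ → Prop
  | .C, j => s.δ = 0 ∧ finrank F V = 2 * j ∧ s.WI j
  | .B, j => s.δ = 1 ∧ finrank F V = 2 * j + 1 ∧ s.WI j
  | .P, j => s.δ = 1 ∧ finrank F V = 2 * j ∧ s.WI j
  | .M, j => s.δ = 1 ∧ finrank F V = 2 * j ∧ s.WI (j - 1) ∧ 1 ≤ j

/-- totally singular subspaces of dimension `k` -/
def TSk (k : ℕ) : Type _ := {Z : Submodule F V // s.TS Z ∧ finrank F Z = k}

instance [Finite V] (k : ℕ) : Finite (s.TSk k) := by unfold TSk; infer_instance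

variable {s} in
theorem TS.map {Z : Submodule F V} (h : s.TS Z) (g : s.iso) :
    s.TS (Z.map (g.1 : V →ₗ[F] V)) :=
  ⟨by rintro _ ⟨x, hx, rfl⟩; exact (iso_Q g x).trans (h.1 x hx), by
    rintro _ ⟨x, hx, rfl⟩ _ ⟨y, hy, rfl⟩; exact (iso_B g x y).trans (h.2 x hx y hy)⟩

instance (k : ℕ) : MulAction s.iso (s.TSk k) where
  smul g Z := ⟨Z.1.map (g.1 : V →ₗ[F] V), Z.2.1.map g, (g.1.finrank_map_eq Z.1).trans Z.2.2⟩
  one_smul Z := Subtype.ext (Submodule.map_id _)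
  mul_smul g h Z := Subtype.ext (Submodule.map_comp (h.1 : V →ₗ[F] V) (g.1 : V →ₗ[F] V) Z.1)

variable {s} in
theorem smul_val {k : ℕ} (g : s.iso) (Z : s.TSk k) : (g • Z).1 = Z.1.map (g.1 : V →ₗ[F] V) := rfl

variable {s} in
/-- orthogonal points -/
def Col (x y : s.TSk 1) : Prop := x.1 ≤ s.perp y.1

/-- the permutation character on the singular points -/
noncomputable def piPt (g : s.iso) : ℂ := Nat.card {x : s.TSk 1 // g • x = x}

variable {s} in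
/-- `X` contains all Eichler transformations -/
def HasE [FiniteDimensional F V] (X : Subgroup s.iso) : Prop :=
  ∀ e w t he hw, s.eich e w t he hw ∈ X

variable {s} in
/-- `X` has rank at most three on the singular points -/
def Rk3 (X : Subgroup s.iso) : Prop :=
  ∀ x y x' y' : s.TSk 1, (x = y ↔ x' = y') → (Col x y ↔ Col x' y') →
    ∃ g ∈ X, g • x = x' ∧ g • y = y'

variable {s} in
/-- `η` is a nontrivial irreducible constituent of the permutation character on points -/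
def PtC (X : Subgroup s.iso) (η : X → ℂ) : Prop :=
  IsIrrCharacter X η ∧ ∃ ξ : X → ℂ, IsCharacter X ξ ∧ ∀ g : X, s.piPt g = η g + ξ g

end FSp

/-- Degrees of the two nontrivial rank three constituents. -/
def R3Deg : Typ → ℕ → ℕ → ℕ → ℕ → Prop
  | .C, q, j, f, g => 2 * (q - 1) * f = q * (q ^ j + 1) * (q ^ (j - 1) - 1) ∧
      2 * (q - 1) * g = q * (q ^ j - 1) * (q ^ (j - 1) + 1)
  | .B, q, j, f, g => 2 * (q - 1) * f = q * (q ^ j + 1) * (q ^ (j - 1) - 1) ∧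
      2 * (q - 1) * g = q * (q ^ j - 1) * (q ^ (j - 1) + 1)
  | .P, q, j, f, g => (q ^ 2 - 1) * f = q * (q ^ j - 1) * (q ^ (j - 2) + 1) ∧
      (q ^ 2 - 1) * g = q ^ 2 * (q ^ (2 * j - 2) - 1)
  | .M, q, j, f, g => (q ^ 2 - 1) * f = q * (q ^ j + 1) * (q ^ (j - 2) - 1) ∧
      (q ^ 2 - 1) * g = q ^ 2 * (q ^ (2 * j - 2) - 1)

/-- the count of singular vectors orthogonal to a totally singular subspace (row ORD) -/
def CntStmt : Prop :=
  ∀ (F V : Type) [Field F] [Fintype F] [AddCommGroup V] [Module F V] [Finite V] (s : FSp F V)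
    (t : Typ) (j : ℕ), s.Ty t j → ∀ A : Submodule F V, s.TS A → finrank F A ≤ wi t j ∧
      Nat.card {v : V // s.Q v = 0 ∧ v ∈ s.perp A} =
        Fintype.card F ^ finrank F A * (sn t (Fintype.card F) (j - finrank F A) + 1)

/-- rank three characters (row R3) -/
def R3Stmt : Prop :=
  ∀ (F V : Type) [Field F] [Fintype F] [AddCommGroup V] [Module F V] [Finite V] (s : FSp F V)
    (t : Typ) (j : ℕ) (X : Subgroup s.iso), s.Ty t j → FSp.Rk3 X →
    (wi t j = 1 → t ≠ .P → ∃ η : X → ℂ, FSp.PtC X η ∧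
      η 1 = (Fintype.card F ^ (if t = .M then 2 else 1) : ℕ)) ∧
    (2 ≤ wi t j → ∃ (η η' : X → ℂ) (f g : ℕ), FSp.PtC X η ∧ FSp.PtC X η' ∧ η 1 = f ∧ η' 1 = g ∧
      R3Deg t (Fintype.card F) j f g)

/-- `A` (the set of degrees of the simple group) contains, up to the loss `c`, a multiple of the
degree of the character `I(k, η)`, `η(1) = e`, of the group of type `t` and rank `m`. -/
def HasI (A : Set ℕ) (c : ℕ) (t : Typ) (q m k e : ℕ) : Prop :=
  ∃ d ∈ A, ∃ D, D * (q ^ k - 1) = (∏ i ∈ Finset.range k, sn t q (m - i)) * e ∧ D ∣ c * d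

/-- the primes that can divide the order -/
def Pr (t : Typ) (q m r : ℕ) : Prop :=
  r.Prime ∧ (r ∣ q ∨ r ∣ q ^ 2 - 1 ∨ ∃ i < wi t m, r ∣ sn t q (m - i))

/-- all pairs of primes are joined -/
def Cpl (A : Set ℕ) (t : Typ) (q m : ℕ) : Prop :=
  ∀ r r', Pr t q m r → Pr t q m r' → r ≠ r' → ∃ d ∈ A, r * r' ∣ d

/-- row ARITH, symplectic groups -/
def ArC : Prop := ∀ (A : Set ℕ) (q m : ℕ), IsPrimePow q → 2 ≤ m → (m = 2 → 3 ≤ q) →
  (3 ≤ m ∨ 4 ≤ q → HasI A 1 .C q m m 1) →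
  (4 ≤ m ∨ (m = 3 ∧ 4 ≤ q) → HasI A 1 .C q m (m - 1) q) →
  (∃ d ∈ A, d * ((q ^ 2 - 1) * (q + 1)) = q * (q ^ (2 * m) - 1) * (q ^ (2 * m - 2) - 1)) →
  (∃ f ∈ A, ∃ g ∈ A, R3Deg .C q m f g) → Cpl A .C q m

/-- row ARITH, odd dimensional orthogonal groups -/
def ArB : Prop := ∀ (A : Set ℕ) (q m : ℕ), IsPrimePow q → Odd q → 3 ≤ m →
  HasI A 4 .B q m m 1 → HasI A 4 .B q m (m - 1) q →
  (∃ f ∈ A, ∃ g ∈ A, R3Deg .B q m f g) → Cpl A .B q m

/-- row ARITH, plus type -/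
def ArP : Prop := ∀ (A : Set ℕ) (c q m : ℕ), IsPrimePow q → (Odd q ∧ c = 4 ∨ Even q ∧ c = 2) →
  4 ≤ m → HasI A c .P q m m 1 → HasI A c .P q m (m - 1) 1 →
  (5 ≤ m ∨ 4 ≤ q → HasI A c .P q m (m - 2) (q ^ 2)) →
  (7 ≤ m → HasI A c .P q m (m - 3) (q ^ 2 * (q ^ 2 + 1))) →
  (m = 5 → 3 ≤ q → HasI A c .P q m 2 (q * (q ^ 2 + q + 1))) →
  (m = 5 → q = 2 → ∃ d ∈ A, 14 ∣ d) →
  (∃ f ∈ A, ∃ g ∈ A, R3Deg .P q m f g) → Cpl A .P q m

/-- row ARITH, minus type -/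
def ArM : Prop := ∀ (A : Set ℕ) (c q m : ℕ), IsPrimePow q → (Odd q ∧ c = 4 ∨ Even q ∧ c = 2) →
  4 ≤ m → HasI A c .M q m (m - 1) 1 →
  (5 ≤ m ∨ 3 ≤ q → HasI A c .M q m (m - 2) (q ^ 2)) →
  (m = 4 → 4 ≤ q → HasI A c .M q m 1 (q ^ 2 * (q ^ 2 + 1))) →
  (m = 4 → q = 3 → ∃ d ∈ A, 195 ∣ d) → (m = 4 → q = 2 → ∃ d ∈ A, 1190 ∣ d) →
  (∃ f ∈ A, ∃ g ∈ A, R3Deg .M q m f g) → Cpl A .M q m

end Cfsg.Agent.DG
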