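import Cfsg.Agent.Lib.DG.Desc1
import Cfsg.Agent.Lib.DG.Cu8

/-!
# The statements used by the final assembly
-/

set_option autoImplicit false

namespace Cfsg.Agent.DG

open Module

/-- row HC: the characters `I(k, η)` -/
def IStmt : Prop :=
  ∀ (F W U : Type) [Field F] [Fintype F] [AddCommGroup W] [Module F W] [Finite W]
    [AddCommGroup U] [Module F U] [Finite U] (s : FSp F U) (k a : ℕ) (f : Polynomial F → ℂ)
    (ω : Fˣ →* ℂˣ) (η : s.iso → ℂ), finrank F W = k → 0 < k → Cusp.{0} F k a f ω → NSD F k a →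
    IsIrrCharacter s.iso η →
    (IsEmpty (s.TSk k) ∨ (η = fun _ => 1) ∨ FSp.PtC ⊤ fun g : (⊤ : Subgroup s.iso) => η g) →
    ∃ χ : (s.hyp W).iso → ℂ, IsIrrCharacter _ χ ∧
      χ 1 = Nat.card ((s.hyp W).TSk k) * cu f (1 : End F W) * η 1 ∧
      ((∀ g : (End F W)ˣ, cu f (-(g : End F W)) = cu f (g : End F W)) → η s.negOne = η 1 →
        χ (s.hyp W).negOne = χ 1)

/-- row SP2 -/
def SP2Stmt : Prop :=
  ∀ (F W U : Type) [Field F] [Fintype F] [AddCommGroup W] [Module F W] [Finite W]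
    [AddCommGroup U] [Module F U] [Finite U] (s : FSp F U), s.δ = 0 → finrank F W = 2 →
    ∃ (χ : (s.hyp W).iso → ℂ) (d : ℕ), IsIrrCharacter _ χ ∧ χ (s.hyp W).negOne = χ 1 ∧ χ 1 = d ∧
      d * (Fintype.card F + 1) =
        Fintype.card F * Nat.card ((s.hyp W).TSk 2) * (Fintype.card F - 1)

/-- row N2 -/
def N2Stmt : Prop :=
  ∀ (F W U : Type) [Field F] [Fintype F] [AddCommGroup W] [Module F W] [Finite W]
    [AddCommGroup U] [Module F U] [Finite U] (s : FSp F U), Fintype.card F = 2 →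
    finrank F W = 4 → s.Ty .P 1 → (s.hyp W).Ty .P 5 →
    ∃ (χ : commutator (s.hyp W).iso → ℂ) (d : ℕ), IsIrrCharacter _ χ ∧ χ 1 = d ∧ 14 ∣ d

/-- row N3 -/
def N3Stmt : Prop :=
  ∀ (F W U : Type) [Field F] [Fintype F] [AddCommGroup W] [Module F W] [Finite W]
    [AddCommGroup U] [Module F U] [Finite U] (s : FSp F U), Fintype.card F = 2 →
    finrank F W = 2 → s.Ty .M 2 → (s.hyp W).Ty .M 4 →
    ∃ (χ : commutator (s.hyp W).iso → ℂ) (d : ℕ), IsIrrCharacter _ χ ∧ χ 1 = d ∧ 1190 ∣ d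

/-- row SGN -/
def SGNStmt : Prop :=
  ∀ (F W U : Type) [Field F] [Fintype F] [AddCommGroup W] [Module F W] [Finite W]
    [AddCommGroup U] [Module F U] [Finite U] (s : FSp F U), Fintype.card F = 3 →
    finrank F W = 1 → s.Ty .M 3 → (s.hyp W).Ty .M 4 →
    ∃ (χ : (s.hyp W).iso → ℂ) (d : ℕ), IsIrrCharacter _ χ ∧ χ 1 = d ∧ 195 ∣ d

end Cfsg.Agent.DG
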