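import Cfsg.Agent.Lib.DG.Ord3
import Cfsg.Agent.Lib.FS.Dk
import Cfsg.Agent.Lib.Chev.Cl3

/-!
# The centre, the commutator subgroup, the position of `-1`
-/

set_option autoImplicit false
set_option linter.unusedSectionVars false

namespace Cfsg.Agent.DG.FSp

open Module

variable {F V : Type*} [Field F] [AddCommGroup V] [Module F V] {s : FSp F V}
  [FiniteDimensional F V]

theorem ε_eq_one (hδ : s.δ = 1) : s.ε = 1 := by rw [ε, hδ]; norm_num

theorem hasE_commutator [Finite V] (hδ : s.δ = 1) (h5 : 5 ≤ finrank F V) :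
    HasE (commutator s.iso) := fun e w t he hw => by
  have P : Chev.Cl.QD s.Q s.B := ⟨fun x y => by rw [s.add, hδ, one_mul], fun c x => by
    rw [s.smul, sq], s.nd', h5⟩
  let ψ : s.iso →* End F V := LinearEquiv.automorphismGroup.toLinearMapMonoidHom.comp s.iso.subtype
  obtain ⟨h, hh, h1⟩ := Chev.Cl.isE_comm P (ψ := ψ) ⟨fun g h e => iso_ext fun x =>
    LinearMap.congr_fun e x, iso_Q, fun f hf => ⟨s.mkIso f hf (P.isomB hf), rfl⟩⟩ he hw
  convert hh
  exact iso_ext fun x => by rw [eich_apply, hδ, ε_eq_one hδ]; simpa using (show h x = _ from h1 x).symm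

theorem HasE.central {X : Subgroup s.iso} (hX : HasE X) (h3 : 3 ≤ finrank F V) {e : V}
    (he : s.Q e = 0) (he0 : e ≠ 0) {z : s.iso} (hz : ∀ g ∈ X, g * z = z * g) :
    z = 1 ∨ z = s.negOne := by
  have k1 : ∀ x, s.Q x = 0 → ∃ c : F, z x = c • x := fun x hx => by
    have k : ∀ w (hw : s.B w x = 0), s.B (z x) x • w =
        (s.ε * s.B (z x) w + (s.Q w + (1 - s.δ) * 0) * s.B (z x) x) • x := fun w hw => by
      have h1 := congrArg (fun g : s.iso => g x) (hz _ (hX x w 0 hx hw))
      simp only [mul_apply, eich_apply, B_self hx, s.B_eq_zero_comm hw, zero_smul, mul_zero,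
        add_zero, sub_zero] at h1 ⊢
      rwa [add_sub_assoc, add_eq_left, sub_eq_zero] at h1
    have p : ∀ w, w ∈ s.perp (F ∙ x) ↔ s.B w x = 0 := fun w => by
      rw [← bot_sup_eq (F ∙ x), mem_perp_sup, perp_bot]; simp
    by_cases h0 : x = 0
    · exact ⟨0, by simp [h0]⟩
    by_cases h : s.B (z x) x = 0
    · have : z x ∈ s.perp (s.perp (F ∙ x)) := fun w hw => by
        simpa [h, h0, s.ε_ne] using (k w ((p w).1 hw)).symm
      rw [perp_perp] at this
      exact (Submodule.mem_span_singleton.1 this).imp fun _ => Eq.symm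
    · have h1 : s.perp (F ∙ x) ≤ F ∙ x := fun w hw => by
        rw [← inv_smul_smul₀ h w, k w ((p w).1 hw), smul_smul]
        exact Submodule.mem_span_singleton.2 ⟨_, rfl⟩
      have := Submodule.finrank_mono h1
      have := finrank_perp (s := s) (F ∙ x)
      rw [finrank_span_singleton h0] at *
      omega
  have k2 : ∀ {x y : V} {c d : F}, z x = c • x → z y = d • y → s.B x y ≠ 0 → c * d = 1 :=
    fun {x y c d} hx hy h => mul_right_cancel₀ h (by
      have := iso_B z x y
      simp only [hx, hy, map_smul, LinearMap.smul_apply, smul_eq_mul] at this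
      linear_combination this)
  obtain ⟨y₀, -, hy₀⟩ := exists_fun (s := s) (A := ⊥) (u := e) (by simpa using he0)
  have hy := sing_adj he hy₀
  have hy' : s.B e (y₀ - (s.Q y₀ * s.ε) • e) = 1 := by simp [hy₀, B_self he]
  generalize y₀ - (s.Q y₀ * s.ε) • e = y at hy hy'
  obtain ⟨x, -, hx, h1, h2⟩ := exists_common (A := ⊥) (u := e) (v := y) (.inr (.inr (by simpa)))
    he (by simp [perp_bot]) (by simpa using he0) hy (by simp [perp_bot])
    (by rintro rfl; simp at hy')
  obtain ⟨c, hc⟩ := k1 e he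
  obtain ⟨d, hd⟩ := k1 y hy
  obtain ⟨a, ha⟩ := k1 x hx
  have e1 := k2 hc hd (by simp [hy'])
  have e2 := k2 hc ha h1
  have e3 := k2 hd ha h2
  have e4 : c * c = 1 := by linear_combination (-c * c) * e3 + (c * a) * e1 + e2
  have k3 : ∀ v, s.B e v = 1 → z v = c • v := fun v hv => by
    obtain ⟨b, hb⟩ := k1 _ (sing_adj he hv)
    have e5 := k2 hc hb (by simp [hv, B_self he])
    obtain rfl : b = c := by linear_combination c * e5 - b * e4
    rw [map_sub, map_smul, hc, smul_sub, smul_comm] at hb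
    exact sub_left_inj.1 hb
  have k4 : ∀ v, z v = c • v := fun v => by
    have := k3 (v + (1 - s.B e v) • y) (by simp [hy'])
    rwa [map_add, map_smul, k3 y hy', smul_add, smul_comm, add_left_inj] at this
  rcases mul_self_eq_one_iff.1 e4 with rfl | rfl
  · exact .inl (iso_ext fun v => by rw [k4, one_smul, one_apply])
  · exact .inr (iso_ext fun v => by rw [k4, neg_one_smul, negOne_apply])

theorem rf_mul_self (a : V) (ha : s.Q a ≠ 0) : s.rf a ha * s.rf a ha = 1 := iso_ext fun x => by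
  simp only [mul_apply, rf_apply, map_sub, map_smul, s.self a, one_apply]
  match_scalars
  · rfl
  · field_simp; ring

theorem rf_of_perp {a x : V} (ha : s.Q a ≠ 0) (h : s.B x a = 0) : s.rf a ha x = x := by
  simp [rf_apply, h]

theorem rf_conj {a : V} (ha : s.Q a ≠ 0) (g : s.iso) {c : F} {b : V} (h : g a = c • b)
    (hb : s.Q b ≠ 0) : g * s.rf a ha * g⁻¹ = s.rf b hb := iso_ext fun x => by
  have h1 := iso_Q g a
  rw [h, s.smul] at h1
  have hc : c ≠ 0 := by rintro rfl; exact ha (by simpa using h1.symm)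
  simp only [mul_apply, rf_apply, map_sub, map_smul, apply_inv_apply, ← iso_B_right, h, ← h1,
    smul_eq_mul]
  match_scalars <;> field_simp

theorem rf_swap (hδ : s.δ = 1) {x y : V} (h : s.Q x = s.Q y) (h' : s.Q (x - y) ≠ 0) :
    s.rf _ h' x = y := by
  have : s.B x (x - y) = s.Q (x - y) := by rw [Q_sub, map_sub, s.self, hδ, h]; ring
  rw [rf_apply, this, inv_mul_cancel₀ h', one_smul, sub_sub_cancel]

theorem rf_self (a : V) (ha : s.Q a ≠ 0) : s.rf a ha a = -a := by
  rw [rf_apply, s.self]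
  match_scalars; field_simp; ring

/-- two vectors of the same nonzero norm, characteristic not two -/
theorem rf_move (h2 : (2 : F) ≠ 0) {H : Subgroup s.iso} (hH : ∀ a ha, s.rf a ha ∈ H)
    {U : Submodule F V} {x y : V} (hx : x ∈ s.perp U) (hy : y ∈ s.perp U) (h : s.Q x = s.Q y)
    (h0 : s.Q y ≠ 0) : ∃ g ∈ H, g ∈ s.fixS U ∧ g x = y := by
  have hδ : s.δ = 1 := s.hδ.resolve_left fun h => h0 (Q_eq_zero h y)
  have fx : ∀ a (ha : s.Q a ≠ 0), a ∈ s.perp U → s.rf a ha ∈ s.fixS U := fun a ha hU u hu =>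
    rf_of_perp ha (s.B_eq_zero_comm (hU u hu))
  by_cases h1 : s.Q (x - y) = 0
  · have h3 : s.Q (x - -y) ≠ 0 := fun h3 => by
      rw [Q_sub, h] at h1 h3
      rw [s.Q_neg, map_neg] at h3
      exact mul_ne_zero h2 (mul_ne_zero h2 h0) (by linear_combination h1 + h3)
    exact ⟨s.rf y h0 * s.rf _ h3, H.mul_mem (hH _ _) (hH _ _), Subgroup.mul_mem _ (fx _ _ hy)
      (fx _ _ (sub_mem hx (neg_mem hy))), by
      rw [mul_apply, rf_swap hδ (h.trans (s.Q_neg y).symm), map_neg, rf_self, neg_neg]⟩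
  · exact ⟨_, hH _ h1, fx _ _ (sub_mem hx hy), rf_swap hδ h h1⟩

section fin
variable [Fintype F] [Finite V]

local notation "q" => Fintype.card F

omit s in
theorem two_ne_zero_iff : (2 : F) ≠ 0 ↔ q % 2 = 1 := by
  rw [← Nat.mod_two_ne_zero, ne_eq, ne_eq, ← FiniteField.even_card_iff_char_two]
  exact not_congr ⟨fun h => (Nat.dvd_prime Nat.prime_two).1 ((ringChar.spec F 2).1 h)
    |>.resolve_left CharP.ringChar_ne_one, fun h => (ringChar.spec F 2).2 h.dvd⟩

theorem eq_top_of_rf (h2 : (2 : F) ≠ 0) (hδ : s.δ = 1) {H : Subgroup s.iso}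
    (hH : ∀ a ha, s.rf a ha ∈ H) : H = ⊤ := by
  have key : ∀ n (U : Submodule F V), finrank F U + n = finrank F V →
      (∀ x ∈ U, x ∈ s.perp U → x = 0) → s.fixS U ≤ H := fun n => by
    induction n with
    | zero =>
      intro U h _ g hg
      rw [Submodule.eq_top_of_finrank_eq h] at hg
      exact (iso_ext fun x => hg x trivial : g = 1) ▸ H.one_mem
    | succ n ih =>
      intro U h hU g hg
      obtain ⟨a, ha, h0⟩ : ∃ a ∈ s.perp U, s.Q a ≠ 0 := by
        by_contra! hc
        have h3 : s.perp U = ⊥ := eq_bot_iff.2 fun x hx => hU x (perp_perp (s := s) U ▸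
          fun y hy => by
            have := s.add x y
            rw [hc x hx, hc y hy, hc _ (add_mem hx hy), hδ] at this
            linear_combination -this) hx
        have := finrank_perp (s := s) U
        rw [h3, finrank_bot] at this
        omega
      obtain ⟨k, hk, hk1, hk2⟩ := rf_move h2 hH (fixS_perp hg ha) ha (iso_Q g a) h0
      have := ih (U ⊔ F ∙ a) (by
        rw [finrank_sup_one fun e => h0 (by rw [hU a e ha, s.Q_zero])]; omega) (fun x hx hx' => by
        obtain ⟨b, hb, _, hd, rfl⟩ := Submodule.mem_sup.1 hx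
        obtain ⟨d, rfl⟩ := Submodule.mem_span_singleton.1 hd
        rw [mem_perp_sup] at hx'
        have e : d = 0 := by simpa [s.B_eq_zero_comm (ha b hb), s.self a, h2, h0] using hx'.2
        simpa [e] using hU b hb (by simpa [e] using hx'.1))
        (fixS_sup (Subgroup.mul_mem _ hk1 hg) hk2)
      exact (H.mul_mem_cancel_left hk).1 this
  exact eq_top_iff.2 fun g _ => key (finrank F V) ⊥ (by simp) (by simp) fun a ha => by
    simp [(Submodule.mem_bot F).1 ha]

theorem index_dvd_four (h2 : (2 : F) ≠ 0) (hδ : s.δ = 1) : (commutator s.iso).index ∣ 4 := by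
  have k1 : ∀ p : F → Prop, (∀ a b, p a → p b → a ≠ 0 → b ≠ 0 → IsSquare (b / a)) →
      ∃ x : Abelianization s.iso, orderOf x ∣ 2 ∧
        ∀ a ha, p (s.Q a) → Abelianization.of (s.rf a ha) = x := fun p hp => by
    by_cases h : ∃ a, s.Q a ≠ 0 ∧ p (s.Q a)
    · obtain ⟨b, hb, h⟩ := h
      refine ⟨Abelianization.of (s.rf b hb), orderOf_dvd_of_pow_eq_one (by
        rw [← map_pow, sq, rf_mul_self, map_one]), fun a ha h' => ?_⟩
      obtain ⟨c, hc⟩ := hp _ _ h h' hb ha
      obtain ⟨g, -, -, hg⟩ := rf_move h2 (H := ⊤) (fun _ _ => trivial) (U := ⊥) (x := a)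
        (y := c • b) (by simp [perp_bot]) (by simp [perp_bot])
        (by rw [s.smul, sq, ← hc, div_mul_cancel₀ _ hb]) (by rwa [s.smul, sq, ← hc, div_mul_cancel₀ _ hb])
      rw [← rf_conj ha g hg hb]
      simp
    · exact ⟨1, by simp, fun a ha h' => (h ⟨a, ha, h'⟩).elim⟩
  classical
  obtain ⟨x, hx, hx'⟩ := k1 IsSquare fun a b ha hb _ _ => hb.div ha
  obtain ⟨y, hy, hy'⟩ := k1 (fun a => ¬ IsSquare a) fun a b ha hb a0 b0 => by
    rw [← quadraticChar_one_iff_isSquare (div_ne_zero b0 a0), div_eq_mul_inv, map_mul,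
      quadraticChar_neg_one_iff_not_isSquare.2 hb, quadraticChar_neg_one_iff_not_isSquare.2
      (by rwa [isSquare_inv])]
    norm_num
  let f := (Subgroup.zpowers x).subtype.coprod (Subgroup.zpowers y).subtype
  have h1 : f.range.comap Abelianization.of = ⊤ := eq_top_of_rf h2 hδ fun a ha => by
    by_cases h : IsSquare (s.Q a)
    · exact ⟨(⟨x, Subgroup.mem_zpowers x⟩, 1), by simp [f, hx' a ha h]⟩
    · exact ⟨(1, ⟨y, Subgroup.mem_zpowers y⟩), by simp [f, hy' a ha h]⟩
  have h3 := Subgroup.card_dvd_of_surjective f fun z => by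
    obtain ⟨g, rfl⟩ := QuotientGroup.mk_surjective z
    exact h1.ge (Subgroup.mem_top g)
  rw [Nat.card_prod, Nat.card_zpowers, Nat.card_zpowers] at h3
  exact h3.trans (mul_dvd_mul hx hy)

/-- the Dickson invariant -/
theorem exists_sgn [CharP F 2] (hδ : s.δ = 1) (h5 : 5 ≤ finrank F V) :
    ∃ lam : s.iso →* ℂˣ, lam.ker = commutator s.iso ∧ (∀ g, lam g = 1 ∨ lam g = -1) ∧
      ∀ a ha, lam (s.rf a ha) = -1 := by
  let Q : FS.QS F V := ⟨s.Q, s.B, fun x y => by rw [s.add, hδ, one_mul], s.smul, s.nd⟩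
  let e : s.iso ≃* Q.O := MulEquiv.subgroupCongr (Subgroup.ext fun g => ⟨fun h => h.1, fun h =>
    ⟨h, fun x y => FS.QS.isoB (⟨g, h⟩ : Q.O) x y⟩⟩)
  let m : Multiplicative (ZMod 2) →* ℂˣ := MonoidHom.mk' (fun x => if x = 1 then 1 else -1)
    fun a b => by
      have : a * b = 1 ↔ (a = 1 ↔ b = 1) := by decide +revert
      by_cases ha : a = 1 <;> by_cases hb : b = 1 <;> simp [ha, hb, this]
  have hm : ∀ x, m x = 1 ↔ x = 1 := fun x => by
    by_cases h : x = 1
    · simp [h]
    · simp [m, h, Units.ext_iff]; norm_num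
  refine ⟨m.comp ((FS.DK.dkHom Q).comp e.toMonoidHom), Subgroup.ext fun g => ?_, fun g => ?_,
    fun a ha => ?_⟩
  · rw [MonoidHom.mem_ker, MonoidHom.comp_apply, hm, MonoidHom.comp_apply, ← MonoidHom.mem_ker,
      ← FS.DK.commutator_eq h5]
    rw [← Subgroup.mem_comap, commutator_def, commutator_def, ← Subgroup.map_top_of_surjective
      e.toMonoidHom e.surjective, ← Subgroup.map_commutator,
      Subgroup.comap_map_eq_self_of_injective e.injective]
  · by_cases h : (FS.DK.dkHom Q) (e g) = 1 <;> simp [m, h]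
  · have : e (s.rf a ha) = (FS.DK.rf a ha : Q.O) := Subtype.ext (LinearEquiv.ext fun x => by
      show s.rf a ha x = _
      rw [rf_apply, FS.DK.rf_apply, s.symm x a, ε_eq_one hδ, one_mul, sub_eq_add_neg, ← neg_smul,
        CharTwo.neg_eq])
    simp [m, this, FS.DK.dkHom, FS.DK.dk_rf_one]

theorem negOne_not_mem_of_odd (h2 : (2 : F) ≠ 0) (h : Odd (finrank F V)) :
    s.negOne ∉ commutator s.iso := fun e => by
  have h1 := Abelianization.commutator_subset_ker (LinearEquiv.det.comp s.iso.subtype) e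
  have h3 : LinearMap.det ((-1 : F) • (LinearMap.id : V →ₗ[F] V)) = 1 := by
    rw [neg_one_smul]
    exact (LinearEquiv.coe_det (LinearEquiv.neg F)).symm.trans (congrArg Units.val h1)
  rw [LinearMap.det_smul, h.neg_one_pow, LinearMap.det_id] at h3
  exact h2 (by linear_combination -h3)

theorem negOne_not_mem_of_cn (h2 : (2 : F) ≠ 0) {a : F} (ha : a ≠ 0) (h : s.cn ⊥ a % 4 = 2) :
    s.negOne ∉ commutator s.iso := fun e => by
  classical
  haveI := Fintype.ofFinite V
  letI : MulAction s.iso {v : V // s.Q v = a ∧ v ∈ s.perp ⊥} :=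
    { smul := fun g v => ⟨g v.1, (iso_Q g _).trans v.2.1, by simp [perp_bot]⟩
      one_smul := fun _ => rfl
      mul_smul := fun _ _ _ => rfl }
  have h1 := Abelianization.commutator_subset_ker
    (Equiv.Perm.sign.comp (MulAction.toPermHom s.iso {v : V // s.Q v = a ∧ v ∈ s.perp ⊥})) e
  rw [MonoidHom.mem_ker, MonoidHom.comp_apply, Equiv.Perm.sign_of_pow_two_eq_one (by
    rw [← map_pow, show s.negOne ^ 2 = 1 from iso_ext fun x => neg_neg x, map_one]),
    (Fintype.card_eq_zero_iff (α := Function.fixedPoints _)).2 ⟨fun v => ?_⟩,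
    ← Nat.card_eq_fintype_card, Odd.neg_one_pow ⟨s.cn ⊥ a / 4, by unfold cn at *; omega⟩] at h1
  · exact absurd h1 (by decide)
  · have h3 : -v.1.1 = v.1.1 := congrArg Subtype.val v.2
    have h4 : (2 : F) • v.1.1 = 0 := by rw [two_smul]; exact neg_eq_iff_add_eq_zero.1 h3
    exact ha (by rw [← v.1.2.1, (smul_eq_zero.1 h4).resolve_left h2, s.Q_zero])

theorem finrank_le_of_max (h2 : (2 : F) ≠ 0) (hδ : s.δ = 1) {M : Submodule F V} (hM : s.TS M)
    (h : ∀ v ∈ s.perp M, s.Q v = 0 → v ∈ M) : finrank F V ≤ 2 * finrank F M + 2 := by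
  by_contra! hc
  obtain ⟨x, hx, hx0⟩ := exists_nonsing hδ (A := M) (by omega)
  have d1 := finrank_sup_le M x
  have d2 := fun y => finrank_sup_le (M ⊔ F ∙ x) y
  obtain ⟨y, hy, hy0⟩ := exists_nonsing hδ (A := M ⊔ F ∙ x) (by omega)
  obtain ⟨z, hz, hz0⟩ := exists_notMem (A := M) (T := s.perp ((M ⊔ F ∙ x) ⊔ F ∙ y)) (by
    have := finrank_perp (s := s) ((M ⊔ F ∙ x) ⊔ F ∙ y)
    have := d2 y
    omega)
  rw [mem_perp_sup, mem_perp_sup] at hz
  rw [mem_perp_sup] at hy
  obtain ⟨a, b, hab⟩ := FiniteField.exists_root_sum_quadratic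
    (f := Polynomial.C (s.Q x) * Polynomial.X ^ 2)
    (g := Polynomial.C (s.Q y) * Polynomial.X ^ 2 + Polynomial.C (s.Q z))
    (Polynomial.degree_C_mul_X_pow 2 hx0) (by compute_degree!) (two_ne_zero_iff.1 h2)
  have h1 := h (z + (b • y + a • x)) (add_mem hz.1.1 (add_mem (Submodule.smul_mem _ _ hy.1)
    (Submodule.smul_mem _ _ hx))) (by
      simp [s.add, s.smul, hz.1.2, hz.2, hy.2] at hab ⊢
      linear_combination hab)
  have e1 := s.B_eq_zero_comm (hx _ h1)
  have e2 := s.B_eq_zero_comm (hy.1 _ h1)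
  simp [hz.1.2, hz.2, hy.2, s.B_eq_zero_comm hy.2, s.self, h2, hx0, hy0] at e1 e2
  exact hz0 (by simpa [e1, e2] using h1)

/-- in even dimension and odd characteristic all nonzero norms occur equally often -/
theorem cn_even (h2 : (2 : F) ≠ 0) (hδ : s.δ = 1) {m : ℕ} (hm : finrank F V = 2 * m) {a : F}
    (ha : a ≠ 0) : s.cn ⊥ 0 + (q - 1) * s.cn ⊥ a = q ^ (2 * m) := by
  classical
  let s' : FSp F (V × F) :=
    { δ := 1
      Q := fun x => s.Q x.1 - a * x.2 ^ 2
      B := LinearMap.mk₂ F (fun x y => s.B x.1 y.1 - 2 * a * x.2 * y.2)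
        (fun _ _ _ => by simp; ring) (fun _ _ _ => by simp; ring)
        (fun _ _ _ => by simp; ring) (fun _ _ _ => by simp; ring)
      hδ := .inr rfl
      add := fun x y => by simp [s.add, hδ]; ring
      smul := fun c x => by simp [s.smul]; ring
      self := fun x => by simp [s.self]; ring
      δQ := fun x => one_mul _
      nd := fun x h => Prod.ext (s.nd _ fun y => by simpa using h (y, 0))
        (by simpa [h2, ha] using h (0, 1)) }
  obtain ⟨M, -, h1, h3⟩ := (ts_bot (s := s')).exists_max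
  have d1 := finrank_le_of_max h2 rfl h1 h3
  have d2 := h1.two_mul_le
  have d3 : finrank F (V × F) = 2 * m + 1 := by simp [hm]
  have h4 := Ty.cn (s := s') (t := .B) (j := m) ⟨rfl, d3, M, h1, by omega, h3⟩ ts_bot
  rw [finrank_bot, pow_zero, one_mul, sn, Nat.sub_zero,
    Nat.sub_add_cancel (Nat.one_le_pow _ _ Fintype.card_pos)] at h4
  rw [← h4]
  let e : {v : V × F // s'.Q v = 0 ∧ v ∈ s'.perp ⊥} ≃ Σ t : F, {v : V // s.Q v = a * t ^ 2} :=
    { toFun := fun v => ⟨v.1.2, v.1.1, sub_eq_zero.1 v.2.1⟩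
      invFun := fun v => ⟨(v.2.1, v.1), sub_eq_zero.2 v.2.2, by simp [perp_bot]⟩
      left_inv := fun _ => rfl
      right_inv := fun _ => rfl }
  rw [show s'.cn ⊥ 0 = _ from Nat.card_congr e, Nat.card_sigma,
    ← Finset.add_sum_erase _ _ (Finset.mem_univ 0), Finset.sum_congr rfl
    (g := fun _ => s.cn ⊥ a) fun t ht => ?_, Finset.sum_const,
    Finset.card_erase_of_mem (Finset.mem_univ _)]
  · simp [cn, perp_bot]
  · have ht := (Finset.mem_erase.1 ht).1
    refine (Nat.card_congr ((MulAction.toPerm (Units.mk0 t ht)).subtypeEquiv fun v => ?_)).symm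
    simp [perp_bot, s.smul, mul_comm a, ht]

end fin

end Cfsg.Agent.DG.FSp
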