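import Cfsg.Agent.Lib.DG.Defs2
import Cfsg.Agent.Lib.Ind.Monomial

/-!
# Descent of character degrees to the simple group
-/

set_option autoImplicit false
set_option linter.unusedSectionVars false

namespace Cfsg.Agent.DG

open Module Cfsg.Agent.Char Cfsg.Agent.Ind
open scoped ComplexConjugate

section grp
variable {X : Type*} [Group X]

theorem isIrr_res_of_twist [Fintype X] {χ : X → ℂ} (hχ : IsIrrCharacter X χ) (lam : X →* ℂˣ)
    (h : ∀ g, lam g = 1 ∨ lam g = -1) (h1 : lam ≠ 1)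
    (h0 : classInner χ (fun g => χ g * lam g) = 0) :
    IsIrrCharacter lam.ker fun g => χ g := by
  classical
  refine isIrr_of_isChar_of_inner_self (isChar_restrict (isChar_of_isIrr hχ) _) ?_
  have e1 := inner_self_of_isIrr hχ
  have e2 : lam.ker.index = 2 := by
    obtain ⟨a, ha⟩ : ∃ a, lam a ≠ 1 := by
      by_contra! e
      exact h1 (MonoidHom.ext e)
    refine Subgroup.index_eq_two_iff.2 ⟨a, fun b => ?_⟩
    have n : (-1 : ℂˣ) ≠ 1 := by simp [Units.ext_iff]; norm_num
    rcases h b with hb | hb <;> simp [MonoidHom.mem_ker, hb, (h a).resolve_left ha, n]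
  have e3 : (Nat.card X : ℂ) = 2 * Nat.card lam.ker := by
    rw [← lam.ker.card_mul_index, e2]; push_cast; ring
  have e4 : ∑ g, χ g * conj (χ g) + ∑ g, χ g * conj (χ g * lam g) =
      2 * ∑ g : lam.ker, χ g * conj (χ g) := by
    rw [← Finset.sum_add_distrib, ← Finset.sum_subtype (Finset.univ.filter (· ∈ lam.ker))
      (by simp) (fun g => χ g * conj (χ g)), Finset.sum_filter, Finset.mul_sum]
    refine Finset.sum_congr rfl fun g _ => ?_
    by_cases hg : lam g = 1
    · simp [MonoidHom.mem_ker, hg, two_mul]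
    · simp [MonoidHom.mem_ker, (h g).resolve_left hg]
  have := Ind.card_ne_zero' lam.ker
  simp only [classInner, e3] at e1 h0 ⊢
  field_simp at e1 h0 ⊢
  linear_combination (e1 + h0 - e4) / 2

theorem exists_res_deg [Finite X] {χ : X → ℂ} (hχ : IsIrrCharacter X χ) (N : Subgroup X)
    [N.Normal] {c D : ℕ} (hN : N.index ∣ c) (hc : c ∣ 4) (hD : χ 1 = D) :
    ∃ (θ : N → ℂ) (d : ℕ), IsIrrCharacter N θ ∧ θ 1 = d ∧ D ∣ c * d ∧
      ∀ z : N, χ z = χ 1 → θ z = θ 1 := by
  haveI := Fintype.ofFinite X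
  haveI := Fintype.ofFinite N
  have h1 := isChar_restrict (isChar_of_isIrr hχ) N
  obtain ⟨θ, hθ, h2⟩ := exists_constituent (φ := fun n : N => χ n) (isClass_of_isChar h1)
    (apply_one_ne_zero_of_isIrr hχ)
  obtain ⟨d, hd0, hd⟩ := exists_pos_nat_of_isIrr hθ
  obtain ⟨e, he⟩ := exists_nat_inner h1 (isChar_of_isIrr hθ)
  refine ⟨θ, d, hθ, hd, ?_, fun z hz => apply_eq_of_constituent h1 hθ h2 hz⟩
  have h3 := clifford_deg N hχ hθ h2
  rw [he, hD, hd] at h3
  obtain rfl : D = e * (inertia N θ).index * d := by exact_mod_cast h3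
  have h4 := mul_deg_le (isCharacter_indFun N (isChar_of_isIrr hθ)) hχ (n := e)
    (a := N.index * d) (by
      rw [frobenius N θ (isClass_of_isIrr hχ), inner_comm_of_isChar (isChar_of_isIrr hθ) h1, he])
    (by rw [indFun_one, hd]; push_cast; rfl) hD
  have h5 := (Subgroup.index_dvd_of_le (le_inertia N (isClass_of_isIrr hθ))).trans hN
  have h6 : e ≠ 0 := by rintro rfl; exact h2 (by simpa using he)
  rw [← mul_assoc] at h4
  have h7 := (Nat.le_of_mul_le_mul_right h4 hd0).trans (Nat.le_of_dvd (Nat.pos_of_dvd_of_pos hc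
    (by norm_num)) hN)
  refine Nat.mul_dvd_mul_right ?_ d
  generalize (inertia N θ).index = t at h5 h7
  have c1 := Nat.le_of_dvd (by norm_num) hc
  have t1 := Nat.le_of_dvd (by norm_num) (h5.trans hc)
  have t0 := Nat.pos_of_dvd_of_pos (h5.trans hc) (by norm_num)
  have e1 : e ≤ 2 := by nlinarith [Nat.le_mul_of_pos_right e t0]
  interval_cases c <;> interval_cases t <;> interval_cases e <;> omega

theorem mem_charDegrees {χ : X → ℂ} (hχ : IsIrrCharacter X χ) {d : ℕ} (h : χ 1 = d) :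
    d ∈ charDegrees X := ⟨⟨χ, hχ⟩, by simp [charDegree, h]⟩

theorem dvd_card_of_mem [Finite X] {d : ℕ} (h : d ∈ charDegrees X) : d ∣ Nat.card X := by
  obtain ⟨χ, rfl⟩ := h
  obtain ⟨n, hn⟩ := exists_nat_of_isChar (isChar_irr χ)
  rw [show charDegree (χ : X → ℂ) = n by simp [charDegree, hn]]
  exact dvd_card_of_isIrr χ.2 hn

end grp

namespace FSp

variable {F V V' : Type*} [Field F] [AddCommGroup V] [Module F V] [AddCommGroup V'] [Module F V']
  {s : FSp F V} {G : Type*} [Group G]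

variable (G) in
/-- `G` is the quotient of `X` by a subgroup of `{1, -1}` -/
def Cov (X : Subgroup s.iso) : Prop :=
  ∃ π : X →* G, Function.Surjective π ∧ ∀ z, π z = 1 → z = 1 ∨ (z : s.iso) = s.negOne

variable [Finite V]

theorem Cov.deg0 {X : Subgroup s.iso} (h : Cov G X) {θ : X → ℂ} (hθ : IsIrrCharacter X θ)
    (h1 : ∀ z : X, (z : s.iso) = s.negOne → θ z = θ 1) {d : ℕ} (hd : θ 1 = d) :
    d ∈ charDegrees G := by
  obtain ⟨π, hπ, hk⟩ := h
  obtain ⟨χ, h2, rfl⟩ := exists_irr_quotient hθ π.ker fun z hz => (hk z hz).elim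
    (fun e => by rw [e]) (h1 z)
  exact mem_charDegrees (isIrr_comp_equiv h2
    (QuotientGroup.quotientKerEquivOfSurjective π hπ).symm) (by simpa using hd)

theorem Cov.deg {X : Subgroup s.iso} [X.Normal] (h : Cov G X) {c D : ℕ} (hN : X.index ∣ c)
    (hc : c ∣ 4) {χ : s.iso → ℂ} (hχ : IsIrrCharacter _ χ) (hD : χ 1 = D)
    (h1 : s.negOne ∈ X → χ s.negOne = χ 1) : ∃ d ∈ charDegrees G, D ∣ c * d := by
  obtain ⟨θ, d, hθ, hd, h2, h3⟩ := exists_res_deg hχ X hN hc hD
  exact ⟨d, h.deg0 hθ (fun z hz => h3 z (by rw [hz]; exact h1 (hz ▸ z.2))) hd, h2⟩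

theorem Cov.dvd {X : Subgroup s.iso} (h : Cov G X) : Nat.card G ∣ Nat.card s.iso := by
  obtain ⟨π, hπ, -⟩ := h
  exact (Subgroup.card_dvd_of_surjective π hπ).trans X.card_subgroup_dvd_card

theorem Cov.congr {s' : FSp F V'} {X : Subgroup s.iso} (h : Cov G X) (e : s.iso ≃* s'.iso)
    (he : e s.negOne = s'.negOne) : Cov G (X.map e.toMonoidHom) := by
  obtain ⟨π, hπ, hk⟩ := h
  refine ⟨π.comp (e.subgroupMap X).symm.toMonoidHom, hπ.comp (e.subgroupMap X).symm.surjective,
    fun z hz => ?_⟩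
  obtain ⟨z, rfl⟩ := (e.subgroupMap X).surjective z
  refine (hk z ((congrArg π ((e.subgroupMap X).symm_apply_apply z)).symm.trans hz)).imp
    (fun h => by rw [h]; exact map_one _) fun h => ?_
  rw [← he, ← h]; rfl

theorem cov_of_equiv [FiniteDimensional F V] {X : Subgroup s.iso} (hX : HasE X)
    (h3 : 3 ≤ finrank F V) {e : V} (he : s.Q e = 0) (he0 : e ≠ 0) {Y : Type*} [Group Y]
    (i : X ≃* Y) (j : G ≃* Y ⧸ Subgroup.center Y) : Cov G X := by
  refine ⟨j.symm.toMonoidHom.comp ((QuotientGroup.mk' _).comp i.toMonoidHom),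
    j.symm.surjective.comp ((QuotientGroup.mk'_surjective _).comp i.surjective), fun z hz => ?_⟩
  have h1 : i z ∈ Subgroup.center Y := by simpa using hz
  refine (hX.central h3 he he0 (z := z) fun g hg => ?_).imp_left Subtype.ext
  exact congrArg Subtype.val (i.injective (by
    simpa using Subgroup.mem_center_iff.1 h1 (i ⟨g, hg⟩)) : (⟨g, hg⟩ * z : X) = z * ⟨g, hg⟩)

theorem piPt_negOne : s.piPt s.negOne = s.piPt 1 := by
  have : ∀ x : s.TSk 1, s.negOne • x = x := fun x => Subtype.ext (by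
    ext v; simp [smul_val, negOne])
  simp [piPt, this]

theorem PtC.negOne {X : Subgroup s.iso} {η : X → ℂ} (h : PtC X η) (z : X)
    (hz : (z : s.iso) = s.negOne) : η z = η 1 := by
  haveI := Fintype.ofFinite X
  obtain ⟨h1, ξ, h2, h3⟩ := h
  refine apply_eq_of_constituent (isChar_add (isChar_of_isIrr h1) h2) h1 ?_ (by
    simp only [Pi.add_apply, ← h3, hz, piPt_negOne, Subgroup.coe_one])
  exact inner_ne_zero_of_sub (isChar_of_isIrr h1) (by simpa using h2) (isChar_of_isIrr h1)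
    (by rw [inner_self_of_isIrr h1]; exact one_ne_zero)

end FSp

end Cfsg.Agent.DG
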