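import Cfsg.Agent.Lib.DG.Ord1

/-!
# Witt's lemma for totally singular subspaces, rank three, number of subspaces
-/

set_option autoImplicit false
set_option linter.unusedSectionVars false

namespace Cfsg.Agent.DG.FSp

open Module

variable {F V : Type*} [Field F] [AddCommGroup V] [Module F V] {s : FSp F V}
  [FiniteDimensional F V]

theorem hasE_top : HasE (⊤ : Subgroup s.iso) := fun _ _ _ _ _ => trivial

variable (s) in
/-- the reflection in a nonsingular vector -/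
noncomputable def rf (a : V) (ha : s.Q a ≠ 0) : s.iso :=
  have hδ : s.δ = 1 := s.hδ.resolve_left fun h => ha (Q_eq_zero h a)
  have hε : s.ε = 1 := by rw [ε, hδ]; norm_num
  s.mkIso (LinearMap.id - ((s.Q a)⁻¹ • s.B.flip a).smulRight a)
    (fun x => by
      simp only [LinearMap.sub_apply, LinearMap.id_apply, LinearMap.smulRight_apply,
        LinearMap.flip_apply, LinearMap.smul_apply, smul_eq_mul, Q_sub, s.smul, map_smul, hδ]
      field_simp
      ring)
    (fun x y => by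
      simp only [LinearMap.sub_apply, LinearMap.id_apply, LinearMap.smulRight_apply,
        LinearMap.flip_apply, LinearMap.smul_apply, smul_eq_mul, map_sub, map_smul, s.self a,
        s.symm y a, hε]
      field_simp
      ring)

theorem rf_apply (a : V) (ha : s.Q a ≠ 0) (x : V) :
    s.rf a ha x = x - ((s.Q a)⁻¹ * s.B x a) • a := rfl

theorem HasE.opp {X : Subgroup s.iso} (hX : HasE X) {x y y' : V} (hx : s.Q x = 0)
    (hy : s.Q y = 0) (hy' : s.Q y' = 0) (h0 : s.B y x ≠ 0) (h : s.B y' x = s.B y x) :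
    ∃ g ∈ X, g y = y' ∧ g x = x ∧ ∀ a, s.B a x = 0 → s.B a y = s.B a y' → g a = a := by
  have hw : s.B ((s.B y x)⁻¹ • (y' - y)) x = 0 := by simp [h]
  generalize hw' : (s.B y x)⁻¹ • (y' - y) = w at hw
  have e1 : y + s.B y x • w = y' := by rw [← hw', smul_inv_smul₀ h0, add_sub_cancel]
  refine ⟨_, hX x w (-(s.ε * s.B y w + s.Q w * s.B y x) / s.B y x) hx hw, ?_, ?_, fun a h1 h2 => ?_⟩
  · have e2 := iso_Q (s.eich x w (-(s.ε * s.B y w + s.Q w * s.B y x) / s.B y x) hx hw) y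
    rw [eich_apply, e1] at e2 ⊢
    rw [Q_sub, s.smul, hx, hy, hy', map_smul, h, smul_eq_mul] at e2
    rw [sub_eq_self]
    refine smul_eq_zero_of_left ?_ _
    rcases s.hδ with hδ | hδ
    · rw [hδ]; field_simp; ring
    · rw [hδ] at e2 ⊢
      exact mul_right_cancel₀ h0 (by linear_combination -e2)
  · simp [eich_apply, B_self hx, s.B_eq_zero_comm hw]
  · simp [eich_apply, h1, ← hw', h2]

theorem exists_fun {A : Submodule F V} {u : V} (hu : u ∉ A) : ∃ x ∈ s.perp A, s.B u x = 1 := by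
  obtain ⟨f, h1, h2⟩ := Submodule.exists_le_ker_of_notMem hu
  obtain ⟨x, hx⟩ := s.exists_rep ((f u)⁻¹ • f)
  refine ⟨x, fun a ha => s.B_eq_zero_comm ?_, by simp [hx, h1]⟩
  simp [hx, show f a = 0 from h2 ha]

theorem sing_adj {u x : V} (hu : s.Q u = 0) (h : s.B u x = 1) :
    s.Q (x - (s.Q x * s.ε) • u) = 0 := by
  have h1 := s.δ_ε
  have h2 := s.δQ x
  have h3 := s.ε_sq
  simp only [Q_sub, s.smul, hu, map_smul, smul_eq_mul, s.symm u x, h]
  linear_combination -h2 - s.δ * s.Q x * h3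

theorem exists_nonsing (hδ : s.δ = 1) {A : Submodule F V} (h : 2 * finrank F A < finrank F V) :
    ∃ z ∈ s.perp A, s.Q z ≠ 0 := by
  by_contra! h'
  have : s.TS (s.perp A) := ⟨h', fun x hx y hy => by
    have := s.add x y
    rw [h' x hx, h' y hy, h' _ (add_mem hx hy), hδ] at this
    linear_combination -this⟩
  have := this.two_mul_le
  have := finrank_perp (s := s) A
  omega

omit s in
theorem finrank_sup_le (A : Submodule F V) (e : V) :
    finrank F (A ⊔ F ∙ e : Submodule F V) ≤ finrank F A + 1 := by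
  by_cases he : e ∈ A
  · rw [sup_eq_left.2 ((Submodule.span_singleton_le_iff_mem _ _).2 he)]; omega
  · exact (finrank_sup_one he).le

theorem exists_common {A : Submodule F V} {u v : V}
    (hn : s.B u v = 0 ∨ s.δ = 0 ∨ 2 * finrank F A + 3 ≤ finrank F V)
    (hu : s.Q u = 0) (hu1 : u ∈ s.perp A) (hu2 : u ∉ A) (hv : s.Q v = 0) (hv1 : v ∈ s.perp A)
    (hv2 : v ∉ A) : ∃ x ∈ s.perp A, s.Q x = 0 ∧ s.B u x ≠ 0 ∧ s.B v x ≠ 0 := by
  by_cases h : s.B u v = 0
  · obtain ⟨x, h1, h2, h3⟩ : ∃ x ∈ s.perp A, s.B u x = 1 ∧ s.B v x ≠ 0 := by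
      obtain ⟨x, h1, h2⟩ := exists_fun (s := s) hu2
      obtain ⟨y, h3, h4⟩ := exists_fun (s := s) hv2
      by_cases h5 : s.B v x = 0
      · by_cases h6 : s.B u y = 0
        · exact ⟨x + y, add_mem h1 h3, by simp [h2, h6], by simp [h4, h5]⟩
        · exact ⟨(s.B u y)⁻¹ • y, Submodule.smul_mem _ _ h3, by simp [h6], by simp [h4, h6]⟩
      · exact ⟨x, h1, h2, h5⟩
    exact ⟨_, sub_mem h1 (Submodule.smul_mem _ _ hu1), sing_adj hu h2, by simp [B_self hu, h2],
      by simpa [s.B_eq_zero_comm h] using h3⟩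
  have h' : s.B v u ≠ 0 := fun e => h (s.B_eq_zero_comm e)
  rcases s.hδ with hδ | hδ
  · exact ⟨u + v, add_mem hu1 hv1, Q_eq_zero hδ _, by simpa [B_self hu] using h,
      by simpa [B_self hv] using h'⟩
  have hn := (hn.resolve_left h).resolve_left (by simp [hδ])
  obtain ⟨z, h1, h2⟩ : ∃ z ∈ s.perp ((A ⊔ F ∙ u) ⊔ F ∙ v), s.Q z ≠ 0 := by
    by_contra! hc
    have h3 : s.TS (s.perp ((A ⊔ F ∙ u) ⊔ F ∙ v)) := ⟨hc, fun x hx y hy => by
      have := s.add x y
      rw [hc x hx, hc y hy, hc _ (add_mem hx hy), hδ] at this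
      linear_combination -this⟩
    have h4 : s.perp ((A ⊔ F ∙ u) ⊔ F ∙ v) ≤ A := fun x hx => by
      have h5 := h3.le_perp hx
      rw [perp_perp] at h5
      obtain ⟨y, hy, _, hb, rfl⟩ := Submodule.mem_sup.1 h5
      obtain ⟨a, ha, _, hc, rfl⟩ := Submodule.mem_sup.1 hy
      obtain ⟨b, rfl⟩ := Submodule.mem_span_singleton.1 hb
      obtain ⟨c, rfl⟩ := Submodule.mem_span_singleton.1 hc
      rw [mem_perp_sup, mem_perp_sup] at hx
      have e1 := hx.1.2
      have e2 := hx.2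
      simp [s.B_eq_zero_comm (hu1 a ha), s.B_eq_zero_comm (hv1 a ha), B_self hu, B_self hv, h,
        h'] at e1 e2
      simpa [e1, e2] using ha
    have := Submodule.finrank_mono h4
    have := finrank_perp (s := s) ((A ⊔ F ∙ u) ⊔ F ∙ v)
    have := finrank_sup_le A u
    have := finrank_sup_le (A ⊔ F ∙ u) v
    omega
  rw [mem_perp_sup, mem_perp_sup] at h1
  have e1 := s.B_eq_zero_comm h1.1.2
  have e2 := s.B_eq_zero_comm h1.2
  refine ⟨z + u - (s.Q z / s.B u v) • v, sub_mem (add_mem h1.1.1 hu1)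
    (Submodule.smul_mem _ _ hv1), ?_, ?_, ?_⟩
  · simp [Q_sub, s.add, s.smul, hu, hv, hδ, h1.1.2, h1.2, div_mul_cancel₀ _ h]
  · simp [e1, B_self hu, h, h2]
  · simp [e2, B_self hv, h']

theorem HasE.witt {X : Subgroup s.iso} (hX : HasE X) {A : Submodule F V}
    (hn : X = ⊤ ∨ s.δ = 0 ∨ 2 * finrank F A + 3 ≤ finrank F V) {u v : V}
    (hu : s.Q u = 0) (hu1 : u ∈ s.perp A) (hu2 : u ∉ A) (hv : s.Q v = 0) (hv1 : v ∈ s.perp A)
    (hv2 : v ∉ A) : ∃ g ∈ X, (∀ a ∈ A, g a = a) ∧ ∃ c : F, c ≠ 0 ∧ g u = c • v := by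
  have key : (∃ x ∈ s.perp A, s.Q x = 0 ∧ s.B u x ≠ 0 ∧ s.B v x ≠ 0) →
      ∃ g ∈ X, (∀ a ∈ A, g a = a) ∧ ∃ c : F, c ≠ 0 ∧ g u = c • v := by
    rintro ⟨x, h1, h2, h3, h4⟩
    obtain ⟨g, hg, e1, -, e2⟩ := hX.opp (y' := (s.B u x / s.B v x) • v) h2 hu (by simp [s.smul, hv])
      h3 (by simp [h4])
    exact ⟨g, hg, fun a ha => e2 a (s.B_eq_zero_comm (h1 a ha)) (by
      simp [s.B_eq_zero_comm (hu1 a ha), s.B_eq_zero_comm (hv1 a ha)]), _, div_ne_zero h3 h4, e1⟩
  rcases hn with rfl | hn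
  swap
  · exact key (exists_common (.inr hn) hu hu1 hu2 hv hv1 hv2)
  rcases s.hδ with hδ | hδ
  · exact key (exists_common (.inr (.inl hδ)) hu hu1 hu2 hv hv1 hv2)
  by_cases h : s.B u v = 0
  · exact key (exists_common (.inl h) hu hu1 hu2 hv hv1 hv2)
  have h1 : s.Q (u - v) = -s.B u v := by simp [Q_sub, hu, hv, hδ]
  refine ⟨s.rf (u - v) (by simpa [h1] using h), trivial, fun a ha => ?_, 1, one_ne_zero, ?_⟩
  · simp [rf_apply, s.B_eq_zero_comm (hu1 a ha), s.B_eq_zero_comm (hv1 a ha)]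
  · simp [rf_apply, h1, B_self hu, h]

theorem exists_map_le {A Z : Submodule F V} (hA : s.TS A) (hZ : s.TS Z)
    (h : finrank F A ≤ finrank F Z) : ∃ g : s.iso, ∀ a ∈ A, g a ∈ Z := by
  induction hn : finrank F A generalizing A with
  | zero => exact ⟨1, fun a ha => by
      rw [Submodule.finrank_eq_zero.1 hn, Submodule.mem_bot] at ha; simp [ha]⟩
  | succ n ih =>
    obtain ⟨u, hu, hu0⟩ := exists_notMem (A := ⊥) (T := A) (by rw [finrank_bot]; omega)
    obtain ⟨f, h1, -⟩ := Submodule.exists_le_ker_of_notMem hu0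
    have h2 : (A ⊓ LinearMap.ker f) ⊔ F ∙ u = A := by
      refine le_antisymm (sup_le inf_le_left ((Submodule.span_singleton_le_iff_mem _ _).2 hu))
        fun a ha => Submodule.mem_sup.2 ⟨a - (f a / f u) • u, ⟨sub_mem ha (A.smul_mem _ hu), by
          simp [h1]⟩, (f a / f u) • u, Submodule.mem_span_singleton.2 ⟨_, rfl⟩, by simp⟩
    have h3 := finrank_sup_one (A := A ⊓ LinearMap.ker f) (e := u) fun e => h1 e.2
    rw [h2] at h3
    obtain ⟨g, hg⟩ := ih (hA.mono inf_le_left) (A := A ⊓ LinearMap.ker f) (by omega) (by omega)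
    have h4 : (A ⊓ LinearMap.ker f).map (g.1 : V →ₗ[F] V) ≤ Z := by
      rintro _ ⟨a, ha, rfl⟩; exact hg a ha
    obtain ⟨v, hv, hv'⟩ := exists_notMem (A := (A ⊓ LinearMap.ker f).map (g.1 : V →ₗ[F] V))
      (T := Z) (by rw [LinearEquiv.finrank_map_eq]; omega)
    obtain ⟨k, -, hk, c, -, hc⟩ := hasE_top.witt (.inl rfl) (u := g u) (v := v)
      ((iso_Q g u).trans (hA.1 u hu)) (by
        rintro _ ⟨a, ha, rfl⟩; exact (iso_B g u a).trans (hA.2 u hu a ha.1)) (by
        rintro ⟨a, ha, e⟩; exact h1 ((iso_inj g e) ▸ ha.2)) (hZ.1 v hv)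
      (perp_anti h4 (hZ.le_perp hv)) hv'
    refine ⟨k * g, fun a ha => ?_⟩
    rw [← h2] at ha
    obtain ⟨b, hb, _, hd, rfl⟩ := Submodule.mem_sup.1 ha
    obtain ⟨d, rfl⟩ := Submodule.mem_span_singleton.1 hd
    rw [mul_apply, map_add, map_smul, map_add, map_smul, hc, hk (g b) ⟨b, hb, rfl⟩]
    exact add_mem (hg b hb) (Z.smul_mem _ (Z.smul_mem _ hv))

theorem smul_eq_of_le {k : ℕ} {g : s.iso} {A Z : s.TSk k} (h : ∀ a ∈ A.1, g a ∈ Z.1) :
    g • A = Z :=
  Subtype.ext (Submodule.eq_of_le_of_finrank_eq (by rintro _ ⟨a, ha, rfl⟩; exact h a ha)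
    ((g • A).2.2.trans Z.2.2.symm))

instance (k : ℕ) : MulAction.IsPretransitive s.iso (s.TSk k) := ⟨fun A Z => by
  obtain ⟨g, hg⟩ := exists_map_le A.2.1 Z.2.1 (A.2.2.trans Z.2.2.symm).le
  exact ⟨g, smul_eq_of_le hg⟩⟩

theorem index_stabilizer {k : ℕ} (Z : s.TSk k) :
    (MulAction.stabilizer s.iso Z).index = Nat.card (s.TSk k) :=
  MulAction.index_stabilizer_of_transitive _ Z

theorem exists_gen (x : s.TSk 1) : ∃ u, u ≠ 0 ∧ s.Q u = 0 ∧ x.1 = F ∙ u := by
  obtain ⟨u, hu, hu0⟩ := exists_notMem (A := ⊥) (T := x.1) (by rw [finrank_bot, x.2.2]; omega)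
  have h0 : u ≠ 0 := by simpa using hu0
  exact ⟨u, h0, x.2.1.1 u hu, (Submodule.eq_of_le_of_finrank_eq
    ((Submodule.span_singleton_le_iff_mem _ _).2 hu)
    (by rw [finrank_span_singleton h0, x.2.2])).symm⟩

theorem smul_pt {x y : s.TSk 1} {u v : V} (hx : x.1 = F ∙ u) (hy : y.1 = F ∙ v) {g : s.iso}
    {c : F} (h : g u = c • v) : g • x = y := smul_eq_of_le fun a ha => by
  rw [hx] at ha
  obtain ⟨d, rfl⟩ := Submodule.mem_span_singleton.1 ha
  rw [map_smul, h, hy, smul_smul]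
  exact Submodule.mem_span_singleton.2 ⟨_, rfl⟩

theorem col_iff {x y : s.TSk 1} {u v : V} (hx : x.1 = F ∙ u) (hy : y.1 = F ∙ v) :
    Col x y ↔ s.B u v = 0 := by
  rw [Col, hx, hy, Submodule.span_singleton_le_iff_mem, ← bot_sup_eq (F ∙ v), mem_perp_sup,
    perp_bot]
  simp

theorem col_smul (g : s.iso) (x y : s.TSk 1) : Col (g • x) (g • y) ↔ Col x y := by
  obtain ⟨u, -, -, hu⟩ := exists_gen x
  obtain ⟨v, -, -, hv⟩ := exists_gen y
  rw [col_iff hu hv, col_iff (u := g u) (v := g v) (by rw [smul_val, hu, Submodule.map_span]; simp)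
    (by rw [smul_val, hv, Submodule.map_span]; simp), iso_B]

theorem HasE.rk3 {X : Subgroup s.iso} (hX : HasE X)
    (hn : X = ⊤ ∨ s.δ = 0 ∨ 5 ≤ finrank F V) : Rk3 X := by
  have key : ∀ x y y' : s.TSk 1, (x = y ↔ x = y') → (Col x y ↔ Col x y') →
      ∃ g ∈ X, g • x = x ∧ g • y = y' := fun x y y' h1 h2 => by
    by_cases h : x = y
    · exact ⟨1, X.one_mem, one_smul _ _, by rw [one_smul, ← h, ← h1.1 h]⟩
    obtain ⟨e, -, he, hx⟩ := exists_gen x
    obtain ⟨u, hu0, hu, hy⟩ := exists_gen y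
    obtain ⟨v, hv0, hv, hy'⟩ := exists_gen y'
    have ne : ∀ {z : s.TSk 1} {w : V}, z.1 = F ∙ w → x ≠ z → w ∉ x.1 := fun {z w} hz hne hw =>
      hne (Subtype.ext (Submodule.eq_of_le_of_finrank_eq (by
        rw [hz]; exact (Submodule.span_singleton_le_iff_mem _ _).2 hw)
        (z.2.2.trans x.2.2.symm)).symm)
    rw [col_iff hx hy, col_iff hx hy'] at h2
    by_cases h3 : s.B e u = 0
    · have p : ∀ {w}, s.B e w = 0 → w ∈ s.perp x.1 := fun h => by
        rw [hx, ← bot_sup_eq (F ∙ e), mem_perp_sup, perp_bot]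
        exact ⟨trivial, s.B_eq_zero_comm h⟩
      obtain ⟨g, hg, e1, c, -, e2⟩ := hX.witt (A := x.1) (by rw [x.2.2]; omega) hu (p h3) (ne hy h)
        hv (p (h2.1 h3)) (ne hy' (mt h1.2 h))
      exact ⟨g, hg, smul_eq_of_le fun a ha => by rwa [e1 a ha], smul_pt hy hy' e2⟩
    · have h4 : s.B u e ≠ 0 := fun h => h3 (s.B_eq_zero_comm h)
      have h5 : s.B v e ≠ 0 := fun h => h3 (h2.2 (s.B_eq_zero_comm h))
      obtain ⟨g, hg, e1, e2, -⟩ := hX.opp (y' := (s.B u e / s.B v e) • v) he hu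
        (by simp [s.smul, hv]) h4 (by simp [h5])
      exact ⟨g, hg, smul_pt hx hx (c := 1) (by rw [e2, one_smul]), smul_pt hy hy' e1⟩
  intro x y x' y' h1 h2
  obtain ⟨u, hu0, hu, hx⟩ := exists_gen x
  obtain ⟨v, hv0, hv, hx'⟩ := exists_gen x'
  obtain ⟨g, hg, -, c, -, e⟩ := hX.witt (A := ⊥) (by
    rw [finrank_bot]; exact hn.imp_right (Or.imp_right (by omega))) hu
    (by simp [perp_bot]) (by simpa using hu0) hv (by simp [perp_bot]) (by simpa using hv0)
  have e1 := smul_pt hx hx' e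
  obtain ⟨k, hk, e2, e3⟩ := key x' (g • y) y' (by rw [← h1, ← e1, smul_left_cancel_iff])
    (by rw [← h2, ← e1, col_smul])
  exact ⟨k * g, X.mul_mem hk hg, by rw [mul_smul, e1, e2], by rw [mul_smul, e3]⟩

section count
variable [Fintype F] [Finite V]

local notation "q" => Fintype.card F

variable (s) in
/-- totally singular frames -/
def Fr (k : ℕ) : Type _ :=
  {f : Fin k → V // LinearIndependent F f ∧ s.TS (Submodule.span F (Set.range f))}

instance (k : ℕ) : Finite (s.Fr k) := by unfold Fr; infer_instance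

theorem Ty.card_ext {t : Typ} {j : ℕ} (h : s.Ty t j) {A : Submodule F V} (hA : s.TS A) :
    Nat.card {v : V // (s.Q v = 0 ∧ v ∈ s.perp A) ∧ v ∉ A} =
      q ^ finrank F A * sn t q (j - finrank F A) := by
  classical
  haveI := Fintype.ofFinite V
  have h1 := h.cn hA
  rw [FSp.cn, Nat.card_eq_fintype_card, Fintype.card_subtype,
    ← Finset.card_filter_add_card_filter_not (fun v => v ∈ A), mul_add, mul_one, ← card_sub A,
    Nat.card_eq_fintype_card, Fintype.card_subtype, Finset.filter_filter, Finset.filter_filter,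
    Finset.filter_congr fun v _ => show _ ↔ v ∈ A from
      ⟨fun h => h.2, fun h => ⟨⟨hA.1 v h, hA.le_perp h⟩, h⟩⟩, add_comm, add_left_inj] at h1
  rw [Nat.card_eq_fintype_card, Fintype.card_subtype, h1, ← card_sub, Nat.card_eq_fintype_card,
    Fintype.card_subtype]

theorem Ty.card_fr {t : Typ} {j : ℕ} (h : s.Ty t j) (k : ℕ) :
    Nat.card (s.Fr k) = ∏ i ∈ Finset.range k, q ^ i * sn t q (j - i) := by
  induction k with
  | zero =>
    haveI : Unique (s.Fr 0) := ⟨⟨⟨Fin.elim0, linearIndependent_empty_type, by simp [ts_bot]⟩⟩,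
      fun f => Subtype.ext (Subsingleton.elim _ _)⟩
    simp
  | succ k ih =>
    have sp : ∀ (v : V) (f : Fin k → V), Submodule.span F (Set.range (Fin.cons v f : Fin (k + 1) → V))
        = Submodule.span F (Set.range f) ⊔ F ∙ v := fun v f => by
      rw [Fin.range_cons, Submodule.span_insert, sup_comm]
    let e : (Σ f : s.Fr k, {v : V // (s.Q v = 0 ∧ v ∈ s.perp (Submodule.span F (Set.range f.1))) ∧
        v ∉ Submodule.span F (Set.range f.1)}) → s.Fr (k + 1) := fun x =>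
      ⟨Fin.cons x.2.1 x.1.1, linearIndependent_finCons.2 ⟨x.1.2.1, x.2.2.2⟩, by
        rw [sp]; exact x.1.2.2.sup x.2.2.1.1 x.2.2.1.2⟩
    have he : Function.Bijective e := by
      refine ⟨?_, fun g => ?_⟩
      · rintro ⟨⟨f, hf⟩, v, hv⟩ ⟨⟨f', hf'⟩, v', hv'⟩ hh
        obtain ⟨rfl, rfl⟩ := Fin.cons_injective2 (α := fun _ => V) (congrArg Subtype.val hh :
          (Fin.cons v f : Fin (k + 1) → V) = Fin.cons v' f')
        rfl
      · have h1 := linearIndependent_finSucc.1 g.2.1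
        have h2 := g.2.2
        rw [← Fin.cons_self_tail g.1, sp] at h2
        have h3 : g.1 0 ∈ Submodule.span F (Set.range (Fin.tail g.1)) ⊔ F ∙ g.1 0 :=
          Submodule.mem_sup_right (Submodule.mem_span_singleton_self _)
        exact ⟨⟨⟨Fin.tail g.1, h1.1, h2.mono le_sup_left⟩, g.1 0, ⟨h2.1 _ h3,
          perp_anti le_sup_left (h2.le_perp h3)⟩, h1.2⟩, Subtype.ext (Fin.cons_self_tail g.1)⟩
    haveI := Fintype.ofFinite (s.Fr k)
    rw [← Nat.card_congr (Equiv.ofBijective e he), Nat.card_sigma, Finset.prod_range_succ, ← ih,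
      Finset.sum_congr rfl fun f _ => (h.card_ext f.2.2).trans (by
        rw [finrank_span_eq_card f.2.1, Fintype.card_fin])]
    simp

theorem card_fr (k : ℕ) :
    Nat.card (s.Fr k) = Nat.card (s.TSk k) * ∏ i ∈ Finset.range k, (q ^ k - q ^ i) := by
  let π : s.Fr k → s.TSk k := fun f =>
    ⟨_, f.2.2, by rw [finrank_span_eq_card f.2.1, Fintype.card_fin]⟩
  haveI := Fintype.ofFinite (s.TSk k)
  rw [← Nat.card_congr (Equiv.sigmaFiberEquiv π), Nat.card_sigma, Finset.sum_congr rfl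
    (g := fun _ => ∏ i ∈ Finset.range k, (q ^ k - q ^ i)) fun Z _ => ?_]
  · simp
  have h1 := card_linearIndependent (K := F) (V := Z.1) (k := k) Z.2.2.ge
  rw [Z.2.2, Fin.prod_univ_eq_prod_range (fun i => q ^ k - q ^ i)] at h1
  rw [← h1]
  have sp : ∀ g : {g : Fin k → Z.1 // LinearIndependent F g},
      Submodule.span F (Set.range (Z.1.subtype ∘ g.1)) = Z.1 := fun g =>
    Submodule.eq_of_le_of_finrank_eq (Submodule.span_le.2 (by
      rintro _ ⟨i, rfl⟩; exact (g.1 i).2)) (by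
      rw [finrank_span_eq_card (g.2.map' _ Z.1.ker_subtype), Fintype.card_fin, Z.2.2])
  refine (Nat.card_congr (Equiv.ofBijective (fun g => ⟨⟨Z.1.subtype ∘ g.1,
    g.2.map' _ Z.1.ker_subtype, by rw [sp]; exact Z.2.1⟩, Subtype.ext (sp g)⟩)
    ⟨fun g g' hg => ?_, ?_⟩)).symm
  · exact Subtype.ext (funext fun i => Subtype.ext (congrFun
      (congrArg (fun x => x.1.1) hg) i))
  · rintro ⟨f, rfl⟩
    exact ⟨⟨fun i => ⟨f.1 i, Submodule.subset_span ⟨i, rfl⟩⟩,
      LinearIndependent.of_comp (Submodule.subtype _) f.2.1⟩, rfl⟩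

theorem Ty.card_tsk {t : Typ} {j : ℕ} (h : s.Ty t j) (k : ℕ) :
    Nat.card (s.TSk k) * ∏ i ∈ Finset.range k, (q ^ (i + 1) - 1) =
      ∏ i ∈ Finset.range k, sn t q (j - i) := by
  have h1 := (h.card_fr k).symm.trans (FSp.card_fr k)
  rw [Finset.prod_mul_distrib, Finset.prod_congr rfl (f := fun i => q ^ k - q ^ i)
    (g := fun i => q ^ i * (q ^ (k - 1 - i + 1) - 1))
    (fun i hi => by
      rw [Nat.mul_sub_one, ← pow_add, show i + (k - 1 - i + 1) = k by
        have := Finset.mem_range.1 hi; omega]), Finset.prod_mul_distrib,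
    Finset.prod_range_reflect (fun i => q ^ (i + 1) - 1), mul_left_comm] at h1
  exact (Nat.eq_of_mul_eq_mul_left (Finset.prod_pos fun i _ =>
    pow_pos Fintype.card_pos i) h1).symm

end count

end Cfsg.Agent.DG.FSp
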