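import Cfsg.Agent.Lib.DG.R31
import Cfsg.Agent.Lib.DG.Ord2

/-!
Row R3: the rank three characters of the symplectic and orthogonal groups.
-/

set_option autoImplicit false
set_option linter.unusedSectionVars false

namespace Cfsg.Agent.DG

open Module Cfsg.Agent.Char

open scoped Classical

namespace FSp

variable {F V : Type*} [Field F] [AddCommGroup V] [Module F V] {s : FSp F V}

theorem ts_span {e : V} (he : s.Q e = 0) : s.TS (F ∙ e) := by
  simpa using (ts_bot (s := s)).sup he (by rw [perp_bot]; trivial)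

theorem Col.refl (x : s.TSk 1) : Col x x := x.2.1.le_perp

theorem Col.symm {x y : s.TSk 1} (h : Col x y) : Col y x := le_perp_comm h

theorem le_perp_sup {A B Z : Submodule F V} :
    Z ≤ s.perp (A ⊔ B) ↔ Z ≤ s.perp A ∧ Z ≤ s.perp B := by
  refine ⟨fun h => ⟨h.trans (perp_anti le_sup_left), h.trans (perp_anti le_sup_right)⟩,
    fun h z hz c hc => ?_⟩
  obtain ⟨a, ha, b, hb, rfl⟩ := Submodule.mem_sup.1 hc
  rw [map_add, h.1 hz a ha, h.2 hz b hb, add_zero]

variable [Fintype F] [Finite V]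

theorem Col.sup {x y : s.TSk 1} (h : Col x y) (hne : x ≠ y) :
    s.TS (x.1 ⊔ y.1) ∧ finrank F (x.1 ⊔ y.1 : Submodule F V) = 2 := by
  obtain ⟨e, he0, he, hy⟩ := exists_gen y
  have h1 : e ∈ y.1 := hy ▸ Submodule.mem_span_singleton_self e
  rw [hy]
  refine ⟨x.2.1.sup he (h.symm h1), ?_⟩
  rw [finrank_sup_one, x.2.2]
  intro hx
  refine hne (Subtype.ext (Submodule.eq_of_le_of_finrank_eq ?_ (y.2.2.trans x.2.2.symm)).symm)
  rw [hy]
  exact (Submodule.span_singleton_le_iff_mem _ _).2 hx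

theorem card_pts (U : Submodule F V) :
    Nat.card {x : s.TSk 1 // x.1 ≤ U} * (Fintype.card F - 1) + 1 =
      Nat.card {v : V // s.Q v = 0 ∧ v ∈ U} := by
  have := Fintype.ofFinite V
  have := Fintype.ofFinite (s.TSk 1)
  rw [Nat.card_eq_fintype_card, Nat.card_eq_fintype_card, Fintype.card_subtype,
    Fintype.card_subtype, ← Finset.card_erase_add_one (a := (0 : V)) (by simp)]
  congr 1
  rw [← smul_eq_mul, ← Finset.sum_const]
  symm
  rw [← Finset.card_attach, Finset.card_eq_sum_card_fiberwise (t := Finset.univ.filter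
    fun x : s.TSk 1 => x.1 ≤ U) (f := fun v => ⟨F ∙ v.1, ts_span
      (Finset.mem_filter.1 (Finset.mem_erase.1 v.2).2).2.1,
      finrank_span_singleton (Finset.mem_erase.1 v.2).1⟩)]
  · refine Finset.sum_congr rfl fun x hx => ?_
    have h1 : Fintype.card F - 1 = ((Finset.univ.filter (· ∈ x.1)).erase 0).card := by
      rw [Finset.card_erase_of_mem (by simp), ← Fintype.card_subtype, ← Nat.card_eq_fintype_card (α := {v // v ∈ x.1}),
        card_sub, x.2.2, pow_one]
    rw [h1]
    refine Finset.card_bij (fun v _ => v.1) ?_ (fun a _ b _ h => Subtype.ext h) ?_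
    · intro v hv
      have h2 := congrArg Subtype.val (Finset.mem_filter.1 hv).2
      simp only [Finset.mem_erase, Finset.mem_filter, Finset.mem_univ, true_and]
      exact ⟨(Finset.mem_erase.1 v.2).1, h2 ▸ Submodule.mem_span_singleton_self _⟩
    · intro v hv
      simp only [Finset.mem_erase, Finset.mem_filter, Finset.mem_univ, true_and] at hv hx
      refine ⟨⟨v, by simp [hv.1, x.2.1.1 v hv.2, hx hv.2]⟩, ?_, rfl⟩
      simp only [Finset.mem_filter, Finset.mem_attach, true_and]
      exact Subtype.ext (Submodule.eq_of_le_of_finrank_eq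
        ((Submodule.span_singleton_le_iff_mem _ _).2 hv.2)
        ((finrank_span_singleton hv.1).trans x.2.2.symm))
  · intro v _
    simp only [Finset.coe_filter, Finset.mem_univ, true_and]
    exact (Submodule.span_singleton_le_iff_mem _ _).2
      (Finset.mem_filter.1 (Finset.mem_erase.1 v.2).2).2.2

theorem Ty.card_pts {t : Typ} {j : ℕ} (h : s.Ty t j) {A : Submodule F V} (hA : s.TS A) :
    (Nat.card {x : s.TSk 1 // x.1 ≤ s.perp A} : ℂ) * (Fintype.card F - 1) + 1 =
      (Fintype.card F : ℂ) ^ finrank F A * (sn t (Fintype.card F) (j - finrank F A) + 1) := by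
  have h1 := (FSp.card_pts (s := s) (s.perp A)).trans (h.cn hA)
  have h2 := congrArg (Nat.cast : ℕ → ℂ) h1
  push_cast [Nat.cast_sub (Fintype.card_pos (α := F))] at h2
  exact h2

theorem Ty.card_all {t : Typ} {j : ℕ} (h : s.Ty t j) :
    (Nat.card (s.TSk 1) : ℂ) * (Fintype.card F - 1) = sn t (Fintype.card F) j := by
  have := h.card_pts ts_bot
  rw [perp_bot, Nat.card_congr (Equiv.subtypeUnivEquiv fun _ => le_top)] at this
  simpa using this

theorem piPt_eq (X : Subgroup s.iso) (g : X) : s.piPt g = permChar X (s.TSk 1) g := rfl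

/-- the rank three decomposition with the eigenvalues `a`, `-b` -/
theorem Ty.rank3 {t : Typ} {j : ℕ} (h : s.Ty t j) {X : Subgroup s.iso} (hX : Rk3 X) {a b : ℕ}
    (ha : 1 < a) (hb : 0 < b)
    (h0 : (sn t (Fintype.card F) j : ℂ) = (Fintype.card F * a - 1) * (Fintype.card F * b + 1))
    (h1 : (sn t (Fintype.card F) (j - 1) : ℂ) = (a - 1) * (b + 1))
    (h2 : (Fintype.card F : ℂ) ^ 2 * sn t (Fintype.card F) (j - 2) =
      (a - Fintype.card F) * (b + Fintype.card F)) :
    ∃ (η η' : X → ℂ) (f g : ℕ), PtC X η ∧ PtC X η' ∧ η 1 = f ∧ η' 1 = g ∧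
      (f : ℂ) * ((a + b) * (Fintype.card F - 1)) =
        Fintype.card F * b * (Fintype.card F * a - 1) * (b + 1) ∧
      (g : ℂ) * ((a + b) * (Fintype.card F - 1)) =
        Fintype.card F * a * (a - 1) * (Fintype.card F * b + 1) := by
  have := Fintype.ofFinite (s.TSk 1)
  set q : ℂ := (Fintype.card F : ℂ) with hq
  have hq1 : q - 1 ≠ 0 := by rw [hq, sub_ne_zero]; exact_mod_cast Fintype.one_lt_card.ne'
  have hq0 : q ≠ 0 := by rw [hq]; exact_mod_cast Fintype.card_ne_zero
  have ha0 : (a : ℂ) ≠ 0 := by exact_mod_cast (by omega : a ≠ 0)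
  have hb0 : (b : ℂ) ≠ 0 := by exact_mod_cast hb.ne'
  have ha1 : (a : ℂ) - 1 ≠ 0 := by rw [sub_ne_zero]; exact_mod_cast ha.ne'
  have hb1 : (b : ℂ) + 1 ≠ 0 := by exact_mod_cast Nat.succ_ne_zero b
  have hqa : q * a - 1 ≠ 0 := by
    rw [hq, sub_ne_zero]
    exact_mod_cast fun e : Fintype.card F * a = 1 => ha.ne' (Nat.eq_one_of_mul_eq_one_left e)
  have hqb : q * b + 1 ≠ 0 := by rw [hq]; exact_mod_cast Nat.succ_ne_zero (Fintype.card F * b)
  obtain ⟨η, η', i1, i2, hπ, d1, d2⟩ := rank_three (G := X) (Col (s := s)) Col.refl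
    (fun _ _ => Col.symm) (fun g => col_smul g.1)
    (fun x y x' y' e1 e2 => by
      obtain ⟨g, hg, g1, g2⟩ := hX x y x' y' e1 e2
      exact ⟨⟨g, hg⟩, g1, g2⟩)
    (v := (q * a - 1) * (q * b + 1) / (q - 1)) (c₁ := (q * ((a - 1) * (b + 1)) + q - 1) / (q - 1))
    (c₂ := ((a - q) * (b + q) + q ^ 2 - 1) / (q - 1)) (a := a) (b := b)
    (by rw [eq_div_iff hq1, h.card_all, h0])
    (fun x => by
      have := h.card_pts x.2.1
      rw [x.2.2, h1] at this
      rw [eq_div_iff hq1]
      simp only [Col]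
      linear_combination this)
    (fun x y hxy hc => by
      have := h.card_pts (hc.sup hxy).1
      rw [(hc.sup hxy).2] at this
      simp only [le_perp_sup] at this
      rw [eq_div_iff hq1]
      simp only [Col]
      linear_combination this + h2)
    (by exact_mod_cast (by omega : a + b ≠ 0)) (div_ne_zero (mul_ne_zero hqa hqb) hq1)
    (by
      rw [show (q * a - 1) * (q * b + 1) / (q - 1) - (q * ((a - 1) * (b + 1)) + q - 1) / (q - 1) =
        q * a * b by field_simp; ring]
      exact mul_ne_zero (mul_ne_zero hq0 ha0) hb0)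
    (by field_simp; ring) (by field_simp; ring)
    (by
      rw [show (q * a - 1) * (q * b + 1) / (q - 1) - (q * ((a - 1) * (b + 1)) + q - 1) / (q - 1) +
        ((q * a - 1) * (q * b + 1) / (q - 1) - 1) * b = q * b * (q * a - 1) * (b + 1) / (q - 1) by
          field_simp; ring]
      exact div_ne_zero (mul_ne_zero (mul_ne_zero (mul_ne_zero hq0 hb0) hqa) hb1) hq1)
    (by
      rw [show ((q * a - 1) * (q * b + 1) / (q - 1) - 1) * a - (q * a - 1) * (q * b + 1) / (q - 1) +
        (q * ((a - 1) * (b + 1)) + q - 1) / (q - 1) = q * a * (a - 1) * (q * b + 1) / (q - 1) by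
          field_simp; ring]
      exact div_ne_zero (mul_ne_zero (mul_ne_zero (mul_ne_zero hq0 ha0) ha1) hqb) hq1)
  obtain ⟨f, hf⟩ := exists_nat_of_isChar (isChar_of_isIrr i1)
  obtain ⟨g, hg⟩ := exists_nat_of_isChar (isChar_of_isIrr i2)
  refine ⟨η, η', f, g, ⟨i1, _, isChar_add isChar_one (isChar_of_isIrr i2), fun x => ?_⟩,
    ⟨i2, _, isChar_add isChar_one (isChar_of_isIrr i1), fun x => ?_⟩, hf, hg, ?_, ?_⟩
  · rw [piPt_eq, hπ]; simp only [Pi.add_apply]; ring
  · rw [piPt_eq, hπ]; simp only [Pi.add_apply]; ring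
  · rw [← mul_assoc, ← hf, d1]; field_simp; ring
  · rw [← mul_assoc, ← hg, d2]; field_simp; ring

theorem Ty.rank2 {t : Typ} {j : ℕ} (h : s.Ty t j) {X : Subgroup s.iso} (hX : Rk3 X)
    (hw : DG.wi t j = 1) {d : ℕ} (hd : 0 < d)
    (h0 : (sn t (Fintype.card F) j : ℂ) = (d + 1) * (Fintype.card F - 1)) :
    ∃ η : X → ℂ, PtC X η ∧ η 1 = d ∧ ∀ g : X, η g = s.piPt g - 1 := by
  have hq1 : (Fintype.card F : ℂ) - 1 ≠ 0 := by
    rw [sub_ne_zero]; exact_mod_cast Fintype.one_lt_card.ne'
  have hv : Nat.card (s.TSk 1) = d + 1 := by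
    exact_mod_cast mul_right_cancel₀ hq1 (h.card_all.trans h0)
  have : Nontrivial (s.TSk 1) := Finite.one_lt_card_iff_nontrivial.1 (by omega)
  have hc : ∀ {x y : s.TSk 1}, x ≠ y → ¬ Col x y := fun hxy hc => by
    have := h.wi.le (hc.sup hxy).1
    rw [(hc.sup hxy).2] at this
    omega
  have : MulAction.IsPretransitive X (s.TSk 1) := ⟨fun x y => by
    obtain ⟨g, hg, g1, -⟩ := hX x x y y (by simp) (by simp [Col.refl])
    exact ⟨⟨g, hg⟩, g1⟩⟩
  refine ⟨permChar X (s.TSk 1) - fun _ => 1, ⟨(isIrr_permChar_sub_one_iff _).2 ?_, _, isChar_one,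
    fun g => by simp [piPt_eq]⟩, by simp [permChar_one, hv], fun g => rfl⟩
  rw [MulAction.is_two_pretransitive_iff]
  intro a b c d hab hcd
  obtain ⟨g, hg, g1, g2⟩ := hX a b c d (by simp [hab, hcd]) (by simp [hc hab, hc hcd])
  exact ⟨⟨g, hg⟩, g1, g2⟩

end FSp

theorem r3 : R3Stmt := by
  intro F V _ _ _ _ _ s t j X h hX
  have hq : 1 < Fintype.card F := Fintype.one_lt_card
  set q := Fintype.card F with hq'
  have c1 : ∀ n, ((q ^ n - 1 : ℕ) : ℂ) = (q : ℂ) ^ n - 1 := fun n => by
    rw [Nat.cast_sub (Nat.one_le_pow _ _ (by omega))]; simp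
  have c2 : ((q - 1 : ℕ) : ℂ) = (q : ℂ) - 1 := by simpa using c1 1
  have p1 : ∀ n, 1 < q ^ (n + 1) := fun n => Nat.one_lt_pow (by omega) hq
  have p0 : ∀ n, 0 < q ^ n := fun n => Nat.pow_pos (by omega)
  have p0' : ∀ n, (q : ℂ) ^ n ≠ 0 := fun n => by exact_mod_cast (p0 n).ne'
  refine ⟨fun hw ht => ?_, fun hw => ?_⟩
  · cases t with
    | P => exact absurd rfl ht
    | M =>
      obtain rfl : j = 2 := by simp only [wi] at hw; omega
      obtain ⟨η, h1, h2, -⟩ := h.rank2 hX hw (d := q ^ 2) (p0 2) (by simp [sn, c2, ← hq'])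
      exact ⟨η, h1, by simpa using h2⟩
    | C =>
      obtain rfl : j = 1 := hw
      obtain ⟨η, h1, h2, -⟩ := h.rank2 hX rfl (d := q) (by omega)
        (by simp only [sn, c1, ← hq']; ring)
      exact ⟨η, h1, by simpa using h2⟩
    | B =>
      obtain rfl : j = 1 := hw
      obtain ⟨η, h1, h2, -⟩ := h.rank2 hX rfl (d := q) (by omega)
        (by simp only [sn, c1, ← hq']; ring)
      exact ⟨η, h1, by simpa using h2⟩
  · cases t with
    | C =>
      obtain ⟨n, rfl⟩ : ∃ n, j = n + 2 := ⟨j - 2, by simp only [wi] at hw; omega⟩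
      obtain ⟨η, η', f, g, h1, h2, h3, h4, h5, h6⟩ := h.rank3 hX (p1 n) (p0 (n + 1))
        (by simp only [sn, c1, ← hq']; push_cast; ring)
        (by simp only [sn, c1, ← hq', Nat.add_succ_sub_one]; push_cast; ring)
        (by simp only [sn, c1, ← hq', Nat.add_sub_cancel]; push_cast; ring)
      rw [← hq'] at h5 h6
      refine ⟨η', η, g, f, h2, h1, h4, h3, ?_, ?_⟩ <;> apply Nat.cast_injective (R := ℂ) <;>
        apply mul_left_cancel₀ (p0' (n + 1)) <;>
        simp only [Nat.add_succ_sub_one] <;> push_cast [c1, c2] at h5 h6 ⊢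
      · linear_combination h6
      · linear_combination h5
    | B =>
      obtain ⟨n, rfl⟩ : ∃ n, j = n + 2 := ⟨j - 2, by simp only [wi] at hw; omega⟩
      obtain ⟨η, η', f, g, h1, h2, h3, h4, h5, h6⟩ := h.rank3 hX (p1 n) (p0 (n + 1))
        (by simp only [sn, c1, ← hq']; push_cast; ring)
        (by simp only [sn, c1, ← hq', Nat.add_succ_sub_one]; push_cast; ring)
        (by simp only [sn, c1, ← hq', Nat.add_sub_cancel]; push_cast; ring)
      rw [← hq'] at h5 h6
      refine ⟨η', η, g, f, h2, h1, h4, h3, ?_, ?_⟩ <;> apply Nat.cast_injective (R := ℂ) <;>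
        apply mul_left_cancel₀ (p0' (n + 1)) <;>
        simp only [Nat.add_succ_sub_one] <;> push_cast [c1, c2] at h5 h6 ⊢
      · linear_combination h6
      · linear_combination h5
    | P =>
      obtain ⟨n, rfl⟩ : ∃ n, j = n + 2 := ⟨j - 2, by simp only [wi] at hw; omega⟩
      obtain ⟨η, η', f, g, h1, h2, h3, h4, h5, h6⟩ := h.rank3 hX (p1 n) (p0 n)
        (by simp only [sn, ← hq', Nat.add_succ_sub_one]; push_cast [c1]; ring)
        (by simp only [sn, ← hq', Nat.add_succ_sub_one]; push_cast [c1]; ring)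
        (by
          simp only [sn, ← hq', Nat.add_sub_cancel]; push_cast [c1]
          cases n with
          | zero => simp
          | succ n => simp only [Nat.add_succ_sub_one]; ring)
      rw [← hq'] at h5 h6
      refine ⟨η, η', f, g, h1, h2, h3, h4, ?_, ?_⟩ <;> apply Nat.cast_injective (R := ℂ) <;>
        apply mul_left_cancel₀ (p0' n) <;>
        simp only [Nat.add_sub_cancel, show 2 * (n + 2) - 2 = 2 * n + 2 by omega] <;>
        push_cast [c1, c2] at h5 h6 ⊢
      · linear_combination h5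
      · linear_combination h6
    | M =>
      obtain ⟨n, rfl⟩ : ∃ n, j = n + 3 := ⟨j - 3, by simp only [wi] at hw; omega⟩
      obtain ⟨η, η', f, g, h1, h2, h3, h4, h5, h6⟩ := h.rank3 hX (p1 n) (p0 (n + 2))
        (by simp only [sn, ← hq', Nat.add_succ_sub_one]; push_cast [c1]; ring)
        (by simp only [sn, ← hq', Nat.add_succ_sub_one]; push_cast [c1]; ring)
        (by
          simp only [sn, ← hq', show n + 3 - 2 = n + 1 by omega, Nat.add_succ_sub_one]
          push_cast [c1]; ring)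
      rw [← hq'] at h5 h6
      refine ⟨η', η, g, f, h2, h1, h4, h3, ?_, ?_⟩ <;> apply Nat.cast_injective (R := ℂ) <;>
        apply mul_left_cancel₀ (p0' (n + 1)) <;>
        simp only [show n + 3 - 2 = n + 1 by omega, show 2 * (n + 3) - 2 = 2 * n + 4 by omega] <;>
        push_cast [c1, c2] at h5 h6 ⊢
      · linear_combination h6
      · linear_combination h5

end Cfsg.Agent.DG
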