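import Cfsg.Agent.Lib.DG.Iso
import Cfsg.Agent.Lib.DG.R32

/-!
# The assembly
-/

set_option autoImplicit false
set_option linter.unusedSectionVars false

namespace Cfsg.Agent.DG

open Module FSp Cfsg.Agent.Char Cfsg.Agent.Ind

variable {F V : Type} [Field F] [Fintype F] [AddCommGroup V] [Module F V] [Finite V]
  {s : FSp F V} {G : Type*} [Group G] {X : Subgroup s.iso} {t : Typ} {m : ℕ}

local notation "q" => Fintype.card F

theorem isoCongr_negOne {V' : Type} [AddCommGroup V'] [Module F V'] {s' : FSp F V'}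
    (e : V ≃ₗ[F] V') (hQ : ∀ x, s'.Q (e x) = s.Q x) (hB : ∀ x y, s'.B (e x) (e y) = s.B x y) :
    (isoCongr e hQ hB).symm s'.negOne = s.negOne := by
  rw [MulEquiv.symm_apply_eq]
  exact iso_ext fun x => by simp [isoCongr_apply]

theorem card_tsk_congr {V' : Type} [AddCommGroup V'] [Module F V'] [Finite V'] {s' : FSp F V'}
    (h : s.Ty t m) (h' : s'.Ty t m) (k : ℕ) : Nat.card (s.TSk k) = Nat.card (s'.TSk k) :=
  Nat.eq_of_mul_eq_mul_right (Finset.prod_pos fun i _ => Nat.sub_pos_of_lt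
    (Nat.one_lt_pow i.succ_ne_zero Fintype.one_lt_card)) ((h.card_tsk k).trans (h'.card_tsk k).symm)

/-- an admissible character of the smaller group -/
def Adm (F : Type) [Field F] (t : Typ) (j e : ℕ) : Prop :=
  ∀ (U : Type) [AddCommGroup U] [Module F U] [Finite U] (s₀ : FSp F U), s₀.Ty t j →
    ∃ η : s₀.iso → ℂ, IsIrrCharacter _ η ∧ η 1 = e ∧ η s₀.negOne = η 1 ∧
      ((η = fun _ => 1) ∨ PtC ⊤ fun g : (⊤ : Subgroup s₀.iso) => η g)

theorem adm_one (t : Typ) (j : ℕ) : Adm F t j 1 := fun _ _ _ _ _ _ =>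
  ⟨fun _ => 1, isIrr_one, by simp, rfl, .inl rfl⟩

theorem adm_of {j e : ℕ} (h : ∀ (U : Type) [AddCommGroup U] [Module F U] [Finite U] (s₀ : FSp F U),
    s₀.Ty t j → Rk3 (⊤ : Subgroup s₀.iso) → ∃ η, PtC (⊤ : Subgroup s₀.iso) η ∧ η 1 = e) :
    Adm F t j e := fun U _ _ _ s₀ h₀ => by
  obtain ⟨η, h1, h2⟩ := h U s₀ h₀ (hasE_top.rk3 (.inl rfl))
  exact ⟨fun g => η ⟨g, trivial⟩, isIrr_comp_equiv h1.1 Subgroup.topEquiv.symm, h2,
    h1.negOne _ rfl, .inr h1⟩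

theorem adm_two {j : ℕ} (h : wi t j = 1) (h' : t ≠ .P) : Adm F t j (q ^ if t = .M then 2 else 1) :=
  adm_of fun U _ _ _ s₀ h₀ h₁ => (r3 F U s₀ t j ⊤ h₀ h₁).1 h h'

theorem adm_three {j : ℕ} (h : 2 ≤ wi t j) {e : ℕ} (he : (∀ f g, R3Deg t q j f g → f = e) ∨
    ∀ f g, R3Deg t q j f g → g = e) : Adm F t j e :=
  adm_of fun U _ _ _ s₀ h₀ h₁ => by
    obtain ⟨η, η', f, g, h1, h2, h3, h4, h5⟩ := (r3 F U s₀ t j ⊤ h₀ h₁).2 h
    rcases he with he | he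
    · exact ⟨η, h1, he f g h5 ▸ h3⟩
    · exact ⟨η', h2, he f g h5 ▸ h4⟩

theorem hasI (hI : IStmt) (h : s.Ty t m) [X.Normal] (hG : Cov G X) {c : ℕ} (hc : X.index ∣ c)
    (h4 : c ∣ 4) {k e : ℕ} (hk : k ≤ wi t m) (hη : Adm F t (m - k) e)
    (hθ : (3 ≤ k ∨ (k = 2 ∧ 4 ≤ q) ∨ (k = 1 ∧ 4 ≤ q ∧ q ≠ 5)) ∨
      s.negOne ∉ X ∧ (3 ≤ k ∨ (k = 2 ∧ 3 ≤ q) ∨ (k = 1 ∧ 4 ≤ q))) :
    HasI (charDegrees G) c t q m k e := by
  obtain ⟨Z, U, s₀, i, hZ, h₀, h₁, hQ, hB⟩ := h.exists_hyp hk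
  obtain ⟨η, e1, e2, e3, e4⟩ := hη U s₀ h₀
  obtain ⟨a, f, ω, hf, hn, hs⟩ : ∃ a f ω, Cusp.{0} F k a f ω ∧ NSD F k a ∧ (s.negOne ∈ X →
      ∀ g : (End F Z)ˣ, cu f (-(g : End F Z)) = cu f (g : End F Z)) := by
    rw [← Nat.card_eq_fintype_card] at hθ
    rcases hθ with hθ | hθ
    · obtain ⟨a, f, ω, h1, h2, h3⟩ := exists_nsd_neg.{0} F hθ
      exact ⟨a, f, ω, h1, h2, fun _ => h3 Z hZ⟩
    · obtain ⟨⟨f, ω, h1⟩, h2⟩ := exists_nsd.{0} F hθ.2
      exact ⟨1, f, ω, h1, h2, fun e => (hθ.1 e).elim⟩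
  obtain ⟨χ, c1, c2, c3⟩ := hI F Z U s₀ k a f ω η hZ (by omega) hf hn e1 (.inr e4)
  rw [hf.deg hZ, e2, ← Nat.cast_mul, ← Nat.cast_mul] at c2
  obtain ⟨d, hd, hD⟩ := hG.deg hc h4 (isIrr_comp_equiv c1 (isoCongr i hQ hB).symm)
    (by rw [map_one]; exact c2) fun e => by
      rw [map_one, isoCongr_negOne]; exact c3 (hs e) e3
  refine ⟨d, hd, _, ?_, hD⟩
  obtain ⟨k, rfl⟩ : ∃ l, k = l + 1 := ⟨k - 1, by omega⟩
  rw [← h₁.card_tsk, Finset.prod_range_succ, Nat.card_eq_fintype_card (α := F), Nat.add_sub_cancel]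
  ring

theorem hasR (h : s.Ty t m) (hG : Cov G X) (hX : Rk3 X) (hw : 2 ≤ wi t m) :
    ∃ f ∈ charDegrees G, ∃ g ∈ charDegrees G, R3Deg t q m f g := by
  obtain ⟨η, η', f, g, h1, h2, h3, h4, h5⟩ := (r3 F V s t m X h hX).2 hw
  exact ⟨f, hG.deg0 h1.1 h1.negOne h3, g, hG.deg0 h2.1 h2.negOne h4, h5⟩

theorem adj_of_cpl [Finite G] (h : s.Ty t m) (hG : Cov G X) (hc : Cpl (charDegrees G) t q m)
    {r r' : ℕ} (hr : r ∈ degreePrimes G) (hr' : r' ∈ degreePrimes G) (hne : r ≠ r') :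
    (degreeGraph G).Adj r r' := by
  have key : ∀ x ∈ degreePrimes G, Pr t q m x := fun x ⟨h1, d, h2, h3⟩ =>
    h.pr h1 ((h3.trans (dvd_card_of_mem h2)).trans hG.dvd)
  exact ⟨hne, hr.1, hr'.1, hc r r' (key r hr) (key r' hr') hne⟩

theorem pp : IsPrimePow q := FiniteField.isPrimePow_card F

theorem cplC (hI : IStmt) (h2 : SP2Stmt) (ar : ArC) (h : s.Ty .C m)
    (hG : Cov G (⊤ : Subgroup s.iso)) (hm : 2 ≤ m) (hq : m = 2 → 3 ≤ q) :
    Cpl (charDegrees G) .C q m := by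
  refine ar _ _ _ pp hm hq (fun e => hasI hI h hG (by simp) (by simp) le_rfl (adm_one _ _)
    (.inl (by omega))) (fun e => hasI hI h hG (by simp) (by simp) (Nat.sub_le _ _) (by
      simpa using adm_two (F := F) (t := .C) (j := m - (m - 1)) (by simp [wi]; omega) (by simp))
      (.inl (by omega))) ?_ (hasR h hG (hasE_top.rk3 (.inl rfl)) hm)
  obtain ⟨Z, U, s₀, i, hZ, h₀, h₁, hQ, hB⟩ := h.exists_hyp (k := 2) hm
  obtain ⟨χ, d, c1, c2, c3, c4⟩ := h2 F Z U s₀ h₀.1 hZ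
  refine ⟨d, hG.deg0 (isIrr_comp_equiv c1 (Subgroup.topEquiv.trans (isoCongr i hQ hB).symm))
    (fun z hz => ?_) (by rw [map_one]; exact c3), ?_⟩
  · rw [map_one, ← c2, ← isoCongr_negOne i hQ hB, ← hz]; rfl
  · have := h₁.card_tsk 2
    simp only [Finset.prod_range_succ, Finset.range_zero, Finset.prod_empty, one_mul, sn, zero_add,
      pow_one, Nat.sub_zero] at this
    rw [mul_comm (_ - 1), ← mul_assoc, c4, mul_assoc, mul_assoc, mul_assoc,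
      show 2 * m - 2 = 2 * (m - 1) by omega, ← this]

theorem cplB (hI : IStmt) (ar : ArB) (h : s.Ty .B m) (hG : Cov G (commutator s.iso))
    (hm : 3 ≤ m) (hq : Odd q) : Cpl (charDegrees G) .B q m := by
  have h2 : (2 : F) ≠ 0 := two_ne_zero_iff.2 (Nat.odd_iff.1 hq)
  have h3 : 3 ≤ q := by have := Fintype.one_lt_card (α := F); obtain ⟨k, hk⟩ := hq; omega
  have h4 := index_dvd_four h2 h.1
  have d := h.2.1
  exact ar _ _ _ pp hq hm (hasI hI h hG h4 dvd_rfl le_rfl (adm_one _ _) (.inl (by omega)))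
    (hasI hI h hG h4 dvd_rfl (Nat.sub_le _ _) (by
      simpa using adm_two (F := F) (t := .B) (j := m - (m - 1)) (by simp [wi]; omega) (by simp))
      (.inr ⟨negOne_not_mem_of_odd h2 ⟨m, d⟩, by omega⟩))
    (hasR h hG ((hasE_commutator h.1 (by omega)).rk3 (by omega)) (by simp [wi]; omega))

theorem exists_loss (hδ : s.δ = 1) (h5 : 5 ≤ finrank F V) : ∃ c, (commutator s.iso).index ∣ c ∧
    c ∣ 4 ∧ (Odd q ∧ c = 4 ∨ Even q ∧ c = 2) := by
  by_cases h2 : (2 : F) = 0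
  · haveI : CharP F 2 := CharTwo.of_one_ne_zero_of_two_eq_zero one_ne_zero h2
    obtain ⟨lam, h1, h3, -⟩ := exists_sgn hδ h5
    refine ⟨2, ?_, by norm_num, .inr ⟨?_, rfl⟩⟩
    · rw [← h1, Subgroup.index_ker]
      refine (Subgroup.card_dvd_of_le (K := Subgroup.zpowers (-1)) ?_).trans ?_
      · rintro _ ⟨g, rfl⟩
        rcases h3 g with e | e <;> simp [e]
      · rw [Nat.card_zpowers]
        exact orderOf_dvd_of_pow_eq_one (by simp)
    · have := two_ne_zero_iff (F := F)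
      rw [Nat.even_iff]
      simp only [h2, ne_eq, not_true, false_iff] at this
      omega
  · exact ⟨4, index_dvd_four h2 hδ, dvd_rfl, .inl ⟨Nat.odd_iff.2 (two_ne_zero_iff.1 h2), rfl⟩⟩

theorem negOne_not_mem (h : s.Ty t m) (hδ : s.δ = 1) (hm : finrank F V = 2 * m) (hq : q % 2 = 1)
    (hn : ∀ n, sn t q m + 1 + (q - 1) * n = q ^ (2 * m) → n % 4 = 2) :
    s.negOne ∉ commutator s.iso := by
  have h2 : (2 : F) ≠ 0 := two_ne_zero_iff.2 hq
  refine negOne_not_mem_of_cn h2 one_ne_zero (hn _ ?_)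
  rw [← cn_even h2 hδ hm one_ne_zero, h.cn ts_bot]
  simp

theorem deg_comm {Z U : Submodule F V} {s₀ : FSp F U} (i : (Z × U × Dual F Z) ≃ₗ[F] V)
    (hQ : ∀ x, s.Q (i x) = (s₀.hyp Z).Q x) (hB : ∀ x y, s.B (i x) (i y) = (s₀.hyp Z).B x y)
    (hG : Cov G (commutator s.iso)) (hq : q = 2) {n : ℕ}
    (h : ∃ (χ : commutator (s₀.hyp Z).iso → ℂ) (d : ℕ), IsIrrCharacter _ χ ∧ χ 1 = d ∧ n ∣ d) :
    ∃ d ∈ charDegrees G, n ∣ d := by
  obtain ⟨χ, d, c1, c2, c3⟩ := h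
  refine ⟨d, hG.deg0 (isIrr_comp_equiv c1 (commCongr (isoCongr i hQ hB).symm)) (fun z hz => ?_)
    (by rw [map_one]; exact c2), c3⟩
  have h2 : (2 : F) = 0 := by simpa [hq] using FiniteField.cast_card_eq_zero F
  rw [show z = 1 from Subtype.ext (hz.trans (iso_ext fun x => by
    show -x = x
    rw [neg_eq_iff_add_eq_zero, ← two_smul F, h2, zero_smul])), map_one]

theorem cancel {a b c : ℕ} (h : (q ^ 2 - 1) * a = b) (h' : (q ^ 2 - 1) * c = b) : a = c :=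
  Nat.eq_of_mul_eq_mul_left (Nat.sub_pos_of_lt (Nat.one_lt_pow two_ne_zero Fintype.one_lt_card))
    (h.trans h'.symm)

theorem e4 : (q ^ 2 - 1) * (q ^ 2 * (q ^ 2 + 1)) = q ^ 2 * (q ^ (2 * 3 - 2) - 1) := by
  have : 1 ≤ q ^ 2 := Nat.one_le_pow _ _ Fintype.card_pos
  have : 1 ≤ q ^ (2 * 3 - 2) := Nat.one_le_pow _ _ Fintype.card_pos
  zify [*]
  ring

theorem cplP (hI : IStmt) (h2 : N2Stmt) (ar : ArP) (h : s.Ty .P m)
    (hG : Cov G (commutator s.iso)) (hm : 4 ≤ m) : Cpl (charDegrees G) .P q m := by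
  have d := h.2.1
  obtain ⟨c, c1, c2, c3⟩ := exists_loss h.1 (by omega)
  refine ar _ c _ _ pp c3 hm (hasI hI h hG c1 c2 le_rfl (adm_one _ _) (.inl (by omega)))
    (hasI hI h hG c1 c2 (Nat.sub_le _ _) (adm_one _ _) (.inl (by omega)))
    (fun e => hasI hI h hG c1 c2 (Nat.sub_le _ _) ?_ (.inl (by omega)))
    (fun e => hasI hI h hG c1 c2 (Nat.sub_le _ _) ?_ (.inl (by omega)))
    (fun e e' => hasI hI h hG c1 c2 (by simp [wi]; omega) ?_ ?_) (fun e e' => ?_)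
    (hasR h hG ((hasE_commutator h.1 (by omega)).rk3 (by omega)) (by simp [wi]; omega))
  · rw [show m - (m - 2) = 2 by omega]
    exact adm_three le_rfl (.inr fun f g e => cancel e.2 (mul_comm _ _))
  · rw [show m - (m - 3) = 3 by omega]
    exact adm_three (by simp [wi]) (.inr fun f g e => cancel e.2 e4)
  · subst e
    refine adm_three (by simp [wi]) (.inl fun f g e => cancel e.1 ?_)
    have : 1 ≤ q ^ 2 := Nat.one_le_pow _ _ Fintype.card_pos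
    have : 1 ≤ q ^ (5 - 2) := Nat.one_le_pow _ _ Fintype.card_pos
    zify [*]
    ring
  · by_cases e3 : q = 3
    · exact .inr ⟨negOne_not_mem h h.1 d (by omega) fun n hn => by
        rw [e, e3] at hn; simp [sn] at hn; omega, by omega⟩
    · exact .inl (by omega)
  · subst e
    obtain ⟨Z, U, s₀, i, hZ, h₀, h₁, hQ, hB⟩ := h.exists_hyp (k := 4) (by simp [wi])
    exact deg_comm i hQ hB hG e' (h2 F Z U s₀ e' hZ h₀ h₁)

theorem cplM (hI : IStmt) (h2 : N3Stmt) (h3 : SGNStmt) (ar : ArM) (h : s.Ty .M m)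
    (hG : Cov G (commutator s.iso)) (hm : 4 ≤ m) : Cpl (charDegrees G) .M q m := by
  have d := h.2.1
  obtain ⟨c, c1, c2, c3⟩ := exists_loss h.1 (by omega)
  have n : m = 4 → q = 3 ∨ q = 5 → s.negOne ∉ commutator s.iso := fun e e' =>
    negOne_not_mem h h.1 d (by omega) fun n hn => by
      rcases e' with e' | e' <;> (rw [e, e'] at hn; simp [sn] at hn; omega)
  refine ar _ c _ _ pp c3 hm (hasI hI h hG c1 c2 le_rfl (adm_one _ _) (.inl (by omega)))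
    (fun e => hasI hI h hG c1 c2 (by simp [wi]; omega) ?_ ?_)
    (fun e e' => hasI hI h hG c1 c2 (by simp [wi]; omega) ?_ ?_) (fun e e' => ?_) (fun e e' => ?_)
    (hasR h hG ((hasE_commutator h.1 (by omega)).rk3 (by omega)) (by simp [wi]; omega))
  · rw [show m - (m - 2) = 2 by omega]
    exact adm_two rfl (by simp)
  · by_cases e3 : m = 4 ∧ q = 3
    · exact .inr ⟨n e3.1 (.inl e3.2), by omega⟩
    · exact .inl (by omega)
  · subst e
    exact adm_three (by simp [wi]) (.inr fun f g e => cancel e.2 e4)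
  · by_cases e3 : q = 5
    · exact .inr ⟨n e (.inr e3), by omega⟩
    · exact .inl (by omega)
  · obtain ⟨Z, U, s₀, i, hZ, h₀, h₁, hQ, hB⟩ := h.exists_hyp (k := 1) (by simp [wi]; omega)
    subst e
    obtain ⟨χ, D, e1, e2, e3⟩ := h3 F Z U s₀ e' hZ h₀ h₁
    obtain ⟨d, hd, hD⟩ := hG.deg c1 c2 (isIrr_comp_equiv e1 (isoCongr i hQ hB).symm)
      (by rw [map_one]; exact e2) fun e => (n rfl (.inl e') e).elim
    exact ⟨d, hd, (show Nat.Coprime 195 4 by norm_num).dvd_of_dvd_mul_left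
      ((e3.trans hD).trans (Nat.mul_dvd_mul_right c2 d))⟩
  · subst e
    obtain ⟨Z, U, s₀, i, hZ, h₀, h₁, hQ, hB⟩ := h.exists_hyp (k := 2) (by simp [wi])
    exact deg_comm i hQ hB hG e' (h2 F Z U s₀ e' hZ h₀ h₁)

theorem final (hI : IStmt) (h1 : SP2Stmt) (h2 : N2Stmt) (h3 : N3Stmt) (h4 : SGNStmt) (a1 : ArC)
    (a2 : ArB) (a3 : ArP) (a4 : ArM) {G : Type*} [Group G] [Finite G]
    (h : IsPSp G ∨ IsPOmegaOdd G ∨ IsPOmegaPlus G ∨ IsPOmegaMinus G) (r r' : ℕ)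
    (hr : r ∈ degreePrimes G) (hr' : r' ∈ degreePrimes G) (hne : r ≠ r') :
    (degreeGraph G).Adj r r' := by
  rcases h with ⟨F, _, _, m, hm, hq, ⟨j⟩⟩ | ⟨F, _, _, m, hm, hq, ⟨j⟩⟩ | ⟨F, _, _, m, hm, ⟨j⟩⟩ |
    ⟨F, _, _, m, a, b, hm, hab, ⟨j⟩⟩
  · obtain ⟨s, h, hG⟩ := iso_C hm j
    exact adj_of_cpl h hG (cplC hI h1 a1 h hG hm hq) hr hr' hne
  · obtain ⟨s, h, hG⟩ := iso_B (two_ne_zero_iff.2 (Nat.odd_iff.1 hq)) (by omega) j
    exact adj_of_cpl h hG (cplB hI a2 h hG hm hq) hr hr' hne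
  · obtain ⟨s, h, hG⟩ := iso_P (by omega) j
    exact adj_of_cpl h hG (cplP hI h2 a3 h hG hm) hr hr' hne
  · obtain ⟨s, h, hG⟩ := iso_M (by omega) a b hab j
    exact adj_of_cpl h hG (cplM hI h3 h4 a4 h hG (by omega)) hr hr' hne

end Cfsg.Agent.DG
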