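import Mathlib

/-!
# Symplectic and quadratic spaces, their isometry groups and hyperbolic extensions
-/

set_option autoImplicit false

namespace Cfsg.Agent.DG

open Module

/-- A nondegenerate symplectic (`δ = 0`, `Q = 0`) or quadratic (`δ = 1`) space. -/
structure FSp (F V : Type*) [Field F] [AddCommGroup V] [Module F V] where
  δ : F
  Q : V → F
  B : V →ₗ[F] V →ₗ[F] F
  hδ : δ = 0 ∨ δ = 1
  add : ∀ x y, Q (x + y) = Q x + Q y + δ * B x y
  smul : ∀ (c : F) x, Q (c • x) = c ^ 2 * Q x
  self : ∀ x, B x x = 2 * Q x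
  δQ : ∀ x, δ * Q x = Q x
  nd : ∀ x, (∀ y, B x y = 0) → x = 0

namespace FSp

variable {F V V' : Type*} [Field F] [AddCommGroup V] [Module F V] [AddCommGroup V'] [Module F V']
  (s : FSp F V)

/-- the sign of the bilinear form -/
def ε : F := 2 * s.δ - 1

theorem δ_sq : s.δ * s.δ = s.δ := by rcases s.hδ with h | h <;> simp [h]

theorem ε_sq : s.ε * s.ε = 1 := by
  have := s.δ_sq
  unfold ε; linear_combination 4 * this

theorem δ_ε : s.δ * s.ε = s.δ := by
  have := s.δ_sq
  unfold ε; linear_combination 2 * this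

theorem ε_ne : s.ε ≠ 0 := fun h => by simpa [h] using s.ε_sq

theorem symm (x y : V) : s.B y x = s.ε * s.B x y := by
  have h1 := s.self (x + y)
  have h2 := s.self x
  have h3 := s.self y
  have h4 := s.add x y
  simp only [map_add, LinearMap.add_apply] at h1
  unfold ε
  linear_combination h1 - h2 - h3 + 2 * h4

theorem B_eq_zero_comm {x y : V} (h : s.B x y = 0) : s.B y x = 0 := by rw [s.symm, h, mul_zero]

theorem nd' (y : V) (h : ∀ x, s.B x y = 0) : y = 0 :=
  s.nd y fun x => s.B_eq_zero_comm (h x)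

@[simp] theorem Q_zero : s.Q 0 = 0 := by simpa using s.smul 0 0

theorem Q_neg (x : V) : s.Q (-x) = s.Q x := by simpa using s.smul (-1) x

/-- the isometry group -/
def iso : Subgroup (V ≃ₗ[F] V) where
  carrier := {g | (∀ x, s.Q (g x) = s.Q x) ∧ ∀ x y, s.B (g x) (g y) = s.B x y}
  one_mem' := ⟨fun _ => rfl, fun _ _ => rfl⟩
  mul_mem' {a b} ha hb := ⟨fun x => (ha.1 _).trans (hb.1 x), fun x y => (ha.2 _ _).trans (hb.2 x y)⟩
  inv_mem' {a} ha := ⟨fun x => by
      have := ha.1 (a.symm x)
      rw [a.apply_symm_apply] at this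
      exact this.symm, fun x y => by
      have := ha.2 (a.symm x) (a.symm y)
      rw [a.apply_symm_apply, a.apply_symm_apply] at this
      exact this.symm⟩

instance [Finite V] : Finite s.iso :=
  Finite.of_injective (fun g : s.iso => (g.1 : V → V))
    (DFunLike.coe_injective.comp Subtype.val_injective)

instance : CoeFun s.iso (fun _ => V → V) := ⟨fun g => g.1⟩

variable {s}

theorem iso_Q (g : s.iso) (x : V) : s.Q (g x) = s.Q x := g.2.1 x
theorem iso_B (g : s.iso) (x y : V) : s.B (g x) (g y) = s.B x y := g.2.2 x y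
theorem mul_apply (g h : s.iso) (x : V) : (g * h) x = g (h x) := rfl
theorem one_apply (x : V) : (1 : s.iso) x = x := rfl
theorem inv_apply_apply (g : s.iso) (x : V) : g⁻¹ (g x) = x := g.1.symm_apply_apply x
theorem apply_inv_apply (g : s.iso) (x : V) : g (g⁻¹ x) = x := g.1.apply_symm_apply x
theorem iso_ext {g h : s.iso} (H : ∀ x, g x = h x) : g = h := Subtype.ext (LinearEquiv.ext H)
theorem iso_inj (g : s.iso) : Function.Injective g := g.1.injective
theorem iso_B_left (g : s.iso) (x y : V) : s.B (g x) y = s.B x (g⁻¹ y) := by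
  rw [← iso_B g x, apply_inv_apply]
theorem iso_B_right (g : s.iso) (x y : V) : s.B x (g y) = s.B (g⁻¹ x) y := by
  rw [← iso_B g _ y, apply_inv_apply]

variable (s) in
/-- an endomorphism preserving the forms is an isometry -/
noncomputable def mkIso [FiniteDimensional F V] (f : V →ₗ[F] V) (hQ : ∀ x, s.Q (f x) = s.Q x)
    (hB : ∀ x y, s.B (f x) (f y) = s.B x y) : s.iso :=
  ⟨LinearEquiv.ofInjectiveEndo f (by
    rw [injective_iff_map_eq_zero]
    exact fun x hx => s.nd x fun y => by rw [← hB, hx]; simp), hQ, hB⟩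

@[simp] theorem mkIso_apply [FiniteDimensional F V] (f : V →ₗ[F] V) (hQ : ∀ x, s.Q (f x) = s.Q x)
    (hB : ∀ x y, s.B (f x) (f y) = s.B x y) (x : V) : s.mkIso f hQ hB x = f x := rfl

variable (s) in
/-- the central element `-1` -/
def negOne : s.iso := ⟨LinearEquiv.neg F, fun x => s.Q_neg x, fun x y => by simp⟩

@[simp] theorem negOne_apply (x : V) : s.negOne x = -x := rfl

/-- isometric spaces have isomorphic isometry groups -/
def isoCongr {s' : FSp F V'} (e : V ≃ₗ[F] V') (hQ : ∀ x, s'.Q (e x) = s.Q x)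
    (hB : ∀ x y, s'.B (e x) (e y) = s.B x y) : s.iso ≃* s'.iso where
  toFun g := ⟨e.symm.trans (g.1.trans e), fun x => by
    simp only [LinearEquiv.trans_apply]; rw [hQ, g.2.1, ← hQ, e.apply_symm_apply], fun x y => by
    simp only [LinearEquiv.trans_apply]
    rw [hB, g.2.2, ← hB, e.apply_symm_apply, e.apply_symm_apply]⟩
  invFun g := ⟨e.trans (g.1.trans e.symm), fun x => by
    simp only [LinearEquiv.trans_apply]; rw [← hQ, e.apply_symm_apply, g.2.1, hQ], fun x y => by
    simp only [LinearEquiv.trans_apply]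
    rw [← hB, e.apply_symm_apply, e.apply_symm_apply, g.2.2, hB]⟩
  left_inv g := iso_ext fun x => by simp
  right_inv g := iso_ext fun x => by simp
  map_mul' g h := iso_ext fun x => by simp [mul_apply]

theorem isoCongr_apply {s' : FSp F V'} (e : V ≃ₗ[F] V') (hQ : ∀ x, s'.Q (e x) = s.Q x)
    (hB : ∀ x y, s'.B (e x) (e y) = s.B x y) (g : s.iso) (x : V') :
    isoCongr e hQ hB g x = e (g (e.symm x)) := rfl

variable (s) in
/-- The Eichler (Siegel) transformation; `t` matters only in the symplectic case. -/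
noncomputable def eich [FiniteDimensional F V] (e w : V) (t : F) (he : s.Q e = 0)
    (hw : s.B w e = 0) : s.iso :=
  s.mkIso
    { toFun := fun x => x + s.B x e • w -
        (s.ε * s.B x w + (s.Q w + (1 - s.δ) * t) * s.B x e) • e
      map_add' := fun x y => by simp only [map_add, LinearMap.add_apply]; module
      map_smul' := fun c x => by
        simp only [map_smul, LinearMap.smul_apply, smul_eq_mul, RingHom.id_apply]; module }
    (fun x => by
      have h1 := s.δ_sq
      have h2 := s.δ_ε
      have h3 := s.δQ w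
      simp only [LinearMap.coe_mk, AddHom.coe_mk, sub_eq_add_neg, ← neg_smul, s.add, s.smul, he,
        map_add, map_smul, LinearMap.add_apply, LinearMap.smul_apply, smul_eq_mul, hw]
      linear_combination (-s.B x w * s.B x e) * h2 - s.B x e ^ 2 * h3 + t * s.B x e ^ 2 * h1)
    (fun x y => by
      have h1 := s.ε_sq
      have h2 := s.self e
      have h3 := s.self w
      have h4 := s.δQ w
      have h5 := s.δ_sq
      rw [he, mul_zero] at h2
      simp only [LinearMap.coe_mk, AddHom.coe_mk, map_sub, map_add, map_smul, LinearMap.add_apply,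
        LinearMap.sub_apply, LinearMap.smul_apply, smul_eq_mul, hw, h2, h3, s.symm y w,
        s.symm y e, s.symm w e]
      unfold ε at *
      linear_combination (-s.B x w * s.B y e) * h1 - 2 * s.B x e * s.B y e * h4 +
        2 * t * s.B x e * s.B y e * h5)

theorem eich_apply [FiniteDimensional F V] (e w : V) (t : F) (he : s.Q e = 0)
    (hw : s.B w e = 0) (x : V) : s.eich e w t he hw x =
      x + s.B x e • w - (s.ε * s.B x w + (s.Q w + (1 - s.δ) * t) * s.B x e) • e := rfl

/-- every linear functional is represented by the form -/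
theorem exists_rep [FiniteDimensional F V] (f : V →ₗ[F] F) : ∃ w, ∀ x, s.B x w = f x := by
  have hi : Function.Injective s.B.flip := by
    rw [injective_iff_map_eq_zero]
    exact fun y hy => s.nd' y fun x => LinearMap.congr_fun hy x
  have := (LinearMap.injective_iff_surjective_of_finrank_eq_finrank
    (Subspace.dual_finrank_eq (K := F) (V := V)).symm).1 hi
  obtain ⟨w, hw⟩ := this f
  exact ⟨w, fun x => LinearMap.congr_fun hw x⟩

variable (s) in
/-- totally singular subspaces -/
def TS (Z : Submodule F V) : Prop := (∀ x ∈ Z, s.Q x = 0) ∧ ∀ x ∈ Z, ∀ y ∈ Z, s.B x y = 0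

variable (s) (W : Type*) [AddCommGroup W] [Module F W]

/-- The hyperbolic extension `W ⊕ V ⊕ W^*`. -/
def hyp : FSp F (W × V × Dual F W) where
  δ := s.δ
  Q x := s.δ * x.2.2 x.1 + s.Q x.2.1
  B := LinearMap.mk₂ F (fun x y => y.2.2 x.1 + s.ε * x.2.2 y.1 + s.B x.2.1 y.2.1)
    (fun _ _ _ => by simp; ring) (fun _ _ _ => by simp; ring)
    (fun _ _ _ => by simp; ring) (fun _ _ _ => by simp; ring)
  hδ := s.hδ
  add x y := by
    have h1 := s.δ_sq
    have h2 := s.δ_ε
    simp only [Prod.snd_add, Prod.fst_add, map_add, LinearMap.add_apply, s.add,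
      LinearMap.mk₂_apply]
    linear_combination (-x.2.2 y.1) * h2
  smul c x := by simp [s.smul]; ring
  self x := by simp only [LinearMap.mk₂_apply, s.self, ε]; ring
  δQ x := by
    have h1 := s.δ_sq
    have h2 := s.δQ x.2.1
    linear_combination (x.2.2 x.1) * h1 + h2
  nd x h := by
    obtain ⟨a, v, f⟩ := x
    have h1 : a = 0 := (forall_dual_apply_eq_zero_iff F a).1 fun g => by simpa using h (0, 0, g)
    have h2 : v = 0 := s.nd v fun y => by simpa using h (0, y, 0)
    have h3 : f = 0 := LinearMap.ext fun b => by simpa [s.ε_ne] using h (b, 0, 0)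
    simp [h1, h2, h3]

@[simp] theorem hyp_δ : (s.hyp W).δ = s.δ := rfl
@[simp] theorem hyp_ε : (s.hyp W).ε = s.ε := rfl
theorem hyp_Q (x : W × V × Dual F W) : (s.hyp W).Q x = s.δ * x.2.2 x.1 + s.Q x.2.1 := rfl
theorem hyp_B (x y : W × V × Dual F W) :
    (s.hyp W).B x y = y.2.2 x.1 + s.ε * x.2.2 y.1 + s.B x.2.1 y.2.1 := rfl

end FSp

end Cfsg.Agent.DG
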