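import Cfsg.Agent.Lib.Ind.Clifford
import Cfsg.Agent.Lib.Ind.IndRep
import Cfsg.Agent.Lib.Char.More

/-!
# Mackey's criterion and two-dimensional Hecke algebras, on the level of characters
-/

set_option autoImplicit false

namespace Cfsg.Agent.DG

open Cfsg Cfsg.Agent.Char Cfsg.Agent.Ind Module
open scoped ComplexConjugate

section Mackey

variable {G : Type*} [Group G]

/-- A character without invariants under the image of `f` is killed by averaging over it. -/
theorem sum_mul_eq_zero {M : Type*} [Group M] [Fintype M] {χ : G → ℂ} (hχ : IsCharacter G χ)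
    (f : M →* G) (h : ∑ m, χ (f m) = 0) (g : G) : ∑ m, χ (g * f m) = 0 := by
  obtain ⟨n, ρ, rfl⟩ := hχ
  let σ : Representation ℂ M (Fin n → ℂ) := ρ.comp f
  have h1 := inner_character_one_eq_finrank σ
  have h2 : finrank ℂ σ.invariants = 0 := by
    have : classInner σ.character (fun _ => 1) = 0 := by
      simp only [classInner, map_one, mul_one]
      rw [show ∑ m, σ.character m = 0 from h, mul_zero]
    rw [this] at h1
    exact_mod_cast h1.symm
  have h3 : ∑ m, ρ (f m) = 0 := by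
    refine LinearMap.ext fun v => ?_
    have : (∑ m, ρ (f m)) v ∈ σ.invariants := fun k => by
      rw [LinearMap.sum_apply, map_sum, ← Equiv.sum_comp (Equiv.mulLeft k) fun m => ρ (f m) v]
      refine Finset.sum_congr rfl fun m _ => ?_
      simp [σ]
    rw [Submodule.finrank_eq_zero.1 h2] at this
    exact this
  simp only [Representation.character, map_mul]
  rw [← map_sum, ← Finset.mul_sum, h3, mul_zero, map_zero]

theorem isChar_prod {H : Type*} [Group H] {χ : G → ℂ} {ψ : H → ℂ} (hχ : IsCharacter G χ)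
    (hψ : IsCharacter H ψ) : IsCharacter (G × H) (fun x => χ x.1 * ψ x.2) :=
  isChar_mul (isChar_comp hχ (MonoidHom.fst G H)) (isChar_comp hψ (MonoidHom.snd G H))

theorem sum_mul_mul_eq_zero {H M : Type*} [Group H] [Finite H] [Group M] [Fintype M] {χ : G → ℂ}
    {ψ : H → ℂ} (hχ : IsCharacter G χ) (hψ : IsCharacter H ψ) (a : M →* G) (b : M →* H)
    (h : ∑ m, χ (a m) * conj (ψ (b m)) = 0) (g : G) (k : H) :
    ∑ m, χ (g * a m) * conj (ψ (k * b m)) = 0 :=
  sum_mul_eq_zero (isChar_prod hχ (isChar_conj hψ)) (a.prod b) h (g, k)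

/-- no invariants under a subgroup of the image implies no invariants -/
theorem sum_eq_zero_of_range {M N : Type*} [Group M] [Fintype M] [Group N] [Fintype N] {χ : G → ℂ}
    (hχ : IsCharacter G χ) (f : M →* G) (k : N →* G) (hk : ∀ n, ∃ m, f m = k n)
    (h : ∑ n, χ (k n) = 0) : ∑ m, χ (f m) = 0 := by
  have h1 : ∀ n, ∑ m, χ (f m) = ∑ m, χ (f m * k n) := fun n => by
    obtain ⟨m, hm⟩ := hk n
    rw [← Equiv.sum_comp (Equiv.mulRight m)]
    simp [hm]
  have h2 : (Fintype.card N : ℂ) * ∑ m, χ (f m) = 0 := by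
    rw [← nsmul_eq_mul, ← Finset.card_univ, ← Finset.sum_const, Finset.sum_congr rfl fun n _ => h1 n,
      Finset.sum_comm]
    exact Finset.sum_eq_zero fun m _ => sum_mul_eq_zero hχ k h _
  exact (mul_eq_zero.1 h2).resolve_left (by simp)

variable [Fintype G] (P : Subgroup G)

/-- the Mackey term of `x` -/
noncomputable def TT (φ : P → ℂ) (x : G) : ℂ :=
  ∑ y : G, extendByZero P φ y * conj (extendByZero P φ (x⁻¹ * y * x))

theorem inner_ind_eq (φ : P → ℂ) : classInner (indFun P φ) (indFun P φ) =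
    (Nat.card P : ℂ)⁻¹ * ((Nat.card P : ℂ)⁻¹ * ∑ x, TT P φ x) := by
  have := Fintype.ofFinite P
  rw [frobenius P φ (cf_indFun P φ), classInner]
  congr 1
  simp only [TT]
  rw [Finset.sum_comm, Finset.mul_sum]
  simp only [← Finset.mul_sum, mul_left_comm (Nat.card P : ℂ)⁻¹]
  rw [sum_ebz_mul]
  refine Finset.sum_congr rfl fun y _ => ?_
  rw [indFun_apply, map_mul, map_sum, map_inv₀, map_natCast]

variable {P}

theorem TT_mul {φ : P → ℂ} (hφ : IsClassFunction P φ) {p p' : G} (hp : p ∈ P) (hp' : p' ∈ P)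
    (x : G) : TT P φ (p * x * p') = TT P φ x := by
  rw [TT, TT, ← Equiv.sum_comp (MulAut.conj p).toEquiv]
  refine Finset.sum_congr rfl fun y _ => ?_
  have h : (p * x * p')⁻¹ * (p * y * p⁻¹) * (p * x * p') = p'⁻¹ * (x⁻¹ * y * x) * p' := by group
  change extendByZero P φ (p * y * p⁻¹) *
    conj (extendByZero P φ ((p * x * p')⁻¹ * (p * y * p⁻¹) * (p * x * p'))) = _
  rw [h, ebz_conj_mem P hφ hp, ebz_conj_mem' P hφ hp']

theorem TT_of_mem [Fintype P] {φ : P → ℂ} (hφ : IsClassFunction P φ) {p : G} (hp : p ∈ P) :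
    TT P φ p = Nat.card P * classInner φ φ := by
  have h := TT_mul hφ hp P.one_mem 1
  rw [mul_one, mul_one] at h
  rw [h, TT, sum_ebz_mul, classInner, ← mul_assoc, mul_inv_cancel₀ (card_ne_zero' P), one_mul]
  simp [ebz_coe]

theorem TT_eq_zero {φ : P → ℂ} (hφ : IsCharacter P φ) {x : G} {M : Type*} [Group M] [Fintype M]
    (a b : M →* P) (hab : ∀ m, (b m : G) = x⁻¹ * a m * x)
    (h : ∑ m, φ (a m) * conj (φ (b m)) = 0) : TT P φ x = 0 := by
  have h1 : ∀ m, TT P φ x = ∑ y : G, extendByZero P φ (y * a m) *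
      conj (extendByZero P φ (x⁻¹ * y * x * b m)) := fun m => by
    rw [TT, ← Equiv.sum_comp (Equiv.mulRight (a m : G))]
    refine Finset.sum_congr rfl fun y _ => ?_
    rw [hab]
    congr 3
    simp only [Equiv.coe_mulRight]
    group
  have h2 : (Fintype.card M : ℂ) * TT P φ x = 0 := by
    rw [← nsmul_eq_mul, ← Finset.card_univ, ← Finset.sum_const, Finset.sum_congr rfl fun m _ => h1 m,
      Finset.sum_comm]
    refine Finset.sum_eq_zero fun y _ => ?_
    by_cases hy : y ∈ P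
    · by_cases hy' : x⁻¹ * y * x ∈ P
      · rw [← sum_mul_mul_eq_zero hφ hφ a b h ⟨y, hy⟩ ⟨_, hy'⟩]
        refine Finset.sum_congr rfl fun m _ => ?_
        rw [← ebz_coe P φ, ← ebz_coe P φ]
        rfl
      · refine Finset.sum_eq_zero fun m _ => ?_
        rw [ebz_of_not_mem P φ (g := x⁻¹ * y * x * b m)
          (fun h => hy' ((P.mul_mem_cancel_right (b m).2).1 h)), map_zero, mul_zero]
    · refine Finset.sum_eq_zero fun m _ => ?_
      rw [ebz_of_not_mem P φ (g := y * a m)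
        (fun h => hy ((P.mul_mem_cancel_right (a m).2).1 h)), zero_mul]
  exact (mul_eq_zero.1 h2).resolve_left (by simp)

theorem sum_TT_mem {φ : P → ℂ} (hφ : IsIrrCharacter P φ) [DecidablePred (· ∈ P)] :
    ∑ x with x ∈ P, TT P φ x = Nat.card P * Nat.card P := by
  have := Fintype.ofFinite P
  rw [Finset.sum_congr rfl fun x hx => TT_of_mem (cf_of_isIrr hφ) (Finset.mem_filter.1 hx).2,
    inner_self_of_isIrr hφ, Finset.sum_const, mul_one, nsmul_eq_mul, ← Fintype.card_subtype,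
    ← Nat.card_eq_fintype_card]

/-- Mackey's irreducibility criterion. -/
theorem isIrr_ind_of_TT {φ : P → ℂ} (hφ : IsIrrCharacter P φ) (h : ∀ x, x ∉ P → TT P φ x = 0) :
    IsIrrCharacter G (indFun P φ) := by
  classical
  refine isIrr_of_isChar_of_inner_self (isCharacter_indFun P (isChar_of_isIrr hφ)) ?_
  rw [inner_ind_eq, ← Finset.sum_filter_add_sum_filter_not _ (· ∈ P), sum_TT_mem hφ,
    Finset.sum_eq_zero fun x hx => h x (Finset.mem_filter.1 hx).2]
  have := card_ne_zero' P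
  field_simp
  simp

end Mackey

section Hecke

variable {G : Type*} [Group G] [Fintype G]

/-- Data of a Harish-Chandra induction with a two-dimensional Hecke algebra. -/
structure Hk (P U L : Subgroup G) (φ : P → ℂ) (w : G) (c : ℂ) : Prop where
  irr : IsIrrCharacter P φ
  hU : U ≤ P
  hL : L ≤ P
  dec : ∀ p ∈ P, ∃ u ∈ U, ∃ l ∈ L, p = u * l
  norm : ∀ l ∈ L, ∀ u ∈ U, l * u * l⁻¹ ∈ U
  kerU : ∀ u : P, (u : G) ∈ U → φ u = φ 1
  kerW : ∀ l ∈ L, ∃ z : P, (z : G) = w⁻¹ * l * w * l⁻¹ ∧ φ z = φ 1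
  opp : ∀ u ∈ U, w⁻¹ * u * w ∈ P → u = 1
  wP : w ∉ P
  sq : ∃ z : P, (z : G) = w * w ∧ φ z = c * φ 1
  hc : c * c = 1
  van : ∀ x, x ∉ P → (∀ u ∈ U, ∀ p ∈ P, x ≠ u * w * p) → TT P φ x = 0

variable {P U L : Subgroup G} {φ : P → ℂ} {w : G} {c : ℂ}

theorem ebz_ker_mul (hφ : IsCharacter P φ) {z : P} (hz : φ z = φ 1) (y : G) :
    extendByZero P φ (z * y) = extendByZero P φ y := by
  by_cases hy : y ∈ P
  · rw [ebz_of_mem P φ hy, ebz_of_mem P φ (P.mul_mem z.2 hy),
      ← apply_mul_of_apply_eq hφ hz ⟨y, hy⟩, cf_mul_comm (cf_of_isCharacter hφ)]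
    rfl
  · rw [ebz_of_not_mem P φ hy, ebz_of_not_mem P φ fun h => hy ((P.mul_mem_cancel_left z.2).1 h)]

namespace Hk

variable (H : Hk P U L φ w c)
include H

theorem conj_mem {l : G} (hl : l ∈ L) : w⁻¹ * l * w ∈ P := by
  obtain ⟨z, hz, -⟩ := H.kerW l hl
  have : w⁻¹ * l * w = z * l := by rw [hz]; group
  exact this ▸ P.mul_mem z.2 (H.hL hl)

theorem card_mul_TT : (Nat.card U : ℂ) * TT P φ w = Nat.card P := by
  classical
  have := Fintype.ofFinite P
  have := Fintype.ofFinite U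
  have := Fintype.ofFinite L
  have hφ := isChar_of_isIrr H.irr
  have h1 : TT P φ w = ∑ l : L, extendByZero P φ l * conj (extendByZero P φ l) := by
    rw [← sum_ebz L fun l => extendByZero P φ l * conj (extendByZero P φ l), TT]
    refine Finset.sum_congr rfl fun y _ => ?_
    by_cases hy : y ∈ L
    · obtain ⟨z, hz, hz'⟩ := H.kerW y hy
      have : w⁻¹ * y * w = z * y := by rw [hz]; group
      rw [ebz_of_mem L _ hy, this, ebz_ker_mul hφ hz']
    · rw [ebz_of_not_mem L _ hy]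
      by_cases hyP : y ∈ P
      · obtain ⟨u, hu, l, hl, rfl⟩ := H.dec y hyP
        rw [ebz_of_not_mem P φ (g := w⁻¹ * (u * l) * w), map_zero, mul_zero]
        intro h
        have h2 : w⁻¹ * (u * l) * w = (w⁻¹ * u * w) * (w⁻¹ * l * w) := by group
        rw [h2, P.mul_mem_cancel_right (H.conj_mem hl)] at h
        exact hy (by simpa [H.opp u hu h] using hl)
      · rw [ebz_of_not_mem P φ hyP, zero_mul]
  let e : U × L → P := fun x => ⟨x.1 * x.2, P.mul_mem (H.hU x.1.2) (H.hL x.2.2)⟩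
  have he : Function.Bijective e := by
    constructor
    · rintro ⟨u, l⟩ ⟨u', l'⟩ h
      have h2 : (u : G) * l = u' * l' := congrArg Subtype.val h
      have h3 : (u' : G)⁻¹ * u = l' * (l : G)⁻¹ := by
        rw [inv_mul_eq_iff_eq_mul, ← mul_assoc, ← h2, mul_inv_cancel_right]
      have h4 := H.opp _ (U.mul_mem (U.inv_mem u'.2) u.2)
        (h3 ▸ H.conj_mem (L.mul_mem l'.2 (L.inv_mem l.2)))
      have h5 : u = u' := Subtype.ext (inv_mul_eq_one.1 h4).symm
      subst h5
      exact Prod.ext rfl (Subtype.ext (mul_left_cancel h2))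
    · rintro ⟨p, hp⟩
      obtain ⟨u, hu, l, hl, rfl⟩ := H.dec p hp
      exact ⟨(⟨u, hu⟩, ⟨l, hl⟩), rfl⟩
  rw [← sum_mul_conj_of_isIrr H.irr, ← he.sum_comp, Fintype.sum_prod_type, h1,
    Nat.card_eq_fintype_card, ← nsmul_eq_mul, ← Finset.card_univ, ← Finset.sum_const]
  refine Finset.sum_congr rfl fun u _ => Finset.sum_congr rfl fun l _ => ?_
  rw [← ebz_coe P φ (e _)]
  have := ebz_ker_mul hφ (H.kerU ⟨u, H.hU u.2⟩ u.2) l
  exact this ▸ rfl

theorem inner_two : classInner (indFun P φ) (indFun P φ) = 2 := by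
  classical
  have := Fintype.ofFinite P
  have := Fintype.ofFinite U
  let e : U × P → G := fun x => x.1 * w * x.2
  have he : Function.Injective e := by
    rintro ⟨u, p⟩ ⟨u', p'⟩ h
    have h2 : (u : G) * w * p = u' * w * p' := h
    have h3 : w⁻¹ * ((u' : G)⁻¹ * u) * w = p' * (p : G)⁻¹ := by
      rw [eq_mul_inv_iff_mul_eq]
      calc _ = w⁻¹ * (u' : G)⁻¹ * (u * w * p) := by group
        _ = p' := by rw [h2]; group
    have h4 := H.opp _ (U.mul_mem (U.inv_mem u'.2) u.2) (h3 ▸ P.mul_mem p'.2 (P.inv_mem p.2))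
    have h5 : u = u' := Subtype.ext (inv_mul_eq_one.1 h4).symm
    subst h5
    exact Prod.ext rfl (Subtype.ext (mul_left_cancel h2))
  have h1 : ∑ x with x ∉ P, TT P φ x = ∑ x, TT P φ (e x) := by
    rw [← Finset.sum_image (f := TT P φ) fun x _ y _ h => he h]
    refine (Finset.sum_subset (fun x hx => ?_) fun x hx hx' => ?_).symm
    · obtain ⟨⟨u, p⟩, -, rfl⟩ := Finset.mem_image.1 hx
      refine Finset.mem_filter.2 ⟨Finset.mem_univ _, fun h => H.wP ?_⟩
      exact (P.mul_mem_cancel_left (H.hU u.2)).1 ((P.mul_mem_cancel_right p.2).1 h)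
    · refine H.van x (Finset.mem_filter.1 hx).2 fun u hu p hp h => hx' ?_
      exact Finset.mem_image.2 ⟨(⟨u, hu⟩, ⟨p, hp⟩), Finset.mem_univ _, h.symm⟩
  rw [inner_ind_eq, ← Finset.sum_filter_add_sum_filter_not _ (· ∈ P), sum_TT_mem H.irr, h1,
    Finset.sum_congr rfl fun x _ => TT_mul (cf_of_isIrr H.irr) (H.hU x.1.2) x.2.2 w,
    Finset.sum_const, Finset.card_univ, Fintype.card_prod, ← Nat.card_eq_fintype_card,
    ← Nat.card_eq_fintype_card, nsmul_eq_mul, Nat.cast_mul, mul_right_comm, H.card_mul_TT]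
  have := card_ne_zero' P
  field_simp
  norm_num

end Hk

theorem exists_add_of_norm_two {R : G → ℂ} (hR : IsCharacter G R) (h : classInner R R = 2) :
    ∃ a b, IsIrrCharacter G a ∧ IsIrrCharacter G b ∧ a ≠ b ∧ R = a + b := by
  obtain ⟨a, ha, hRa, -⟩ := exists_common_constituent (cf_of_isCharacter hR)
    (b := R) (by rw [h]; norm_num)
  have hb := isChar_sub_of_inner_ne_zero hR ha hRa
  obtain ⟨n, hn⟩ := exists_nat_inner hR (isChar_of_isIrr ha)
  obtain ⟨k, hk⟩ := exists_nat_inner hb hb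
  have h1 : classInner (R - a) (R - a) = 3 - 2 * n := by
    rw [Ind.inner_sub_left, Ind.inner_sub_right, Ind.inner_sub_right, h, hn,
      inner_comm_of_isChar (isChar_of_isIrr ha) hR, hn, inner_self_of_isIrr ha]
    ring
  have h2 : k + 2 * n = 3 := by
    have : ((k + 2 * n : ℕ) : ℂ) = (3 : ℕ) := by push_cast; rw [← hk, h1]; ring
    exact_mod_cast this
  have h3 : n ≠ 0 := fun h0 => hRa (by simp [hn, h0])
  have h4 : n = 1 := by omega
  subst h4
  refine ⟨a, R - a, ha, isIrr_of_isChar_of_inner_self hb (by rw [h1]; norm_num), fun hab => ?_,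
    by abel⟩
  have : R = a + a := by rw [← sub_eq_iff_eq_add, ← hab]
  rw [this, Ind.inner_add_left, inner_self_of_isIrr ha] at hn
  norm_num at hn

variable (P) in
/-- the trace of `y` on the `φ`-isotypic part (up to a constant) -/
noncomputable def FF [Fintype P] (φ : P → ℂ) (χ : G → ℂ) (y : G) : ℂ :=
  ∑ p : P, χ (y * p) * conj (φ p)

omit [Fintype G] in
theorem FF_eq_zero [Fintype P] (hφ : IsCharacter P φ) {χ : G → ℂ} (hχ : IsCharacter G χ)
    (h : classInner (fun p : P => χ p) φ = 0) (y : G) : FF P φ χ y = 0 := by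
  have h1 : ∑ p : P, χ (P.subtype p) * conj (φ (MonoidHom.id P p)) = 0 :=
    (mul_eq_zero.1 h).resolve_left (inv_ne_zero (card_ne_zero' P))
  simpa [FF] using sum_mul_mul_eq_zero hχ hφ P.subtype (MonoidHom.id P) h1 y 1

omit [Fintype G] in
theorem FF_one [Fintype P] {χ : G → ℂ} (h : classInner (fun p : P => χ p) φ = 1) :
    FF P φ χ 1 = Nat.card P := by
  rw [classInner, inv_mul_eq_one₀ (card_ne_zero' P)] at h
  simp [FF, ← h]

theorem sum_FF [Fintype P] (hφ : IsCharacter P φ) (y : G) :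
    ∑ χ : IrrCharacter G, χ.1 1 * FF P φ χ.1 y = Nat.card G * extendByZero P φ y := by
  simp only [FF, Finset.mul_sum]
  rw [Finset.sum_comm]
  simp only [← mul_assoc, ← Finset.sum_mul, sum_irr_apply_one_mul]
  by_cases hy : y ∈ P
  · rw [Finset.sum_eq_single (⟨y, hy⟩ : P)⁻¹ (fun p _ hp => by
      rw [regChar_of_ne, zero_mul]
      exact fun h => hp (Subtype.ext (eq_inv_of_mul_eq_one_right h))) (by simp),
      apply_inv_of_isChar hφ, ebz_of_mem P φ hy]
    simp [regChar_one]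
  · rw [ebz_of_not_mem P φ hy, mul_zero]
    refine Finset.sum_eq_zero fun p _ => ?_
    rw [regChar_of_ne, zero_mul]
    exact fun h => hy (eq_inv_of_mul_eq_one_left h ▸ P.inv_mem p.2)

omit [Fintype G] in
theorem FF_res [Fintype P] (hφ : IsIrrCharacter P φ) {χ : G → ℂ} (hχ : IsCharacter G χ)
    (h : classInner (fun p : P => χ p) φ = 1) (g : P) :
    φ 1 * FF P φ χ g = Nat.card P * φ g := by
  classical
  have hc := cf_res (cf_of_isCharacter hχ) P
  have h1 : ∀ p : P, χ (g * p) = ∑ ψ : IrrCharacter P,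
      classInner (fun p : P => χ p) ψ * ψ.1 (p * g) := fun p => by
    rw [← apply_eq_sum_inner_mul hc (p * g), cf_mul_comm (cf_of_isCharacter hχ)]; rfl
  have h2 : ∀ ψ : IrrCharacter P, ∑ p : P, conj (φ p) * ψ.1 (p * g) =
      Nat.card P * classInner ψ.1 φ / ψ.1 1 * ψ.1 g := fun ψ => by
    rw [sum_mul_apply_mul ψ.2 (cf_star (cf_of_isIrr hφ)), classInner, ← mul_assoc,
      mul_inv_cancel₀ (card_ne_zero' P), one_mul]
    simp only [mul_comm]
  simp only [FF, h1, Finset.sum_mul]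
  rw [Finset.sum_comm, Finset.sum_eq_single (⟨φ, hφ⟩ : IrrCharacter P) (fun ψ _ hψ => by
    simp only [mul_assoc, mul_comm (ψ.1 _)]
    rw [← Finset.mul_sum, h2, inner_eq_zero_of_isIrr ψ.2 hφ fun h => hψ (Subtype.ext h)]
    simp) (by simp)]
  simp only [mul_assoc, mul_comm (φ _) (conj _)]
  rw [← Finset.mul_sum, h2 ⟨φ, hφ⟩, h, inner_self_of_isIrr hφ]
  have := apply_one_ne_zero_of_isIrr hφ
  field_simp

theorem Hk.exists_eig (H : Hk P U L φ w c) [Fintype P] [Fintype U] {χ : G → ℂ}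
    (hχ : IsCharacter G χ) (h : classInner (fun p : P => χ p) φ = 1) :
    ∃ t : ℂ, IsIntegral ℤ t ∧ ∀ y, ∑ u : U, FF P φ χ (y * u * w) = t * FF P φ χ y := by
  classical
  have hφ := isChar_of_isIrr H.irr
  have hres := FF_res H.irr hχ h
  obtain ⟨n, ρ, rfl⟩ := hχ
  have he := apply_one_ne_zero_of_isIrr H.irr
  have hP := card_ne_zero' P
  let E' : End ℂ (Fin n → ℂ) := ∑ p : P, conj (φ p) • ρ p
  have hF : ∀ y, FF P φ ρ.character y = LinearMap.trace ℂ _ (ρ y * E') := fun y => by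
    simp [FF, E', Finset.mul_sum, Representation.character, mul_comm]
  have hcomm : ∀ p : P, E' * ρ p = ρ p * E' :=
    sum_smul_comm (ρ.comp P.subtype) (cf_star (cf_of_isCharacter hφ))
  have hker : ∀ z : P, φ z = φ 1 → ρ z * E' = E' := fun z hz => by
    simp only [E', Finset.mul_sum, mul_smul_comm, ← map_mul]
    rw [← Equiv.sum_comp (Equiv.mulLeft z) fun p => conj (φ p) • ρ p]
    refine Finset.sum_congr rfl fun p _ => ?_
    rw [Equiv.coe_mulLeft, cf_mul_comm (cf_of_isCharacter hφ), apply_mul_of_apply_eq hφ hz]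
    rfl
  have hsq : E' * E' = (Nat.card P / φ 1) • E' := by
    have h1 : ∀ r : P, ∑ g : P, φ g * conj (φ (g * r)) = Nat.card P / φ 1 * conj (φ r) :=
      fun r => by
        rw [sum_mul_apply_mul (isIrr_conj H.irr) (cf_of_isCharacter hφ), sum_mul_conj_of_isIrr H.irr,
          conj_apply_one_of_isChar hφ]
    calc E' * E' = ∑ g : P, ∑ r : P, (φ g * conj (φ (g * r))) • ρ r := by
          rw [Finset.sum_mul, ← Equiv.sum_comp (Equiv.inv P)]
          refine Finset.sum_congr rfl fun g _ => ?_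
          rw [Finset.mul_sum, ← Equiv.sum_comp (Equiv.mulLeft g)]
          refine Finset.sum_congr rfl fun r _ => ?_
          simp [apply_inv_of_isChar hφ, ← map_mul, smul_smul, mul_comm]
      _ = _ := by
          rw [Finset.sum_comm, Finset.smul_sum]
          exact Finset.sum_congr rfl fun r _ => by rw [← Finset.sum_smul, h1, smul_smul]
  let E : End ℂ (Fin n → ℂ) := (φ 1 / Nat.card P) • E'
  have hE : E * E = E := by
    simp only [E, smul_mul_smul_comm, hsq, smul_smul]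
    congr 1
    field_simp
  have hEc : ∀ p : P, E * ρ p = ρ p * E := fun p => by
    simp only [E, smul_mul_assoc, mul_smul_comm, hcomm]
  have hEk : ∀ z : P, φ z = φ 1 → ρ z * E = E := fun z hz => by
    simp only [E, mul_smul_comm, hker z hz]
  let σ : Representation ℂ P (Fin n → ℂ) := ρ.comp P.subtype
  let M : Subrepresentation σ := ⟨LinearMap.range E, by
    rintro g _ ⟨v, rfl⟩
    exact ⟨ρ g v, LinearMap.congr_fun (hEc g) v⟩⟩
  have hM : M.toRepresentation.character = φ := by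
    ext g
    have h0 : LinearMap.trace ℂ _ (E * ρ g) = φ g := by
      rw [hEc, mul_smul_comm, map_smul, ← hF, smul_eq_mul, div_mul_eq_mul_div, hres]
      field_simp
    have h1 : E * ρ g = (LinearMap.range E).subtype ∘ₗ (E.rangeRestrict ∘ₗ ρ g) := rfl
    rw [← h0, h1, LinearMap.trace_comp_comm', Representation.character]
    congr 1
    ext ⟨_, v, rfl⟩ : 2
    show ρ g (E v) = E (ρ g (E v))
    have h2 := LinearMap.congr_fun (hEc g) (E v)
    have h3 := LinearMap.congr_fun hE v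
    simp only [Module.End.mul_apply] at h2 h3
    rw [h2, h3]
  have hirr : M.toRepresentation.IsIrreducible :=
    isIrreducible_of_inner_self _ (hM ▸ inner_self_of_isIrr H.irr)
  let S : End ℂ (Fin n → ℂ) := ∑ u : U, ρ (u * w)
  have hY : ∀ p : P, (S * E) * ρ p = ρ p * (S * E) := by
    have hu : ∀ u ∈ U, ρ u * S = S := fun u hu => by
      simp only [S, Finset.mul_sum, ← map_mul]
      rw [← Equiv.sum_comp (Equiv.mulLeft (⟨u, hu⟩ : U)) fun v : U => ρ (v * w)]
      simp [mul_assoc]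
    have hl : ∀ l ∈ L, ρ l * (S * E) = S * E * ρ l := fun l hl => by
      obtain ⟨z, hz, hz'⟩ := H.kerW l hl
      let k : U ≃ U := Equiv.ofBijective (fun u => ⟨l * u * l⁻¹, H.norm l hl u u.2⟩)
        (Finite.injective_iff_bijective.1 fun a b hab => by simpa using hab)
      have h1 : ρ l * S = S * (ρ z * ρ l) := by
        simp only [S, Finset.mul_sum, Finset.sum_mul, ← map_mul]
        rw [← Equiv.sum_comp k fun u : U => ρ (u * w * (z * l))]
        refine Finset.sum_congr rfl fun u _ => congrArg ρ ?_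
        change _ = l * u * l⁻¹ * w * (z * l)
        rw [hz]; group
      rw [← mul_assoc, h1, mul_assoc S, mul_assoc (ρ z), ← hEc ⟨l, H.hL hl⟩, ← mul_assoc (ρ z),
        hEk z hz', mul_assoc]
    intro p
    obtain ⟨u, hu', l, hl', hp⟩ := H.dec p p.2
    rw [hp, map_mul, mul_assoc (ρ u), hl l hl', ← mul_assoc, ← mul_assoc (ρ u), ← mul_assoc (ρ u),
      hu u hu', mul_assoc S E, hEc ⟨u, H.hU hu'⟩, hEk ⟨u, H.hU hu'⟩ (H.kerU _ hu')]
  have hEY : E * (S * E) = S * E := by
    have h2 : ∀ Y : End ℂ (Fin n → ℂ), (∀ p : P, Y * ρ p = ρ p * Y) → E * Y = Y * E :=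
      fun Y hY => by
        have : E' * Y = Y * E' := by
          rw [Finset.sum_mul, Finset.mul_sum]
          exact Finset.sum_congr rfl fun p _ => by rw [smul_mul_assoc, mul_smul_comm, hY]
        rw [smul_mul_assoc, this, mul_smul_comm]
    rw [h2 _ hY, mul_assoc, hE]
  have hmem : ∀ v ∈ M.toSubmodule, (S * E) v ∈ M.toSubmodule := fun v _ =>
    ⟨(S * E) v, LinearMap.congr_fun hEY v⟩
  obtain ⟨t, ht⟩ := exists_eq_smul_of_comm M.toRepresentation ((S * E).restrict hmem) fun g => by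
    ext v : 2
    exact LinearMap.congr_fun (hY g) v
  have hSE : S * E = t • E := by
    refine LinearMap.ext fun v => ?_
    have h1 := congrArg Subtype.val (LinearMap.congr_fun ht ⟨E v, v, rfl⟩)
    have h2 : (S * E * E) v = (S * E) v := by rw [mul_assoc, hE]
    exact h2.symm.trans h1
  refine ⟨t, ?_, fun y => ?_⟩
  · have hS : IsIntegral ℤ S := by
      have h1 := isIntegral_sum_smul ρ (f := fun g => extendByZero U (fun _ => 1) (g * w⁻¹))
        fun g => by
          rw [ebz_apply]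
          split_ifs
          · exact isIntegral_one
          · exact isIntegral_zero
      convert h1
      rw [← Equiv.sum_comp (Equiv.mulRight w), ← Finset.sum_filter_add_sum_filter_not _ (· ∈ U),
        Finset.sum_eq_zero (s := Finset.univ.filter fun x => x ∉ U) fun x hx => by
          simp [ebz_of_not_mem U _ (Finset.mem_filter.1 hx).2], add_zero,
        Finset.sum_subtype (p := (· ∈ U)) _ (by simp)]
      exact Finset.sum_congr rfl fun u _ => by simp [ebz_coe]
    have := nontrivial_of_isIrreducible M.toRepresentation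
    obtain ⟨⟨_, v, rfl⟩, hv⟩ := exists_ne (0 : M.toSubmodule)
    have hv' : E v ≠ 0 := fun h => hv (Subtype.ext h)
    have hev : S.HasEigenvector t (E v) :=
      ⟨Module.End.mem_eigenspace_iff.2 (LinearMap.congr_fun hSE v), hv'⟩
    obtain ⟨q, hq, hq'⟩ := hS
    refine ⟨q, hq, ?_⟩
    have h1 := Module.End.aeval_apply_of_hasEigenvector (p := q.map (algebraMap ℤ ℂ)) hev
    rw [Polynomial.aeval_map_algebraMap, Polynomial.aeval_def, hq', Polynomial.eval_map] at h1
    exact (smul_eq_zero.1 h1.symm).resolve_right hv'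
  · have h1 : S * E' = t • E' := by
      have h2 : (φ 1 / Nat.card P) • (S * E') = (φ 1 / Nat.card P) • t • E' := by
        rw [← mul_smul_comm, smul_comm]; exact hSE
      exact smul_right_injective _ (div_ne_zero he hP) h2
    simp only [hF]
    rw [← map_sum, ← smul_eq_mul, ← map_smul, ← mul_smul_comm, ← h1, Finset.sum_mul,
      Finset.mul_sum]
    simp only [map_mul, mul_assoc]

omit [Fintype G] in
theorem dvd_of_sq {d₁ d₂ N : ℕ} (h₁ : d₁ ≠ 0) {t c : ℂ} (ht : IsIntegral ℤ t) (hc : c * c = 1)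
    (h : t * t * d₁ = c * N * d₂) : d₁ ∣ N * d₂ := by
  refine dvd_of_isIntegral_div h₁ ?_
  have h1 : (d₁ : ℂ) ≠ 0 := by exact_mod_cast h₁
  have hc' : IsIntegral ℤ c := by
    rcases mul_self_eq_one_iff.1 hc with rfl | rfl
    · exact isIntegral_one
    · exact isIntegral_one.neg
  have h2 : ((N * d₂ : ℕ) : ℂ) / d₁ = c * (t * t) := by
    rw [div_eq_iff h1, mul_assoc, h, ← mul_assoc, ← mul_assoc, hc]
    simp
  exact h2 ▸ hc'.mul (ht.mul ht)

omit [Fintype G] in
theorem pow_ratio {d₁ d₂ p n : ℕ} (hp : p.Prime) (h₁ : d₁ ≠ 0) (ha : d₁ ∣ p ^ n * d₂)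
    (hb : d₂ ∣ p ^ n * d₁) : (∃ j, d₁ = p ^ j * d₂) ∨ ∃ j, d₂ = p ^ j * d₁ := by
  obtain ⟨g, a, b, hg, hab, rfl, rfl⟩ : ∃ g a b, 0 < g ∧ a.Coprime b ∧ d₁ = a * g ∧ d₂ = b * g :=
    Nat.exists_coprime' (Nat.gcd_pos_of_pos_left d₂ (Nat.pos_of_ne_zero h₁))
  rw [← mul_assoc, Nat.mul_dvd_mul_iff_right hg] at ha hb
  obtain ⟨i, -, rfl⟩ := (Nat.dvd_prime_pow hp).1 (hab.dvd_of_dvd_mul_right ha)
  obtain ⟨j, -, rfl⟩ := (Nat.dvd_prime_pow hp).1 (hab.symm.dvd_of_dvd_mul_right hb)
  rcases le_total i j with h | h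
  · exact Or.inr ⟨j - i, by rw [← mul_assoc, ← pow_add, Nat.sub_add_cancel h]⟩
  · exact Or.inl ⟨i - j, by rw [← mul_assoc, ← pow_add, Nat.sub_add_cancel h]⟩

/-- The induced character has two constituents whose degrees differ by a power of `p`. -/
theorem Hk.main (H : Hk P U L φ w c) [Fintype U] {p n : ℕ} (hp : p.Prime)
    (hU : Nat.card U = p ^ n) :
    ∃ (a b : G → ℂ) (d j : ℕ), IsIrrCharacter G a ∧ IsIrrCharacter G b ∧ indFun P φ = a + b ∧
      a 1 = (p ^ j * d : ℕ) ∧ b 1 = d ∧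
      (j = 0 ↔ ∑ u : U, ∑ v : U, extendByZero P φ (w * u * w * v * w) = 0) := by
  classical
  have := Fintype.ofFinite P
  have hφ := isChar_of_isIrr H.irr
  obtain ⟨a, b, ha, hb, hab, hR⟩ := exists_add_of_norm_two (isCharacter_indFun P hφ) H.inner_two
  have hin : ∀ χ, IsIrrCharacter G χ → classInner (fun p : P => χ p) φ =
      classInner χ a + classInner χ b := fun χ hχ => by
    rw [← frobenius' P φ (cf_of_isIrr hχ), hR, Ind.inner_add_right]
  have ha1 : classInner (fun p : P => a p) φ = 1 := by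
    rw [hin a ha, inner_self_of_isIrr ha, inner_eq_zero_of_isIrr ha hb hab, add_zero]
  have hb1 : classInner (fun p : P => b p) φ = 1 := by
    rw [hin b hb, inner_self_of_isIrr hb, inner_eq_zero_of_isIrr hb ha hab.symm, zero_add]
  obtain ⟨s, hs, hs'⟩ := H.exists_eig (isChar_of_isIrr ha) ha1
  obtain ⟨t, ht, ht'⟩ := H.exists_eig (isChar_of_isIrr hb) hb1
  obtain ⟨d₁, hd₁, e₁⟩ := exists_pos_nat_of_isIrr ha
  obtain ⟨d₂, hd₂, e₂⟩ := exists_pos_nat_of_isIrr hb
  have key : ∀ y, (Nat.card G : ℂ) * extendByZero P φ y = d₁ * FF P φ a y + d₂ * FF P φ b y :=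
    fun y => by
      rw [← sum_FF hφ, ← e₁, ← e₂]
      refine Finset.sum_eq_add (⟨a, ha⟩ : IrrCharacter G) ⟨b, hb⟩
        (fun h => hab (congrArg Subtype.val h)) (fun χ _ hχ => ?_) (by simp) (by simp)
      rw [FF_eq_zero hφ (isChar_irr χ), mul_zero]
      rw [hin _ χ.2, inner_eq_zero_of_isIrr χ.2 ha fun h => hχ.1 (Subtype.ext h),
        inner_eq_zero_of_isIrr χ.2 hb fun h => hχ.2 (Subtype.ext h), add_zero]
  have k1 : ∀ y, (Nat.card G : ℂ) * ∑ u : U, extendByZero P φ (y * u * w) =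
      d₁ * s * FF P φ a y + d₂ * t * FF P φ b y := fun y => by
    simp only [Finset.mul_sum, key, Finset.sum_add_distrib]
    rw [← Finset.mul_sum, ← Finset.mul_sum, hs', ht', mul_assoc, mul_assoc]
  have k2 : ∀ y, (Nat.card G : ℂ) * ∑ u : U, ∑ v : U, extendByZero P φ (y * u * w * v * w) =
      d₁ * s * s * FF P φ a y + d₂ * t * t * FF P φ b y := fun y => by
    rw [Finset.mul_sum]
    simp only [k1, Finset.sum_add_distrib]
    rw [← Finset.mul_sum, ← Finset.mul_sum, hs', ht', ← mul_assoc, ← mul_assoc]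
  have k3 : (Nat.card G : ℂ) * ∑ x : U, ∑ u : U, ∑ v : U,
      extendByZero P φ (1 * x * w * u * w * v * w) =
      d₁ * s * s * s * FF P φ a 1 + d₂ * t * t * t * FF P φ b 1 := by
    rw [Finset.mul_sum]
    simp only [k2, Finset.sum_add_distrib]
    rw [← Finset.mul_sum, ← Finset.mul_sum, hs', ht', ← mul_assoc, ← mul_assoc]
  have hUk : ∀ (u : U) y, extendByZero P φ (u * y) = extendByZero P φ y := fun u y =>
    ebz_ker_mul hφ (H.kerU ⟨u, H.hU u.2⟩ u.2) y
  have hP := card_ne_zero' P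
  have hG := card_ne_zero' G
  have hU0 := card_ne_zero' U
  have e0 := key 1
  have e1 := k1 1
  have e2 := k2 1
  rw [FF_one ha1, FF_one hb1] at e0 e1 e2 k3
  rw [ebz_of_mem P φ P.one_mem] at e0
  simp only [one_mul, mul_assoc (_ : G), hUk] at e1 e2 k3
  rw [ebz_of_not_mem P φ H.wP] at e1
  obtain ⟨z, hz, hz'⟩ := H.sq
  have e3 : ∑ v : U, extendByZero P φ (w * (v * w)) = c * φ 1 := by
    have h1 : ∀ v : U, w * (v * w) ∈ P → v = 1 := fun v h => Subtype.ext (H.opp v v.2 (by
      have : w⁻¹ * v * w = (z : G)⁻¹ * (w * (v * w)) := by rw [hz]; group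
      exact this ▸ P.mul_mem (P.inv_mem z.2) h))
    rw [Finset.sum_eq_single 1 (fun v _ hv => ebz_of_not_mem P φ fun h => hv (h1 v h)) (by simp),
      ← hz', ← ebz_coe P φ, hz]
    simp
  rw [e3] at e2
  simp only [Finset.sum_const, Finset.card_univ, nsmul_eq_mul, ← Nat.card_eq_fintype_card,
    mul_zero] at e1 e2 k3
  have hd₁' : (d₁ : ℂ) ≠ 0 := by exact_mod_cast hd₁.ne'
  have hd₂' : (d₂ : ℂ) ≠ 0 := by exact_mod_cast hd₂.ne'
  have hd : (d₁ : ℂ) + d₂ ≠ 0 := by exact_mod_cast (Nat.add_pos_left hd₁ d₂).ne'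
  have f1 : d₁ * s + d₂ * t = 0 :=
    mul_right_cancel₀ hP (by linear_combination -e1)
  have f2 : d₁ * s * s + d₂ * t * t = c * Nat.card U * (d₁ + d₂) :=
    mul_right_cancel₀ hP (by
      have e0' : (Nat.card G : ℂ) * φ 1 = d₁ * Nat.card P + d₂ * Nat.card P := e0
      linear_combination -e2 + c * Nat.card U * e0')
  have f3 : s * t = -(c * Nat.card U) :=
    mul_left_cancel₀ hd (by linear_combination (s + t) * f1 - f2)
  have g1 : s * s * d₁ = c * Nat.card U * d₂ := by linear_combination s * f1 - d₂ * f3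
  have g2 : t * t * d₂ = c * Nat.card U * d₁ := by linear_combination t * f1 - d₁ * f3
  have hc0 : c ≠ 0 := fun h => by simpa [h] using H.hc
  have hiff : d₁ = d₂ ↔ ∑ u : U, ∑ v : U, extendByZero P φ (w * u * w * v * w) = 0 := by
    simp only [mul_assoc (_ : G)]
    have f4 : (Nat.card G : ℂ) * (Nat.card U * ∑ u : U, ∑ v : U,
        extendByZero P φ (w * (u * (w * (v * w))))) =
        (s + t) * (c * Nat.card U * (d₁ + d₂)) * Nat.card P := by
      rw [k3]; linear_combination (Nat.card P * (s + t)) * f2 - Nat.card P * s * t * f1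
    constructor
    · rintro rfl
      have : s + t = 0 := mul_left_cancel₀ hd₁' (by linear_combination f1)
      rw [this, zero_mul, zero_mul] at f4
      exact (mul_eq_zero.1 ((mul_eq_zero.1 f4).resolve_left hG)).resolve_left hU0
    · intro h
      rw [h, mul_zero, mul_zero] at f4
      have h1 : s + t = 0 := ((mul_eq_zero.1 ((mul_eq_zero.1 f4.symm).resolve_right hP))).resolve_right
        (mul_ne_zero (mul_ne_zero hc0 hU0) hd)
      have h2 : s ≠ 0 := fun h => by
        rw [h, zero_mul] at f3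
        exact mul_ne_zero hc0 hU0 (neg_eq_zero.1 f3.symm)
      have : (d₁ : ℂ) = d₂ := mul_right_cancel₀ h2 (by linear_combination f1 - d₂ * h1)
      exact_mod_cast this
  have hj : ∀ {j x y : ℕ}, y ≠ 0 → x = p ^ j * y → (j = 0 ↔ x = y) := fun {j x y} hy h => by
    constructor
    · rintro rfl; simpa using h
    · intro h'
      rw [h'] at h
      exact (Nat.pow_eq_one.1 ((Nat.mul_eq_right hy).1 h.symm)).resolve_left hp.ne_one
  rcases pow_ratio hp hd₁.ne' (hU ▸ dvd_of_sq hd₁.ne' hs H.hc g1)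
    (hU ▸ dvd_of_sq hd₂.ne' ht H.hc g2) with ⟨j, h⟩ | ⟨j, h⟩
  · exact ⟨a, b, d₂, j, ha, hb, hR, h ▸ e₁, e₂, (hj hd₂.ne' h).trans hiff⟩
  · exact ⟨b, a, d₁, j, hb, ha, hR.trans (add_comm _ _), h ▸ e₂, e₁,
      (hj hd₁.ne' h).trans (eq_comm.trans hiff)⟩

end Hecke

end Cfsg.Agent.DG
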