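import Cfsg.Agent.Lib.DG.HC1

/-!
# Mixed Mackey terms; the ratio of the two degrees
-/

set_option autoImplicit false

namespace Cfsg.Agent.DG

open Cfsg Cfsg.Agent.Char Cfsg.Agent.Ind Module
open scoped ComplexConjugate

variable {G : Type*} [Group G] [Fintype G]

section Mixed

variable (P : Subgroup G)

/-- the mixed Mackey term of `x` -/
noncomputable def TT2 (φ φ' : P → ℂ) (x : G) : ℂ :=
  ∑ y : G, extendByZero P φ y * conj (extendByZero P φ' (x⁻¹ * y * x))

theorem TT2_self (φ : P → ℂ) (x : G) : TT2 P φ φ x = TT P φ x := rfl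

theorem inner_ind_eq2 (φ φ' : P → ℂ) : classInner (indFun P φ) (indFun P φ') =
    (Nat.card P : ℂ)⁻¹ * ((Nat.card P : ℂ)⁻¹ * ∑ x, TT2 P φ φ' x) := by
  have := Fintype.ofFinite P
  rw [frobenius P φ (cf_indFun P φ'), classInner]
  congr 1
  simp only [TT2]
  rw [Finset.sum_comm, Finset.mul_sum]
  simp only [← Finset.mul_sum, mul_left_comm (Nat.card P : ℂ)⁻¹]
  rw [sum_ebz_mul]
  refine Finset.sum_congr rfl fun y _ => ?_
  rw [indFun_apply, map_mul, map_sum, map_inv₀, map_natCast]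

variable {P}

theorem TT2_mul {φ φ' : P → ℂ} (hφ : IsClassFunction P φ) (hφ' : IsClassFunction P φ') {p p' : G}
    (hp : p ∈ P) (hp' : p' ∈ P) (x : G) : TT2 P φ φ' (p * x * p') = TT2 P φ φ' x := by
  rw [TT2, TT2, ← Equiv.sum_comp (MulAut.conj p).toEquiv]
  refine Finset.sum_congr rfl fun y _ => ?_
  have h : (p * x * p')⁻¹ * (p * y * p⁻¹) * (p * x * p') = p'⁻¹ * (x⁻¹ * y * x) * p' := by group
  change extendByZero P φ (p * y * p⁻¹) *
    conj (extendByZero P φ' ((p * x * p')⁻¹ * (p * y * p⁻¹) * (p * x * p'))) = _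
  rw [h, ebz_conj_mem P hφ hp, ebz_conj_mem' P hφ' hp']

theorem TT2_eq_zero {φ φ' : P → ℂ} (hφ : IsCharacter P φ) (hφ' : IsCharacter P φ') {x : G}
    {M : Type*} [Group M] [Fintype M] (a b : M →* P) (hab : ∀ m, (b m : G) = x⁻¹ * a m * x)
    (h : ∑ m, φ (a m) * conj (φ' (b m)) = 0) : TT2 P φ φ' x = 0 := by
  have h1 : ∀ m, TT2 P φ φ' x = ∑ y : G, extendByZero P φ (y * a m) *
      conj (extendByZero P φ' (x⁻¹ * y * x * b m)) := fun m => by
    rw [TT2, ← Equiv.sum_comp (Equiv.mulRight (a m : G))]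
    refine Finset.sum_congr rfl fun y _ => ?_
    rw [hab]
    congr 3
    simp only [Equiv.coe_mulRight]
    group
  have h2 : (Fintype.card M : ℂ) * TT2 P φ φ' x = 0 := by
    rw [← nsmul_eq_mul, ← Finset.card_univ, ← Finset.sum_const, Finset.sum_congr rfl fun m _ => h1 m,
      Finset.sum_comm]
    refine Finset.sum_eq_zero fun y _ => ?_
    by_cases hy : y ∈ P
    · by_cases hy' : x⁻¹ * y * x ∈ P
      · rw [← sum_mul_mul_eq_zero hφ hφ' a b h ⟨y, hy⟩ ⟨_, hy'⟩]
        refine Finset.sum_congr rfl fun m _ => ?_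
        rw [← ebz_coe P φ, ← ebz_coe P φ']
        rfl
      · refine Finset.sum_eq_zero fun m _ => ?_
        rw [ebz_of_not_mem P φ' (g := x⁻¹ * y * x * b m)
          (fun h => hy' ((P.mul_mem_cancel_right (b m).2).1 h)), map_zero, mul_zero]
    · refine Finset.sum_eq_zero fun m _ => ?_
      rw [ebz_of_not_mem P φ (g := y * a m)
        (fun h => hy ((P.mul_mem_cancel_right (a m).2).1 h)), zero_mul]
  exact (mul_eq_zero.1 h2).resolve_left (by simp)

theorem inner_ind_eq_zero {φ φ' : P → ℂ} (h : ∀ x, TT2 P φ φ' x = 0) :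
    classInner (indFun P φ) (indFun P φ') = 0 := by
  simp [inner_ind_eq2, h]

/-- a vanishing Mackey term kills the double coset in every representation -/
theorem sum_dc_eq_zero [Fintype P] {φ : P → ℂ} (hφ : IsCharacter P φ) {x : G}
    (h : TT P φ x = 0) (χ : G → ℂ) (y : G) :
    ∑ p : P, ∑ p' : P, conj (φ p) * conj (φ p') * χ (y * p * x * p') = 0 := by
  classical
  let D : Subgroup P := P.comap ((MulAut.conj x⁻¹).toMonoidHom.comp P.subtype)
  let b : D →* P := ((MulAut.conj x⁻¹).toMonoidHom.comp (P.subtype.comp D.subtype)).codRestrict P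
    fun d => d.2
  have hb : ∀ d : D, (b d : G) = x⁻¹ * d * x := fun d => by simp [b]
  have h1 : ∑ d : D, φ (D.subtype d) * conj (φ (b d)) = 0 := by
    rw [← h, TT, sum_ebz_mul, ← sum_ebz D fun d => φ (D.subtype d) * conj (φ (b d))]
    refine Finset.sum_congr rfl fun p _ => ?_
    by_cases hp : p ∈ D
    · rw [ebz_of_mem D _ hp, ← hb ⟨p, hp⟩, ebz_coe]; rfl
    · rw [ebz_of_not_mem D _ hp, ebz_of_not_mem P φ (fun h => hp (by simpa [D] using h)), map_zero,
        mul_zero]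
  have h2 : ∀ d : D, ∑ p : P, ∑ p' : P, conj (φ p) * conj (φ p') * χ (y * p * x * p') =
      ∑ p : P, ∑ p' : P, conj (φ (p * D.subtype d) * conj (φ (p'⁻¹ * b d))) *
        χ (y * p * x * p') := fun d => by
    rw [← Equiv.sum_comp (Equiv.mulRight (d : P))]
    refine Finset.sum_congr rfl fun p _ => ?_
    rw [← Equiv.sum_comp (Equiv.mulLeft (b d)⁻¹)]
    refine Finset.sum_congr rfl fun p' _ => ?_
    simp only [Equiv.coe_mulRight, Equiv.coe_mulLeft, map_mul, Subgroup.coe_mul, Subgroup.coe_inv,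
      hb, Subgroup.coe_subtype]
    rw [← apply_inv_of_isChar hφ (p'⁻¹ * b d), mul_inv_rev p'⁻¹ (b d), inv_inv]
    congr 2
    group
  have h3 : (Fintype.card D : ℂ) *
      ∑ p : P, ∑ p' : P, conj (φ p) * conj (φ p') * χ (y * p * x * p') = 0 := by
    rw [← nsmul_eq_mul, ← Finset.card_univ, ← Finset.sum_const, Finset.sum_congr rfl fun d _ => h2 d,
      Finset.sum_comm]
    refine Finset.sum_eq_zero fun p _ => ?_
    rw [Finset.sum_comm]
    refine Finset.sum_eq_zero fun p' _ => ?_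
    rw [← Finset.sum_mul, ← map_sum, sum_mul_mul_eq_zero hφ hφ D.subtype b h1, map_zero, zero_mul]
  exact (mul_eq_zero.1 h3).resolve_left (by simp)

end Mixed

variable {P U L : Subgroup G} {φ : P → ℂ} {w : G} {c : ℂ}

/-- the quantitative form of `Hk.main` -/
theorem Hk.quant (H : Hk P U L φ w c) [Fintype U] {a b : G → ℂ} (ha : IsIrrCharacter G a)
    (hb : IsIrrCharacter G b) (hR : indFun P φ = a + b) :
    (∑ u : U, ∑ v : U, extendByZero P φ (w * u * w * v * w)) ^ 2 * a 1 * b 1 =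
      c * φ 1 ^ 2 * Nat.card U * (a 1 - b 1) ^ 2 := by
  classical
  have := Fintype.ofFinite P
  have hφ := isChar_of_isIrr H.irr
  have hab : a ≠ b := by
    rintro rfl
    have := H.inner_two
    rw [hR, Ind.inner_add_left, Ind.inner_add_right, inner_self_of_isIrr ha] at this
    norm_num at this
  have hin : ∀ χ, IsIrrCharacter G χ → classInner (fun p : P => χ p) φ =
      classInner χ a + classInner χ b := fun χ hχ => by
    rw [← frobenius' P φ (cf_of_isIrr hχ), hR, Ind.inner_add_right]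
  have ha1 : classInner (fun p : P => a p) φ = 1 := by
    rw [hin a ha, inner_self_of_isIrr ha, inner_eq_zero_of_isIrr ha hb hab, add_zero]
  have hb1 : classInner (fun p : P => b p) φ = 1 := by
    rw [hin b hb, inner_self_of_isIrr hb, inner_eq_zero_of_isIrr hb ha hab.symm, zero_add]
  obtain ⟨s, -, hs'⟩ := H.exists_eig (isChar_of_isIrr ha) ha1
  obtain ⟨t, -, ht'⟩ := H.exists_eig (isChar_of_isIrr hb) hb1
  have key : ∀ y, (Nat.card G : ℂ) * extendByZero P φ y = a 1 * FF P φ a y + b 1 * FF P φ b y :=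
    fun y => by
      rw [← sum_FF hφ]
      refine Finset.sum_eq_add (⟨a, ha⟩ : IrrCharacter G) ⟨b, hb⟩
        (fun h => hab (congrArg Subtype.val h)) (fun χ _ hχ => ?_) (by simp) (by simp)
      rw [FF_eq_zero hφ (isChar_irr χ), mul_zero]
      rw [hin _ χ.2, inner_eq_zero_of_isIrr χ.2 ha fun h => hχ.1 (Subtype.ext h),
        inner_eq_zero_of_isIrr χ.2 hb fun h => hχ.2 (Subtype.ext h), add_zero]
  obtain ⟨d₁, hd₁, e₁⟩ := exists_pos_nat_of_isIrr ha
  obtain ⟨d₂, hd₂, e₂⟩ := exists_pos_nat_of_isIrr hb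
  rw [e₁, e₂] at key ⊢
  have k1 : ∀ y, (Nat.card G : ℂ) * ∑ u : U, extendByZero P φ (y * u * w) =
      d₁ * s * FF P φ a y + d₂ * t * FF P φ b y := fun y => by
    simp only [Finset.mul_sum, key, Finset.sum_add_distrib]
    rw [← Finset.mul_sum, ← Finset.mul_sum, hs', ht', mul_assoc, mul_assoc]
  have k2 : ∀ y, (Nat.card G : ℂ) * ∑ u : U, ∑ v : U, extendByZero P φ (y * u * w * v * w) =
      d₁ * s * s * FF P φ a y + d₂ * t * t * FF P φ b y := fun y => by
    rw [Finset.mul_sum]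
    simp only [k1, Finset.sum_add_distrib]
    rw [← Finset.mul_sum, ← Finset.mul_sum, hs', ht', ← mul_assoc, ← mul_assoc]
  have k3 : (Nat.card G : ℂ) * ∑ x : U, ∑ u : U, ∑ v : U,
      extendByZero P φ (1 * x * w * u * w * v * w) =
      d₁ * s * s * s * FF P φ a 1 + d₂ * t * t * t * FF P φ b 1 := by
    rw [Finset.mul_sum]
    simp only [k2, Finset.sum_add_distrib]
    rw [← Finset.mul_sum, ← Finset.mul_sum, hs', ht', ← mul_assoc, ← mul_assoc]
  have hUk : ∀ (u : U) y, extendByZero P φ (u * y) = extendByZero P φ y := fun u y =>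
    ebz_ker_mul hφ (H.kerU ⟨u, H.hU u.2⟩ u.2) y
  have hP := card_ne_zero' P
  have hG := card_ne_zero' G
  have hU0 := card_ne_zero' U
  have e0 := key 1
  have e1 := k1 1
  have e2 := k2 1
  rw [FF_one ha1, FF_one hb1] at e0 e1 e2 k3
  rw [ebz_of_mem P φ P.one_mem] at e0
  simp only [one_mul, mul_assoc (_ : G), hUk] at e1 e2 k3 ⊢
  rw [ebz_of_not_mem P φ H.wP] at e1
  obtain ⟨z, hz, hz'⟩ := H.sq
  have e3 : ∑ v : U, extendByZero P φ (w * (v * w)) = c * φ 1 := by
    have h1 : ∀ v : U, w * (v * w) ∈ P → v = 1 := fun v h => Subtype.ext (H.opp v v.2 (by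
      have : w⁻¹ * v * w = (z : G)⁻¹ * (w * (v * w)) := by rw [hz]; group
      exact this ▸ P.mul_mem (P.inv_mem z.2) h))
    rw [Finset.sum_eq_single 1 (fun v _ hv => ebz_of_not_mem P φ fun h => hv (h1 v h)) (by simp),
      ← hz', ← ebz_coe P φ, hz]
    simp
  rw [e3] at e2
  simp only [Finset.sum_const, Finset.card_univ, nsmul_eq_mul, ← Nat.card_eq_fintype_card,
    mul_zero] at e1 e2 k3
  have hd : (d₁ : ℂ) + d₂ ≠ 0 := by exact_mod_cast (Nat.add_pos_left hd₁ d₂).ne'
  have e0' : (Nat.card G : ℂ) * φ 1 = d₁ * Nat.card P + d₂ * Nat.card P := e0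
  have f1 : d₁ * s + d₂ * t = 0 :=
    mul_right_cancel₀ hP (by linear_combination -e1)
  have f2 : d₁ * s * s + d₂ * t * t = c * Nat.card U * (d₁ + d₂) :=
    mul_right_cancel₀ hP (by linear_combination -e2 + c * Nat.card U * e0')
  have f3 : s * t = -(c * Nat.card U) :=
    mul_left_cancel₀ hd (by linear_combination (s + t) * f1 - f2)
  have f4 : ∑ u : U, ∑ v : U, extendByZero P φ (w * (u * (w * (v * w)))) = (s + t) * c * φ 1 :=
    mul_left_cancel₀ (mul_ne_zero hG hU0) (by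
      rw [mul_assoc, k3]
      linear_combination (Nat.card P * (s + t)) * f2 - Nat.card P * s * t * f1 -
        (s + t) * c * Nat.card U * e0')
  have hc := H.hc
  rw [f4]
  have f5 : (s + t) ^ 2 * d₁ * d₂ = c * Nat.card U * (d₁ - d₂) ^ 2 := by
    linear_combination (d₂ * s + d₁ * t) * f1 - (d₁ - d₂) ^ 2 * f3
  linear_combination (c * c * φ 1 ^ 2) * f5 + (c * φ 1 ^ 2 * Nat.card U * (d₁ - d₂) ^ 2) * hc

/-- Data of a Harish-Chandra induction with two constituents. -/
structure Hk0 (P U L : Subgroup G) (φ : P → ℂ) (w : G) : Prop where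
  irr : IsIrrCharacter P φ
  hU : U ≤ P
  hL : L ≤ P
  dec : ∀ p ∈ P, ∃ u ∈ U, ∃ l ∈ L, p = u * l
  norm : ∀ l ∈ L, ∀ u ∈ U, l * u * l⁻¹ ∈ U
  kerU : ∀ u : P, (u : G) ∈ U → φ u = φ 1
  normW : ∀ l ∈ L, w⁻¹ * l * w ∈ L
  invW : ∀ l ∈ L, extendByZero P φ (w⁻¹ * l * w) = extendByZero P φ l
  opp : ∀ u ∈ U, w⁻¹ * u * w ∈ P → u = 1
  wP : w ∉ P
  van : ∀ x, x ∉ P → (∀ u ∈ U, ∀ p ∈ P, x ≠ u * w * p) → TT P φ x = 0

namespace Hk0

variable (H : Hk0 P U L φ w)
include H

theorem bij : Function.Bijective fun x : U × L =>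
    (⟨x.1 * x.2, P.mul_mem (H.hU x.1.2) (H.hL x.2.2)⟩ : P) := by
  constructor
  · rintro ⟨u, l⟩ ⟨u', l'⟩ h
    have h2 : (u : G) * l = u' * l' := congrArg Subtype.val h
    have h3 : (u' : G)⁻¹ * u = l' * (l : G)⁻¹ := by
      rw [inv_mul_eq_iff_eq_mul, ← mul_assoc, ← h2, mul_inv_cancel_right]
    have h4 := H.opp _ (U.mul_mem (U.inv_mem u'.2) u.2)
      (h3 ▸ H.hL (H.normW _ (L.mul_mem l'.2 (L.inv_mem l.2))))
    have h5 : u = u' := Subtype.ext (inv_mul_eq_one.1 h4).symm
    subst h5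
    exact Prod.ext rfl (Subtype.ext (mul_left_cancel h2))
  · rintro ⟨p, hp⟩
    obtain ⟨u, hu, l, hl, rfl⟩ := H.dec p hp
    exact ⟨(⟨u, hu⟩, ⟨l, hl⟩), rfl⟩

/-- a sum over `G` of a function supported on `P ∪ UwP` -/
theorem sum_split [Fintype U] [Fintype P] (f : G → ℂ) (hf : ∀ x, TT P φ x = 0 → f x = 0) :
    ∑ x, f x = ∑ p : P, f p + ∑ u : U, ∑ p : P, f (u * w * p) := by
  classical
  let e : U × P → G := fun x => x.1 * w * x.2
  have he : Function.Injective e := by
    rintro ⟨u, p⟩ ⟨u', p'⟩ h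
    have h2 : (u : G) * w * p = u' * w * p' := h
    have h3 : w⁻¹ * ((u' : G)⁻¹ * u) * w = p' * (p : G)⁻¹ := by
      rw [eq_mul_inv_iff_mul_eq]
      calc _ = w⁻¹ * (u' : G)⁻¹ * (u * w * p) := by group
        _ = p' := by rw [h2]; group
    have h4 := H.opp _ (U.mul_mem (U.inv_mem u'.2) u.2) (h3 ▸ P.mul_mem p'.2 (P.inv_mem p.2))
    have h5 : u = u' := Subtype.ext (inv_mul_eq_one.1 h4).symm
    subst h5
    exact Prod.ext rfl (Subtype.ext (mul_left_cancel h2))
  have h1 : ∑ x with x ∉ P, f x = ∑ x, f (e x) := by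
    rw [← Finset.sum_image (f := f) fun x _ y _ h => he h]
    refine (Finset.sum_subset (fun x hx => ?_) fun x hx hx' => ?_).symm
    · obtain ⟨⟨u, p⟩, -, rfl⟩ := Finset.mem_image.1 hx
      refine Finset.mem_filter.2 ⟨Finset.mem_univ _, fun h => H.wP ?_⟩
      exact (P.mul_mem_cancel_left (H.hU u.2)).1 ((P.mul_mem_cancel_right p.2).1 h)
    · refine hf x (H.van x (Finset.mem_filter.1 hx).2 fun u hu p hp h => hx' ?_)
      exact Finset.mem_image.2 ⟨(⟨u, hu⟩, ⟨p, hp⟩), Finset.mem_univ _, h.symm⟩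
  rw [← Finset.sum_filter_add_sum_filter_not _ (· ∈ P), h1, Fintype.sum_prod_type,
    Finset.sum_subtype (p := (· ∈ P)) _ (by simp)]

theorem card_mul_TT : (Nat.card U : ℂ) * TT P φ w = Nat.card P := by
  classical
  have := Fintype.ofFinite P
  have := Fintype.ofFinite U
  have := Fintype.ofFinite L
  have hφ := isChar_of_isIrr H.irr
  have h1 : TT P φ w = ∑ l : L, extendByZero P φ l * conj (extendByZero P φ l) := by
    rw [← sum_ebz L fun l => extendByZero P φ l * conj (extendByZero P φ l), TT]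
    refine Finset.sum_congr rfl fun y _ => ?_
    by_cases hy : y ∈ L
    · rw [ebz_of_mem L _ hy, H.invW y hy]
    · rw [ebz_of_not_mem L _ hy]
      by_cases hyP : y ∈ P
      · obtain ⟨u, hu, l, hl, rfl⟩ := H.dec y hyP
        rw [ebz_of_not_mem P φ (g := w⁻¹ * (u * l) * w), map_zero, mul_zero]
        intro h
        have h2 : w⁻¹ * (u * l) * w = (w⁻¹ * u * w) * (w⁻¹ * l * w) := by group
        rw [h2, P.mul_mem_cancel_right (H.hL (H.normW l hl))] at h
        exact hy (by simpa [H.opp u hu h] using hl)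
      · rw [ebz_of_not_mem P φ hyP, zero_mul]
  rw [← sum_mul_conj_of_isIrr H.irr, ← H.bij.sum_comp, Fintype.sum_prod_type, h1,
    Nat.card_eq_fintype_card, ← nsmul_eq_mul, ← Finset.card_univ, ← Finset.sum_const]
  refine Finset.sum_congr rfl fun u _ => Finset.sum_congr rfl fun l _ => ?_
  rw [← ebz_coe P φ ⟨_, _⟩]
  have := ebz_ker_mul hφ (H.kerU ⟨u, H.hU u.2⟩ u.2) l
  exact this ▸ rfl

theorem inner_two : classInner (indFun P φ) (indFun P φ) = 2 := by
  have := Fintype.ofFinite P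
  have := Fintype.ofFinite U
  rw [inner_ind_eq, H.sum_split _ fun _ h => h,
    Finset.sum_congr rfl fun (p : P) _ => TT_of_mem (cf_of_isIrr H.irr) p.2,
    Finset.sum_congr rfl fun (u : U) _ => Finset.sum_congr rfl fun (p : P) _ =>
      TT_mul (cf_of_isIrr H.irr) (H.hU u.2) p.2 w, inner_self_of_isIrr H.irr]
  simp only [Finset.sum_const, Finset.card_univ, ← Nat.card_eq_fintype_card, nsmul_eq_mul]
  rw [mul_left_comm (Nat.card U : ℂ), H.card_mul_TT]
  have := card_ne_zero' P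
  field_simp
  norm_num

theorem exists_int [Fintype P] {χ : G → ℂ} (hχ : IsIrrCharacter G χ)
    (h : classInner (fun p : P => χ p) φ = 1) :
    ∃ t : ℂ, IsIntegral ℤ t ∧ Nat.card G * φ 1 * Nat.card U = χ 1 * Nat.card P * (Nat.card U + t) := by
  classical
  have := Fintype.ofFinite U
  have := Fintype.ofFinite L
  have hφ := isChar_of_isIrr H.irr
  have hres := FF_res H.irr (isChar_of_isIrr hχ) h
  have hone := FF_one h
  obtain ⟨n, ρ, hρ, rfl⟩ := hχ
  have he := apply_one_ne_zero_of_isIrr H.irr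
  have hP := card_ne_zero' P
  have hU0 := card_ne_zero' U
  let E' : End ℂ (Fin n → ℂ) := ∑ p : P, conj (φ p) • ρ p
  have hF : ∀ y, FF P φ ρ.character y = LinearMap.trace ℂ _ (ρ y * E') := fun y => by
    simp [FF, E', Finset.mul_sum, Representation.character, mul_comm]
  have hcomm : ∀ p : P, E' * ρ p = ρ p * E' :=
    sum_smul_comm (ρ.comp P.subtype) (cf_star (cf_of_isCharacter hφ))
  have hker : ∀ z : P, φ z = φ 1 → ρ z * E' = E' := fun z hz => by
    simp only [E', Finset.mul_sum, mul_smul_comm, ← map_mul]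
    rw [← Equiv.sum_comp (Equiv.mulLeft z) fun p => conj (φ p) • ρ p]
    refine Finset.sum_congr rfl fun p _ => ?_
    rw [Equiv.coe_mulLeft, cf_mul_comm (cf_of_isCharacter hφ), apply_mul_of_apply_eq hφ hz]
    rfl
  have hsq : E' * E' = (Nat.card P / φ 1) • E' := by
    have h1 : ∀ r : P, ∑ g : P, φ g * conj (φ (g * r)) = Nat.card P / φ 1 * conj (φ r) :=
      fun r => by
        rw [sum_mul_apply_mul (isIrr_conj H.irr) (cf_of_isCharacter hφ), sum_mul_conj_of_isIrr H.irr,
          conj_apply_one_of_isChar hφ]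
    calc E' * E' = ∑ g : P, ∑ r : P, (φ g * conj (φ (g * r))) • ρ r := by
          rw [Finset.sum_mul, ← Equiv.sum_comp (Equiv.inv P)]
          refine Finset.sum_congr rfl fun g _ => ?_
          rw [Finset.mul_sum, ← Equiv.sum_comp (Equiv.mulLeft g)]
          refine Finset.sum_congr rfl fun r _ => ?_
          simp [apply_inv_of_isChar hφ, ← map_mul, smul_smul, mul_comm]
      _ = _ := by
          rw [Finset.sum_comm, Finset.smul_sum]
          exact Finset.sum_congr rfl fun r _ => by rw [← Finset.sum_smul, h1, smul_smul]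
  obtain ⟨E, hEd⟩ : ∃ E : End ℂ (Fin n → ℂ), E = (φ 1 / Nat.card P) • E' := ⟨_, rfl⟩
  have hE : E * E = E := by
    simp only [hEd, smul_mul_smul_comm, hsq, smul_smul]
    congr 1
    field_simp
  have hEc : ∀ p : P, E * ρ p = ρ p * E := fun p => by
    simp only [hEd, smul_mul_assoc, mul_smul_comm, hcomm]
  have hEk : ∀ z : P, φ z = φ 1 → ρ z * E = E := fun z hz => by
    simp only [hEd, mul_smul_comm, hker z hz]
  let σ : Representation ℂ P (Fin n → ℂ) := ρ.comp P.subtype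
  let M : Subrepresentation σ := ⟨LinearMap.range E, by
    rintro g _ ⟨v, rfl⟩
    exact ⟨ρ g v, LinearMap.congr_fun (hEc g) v⟩⟩
  have h0 : ∀ g : P, LinearMap.trace ℂ _ (E * ρ g) = φ g := fun g => by
    rw [hEc, hEd, mul_smul_comm, map_smul, ← hF, smul_eq_mul, div_mul_eq_mul_div, hres]
    field_simp
  have hM : M.toRepresentation.character = φ := by
    ext g
    have h1 : E * ρ g = (LinearMap.range E).subtype ∘ₗ (E.rangeRestrict ∘ₗ ρ g) := rfl
    rw [← h0, h1, LinearMap.trace_comp_comm', Representation.character]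
    congr 1
    ext ⟨_, v, rfl⟩ : 2
    show ρ g (E v) = E (ρ g (E v))
    have h2 := LinearMap.congr_fun (hEc g) (E v)
    have h3 := LinearMap.congr_fun hE v
    simp only [Module.End.mul_apply] at h2 h3
    rw [h2, h3]
  have hirr : M.toRepresentation.IsIrreducible :=
    isIrreducible_of_inner_self _ (hM ▸ inner_self_of_isIrr H.irr)
  let S : End ℂ (Fin n → ℂ) := ∑ u : U, ρ u
  have hu : ∀ u ∈ U, ρ u * S = S := fun u hu => by
    simp only [S, Finset.mul_sum, ← map_mul]
    rw [← Equiv.sum_comp (Equiv.mulLeft (⟨u, hu⟩ : U)) fun v : U => ρ v]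
    simp
  have hl : ∀ l ∈ L, ρ l * S = S * ρ l := fun l hl => by
    let k : U ≃ U := Equiv.ofBijective (fun u => ⟨l * u * l⁻¹, H.norm l hl u u.2⟩)
      (Finite.injective_iff_bijective.1 fun a b hab => by simpa using hab)
    simp only [S, Finset.mul_sum, Finset.sum_mul, ← map_mul]
    rw [← Equiv.sum_comp k fun u : U => ρ (u * l)]
    refine Finset.sum_congr rfl fun u _ => congrArg ρ ?_
    change _ = l * u * l⁻¹ * l
    group
  have hSE : S * E = (Nat.card U : ℂ) • E := by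
    rw [Finset.sum_mul, Finset.sum_congr rfl fun (u : U) _ =>
      hEk ⟨u, H.hU u.2⟩ (H.kerU _ u.2), Finset.sum_const, Finset.card_univ,
      Nat.card_eq_fintype_card, Nat.cast_smul_eq_nsmul]
  have hES : E * S = (Nat.card U : ℂ) • E := by
    rw [← hSE, Finset.mul_sum, Finset.sum_mul]
    exact Finset.sum_congr rfl fun u _ => hEc ⟨u, H.hU u.2⟩
  let Z : End ℂ (Fin n → ℂ) := S * ρ w * S * ρ w⁻¹
  have hY : ∀ p : P, (Z * E) * ρ p = ρ p * (Z * E) := by
    have hl' : ∀ l ∈ L, ρ l * Z = Z * ρ l := fun l hl₀ => by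
      have h1 : ρ l * ρ w = ρ w * ρ (w⁻¹ * l * w) := by
        rw [← map_mul, ← map_mul]; congr 1; group
      have h2 : ρ (w⁻¹ * l * w) * ρ w⁻¹ = ρ w⁻¹ * ρ l := by
        rw [← map_mul, ← map_mul]; congr 1; group
      simp only [Z, ← mul_assoc]
      rw [hl l hl₀, mul_assoc S, h1, ← mul_assoc, mul_assoc _ _ S, hl _ (H.normW l hl₀),
        ← mul_assoc, mul_assoc _ _ (ρ w⁻¹), h2, ← mul_assoc]
    intro p
    obtain ⟨u, hu', l, hl₀, hp⟩ := H.dec p p.2
    have h1 : ρ u * Z = Z := by simp only [Z, ← mul_assoc, hu u hu']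
    rw [hp, map_mul, mul_assoc (ρ u), ← mul_assoc (ρ l), hl' l hl₀, ← mul_assoc, ← mul_assoc,
      ← mul_assoc, h1, mul_assoc Z E, hEc ⟨u, H.hU hu'⟩, hEk ⟨u, H.hU hu'⟩ (H.kerU _ hu'),
      mul_assoc Z E, mul_assoc Z, hEc ⟨l, H.hL hl₀⟩]
  have hEY : E * (Z * E) = Z * E := by
    have h2 : ∀ Y : End ℂ (Fin n → ℂ), (∀ p : P, Y * ρ p = ρ p * Y) → E * Y = Y * E :=
      fun Y hY => by
        have : E' * Y = Y * E' := by
          rw [Finset.sum_mul, Finset.mul_sum]
          exact Finset.sum_congr rfl fun p _ => by rw [smul_mul_assoc, mul_smul_comm, hY]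
        rw [hEd, smul_mul_assoc, this, mul_smul_comm]
    rw [h2 _ hY, mul_assoc, hE]
  have hmem : ∀ v ∈ M.toSubmodule, (Z * E) v ∈ M.toSubmodule := fun v _ =>
    ⟨(Z * E) v, LinearMap.congr_fun hEY v⟩
  obtain ⟨t, ht⟩ := exists_eq_smul_of_comm M.toRepresentation ((Z * E).restrict hmem) fun g => by
    ext v : 2
    exact LinearMap.congr_fun (hY g) v
  have hZE : Z * E = t • E := by
    refine LinearMap.ext fun v => ?_
    have h1 := congrArg Subtype.val (LinearMap.congr_fun ht ⟨E v, v, rfl⟩)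
    have h2 : (Z * E * E) v = (Z * E) v := by rw [mul_assoc, hE]
    exact h2.symm.trans h1
  refine ⟨t, ?_, ?_⟩
  · have hS : IsIntegral ℤ Z := by
      have h1 := isIntegral_sum_smul ρ
        (f := fun g => ∑ x : U × U, if (x.1 : G) * w * x.2 * w⁻¹ = g then 1 else 0)
        fun g => IsIntegral.sum _ fun x _ => by
          split_ifs
          · exact isIntegral_one
          · exact isIntegral_zero
      convert h1
      simp only [Finset.sum_smul]
      rw [Finset.sum_comm, Fintype.sum_prod_type]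
      simp only [Z, S, Finset.sum_mul, Finset.mul_sum, ← map_mul, ite_smul, one_smul, zero_smul,
        Finset.sum_ite_eq, Finset.mem_univ, if_true]
      exact Finset.sum_comm
    have := nontrivial_of_isIrreducible M.toRepresentation
    obtain ⟨⟨_, v, rfl⟩, hv⟩ := exists_ne (0 : M.toSubmodule)
    have hv' : E v ≠ 0 := fun h => hv (Subtype.ext h)
    have hev : Z.HasEigenvector t (E v) :=
      ⟨Module.End.mem_eigenspace_iff.2 (LinearMap.congr_fun hZE v), hv'⟩
    obtain ⟨q, hq, hq'⟩ := hS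
    refine ⟨q, hq, ?_⟩
    have h1 := Module.End.aeval_apply_of_hasEigenvector (p := q.map (algebraMap ℤ ℂ)) hev
    rw [Polynomial.aeval_map_algebraMap, Polynomial.aeval_def, hq', Polynomial.eval_map] at h1
    exact (smul_eq_zero.1 h1.symm).resolve_right hv'
  have htr : LinearMap.trace ℂ _ E = φ 1 := by simpa using h0 1
  -- the Levi part of the idempotent
  obtain ⟨EL, hELd⟩ : ∃ EL : End ℂ (Fin n → ℂ),
    EL = (φ 1 / Nat.card P) • ∑ l : L, conj (extendByZero P φ l) • ρ l := ⟨_, rfl⟩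
  have hEL : E = S * EL := by
    simp only [hEd, hELd, E', S, mul_smul_comm]
    congr 1
    rw [← H.bij.sum_comp, Fintype.sum_prod_type, Finset.sum_mul]
    refine Finset.sum_congr rfl fun u _ => ?_
    rw [Finset.mul_sum]
    refine Finset.sum_congr rfl fun l _ => ?_
    rw [mul_smul_comm, ← map_mul, ← ebz_coe P φ ⟨_, _⟩]
    have := ebz_ker_mul hφ (H.kerU ⟨u, H.hU u.2⟩ u.2) l
    exact this ▸ rfl
  have hELw : EL * ρ w⁻¹ = ρ w⁻¹ * EL := by
    let k : L ≃ L := Equiv.ofBijective (fun l => ⟨w⁻¹ * l * w, H.normW l l.2⟩)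
      (Finite.injective_iff_bijective.1 fun a b hab => by simpa using hab)
    simp only [hELd, smul_mul_assoc, mul_smul_comm, Finset.sum_mul, Finset.mul_sum, ← map_mul]
    congr 1
    rw [← Equiv.sum_comp k]
    refine Finset.sum_congr rfl fun l _ => ?_
    change conj (extendByZero P φ (w⁻¹ * l * w)) • ρ (w⁻¹ * l * w * w⁻¹) = _
    rw [H.invW l l.2, mul_inv_cancel_right]
  have hELE : (Nat.card U : ℂ) • (EL * E) = E := by
    have h1 : S * EL = EL * S := by
      simp only [hELd, smul_mul_assoc, mul_smul_comm, Finset.sum_mul, Finset.mul_sum (f := fun l : L =>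
        conj (extendByZero P φ l) • ρ l), hl _ (Subtype.prop _)]
    rw [← mul_smul_comm, ← hSE, ← mul_assoc, ← h1, ← hEL, hE]
  have hmu : (Nat.card U : ℂ) * Nat.card U * LinearMap.trace ℂ _ (ρ w⁻¹ * E * ρ w * E) = t * φ 1 := by
    have h1 : (Nat.card U : ℂ) • (ρ w * E * ρ w⁻¹ * E) = ρ w * S * ρ w⁻¹ * E := by
      conv_rhs => rw [← hELE]
      rw [mul_smul_comm]
      congr 1
      rw [← mul_assoc, mul_assoc _ (ρ w⁻¹) EL, ← hELw, ← mul_assoc, mul_assoc _ S EL, ← hEL]
    have h2 : LinearMap.trace ℂ _ (ρ w⁻¹ * E * ρ w * E) =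
        LinearMap.trace ℂ _ (ρ w * E * ρ w⁻¹ * E) := by
      rw [mul_assoc (ρ w⁻¹ * E), LinearMap.trace_mul_comm, ← mul_assoc]
    rw [h2, mul_assoc, ← smul_eq_mul (Nat.card U : ℂ) (LinearMap.trace ℂ _ _), ← map_smul, h1,
      ← htr, ← smul_eq_mul t, ← map_smul, ← hZE, LinearMap.trace_mul_comm _ Z,
      LinearMap.trace_mul_comm _ _ E]
    simp only [Z, ← mul_assoc]
    rw [hES, smul_mul_assoc, smul_mul_assoc, smul_mul_assoc, map_smul, smul_eq_mul]
  obtain ⟨r, hr⟩ := exists_eq_smul_of_comm ρ (∑ g, ρ g⁻¹ * E * ρ g) fun x => by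
    rw [Finset.sum_mul, Finset.mul_sum, ← Equiv.sum_comp (Equiv.mulRight x⁻¹)]
    refine Finset.sum_congr rfl fun g _ => ?_
    simp only [Equiv.coe_mulRight, mul_inv_rev, inv_inv, map_mul, mul_assoc]
    rw [← map_mul ρ x⁻¹, inv_mul_cancel, map_one, mul_one]
  have hr1 : r * ρ.character 1 = Nat.card G * φ 1 := by
    have h1 := congrArg (LinearMap.trace ℂ _) hr
    rw [map_sum, Finset.sum_congr rfl fun g _ => by
      rw [LinearMap.trace_mul_comm, ← mul_assoc, ← map_mul, mul_inv_cancel, map_one, one_mul, htr],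
      Finset.sum_const, Finset.card_univ, map_smul, ← Nat.card_eq_fintype_card, nsmul_eq_mul] at h1
    rw [h1, Representation.character, map_one, smul_eq_mul]
  have hr2 : r * φ 1 = Nat.card P * φ 1 + Nat.card U * (Nat.card P *
      LinearMap.trace ℂ _ (ρ w⁻¹ * E * ρ w * E)) := by
    have h1 := congrArg (fun A => LinearMap.trace ℂ _ (A * E)) hr
    simp only [smul_mul_assoc r, one_mul, map_smul, htr, smul_eq_mul, Finset.sum_mul, map_sum] at h1
    have hpp : ∀ (p p' : P) x, LinearMap.trace ℂ _ (ρ (p * x * p')⁻¹ * E * ρ (p * x * p') * E) =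
        LinearMap.trace ℂ _ (ρ x⁻¹ * E * ρ x * E) := fun p p' x => by
      have h2 : ρ (p : G)⁻¹ * E * ρ p = E := by
        rw [mul_assoc, hEc, ← mul_assoc, ← map_mul, inv_mul_cancel, map_one, one_mul]
      have h3 : ρ (p * x * p')⁻¹ * E * ρ (p * x * p') * E =
          ρ (p' : G)⁻¹ * (ρ x⁻¹ * (ρ (p : G)⁻¹ * E * ρ p) * ρ x * E * ρ p') := by
        simp only [mul_inv_rev, map_mul, mul_assoc, hEc p']
      rw [h3, h2, LinearMap.trace_mul_comm, mul_assoc _ (ρ p'), ← map_mul, mul_inv_cancel, map_one,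
        mul_one]
    rw [← h1, H.sum_split _ fun x hx => ?_, Finset.sum_congr rfl fun (u : U) _ =>
      Finset.sum_congr rfl fun (p : P) _ => hpp ⟨u, H.hU u.2⟩ p w,
      Finset.sum_congr rfl fun (p : P) _ => (by simpa [hE, htr] using hpp 1 p 1 :
        LinearMap.trace ℂ _ (ρ (p : G)⁻¹ * E * ρ p * E) = φ 1)]
    · simp only [Finset.sum_const, Finset.card_univ, ← Nat.card_eq_fintype_card, nsmul_eq_mul]
    · have h2 := sum_dc_eq_zero hφ hx ρ.character x⁻¹
      simp only [hEd, smul_mul_assoc, mul_smul_comm, map_smul, smul_eq_mul]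
      rw [show LinearMap.trace ℂ _ (ρ x⁻¹ * E' * ρ x * E') = 0 from ?_, mul_zero, mul_zero]
      rw [← h2]
      simp only [E', Finset.mul_sum, Finset.sum_mul, smul_mul_assoc, mul_smul_comm, map_sum,
        map_smul, smul_eq_mul, Representation.character, map_mul]
      rw [Finset.sum_comm]
      exact Finset.sum_congr rfl fun p _ => Finset.sum_congr rfl fun p' _ => by ring
  refine mul_right_cancel₀ he ?_
  linear_combination (-(Nat.card U : ℂ) * φ 1) * hr1 + (ρ.character 1 * Nat.card U) * hr2 +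
    ρ.character 1 * Nat.card P * hmu

/-- The induced character has two constituents whose degrees differ by a power of `p`. -/
theorem main {p n : ℕ} (hp : p.Prime) (hU : Nat.card U = p ^ n) :
    ∃ (a b : G → ℂ) (d j : ℕ), IsIrrCharacter G a ∧ IsIrrCharacter G b ∧ a ≠ b ∧
      indFun P φ = a + b ∧ a 1 = (p ^ j * d : ℕ) ∧ b 1 = d := by
  have := Fintype.ofFinite P
  have hφ := isChar_of_isIrr H.irr
  obtain ⟨a, b, ha, hb, hab, hR⟩ := exists_add_of_norm_two (isCharacter_indFun P hφ) H.inner_two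
  have hin : ∀ χ, IsIrrCharacter G χ → classInner (fun p : P => χ p) φ =
      classInner χ a + classInner χ b := fun χ hχ => by
    rw [← frobenius' P φ (cf_of_isIrr hχ), hR, Ind.inner_add_right]
  obtain ⟨s, hs, hs'⟩ := H.exists_int ha (by
    rw [hin a ha, inner_self_of_isIrr ha, inner_eq_zero_of_isIrr ha hb hab, add_zero])
  obtain ⟨t, ht, ht'⟩ := H.exists_int hb (by
    rw [hin b hb, inner_self_of_isIrr hb, inner_eq_zero_of_isIrr hb ha hab.symm, zero_add])
  obtain ⟨d₁, hd₁, e₁⟩ := exists_pos_nat_of_isIrr ha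
  obtain ⟨d₂, hd₂, e₂⟩ := exists_pos_nat_of_isIrr hb
  have hP := card_ne_zero' P
  have h1 : (Nat.card G : ℂ) * φ 1 = (d₁ + d₂) * Nat.card P := by
    have := congrFun hR 1
    rw [indFun_one, Pi.add_apply, e₁, e₂] at this
    rw [← this, ← P.index_mul_card]
    push_cast; ring
  rw [h1, e₁] at hs'
  rw [h1, e₂] at ht'
  have g : ∀ {x y : ℕ} {s : ℂ}, 0 < x → IsIntegral ℤ s → (x + y : ℂ) * Nat.card P * Nat.card U =
      x * Nat.card P * (Nat.card U + s) → x ∣ p ^ n * y := fun {x y s} hx hs h => by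
    refine dvd_of_isIntegral_div hx.ne' ?_
    have hx' : (x : ℂ) ≠ 0 := by exact_mod_cast hx.ne'
    have : ((p ^ n * y : ℕ) : ℂ) / x = s := by
      rw [div_eq_iff hx', ← hU, Nat.cast_mul]
      exact mul_left_cancel₀ hP (by linear_combination h)
    exact this ▸ hs
  rcases pow_ratio hp hd₁.ne' (g hd₁ hs hs') (g hd₂ ht (add_comm (d₁ : ℂ) d₂ ▸ ht')) with
    ⟨j, h⟩ | ⟨j, h⟩
  · exact ⟨a, b, d₂, j, ha, hb, hab, hR, h ▸ e₁, e₂⟩
  · exact ⟨b, a, d₁, j, hb, ha, hab.symm, hR.trans (add_comm _ _), h ▸ e₂, e₁⟩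

end Hk0

end Cfsg.Agent.DG
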