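import Cfsg.Agent.Lib.DG.Defs

/-!
# The parabolic subgroup of a hyperbolic extension
-/

set_option autoImplicit false
set_option linter.unusedSectionVars false

namespace Cfsg.Agent.DG

open Module

namespace FSp

variable {F V W : Type*} [Field F] [AddCommGroup V] [Module F V] [AddCommGroup W] [Module F W]
  {s : FSp F V}

theorem hB_inl (a : W) (y : W × V × Dual F W) : (s.hyp W).B (a, 0, 0) y = y.2.2 a := by
  simp [hyp_B]

theorem hB_inl' (a : W) (y : W × V × Dual F W) : (s.hyp W).B y (a, 0, 0) = s.ε * y.2.2 a := by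
  simp [hyp_B]

theorem hQ_inl (a : W) : (s.hyp W).Q (a, 0, 0) = 0 := by simp [hyp_Q]

theorem iso_add (g : s.iso) (x y : V) : g (x + y) = g x + g y := g.1.map_add x y
theorem iso_sub (g : s.iso) (x y : V) : g (x - y) = g x - g y := g.1.map_sub x y
theorem iso_smul (g : s.iso) (c : F) (x : V) : g (c • x) = c • g x := g.1.map_smul c x
theorem iso_zero (g : s.iso) : g 0 = 0 := g.1.map_zero

theorem split3 (y : W × V × Dual F W) : y = (y.1, 0, 0) + (0, y.2.1, 0) + (0, 0, y.2.2) := by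
  simp

theorem eich_conj [FiniteDimensional F V] (g : s.iso) (e w : V) (t : F) (he : s.Q e = 0)
    (hw : s.B w e = 0) : g⁻¹ * s.eich e w t he hw * g =
      s.eich (g⁻¹ e) (g⁻¹ w) t ((iso_Q _ _).trans he) ((iso_B _ _ _).trans hw) :=
  iso_ext fun x => by
    simp only [mul_apply, eich_apply, iso_add, iso_sub, iso_smul, inv_apply_apply, iso_B_left,
      iso_Q]

variable (s W) in
/-- the totally singular subspace `W` of the hyperbolic extension -/
def W0 : (s.hyp W).TSk (finrank F W) :=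
  ⟨LinearMap.range (LinearMap.inl F W (V × Dual F W)),
    ⟨by rintro _ ⟨a, rfl⟩; exact hQ_inl a, by
      rintro _ ⟨a, rfl⟩ _ ⟨b, rfl⟩; exact hB_inl a _⟩,
    LinearMap.finrank_range_of_inj LinearMap.inl_injective⟩

variable (s W) in
/-- the stabiliser of `W` -/
noncomputable def Par : Subgroup (s.hyp W).iso := MulAction.stabilizer (s.hyp W).iso (s.W0 W)

variable [FiniteDimensional F V] [FiniteDimensional F W]

theorem mem_Par {g : (s.hyp W).iso} : g ∈ s.Par W ↔ ∀ a, (g (a, 0, 0)).2 = 0 := by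
  constructor
  · intro h a
    have h1 : (g • s.W0 W).1 = (s.W0 W).1 := congrArg Subtype.val h
    have h2 : g (a, 0, 0) ∈ (s.W0 W).1 := h1 ▸ ⟨(a, 0, 0), ⟨a, rfl⟩, rfl⟩
    obtain ⟨b, hb⟩ := h2
    rw [← hb]; rfl
  · intro h
    refine Subtype.ext (Submodule.eq_of_le_of_finrank_eq ?_ ((g • s.W0 W).2.2.trans (s.W0 W).2.2.symm))
    rintro _ ⟨_, ⟨a, rfl⟩, rfl⟩
    exact ⟨(g (a, 0, 0)).1, Prod.ext rfl (h a).symm⟩

/-- the action on `W` -/
noncomputable def pi1 : s.Par W →* (End F W)ˣ :=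
  MonoidHom.toHomUnits
    { toFun := fun g => LinearMap.fst F _ _ ∘ₗ (g.1.1 : End F (W × V × Dual F W)) ∘ₗ
        LinearMap.inl F _ _
      map_one' := rfl
      map_mul' := fun g h => LinearMap.ext fun a => by
        have : h.1 (a, 0, 0) = ((h.1 (a, 0, 0)).1, 0, 0) := Prod.ext rfl (mem_Par.1 h.2 a)
        exact congrArg (fun y => (g.1 y).1) this }

theorem Par_inl (g : s.Par W) (a : W) : g.1 (a, 0, 0) = ((pi1 g : End F W) a, 0, 0) :=
  Prod.ext rfl (mem_Par.1 g.2 a)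

theorem Par_snd (g : s.Par W) (y : W × V × Dual F W) (a : W) :
    (g.1 y).2.2 ((pi1 g : End F W) a) = y.2.2 a := by
  rw [← hB_inl (s := s), ← Par_inl, iso_B, hB_inl]

theorem Par_snd' (g : s.Par W) (y : W × V × Dual F W) (a : W) :
    (g.1 y).2.2 a = y.2.2 (((pi1 g)⁻¹ : (End F W)ˣ).1 a) := by
  rw [← Par_snd g y, ← End.mul_apply, Units.mul_inv, End.one_apply]

theorem Par_snd_zero (g : s.Par W) {y : W × V × Dual F W} (h : y.2.2 = 0) : (g.1 y).2.2 = 0 :=
  LinearMap.ext fun a => by rw [Par_snd', h]; rfl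

/-- the action on `W^⊥ / W = V` -/
noncomputable def pi2 : s.Par W →* s.iso where
  toFun g := s.mkIso (LinearMap.fst F _ _ ∘ₗ LinearMap.snd F _ _ ∘ₗ
      (g.1.1 : End F (W × V × Dual F W)) ∘ₗ LinearMap.inr F _ _ ∘ₗ LinearMap.inl F _ _)
    (fun v => by
      have := iso_Q g.1 (0, v, 0)
      rw [hyp_Q, Par_snd_zero g rfl] at this
      simpa [hyp_Q] using this)
    (fun v u => by
      have := iso_B g.1 (0, v, 0) (0, u, 0)
      rw [hyp_B, Par_snd_zero g rfl, Par_snd_zero g rfl] at this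
      simpa [hyp_B] using this)
  map_one' := iso_ext fun _ => rfl
  map_mul' g h := iso_ext fun v => by
    have : h.1 (0, v, 0) = ((h.1 (0, v, 0)).1, 0, 0) + (0, (h.1 (0, v, 0)).2.1, 0) := by
      simp [Prod.ext_iff, Par_snd_zero h]
    change (g.1 (h.1 (0, v, 0))).2.1 = (g.1 (0, (h.1 (0, v, 0)).2.1, 0)).2.1
    conv_lhs => rw [this, iso_add, Par_inl]
    simp

theorem pi2_apply (g : s.Par W) (v : V) : pi2 g v = (g.1 (0, v, 0)).2.1 := rfl

theorem Par_mid (g : s.Par W) {y : W × V × Dual F W} (h : y.2.2 = 0) :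
    (g.1 y).2.1 = pi2 g y.2.1 := by
  conv_lhs => rw [split3 y, h, iso_add, iso_add, Par_inl]
  simp [pi2_apply, show ((0, 0, 0) : W × V × Dual F W) = 0 from rfl, iso_zero]

/-- the projection to the Levi factor -/
noncomputable def pi : s.Par W →* (End F W)ˣ × s.iso := pi1.prod pi2

/-- an element of the Levi subgroup -/
noncomputable def lev0 (m : (End F W)ˣ) (h : s.iso) : (s.hyp W).iso :=
  (s.hyp W).mkIso (LinearMap.prodMap m.1 (LinearMap.prodMap h.1.1 (m⁻¹ : (End F W)ˣ).1.dualMap))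
    (fun y => by simp [hyp_Q, ← End.mul_apply, h.2.1])
    (fun y z => by simp [hyp_B, ← End.mul_apply, h.2.2])

theorem lev0_apply (m : (End F W)ˣ) (h : s.iso) (y : W × V × Dual F W) :
    lev0 m h y = (m.1 y.1, h y.2.1, y.2.2 ∘ₗ (m⁻¹ : (End F W)ˣ).1) := rfl

/-- the Levi embedding -/
noncomputable def lev : (End F W)ˣ × s.iso →* (s.hyp W).iso where
  toFun p := lev0 p.1 p.2
  map_one' := iso_ext fun _ => rfl
  map_mul' p q := iso_ext fun y => by
    rw [mul_apply, lev0_apply, lev0_apply, lev0_apply]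
    refine Prod.ext rfl (Prod.ext rfl (LinearMap.ext fun a => ?_))
    simp

theorem lev_apply (m : (End F W)ˣ) (h : s.iso) (y : W × V × Dual F W) :
    lev (m, h) y = (m.1 y.1, h y.2.1, y.2.2 ∘ₗ (m⁻¹ : (End F W)ˣ).1) := rfl

theorem lev_mem (p : (End F W)ˣ × s.iso) : lev p ∈ s.Par W :=
  mem_Par.2 fun a => by
    rw [lev_apply]; exact Prod.ext (iso_zero _) rfl

/-- the Levi embedding into the parabolic subgroup -/
noncomputable def levP : (End F W)ˣ × s.iso →* s.Par W := lev.codRestrict _ lev_mem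

@[simp] theorem pi1_levP (p : (End F W)ˣ × s.iso) : pi1 (levP p) = p.1 := Units.ext rfl
@[simp] theorem pi2_levP (p : (End F W)ˣ × s.iso) : pi2 (levP p) = p.2 := iso_ext fun _ => rfl
theorem pi_levP (p : (End F W)ˣ × s.iso) : pi (levP p) = p := Prod.ext (pi1_levP p) (pi2_levP p)
theorem coe_levP (p : (End F W)ˣ × s.iso) : (levP p).1 = lev p := rfl

theorem pi_surj : Function.Surjective (pi : s.Par W → _) := fun p => ⟨_, pi_levP p⟩

theorem negOne_eq : (s.hyp W).negOne = lev ((-1 : (End F W)ˣ), s.negOne) := iso_ext fun y => by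
  refine Prod.ext rfl (Prod.ext rfl (LinearMap.ext fun a => ?_))
  simp [lev_apply]

variable (s W) in
/-- the unipotent radical -/
noncomputable def Uni : Subgroup (s.hyp W).iso := (pi : s.Par W →* _).ker.map (s.Par W).subtype

variable (s W) in
/-- the Levi subgroup -/
noncomputable def Lev : Subgroup (s.hyp W).iso := (lev : _ →* (s.hyp W).iso).range

theorem Uni_le : s.Uni W ≤ s.Par W := Subgroup.map_subtype_le _
theorem Lev_le : s.Lev W ≤ s.Par W := by rintro _ ⟨p, rfl⟩; exact lev_mem p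

theorem mem_Uni_iff {g : s.Par W} : g.1 ∈ s.Uni W ↔ pi1 g = 1 ∧ pi2 g = 1 := by
  constructor
  · rintro ⟨h, hh, e⟩
    obtain rfl : h = g := Subtype.ext e
    exact Prod.ext_iff.1 hh
  · exact fun h => ⟨g, Prod.ext h.1 h.2, rfl⟩

theorem mem_Uni {g : (s.hyp W).iso} : g ∈ s.Uni W ↔
    (∀ a, g (a, 0, 0) = (a, 0, 0)) ∧ ∀ v, (g (0, v, 0)).2.1 = v := by
  constructor
  · intro h
    obtain ⟨h1, h2⟩ := (mem_Uni_iff (g := ⟨g, Uni_le h⟩)).1 h
    exact ⟨fun a => by rw [Par_inl ⟨g, Uni_le h⟩, h1]; rfl,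
      fun v => by rw [← pi2_apply ⟨g, Uni_le h⟩, h2]; rfl⟩
  · rintro ⟨h1, h2⟩
    have hg : g ∈ s.Par W := mem_Par.2 fun a => by rw [h1]; rfl
    exact (mem_Uni_iff (g := ⟨g, hg⟩)).2 ⟨Units.ext (LinearMap.ext fun a =>
      congrArg Prod.fst (h1 a)), iso_ext h2⟩

theorem Uni_inl {u : (s.hyp W).iso} (hu : u ∈ s.Uni W) (a : W) : u (a, 0, 0) = (a, 0, 0) :=
  (mem_Uni.1 hu).1 a

theorem Uni_snd {u : (s.hyp W).iso} (hu : u ∈ s.Uni W) (y : W × V × Dual F W) :
    (u y).2.2 = y.2.2 := LinearMap.ext fun a => by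
  rw [← hB_inl (s := s), ← Uni_inl hu, iso_B, hB_inl]

theorem Uni_mid {u : (s.hyp W).iso} (hu : u ∈ s.Uni W) {y : W × V × Dual F W} (h : y.2.2 = 0) :
    (u y).2.1 = y.2.1 := by
  rw [Par_mid ⟨u, Uni_le hu⟩ h, pi2_apply]
  exact (mem_Uni.1 hu).2 _

theorem Par_dec (p : (s.hyp W).iso) (hp : p ∈ s.Par W) :
    ∃ u ∈ s.Uni W, ∃ l ∈ s.Lev W, p = u * l := by
  refine ⟨(⟨p, hp⟩ * (levP (pi ⟨p, hp⟩))⁻¹ : s.Par W), mem_Uni_iff.2 ?_, _, ⟨pi ⟨p, hp⟩, rfl⟩, ?_⟩
  · simp [pi]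
  · simp [coe_levP]

theorem Uni_norm {p u : (s.hyp W).iso} (hp : p ∈ s.Par W) (hu : u ∈ s.Uni W) :
    p * u * p⁻¹ ∈ s.Uni W := by
  obtain ⟨h1, h2⟩ := (mem_Uni_iff (g := ⟨u, Uni_le hu⟩)).1 hu
  refine (mem_Uni_iff (g := ⟨p, hp⟩ * ⟨u, Uni_le hu⟩ * (⟨p, hp⟩ : s.Par W)⁻¹)).2 ?_
  simp only [map_mul, map_inv, h1, h2, mul_one, mul_inv_cancel, and_self]

theorem card_Par : Nat.card (s.Par W) =
    Nat.card (s.Uni W) * (Nat.card (End F W)ˣ * Nat.card s.iso) := by
  rw [← Nat.card_prod, Uni, Subgroup.card_map_of_injective (s.Par W).subtype_injective,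
    ← Subgroup.index_mul_card (pi : s.Par W →* _).ker, Subgroup.index_ker, mul_comm,
    MonoidHom.range_eq_top.2 pi_surj, Subgroup.card_top]

theorem Uni_eq_one {u : (s.hyp W).iso} (hu : u ∈ s.Uni W) (h : ∀ f, u (0, 0, f) = (0, 0, f)) :
    u = 1 := iso_ext fun y => by
  have h1 : ∀ v, u (0, v, 0) = (0, v, 0) := fun v => by
    refine Prod.ext ?_ (Prod.ext (Uni_mid hu rfl) (Uni_snd hu _))
    refine (forall_dual_apply_eq_zero_iff F _).1 fun f => ?_
    have := iso_B u (0, v, 0) (0, 0, f)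
    rw [h] at this
    simpa [hyp_B] using this
  rw [split3 y, iso_add, iso_add, Uni_inl hu, h1, h, one_apply]

theorem Uni_ext {u u' : (s.hyp W).iso} (hu : u ∈ s.Uni W) (hu' : u' ∈ s.Uni W)
    (h : ∀ f, u (0, 0, f) = u' (0, 0, f)) : u = u' :=
  (inv_mul_eq_one.1 (Uni_eq_one ((s.Uni W).mul_mem ((s.Uni W).inv_mem hu') hu) fun f => by
    rw [mul_apply, h, inv_apply_apply])).symm

theorem eich_mem_Uni (c : W) {w : W × V × Dual F W} (hw : w.2.2 = 0) (t : F) (h1 h2) :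
    (s.hyp W).eich (c, 0, 0) w t h1 h2 ∈ s.Uni W :=
  mem_Uni.2 ⟨fun a => by simp [eich_apply, hB_inl, hw], fun v => by simp [eich_apply, hB_inl']⟩

/-- the unipotent radical is a `p`-group -/
theorem card_Uni [Finite (s.hyp W).iso] (p : ℕ) [Fact p.Prime] [CharP F p] :
    ∃ n, Nat.card (s.Uni W) = p ^ n := by
  refine IsPGroup.iff_card.1 fun u => ⟨2, ?_⟩
  rcases subsingleton_or_nontrivial (W × V × Dual F W) with h | h
  · exact Subtype.ext (iso_ext fun y => Subsingleton.elim _ _)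
  have : CharP (End F (W × V × Dual F W)) p := charP_of_injective_algebraMap' F p
  let N : End F (W × V × Dual F W) := (u.1.1 : End F (W × V × Dual F W)) - 1
  have hN : N ^ 3 = 0 := LinearMap.ext fun y => by
    have h1 : (N y).2.2 = 0 := sub_eq_zero.2 (Uni_snd u.2 y)
    have h2 : (N (N y)).2 = 0 := Prod.ext (sub_eq_zero.2 (Uni_mid u.2 h1))
      (sub_eq_zero.2 (Uni_snd u.2 _))
    have h3 : N (N y) = ((N (N y)).1, 0, 0) := Prod.ext rfl h2
    change N (N (N y)) = 0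
    rw [h3]
    exact sub_eq_zero.2 (Uni_inl u.2 _)
  have h4 : N ^ p ^ 2 = 0 := pow_eq_zero_of_le
    (by have := (Fact.out : p.Prime).two_le; nlinarith) hN
  have h5 := sub_pow_char_pow_of_commute (R := End F (W × V × Dual F W)) (x := u.1.1) (y := 1) p 2
    (Commute.one_right _)
  rw [h5, one_pow, sub_eq_zero] at h4
  refine Subtype.ext (Subtype.ext (LinearEquiv.toLinearMap_injective ?_))
  rw [SubgroupClass.coe_pow, SubgroupClass.coe_pow]
  exact (map_pow LinearEquiv.automorphismGroup.toLinearMapMonoidHom _ _).trans h4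

section Siegel

variable (s) in
/-- the graph of `(σ, τ)` over `W^*` is totally singular -/
def SC (σ : Dual F W →ₗ[F] W) (τ : Dual F W →ₗ[F] V) : Prop :=
  (∀ f g : Dual F W, g (σ f) + s.ε * f (σ g) + s.B (τ f) (τ g) = 0) ∧
    ∀ f : Dual F W, s.δ * f (σ f) + s.Q (τ f) = 0

variable (s) in
/-- the adjoint of `τ` -/
noncomputable def kap (τ : Dual F W →ₗ[F] V) : V →ₗ[F] W :=
  (evalEquiv F W).symm.toLinearMap ∘ₗ s.B.compl₂ τ

theorem apply_kap (τ : Dual F W →ₗ[F] V) (g : Dual F W) (v : V) :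
    g (s.kap τ v) = s.B v (τ g) := by simp [kap]

/-- the element of the unipotent radical with `(0, 0, f) ↦ (σ f, τ f, f)` -/
noncomputable def sieg (σ : Dual F W →ₗ[F] W) (τ : Dual F W →ₗ[F] V) (h : s.SC σ τ) :
    (s.hyp W).iso :=
  (s.hyp W).mkIso
    { toFun := fun y => (y.1 + σ y.2.2 - s.kap τ y.2.1, y.2.1 + τ y.2.2, y.2.2)
      map_add' := fun x y => by
        simp only [Prod.fst_add, Prod.snd_add, map_add, Prod.mk_add_mk]
        refine Prod.ext ?_ (Prod.ext ?_ rfl) <;> simp only <;> abel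
      map_smul' := fun c x => by simp [smul_sub, smul_add] }
    (fun y => by
      simp only [LinearMap.coe_mk, AddHom.coe_mk, hyp_Q, map_add, map_sub, apply_kap, s.add]
      linear_combination h.2 y.2.2)
    (fun y z => by
      simp only [LinearMap.coe_mk, AddHom.coe_mk, hyp_B, map_add, map_sub, apply_kap,
        LinearMap.add_apply, s.symm z.2.1 (τ y.2.2)]
      linear_combination h.1 y.2.2 z.2.2)

theorem sieg_apply (σ : Dual F W →ₗ[F] W) (τ : Dual F W →ₗ[F] V) (h : s.SC σ τ)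
    (y : W × V × Dual F W) :
    sieg σ τ h y = (y.1 + σ y.2.2 - s.kap τ y.2.1, y.2.1 + τ y.2.2, y.2.2) := rfl

theorem sieg_inr (σ : Dual F W →ₗ[F] W) (τ : Dual F W →ₗ[F] V) (h : s.SC σ τ) (f : Dual F W) :
    sieg σ τ h (0, 0, f) = (σ f, τ f, f) := by simp [sieg_apply]

theorem sieg_mem (σ : Dual F W →ₗ[F] W) (τ : Dual F W →ₗ[F] V) (h : s.SC σ τ) :
    sieg σ τ h ∈ s.Uni W :=
  mem_Uni.2 ⟨fun a => by simp [sieg_apply], fun v => by simp [sieg_apply]⟩

/-- a totally singular section of the projection to `W^*` -/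
theorem SC_of (T : Dual F W →ₗ[F] W × V × Dual F W) (h : ∀ f, (T f).2.2 = f)
    (hQ : ∀ f, (s.hyp W).Q (T f) = 0) (hB : ∀ f g, (s.hyp W).B (T f) (T g) = 0) :
    s.SC (LinearMap.fst F _ _ ∘ₗ T) (LinearMap.fst F _ _ ∘ₗ LinearMap.snd F _ _ ∘ₗ T) :=
  ⟨fun f g => by simpa [hyp_B, h] using hB f g, fun f => by simpa [hyp_Q, h] using hQ f⟩

theorem exists_Uni (T : Dual F W →ₗ[F] W × V × Dual F W) (h : ∀ f, (T f).2.2 = f)
    (hQ : ∀ f, (s.hyp W).Q (T f) = 0) (hB : ∀ f g, (s.hyp W).B (T f) (T g) = 0) :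
    ∃ u ∈ s.Uni W, ∀ f, u (0, 0, f) = T f :=
  ⟨_, sieg_mem _ _ (SC_of T h hQ hB), fun f => by
    rw [sieg_inr]; exact Prod.ext rfl (Prod.ext rfl (h f).symm)⟩

/-- the parametrisation of the unipotent radical -/
noncomputable def uniEquiv :
    {p : (Dual F W →ₗ[F] W) × (Dual F W →ₗ[F] V) // s.SC p.1 p.2} ≃ s.Uni W :=
  Equiv.ofBijective (fun p => ⟨sieg p.1.1 p.1.2 p.2, sieg_mem _ _ _⟩) ⟨fun p q h => by
    have h1 : ∀ f, (p.1.1 f, p.1.2 f, f) = (q.1.1 f, q.1.2 f, f) := fun f => by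
      rw [← sieg_inr _ _ p.2, ← sieg_inr _ _ q.2]
      exact congrArg (fun u : s.Uni W => u.1 (0, 0, f)) h
    exact Subtype.ext (Prod.ext (LinearMap.ext fun f => congrArg Prod.fst (h1 f))
      (LinearMap.ext fun f => congrArg (fun y => y.2.1) (h1 f))), fun u => by
    let T : Dual F W →ₗ[F] W × V × Dual F W :=
      (u.1.1 : End F (W × V × Dual F W)) ∘ₗ LinearMap.inr F _ _ ∘ₗ LinearMap.inr F _ _
    have h : ∀ f, (T f).2.2 = f := fun f => Uni_snd u.2 (0, 0, f)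
    have hT := SC_of T h (fun f => (iso_Q u.1 (0, 0, f)).trans (by simp [hyp_Q]))
      fun f g => (iso_B u.1 (0, 0, f) (0, 0, g)).trans (by simp [hyp_B])
    exact ⟨⟨(_, _), hT⟩, Subtype.ext (Uni_ext (sieg_mem _ _ hT) u.2 fun f =>
      (sieg_inr _ _ hT f).trans (Prod.ext rfl (Prod.ext rfl (h f).symm)))⟩⟩

theorem uniEquiv_apply (p : {p : (Dual F W →ₗ[F] W) × (Dual F W →ₗ[F] V) // s.SC p.1 p.2}) :
    (uniEquiv p).1 = sieg p.1.1 p.1.2 p.2 := rfl

end Siegel

section Weyl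

variable (s) (J : W ≃ₗ[F] Dual F W)

/-- the Weyl element interchanging `W` and `W^*` -/
noncomputable def wJ : (s.hyp W).iso :=
  (s.hyp W).mkIso
    { toFun := fun y => (s.ε • J.flip.symm y.2.2, y.2.1, J y.1)
      map_add' := fun x y => by simp
      map_smul' := fun c x => by simp [smul_comm c] }
    (fun y => by
      have := LinearMap.congr_fun (J.flip.apply_symm_apply y.2.2) y.1
      simp only [LinearMap.coe_mk, AddHom.coe_mk, hyp_Q, map_smul, smul_eq_mul]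
      rw [LinearEquiv.flip_apply] at this
      rw [this, ← mul_assoc, s.δ_ε])
    (fun y z => by
      have h1 := LinearMap.congr_fun (J.flip.apply_symm_apply y.2.2) z.1
      have h2 := LinearMap.congr_fun (J.flip.apply_symm_apply z.2.2) y.1
      simp only [LinearMap.coe_mk, AddHom.coe_mk, hyp_B, map_smul, smul_eq_mul]
      rw [LinearEquiv.flip_apply] at h1 h2
      rw [h1, h2, ← mul_assoc, s.ε_sq]
      ring)

theorem wJ_apply (y : W × V × Dual F W) :
    s.wJ J y = (s.ε • J.flip.symm y.2.2, y.2.1, J y.1) := rfl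

theorem wJ_inv_apply (y : W × V × Dual F W) :
    (s.wJ J)⁻¹ y = (J.symm y.2.2, y.2.1, s.ε • J.flip y.1) := by
  apply iso_inj (s.wJ J)
  rw [apply_inv_apply, wJ_apply]
  simp [smul_smul, s.ε_sq]

/-- the inverse transpose automorphism -/
noncomputable def alJ : (End F W)ˣ →* (End F W)ˣ :=
  MonoidHom.toHomUnits
    { toFun := fun m => J.symm.toLinearMap ∘ₗ (m⁻¹ : (End F W)ˣ).1.dualMap ∘ₗ J.toLinearMap
      map_one' := LinearMap.ext fun a => J.symm_apply_apply a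
      map_mul' := fun m n => by ext; simp [LinearMap.dualMap_apply']; rfl }

theorem alJ_apply (m : (End F W)ˣ) (a : W) :
    J ((alJ J m).1 a) = J a ∘ₗ (m⁻¹ : (End F W)ˣ).1 := J.apply_symm_apply _

theorem wJ_lev (m : (End F W)ˣ) (h : s.iso) :
    (s.wJ J)⁻¹ * lev (m, h) * s.wJ J = lev (alJ J m, h) := by
  rw [mul_assoc, inv_mul_eq_iff_eq_mul]
  refine iso_ext fun y => ?_
  simp only [mul_apply, wJ_apply, lev_apply, alJ_apply, map_smul]
  congr 2
  rw [LinearEquiv.eq_symm_apply]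
  ext a
  rw [LinearMap.comp_apply, ← map_inv, LinearEquiv.flip_apply,
    ← LinearMap.congr_fun (J.flip.apply_symm_apply y.2.2), LinearEquiv.flip_apply, alJ_apply]
  rfl

/-- the `W`-part of the square of the Weyl element -/
noncomputable def sqJ : (End F W)ˣ :=
  LinearMap.GeneralLinearGroup.ofLinearEquiv
    (J.trans (J.flip.symm.trans (LinearEquiv.smulOfNeZero F W s.ε s.ε_ne)))

theorem sqJ_apply (a : W) : (s.sqJ J).1 a = s.ε • J.flip.symm (J a) := rfl

theorem wJ_sq : s.wJ J * s.wJ J = lev (s.sqJ J, 1) := by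
  refine iso_ext fun y => Prod.ext rfl (Prod.ext rfl (LinearMap.ext fun a => ?_))
  obtain ⟨b, rfl⟩ : ∃ b, a = (s.sqJ J).1 b :=
    ⟨((s.sqJ J)⁻¹ : (End F W)ˣ).1 a, by rw [← End.mul_apply, Units.mul_inv, End.one_apply]⟩
  rw [lev_apply, LinearMap.comp_apply, ← End.mul_apply, Units.inv_mul, End.one_apply, mul_apply,
    wJ_apply, wJ_apply, sqJ_apply, map_smul, map_smul, LinearMap.smul_apply, smul_smul, s.ε_sq,
    one_smul, ← LinearEquiv.flip_apply, J.flip.apply_symm_apply, ← LinearEquiv.flip_apply,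
    J.flip.apply_symm_apply]

variable {s}

theorem wJ_notMem [Nontrivial W] : s.wJ J ∉ s.Par W := fun h => by
  obtain ⟨a, ha⟩ := exists_ne (0 : W)
  exact ha (J.map_eq_zero_iff.1 (congrArg Prod.snd (mem_Par.1 h a)))

theorem wJ_opp {u : (s.hyp W).iso} (hu : u ∈ s.Uni W)
    (h : (s.wJ J)⁻¹ * u * s.wJ J ∈ s.Par W) : u = 1 := Uni_eq_one hu fun f => by
  obtain ⟨a, rfl⟩ := J.surjective f
  have h1 := mem_Par.1 h a
  rw [mul_apply, mul_apply, wJ_inv_apply, wJ_apply] at h1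
  simp only [map_zero, smul_zero, Prod.mk_eq_zero, smul_eq_zero, s.ε_ne, false_or,
    LinearEquiv.map_eq_zero_iff] at h1
  exact Prod.ext h1.2 (Prod.ext h1.1 (Uni_snd hu _))

/-- the big cell -/
theorem exists_cell {x : (s.hyp W).iso} (hx : ∀ a, (∀ c, (x (c, 0, 0)).2.2 a = 0) → a = 0) :
    ∃ u ∈ s.Uni W, ∃ p ∈ s.Par W, x = u * s.wJ J * p := by
  let X : W →ₗ[F] W × V × Dual F W := (x.1 : End F (W × V × Dual F W)) ∘ₗ LinearMap.inl F _ _
  let β : W →ₗ[F] Dual F W := LinearMap.snd F _ _ ∘ₗ LinearMap.snd F _ _ ∘ₗ X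
  have hβ : Function.Bijective β := by
    rw [← LinearMap.flip_bijective_iff₁]
    have hi : Function.Injective β.flip := (injective_iff_map_eq_zero _).2 fun a ha =>
      hx a fun c => LinearMap.congr_fun ha c
    exact ⟨hi, (LinearMap.injective_iff_surjective_of_finrank_eq_finrank
      (Subspace.dual_finrank_eq (K := F) (V := W)).symm).1 hi⟩
  let e := LinearEquiv.ofBijective β hβ
  obtain ⟨u, hu, hu'⟩ := exists_Uni (s := s) (X ∘ₗ e.symm.toLinearMap) (fun f => e.apply_symm_apply f)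
    (fun f => (iso_Q x _).trans (hQ_inl _)) fun f g => (iso_B x _ _).trans (hB_inl _ _)
  refine ⟨u, hu, (s.wJ J)⁻¹ * u⁻¹ * x, mem_Par.2 fun a => ?_, by group⟩
  have h1 : x (a, 0, 0) = u (0, 0, e a) := by
    rw [hu']
    exact congrArg X (e.symm_apply_apply a).symm
  rw [mul_apply, mul_apply, h1, inv_apply_apply, wJ_inv_apply]
  simp

end Weyl

end FSp

end Cfsg.Agent.DG
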