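import Cfsg.Agent.Lib.DG.Ord2

/-!
# Hyperbolic decomposition; primes dividing the order
-/

set_option autoImplicit false
set_option linter.unusedSectionVars false

namespace Cfsg.Agent.DG.FSp

open Module

variable {F V V' : Type*} [Field F] [AddCommGroup V] [Module F V] [AddCommGroup V'] [Module F V']
  {s : FSp F V} [FiniteDimensional F V]

theorem WI.congr {s' : FSp F V'} {w : ℕ} (h : s.WI w) (e : V ≃ₗ[F] V')
    (hQ : ∀ x, s'.Q (e x) = s.Q x) (hB : ∀ x y, s'.B (e x) (e y) = s.B x y) : s'.WI w := by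
  obtain ⟨M, h1, h2, h3⟩ := h
  refine ⟨M.map (e : V →ₗ[F] V'), ⟨?_, ?_⟩, (e.finrank_map_eq M).trans h2, fun v hv hv' => ?_⟩
  · rintro _ ⟨x, hx, rfl⟩; exact (hQ x).trans (h1.1 x hx)
  · rintro _ ⟨x, hx, rfl⟩ _ ⟨y, hy, rfl⟩; exact (hB x y).trans (h1.2 x hx y hy)
  · obtain ⟨v, rfl⟩ := e.surjective v
    exact ⟨v, h3 v (fun a ha => (hB v a).symm.trans (hv _ ⟨a, ha, rfl⟩)) ((hQ v).symm.trans hv'), rfl⟩

theorem WI.hyp {w : ℕ} (h : s.WI w) (W : Type*) [AddCommGroup W] [Module F W]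
    [FiniteDimensional F W] : (s.hyp W).WI (finrank F W + w) := by
  obtain ⟨M, h1, h2, h3⟩ := h
  let i : W × M →ₗ[F] W × V × Dual F W :=
    LinearMap.prodMap LinearMap.id ((LinearMap.inl F V _).comp M.subtype)
  have hi : Function.Injective i := fun x y e =>
    Prod.ext (congrArg Prod.fst e :) (Subtype.ext (congrArg (fun z => z.2.1) e :))
  refine ⟨LinearMap.range i, ⟨?_, ?_⟩, by rw [LinearMap.finrank_range_of_inj hi, finrank_prod, h2],
    fun v hv hv' => ?_⟩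
  · rintro _ ⟨x, rfl⟩; simp [i, hyp_Q, h1.1 _ x.2.2]
  · rintro _ ⟨x, rfl⟩ _ ⟨y, rfl⟩; simp [i, hyp_B, h1.2 _ x.2.2 _ y.2.2]
  · have e1 : v.2.2 = 0 := LinearMap.ext fun a => by
      simpa [i, hyp_B, s.ε_ne] using hv _ ⟨(a, 0), rfl⟩
    refine ⟨(v.1, ⟨v.2.1, h3 _ (fun a ha => ?_) (by simpa [hyp_Q, e1] using hv')⟩), by
      ext <;> simp [i, e1]⟩
    simpa [i, hyp_B] using hv _ ⟨(0, ⟨a, ha⟩), rfl⟩

variable (s) in
/-- restriction to a nondegenerate subspace -/
def res (U : Submodule F V) (h : ∀ x ∈ U, x ∈ s.perp U → x = 0) : FSp F U where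
  δ := s.δ
  Q x := s.Q x
  B := s.B.domRestrict₁₂ U U
  hδ := s.hδ
  add x y := s.add x y
  smul c x := s.smul c x
  self x := s.self x
  δQ x := s.δQ x
  nd x hx := Subtype.ext (h x x.2 fun y hy => hx ⟨y, hy⟩)

theorem TS.exists_opp {Z : Submodule F V} (hZ : s.TS Z) : ∃ σ : Dual F Z →ₗ[F] V,
    (∀ (z : Z) f, s.B z (σ f) = f z) ∧ s.TS (LinearMap.range σ) := by
  classical
  obtain ⟨σ, hσ⟩ := LinearMap.exists_rightInverse_of_surjective
    (Z.dualRestrict.comp s.B.flip) (LinearMap.range_eq_top.2 fun f => by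
      obtain ⟨g, rfl⟩ := Subspace.dualRestrict_surjective (W := Z) f
      obtain ⟨w, hw⟩ := s.exists_rep g
      exact ⟨w, LinearMap.ext fun z => hw z⟩)
  replace hσ : ∀ (z : Z) f, s.B z (σ f) = f z := fun z f =>
    LinearMap.congr_fun (LinearMap.congr_fun hσ f) z
  let b := finBasis F (Dual F Z)
  let β : LinearMap.BilinForm F (Dual F Z) := Matrix.toBilin b (Matrix.of fun i j =>
    if i < j then s.B (σ (b i)) (σ (b j)) else if i = j then s.Q (σ (b i)) else 0)
  have hβ : ∀ i j, β (b i) (b j) =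
      if i < j then s.B (σ (b i)) (σ (b j)) else if i = j then s.Q (σ (b i)) else 0 := fun i j => by
    rw [← LinearMap.BilinForm.toMatrix_apply b β, LinearMap.BilinForm.toMatrix_toBilin]; rfl
  let τ : Dual F Z →ₗ[F] Z := (evalEquiv F Z).symm.toLinearMap.comp β
  have hτ : ∀ f f' : Dual F Z, f' (τ f) = β f f' := fun f f' => apply_evalEquiv_symm_apply _ _ _ _
  have h1 : ∀ f f', s.B ((σ - Z.subtype.comp τ) f) ((σ - Z.subtype.comp τ) f') = 0 := by
    have : s.B.compl₁₂ (σ - Z.subtype.comp τ) (σ - Z.subtype.comp τ) = 0 :=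
      LinearMap.ext_basis b b fun i j => by
        simp only [LinearMap.compl₁₂_apply, LinearMap.sub_apply, LinearMap.comp_apply, map_sub,
          Submodule.subtype_apply, hσ, s.symm (τ (b j) : V) (σ _), hτ, hβ,
          hZ.2 _ (τ _).2 _ (τ _).2, LinearMap.zero_apply]
        rcases lt_trichotomy i j with h | rfl | h
        · simp [h, h.not_gt, h.ne']
        · have := s.δQ (σ (b i))
          simp only [lt_irrefl, if_false, if_true, s.self, ε]
          linear_combination -2 * this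
        · simp [h, h.not_gt, h.ne', s.symm (σ (b j))]
    exact fun f f' => LinearMap.congr_fun₂ this f f'
  refine ⟨σ - Z.subtype.comp τ, fun z f => by simp [hσ, hZ.2 _ z.2 _ (τ _).2], ?_, ?_⟩
  · rintro _ ⟨f, rfl⟩
    induction (b.mem_span f) using Submodule.span_induction with
    | mem _ h =>
      obtain ⟨i, rfl⟩ := h
      have h2 := s.δQ (σ (b i))
      have h3 := s.δ_ε
      simp only [LinearMap.sub_apply, LinearMap.comp_apply, Q_sub, Submodule.subtype_apply,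
        s.symm (τ (b i) : V) (σ _), hσ, hτ, hβ, hZ.1 _ (τ _).2, lt_irrefl, if_false, if_true]
      linear_combination -h2 - s.Q (σ (b i)) * h3
    | zero => simp
    | add x y _ _ hx hy => rw [map_add, s.add, hx, hy, h1]; simp
    | smul c x _ hx => rw [map_smul, s.smul, hx, mul_zero]
  · rintro _ ⟨f, rfl⟩ _ ⟨f', rfl⟩; exact h1 f f'

theorem TS.exists_hyp {Z : Submodule F V} (hZ : s.TS Z) :
    ∃ (U : Submodule F V) (s₀ : FSp F U) (e : (Z × U × Dual F Z) ≃ₗ[F] V), s₀.δ = s.δ ∧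
      (∀ x, s.Q (e x) = (s₀.hyp Z).Q x) ∧ ∀ x y, s.B (e x) (e y) = (s₀.hyp Z).B x y := by
  obtain ⟨σ, hσ, hT⟩ := hZ.exists_opp
  let U := s.perp (Z ⊔ LinearMap.range σ)
  have u1 : ∀ (u : U) (z : Z), s.B u z = 0 := fun u z => u.2 _ (Submodule.mem_sup_left z.2)
  have u2 : ∀ (u : U) f, s.B u (σ f) = 0 := fun u f => u.2 _ (Submodule.mem_sup_right ⟨f, rfl⟩)
  have t1 : ∀ f f', s.B (σ f) (σ f') = 0 := fun f f' => hT.2 _ ⟨f, rfl⟩ _ ⟨f', rfl⟩
  have hU : ∀ x ∈ U, x ∈ s.perp U → x = 0 := fun x hx hx' => by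
    rw [perp_perp] at hx'
    obtain ⟨z, hz, _, ⟨f, rfl⟩, rfl⟩ := Submodule.mem_sup.1 hx'
    have e1 : f = 0 := LinearMap.ext fun a => by
      have := s.B_eq_zero_comm (u1 ⟨_, hx⟩ a)
      simpa [hσ, hZ.2 _ a.2 _ hz] using this
    have e2 : (⟨z, hz⟩ : Z) = 0 := (forall_dual_apply_eq_zero_iff F _).1 fun g => by
      simpa [e1, ← hσ] using u2 ⟨_, hx⟩ g
    simp [e1, show z = 0 from congrArg Subtype.val e2]
  let e : Z × U × Dual F Z →ₗ[F] V := Z.subtype.coprod (U.subtype.coprod σ)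
  have hB : ∀ x y, s.B (e x) (e y) = ((s.res U hU).hyp Z).B x y := fun x y => by
    simp [e, hyp_B, hσ, u1, u2, t1, hZ.2 _ x.1.2 _ y.1.2, s.B_eq_zero_comm (u1 _ _),
      s.B_eq_zero_comm (u2 _ _), s.symm (y.1 : V) (σ _), res, ε]
    rw [LinearMap.domRestrict₁₂_apply]
    ring
  have hi : Function.Injective e := (injective_iff_map_eq_zero e).2 fun x hx =>
    ((s.res U hU).hyp Z).nd x fun y => by rw [← hB, hx]; simp
  refine ⟨U, s.res U hU, LinearEquiv.ofInjectiveOfFinrankEq e hi ?_, rfl, fun x => ?_, hB⟩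
  · have h1 := LinearMap.finrank_le_finrank_of_injective hi
    have h2 := finrank_perp (s := s) (Z ⊔ LinearMap.range σ)
    have h3 := Submodule.finrank_add_le_finrank_add_finrank Z (LinearMap.range σ)
    have h4 := LinearMap.finrank_range_le σ
    simp only [finrank_prod] at h1 ⊢
    simp only [U] at h1 ⊢
    omega
  · show s.Q (e x) = _
    simp [e, hyp_Q, s.add, hσ, u2, hZ.1 _ x.1.2, hT.1 _ ⟨_, rfl⟩, s.B_eq_zero_comm (u1 _ _), res]
    ring

section fin
variable [Fintype F] [Finite V]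

local notation "q" => Fintype.card F

theorem Ty.exists_hyp {t : Typ} {m k : ℕ} (h : s.Ty t m) (hk : k ≤ DG.wi t m) :
    ∃ (Z U : Submodule F V) (s₀ : FSp F U) (e : (Z × U × Dual F Z) ≃ₗ[F] V), finrank F Z = k ∧
      s₀.Ty t (m - k) ∧ (s₀.hyp Z).Ty t m ∧ (∀ x, s.Q (e x) = (s₀.hyp Z).Q x) ∧
      ∀ x y, s.B (e x) (e y) = (s₀.hyp Z).B x y := by
  obtain ⟨M, h1, h2, -⟩ := h.wi
  obtain ⟨f, hf⟩ := exists_linearIndependent_of_le_finrank (h2 ▸ hk : k ≤ finrank F M)
  have d := finrank_span_eq_card (hf.map' _ M.ker_subtype)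
  rw [Fintype.card_fin] at d
  obtain ⟨U, s₀, e, h3, hQ, hB⟩ := (h1.mono (A := Submodule.span F (Set.range (M.subtype ∘ f)))
    (Submodule.span_le.2 (by rintro _ ⟨i, rfl⟩; exact (f i).2))).exists_hyp
  obtain ⟨M₀, -, m1, m2⟩ := (ts_bot (s := s₀)).exists_max
  have w0 : s₀.WI _ := ⟨M₀, m1, rfl, m2⟩
  obtain ⟨M₁, m3, m4, m5⟩ := (w0.hyp _).congr e hQ hB
  rw [h.wi.finrank_max m3 m5, d] at m4
  have d1 := e.finrank_eq
  have d2 := d1
  have w1 := w0.hyp (Submodule.span F (Set.range (M.subtype ∘ f)))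
  rw [d, ← m4] at w1
  rw [finrank_prod, finrank_prod, Subspace.dual_finrank_eq, d] at d1
  refine ⟨_, U, s₀, e, d, ?_, ?_, hQ, hB⟩
  · cases t <;> simp only [DG.wi] at m4 hk
    · exact ⟨h3.trans h.1, by have := h.2.1; omega, by convert w0; omega⟩
    · exact ⟨h3.trans h.1, by have := h.2.1; omega, by convert w0; omega⟩
    · exact ⟨h3.trans h.1, by have := h.2.1; omega, by convert w0; omega⟩
    · have := h.2.2.2
      exact ⟨h3.trans h.1, by have := h.2.1; omega, by convert w0; omega, by omega⟩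
  · cases t
    · exact ⟨h3.trans h.1, d2.trans h.2.1, w1⟩
    · exact ⟨h3.trans h.1, d2.trans h.2.1, w1⟩
    · exact ⟨h3.trans h.1, d2.trans h.2.1, w1⟩
    · exact ⟨h3.trans h.1, d2.trans h.2.1, w1, h.2.2.2⟩

theorem exists_fix {r : ℕ} [Fact r.Prime] {g : s.iso} (hg : g ^ r = 1) (S : Set V)
    (hS : ∀ k ∈ Subgroup.zpowers g, ∀ v ∈ S, k v ∈ S) (h : ¬ r ∣ Nat.card S) :
    ∃ v ∈ S, g v = v := by
  letI : MulAction (Subgroup.zpowers g) S :=
    { smul := fun k v => ⟨k.1 v, hS _ k.2 _ v.2⟩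
      one_smul := fun _ => rfl
      mul_smul := fun _ _ _ => rfl }
  have hp : IsPGroup r (Subgroup.zpowers g) := fun ⟨_, n, rfl⟩ => ⟨1, Subtype.ext (by
    show (g ^ n) ^ r ^ 1 = 1
    rw [pow_one, ← zpow_natCast, ← zpow_mul, mul_comm, zpow_mul, zpow_natCast, hg, one_zpow])⟩
  obtain ⟨v, hv⟩ := hp.nonempty_fixed_point_of_prime_not_dvd_card S h
  exact ⟨v, v.2, congrArg Subtype.val (hv ⟨g, Subgroup.mem_zpowers g⟩)⟩

variable (s) in
/-- pointwise stabilizer -/
def fixS (A : Submodule F V) : Subgroup s.iso where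
  carrier := {g | ∀ a ∈ A, g a = a}
  one_mem' _ _ := rfl
  mul_mem' {g h} hg hh a ha := by rw [mul_apply, hh a ha, hg a ha]
  inv_mem' {g} hg a ha := by conv_lhs => rw [← hg a ha, inv_apply_apply]

theorem fixS_sup {A : Submodule F V} {g : s.iso} (h : g ∈ s.fixS A) {v : V} (hv : g v = v) :
    g ∈ s.fixS (A ⊔ F ∙ v) := fun a ha => by
  obtain ⟨b, hb, _, hd, rfl⟩ := Submodule.mem_sup.1 ha
  obtain ⟨d, rfl⟩ := Submodule.mem_span_singleton.1 hd
  rw [map_add, map_smul, hv, h b hb]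

theorem fixS_perp {A : Submodule F V} {g : s.iso} (h : g ∈ s.fixS A) {v : V}
    (hv : v ∈ s.perp A) : g v ∈ s.perp A := fun a ha => by rw [← h a ha, iso_B, hv a ha]

theorem fixS_not {A : Submodule F V} {g : s.iso} (h : g ∈ s.fixS A) {v : V}
    (hv : v ∉ A) : g v ∉ A := fun e => hv (iso_inj g (h _ e) ▸ e)

theorem Ty.pr {t : Typ} {m r : ℕ} (h : s.Ty t m) (hr : r.Prime) (hd : r ∣ Nat.card s.iso) :
    Pr t q m r := by
  haveI := Fact.mk hr
  refine ⟨hr, ?_⟩
  by_contra! hc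
  obtain ⟨c1, c2, c3⟩ := hc
  obtain ⟨g, hg⟩ := exists_prime_orderOf_dvd_card' r hd
  have hgr : g ^ r = 1 := hg ▸ pow_orderOf_eq_one g
  have h1 : ∀ k ≤ DG.wi t m, ∃ A, s.TS A ∧ finrank F A = k ∧ g ∈ s.fixS A := fun k hk => by
    induction k with
    | zero => exact ⟨⊥, ts_bot, finrank_bot _ _, fun a ha => by simp [(Submodule.mem_bot F).1 ha]⟩
    | succ k ih =>
      obtain ⟨A, a1, rfl, a3⟩ := ih (by omega)
      obtain ⟨v, hv, hv'⟩ := exists_fix hgr {v | (s.Q v = 0 ∧ v ∈ s.perp A) ∧ v ∉ A}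
        (fun k hk v hv => have := (Subgroup.zpowers_le.2 a3) hk
          ⟨⟨(iso_Q k v).trans hv.1.1, fixS_perp this hv.1.2⟩, fixS_not this hv.2⟩) fun e => by
          have e : r ∣ _ := (h.card_ext a1) ▸ e
          exact (hr.dvd_mul.1 e).elim (fun e => c1 (hr.dvd_of_dvd_pow e)) (c3 _ hk)
      exact ⟨_, a1.sup hv.1.1 hv.1.2, finrank_sup_one hv.2, fixS_sup a3 hv'⟩
  obtain ⟨M, m1, m2, m3⟩ := h1 _ le_rfl
  have d1 := finrank_perp (s := s) M
  have d2 : finrank F (s.perp M) ≤ finrank F M + 2 := by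
    cases t <;> simp only [DG.wi] at m2 <;> have := h.2.1 <;> omega
  have h2 : ∀ n A, M ≤ A → A ≤ s.perp M → finrank F A + n = finrank F (s.perp M) →
      g ∈ s.fixS A → g ∈ s.fixS (s.perp M) := fun n => by
    induction n with
    | zero => exact fun A _ a2 a3 a4 => Submodule.eq_of_le_of_finrank_eq a2 a3 ▸ a4
    | succ n ih =>
      intro A a1 a2 a3 a4
      obtain ⟨v, hv, hv'⟩ := exists_fix hgr {v | v ∈ s.perp M ∧ v ∉ A}
        (fun k hk v hv => ⟨fixS_perp ((Subgroup.zpowers_le.2 m3) hk) hv.1,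
          fixS_not ((Subgroup.zpowers_le.2 a4) hk) hv.2⟩) fun e => by
          have e1 := Set.ncard_sdiff (SetLike.coe_subset_coe.2 a2)
          rw [← Nat.card_coe_set_eq, ← Nat.card_coe_set_eq, ← Nat.card_coe_set_eq] at e1
          have e : r ∣ _ := e1 ▸ e
          erw [card_sub, card_sub] at e
          rw [← a3, pow_add, ← Nat.mul_sub_one] at e
          refine (hr.dvd_mul.1 e).elim (fun e => c1 (hr.dvd_of_dvd_pow e)) fun e => c2 (e.trans ?_)
          have := Submodule.finrank_mono a1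
          simpa using Nat.sub_dvd_pow_sub_pow (q ^ (n + 1)) 1 (2 / (n + 1)) |>.trans (by
            obtain rfl | rfl : n = 0 ∨ n = 1 := by omega
            all_goals simp)
      exact ih _ (a1.trans le_sup_left) (sup_le a2
        ((Submodule.span_singleton_le_iff_mem _ _).2 hv.1)) (by rw [finrank_sup_one hv.2]; omega)
        (fixS_sup a4 hv')
  have h3 := h2 _ M le_rfl m1.le_perp (Nat.add_sub_cancel' (Submodule.finrank_mono m1.le_perp)) m3
  have h4 : ∀ v, g v - v ∈ s.perp M := fun v a ha => by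
    rw [map_sub, LinearMap.sub_apply, sub_eq_zero, ← iso_B g v, m3 a ha]
  have h5 : ∀ (n : ℕ) v, (g ^ n) v = v + (n : F) • (g v - v) := fun n v => by
    induction n with
    | zero => simp
    | succ n ih => rw [pow_succ', mul_apply, ih, map_add, map_smul, h3 _ (h4 v)]; push_cast; module
  have h6 : g = 1 := iso_ext fun v => by
    have := h5 r v
    rw [hgr, one_apply, left_eq_add, smul_eq_zero, sub_eq_zero] at this
    refine this.resolve_left fun e => c1 ?_
    obtain ⟨p, hp⟩ := CharP.exists F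
    obtain ⟨n, h1, h2⟩ := FiniteField.card F p
    rw [CharP.cast_eq_zero_iff F p, Nat.prime_dvd_prime_iff_eq h1 hr] at e
    rw [h2, e]
    exact dvd_pow_self _ n.ne_zero
  rw [h6, orderOf_one] at hg
  exact hr.one_lt.ne hg

end fin

end Cfsg.Agent.DG.FSp
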