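import Cfsg.Agent.Lib.DG.HC1b
import Cfsg.Agent.Lib.DG.HC2
import Cfsg.Agent.Lib.DG.Ord3
import Cfsg.Agent.Lib.DG.Cu7

/-!
# Vanishing of the Mackey terms of a Harish-Chandra induction
-/

set_option autoImplicit false
set_option linter.unusedSectionVars false

namespace Cfsg.Agent.DG

open Cfsg Cfsg.Agent.Char Cfsg.Agent.Ind Module
open scoped ComplexConjugate

universe v

variable {F V W : Type*} [Field F] [AddCommGroup V] [Module F V] [AddCommGroup W] [Module F W]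
  [Finite F] [Finite V] [Finite W]

/-- the properties of a cuspidal character of `GL(W)` that are used -/
structure CuS (ψ : (End F W)ˣ → ℂ) : Prop where
  irr : IsIrrCharacter _ ψ
  uw : ∀ D : Submodule F W, D ≠ ⊥ → D ≠ ⊤ → ∀ [Fintype (UW D)], ∑ u : UW D, ψ u = 0
  dual : ∀ (J : W ≃ₗ[F] Dual F W) m, ψ (FSp.alJ J m) = ψ m⁻¹

theorem Cusp.cuS {W : Type v} [AddCommGroup W] [Module F W] [Finite W] {k a : ℕ}
    {f : Polynomial F → ℂ} {ω : Fˣ →* ℂˣ} (h : Cusp.{v} F k a f ω) (hW : finrank F W = k) :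
    CuS fun g : (End F W)ˣ => cu f (g : End F W) where
  irr := h.irr W hW
  uw D h0 h1 _ := by simpa using (prim_cu h.add).sum_UW h0 h1 1 fun _ hx => hx
  dual J m := by
    rw [← h.dual W hW m⁻¹]
    exact (cu_equiv f J fun a => (FSp.alJ_apply J m a).symm).symm

theorem CuS.kill {ψ : (End F W)ˣ → ℂ} (hψ : CuS ψ) {N : Type*} [Group N] [Fintype N]
    (f : N →* (End F W)ˣ) {D : Submodule F W} (h0 : D ≠ ⊥) (h1 : D ≠ ⊤)
    (h : ∀ d ∈ D, ∀ g : Dual F W, (∀ a ∈ D, g a = 0) → ∃ n, ∀ a, (f n).1 a = a + g a • d) :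
    ∑ n, ψ (f n) = 0 := by
  have := Fintype.ofFinite (UW D)
  refine sum_eq_zero_of_range (isChar_of_isIrr hψ.irr) f (UW D).subtype (fun u => ?_)
    (hψ.uw D h0 h1)
  let b := Module.finBasis F D
  let n : W →ₗ[F] D := (u.1.1 - 1).codRestrict D u.2.1
  have key : (∑ i, (b.coord i ∘ₗ n).smulRight (b i : W)) ∈ NW D ∧
      ∃ m, (f m).1 = 1 + ∑ i, (b.coord i ∘ₗ n).smulRight (b i : W) := by
    refine Finset.sum_induction _ (fun r : End F W => r ∈ NW D ∧ ∃ m, (f m).1 = 1 + r) ?_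
      ⟨zero_mem _, 1, by simp⟩ fun i _ => ?_
    · rintro r r' ⟨hr, m, hm⟩ ⟨hr', m', hm'⟩
      refine ⟨add_mem hr hr', m * m', ?_⟩
      have : r * r' = 0 := LinearMap.ext fun v => hr.2 _ (hr'.1 v)
      rw [map_mul, Units.val_mul, hm, hm', add_mul, mul_add, mul_add, this]
      simp [add_assoc, add_comm r]
    · have h2 : ∀ a ∈ D, (b.coord i ∘ₗ n) a = 0 := fun a ha => by
        rw [LinearMap.comp_apply, show n a = 0 from Subtype.ext (u.2.2 a ha), map_zero]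
      obtain ⟨m, hm⟩ := h _ (b i).2 _ h2
      exact ⟨⟨fun v => D.smul_mem _ (b i).2, fun a ha => by
        rw [LinearMap.smulRight_apply, h2 a ha, zero_smul]⟩, m, LinearMap.ext hm⟩
  obtain ⟨-, m, hm⟩ := key
  refine ⟨m, Units.ext (hm.trans (LinearMap.ext fun v => ?_))⟩
  have h3 := congrArg Subtype.val (b.sum_repr (n v))
  simp only [LinearMap.add_apply, End.one_apply, LinearMap.sum_apply, LinearMap.smulRight_apply,
    LinearMap.comp_apply, Basis.coord_apply]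
  rw [AddSubmonoidClass.coe_finsetSum] at h3
  simp only [Submodule.coe_smul] at h3
  rw [h3]
  simp [n]

theorem exists_conj_hom {G : Type*} [Group G] {P : Subgroup G} (M : Subgroup P) (x : G)
    (h : ∀ m : M, x⁻¹ * m * x ∈ P) : ∃ b : M →* P, ∀ m, (b m : G) = x⁻¹ * m * x :=
  ⟨((MulAut.conj x⁻¹).toMonoidHom.comp (P.subtype.comp M.subtype)).codRestrict P fun m => by
    simpa using h m, fun m => by simp⟩

theorem sum_eq_zero_of_perm {M H Z : Type*} [Group M] [Fintype M] [Group H] [MulAction H Z]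
    [Finite Z] {χ : M → ℂ} (hχ : IsCharacter M χ) (c : M →* H) {η ξ : H → ℂ}
    (hη : IsCharacter H η) (hξ : IsCharacter H ξ)
    (h : ∀ g : H, (Nat.card {z : Z // g • z = z} : ℂ) = η g + ξ g)
    (key : ∀ (z : Z) (N : Subgroup M) [Fintype N], (∀ m, c m • z = z → m ∈ N) →
      ∑ n : N, χ n = 0) : ∑ m, χ m * conj (η (c m)) = 0 := by
  classical
  have := Fintype.ofFinite Z
  obtain ⟨n, hn⟩ := exists_nat_inner hχ (isChar_comp hη c)
  obtain ⟨n', hn'⟩ := exists_nat_inner hχ (isChar_comp hξ c)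
  have h1 : ∀ z : Z, ∑ m : M, (if c m • z = z then χ m else 0) = 0 := fun z => by
    refine ((Finset.sum_congr rfl fun m _ => ?_).trans (sum_ebz _ _)).trans
      (key z ((MulAction.stabilizer H z).comap c) fun _ h => h)
    split_ifs with h
    · rw [ebz_of_mem _ _ (show m ∈ (MulAction.stabilizer H z).comap c from h)]
    · rw [ebz_of_not_mem _ _ (show m ∉ (MulAction.stabilizer H z).comap c from h)]
  have h2 : (n : ℂ) + n' = 0 := by
    rw [← hn, ← hn', classInner, classInner, ← mul_add, ← Finset.sum_add_distrib]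
    refine mul_eq_zero_of_right _ (((Finset.sum_congr rfl fun m _ => ?_).trans
      Finset.sum_comm).trans (Finset.sum_eq_zero fun z (_ : z ∈ Finset.univ) => h1 z))
    rw [← mul_add, ← map_add, ← h, map_natCast, ← Finset.sum_filter, Finset.sum_const, nsmul_eq_mul,
      mul_comm, Nat.card_eq_fintype_card, Fintype.card_subtype]
  have h3 : n = 0 := by
    have : n + n' = 0 := by exact_mod_cast h2
    omega
  rwa [h3, classInner, Nat.cast_zero, mul_eq_zero, inv_eq_zero,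
    or_iff_right (card_ne_zero' M)] at hn

namespace FSp

variable {s : FSp F V}

theorem pi1_apply (g : s.Par W) (a : W) : (pi1 g).1 a = (g.1 (a, 0, 0)).1 := rfl

/-- the character of the parabolic subgroup -/
noncomputable def phi (ψ : (End F W)ˣ → ℂ) (η : s.iso → ℂ) (p : s.Par W) : ℂ :=
  ψ (pi1 p) * η (pi2 p)

theorem phi_one (ψ : (End F W)ˣ → ℂ) (η : s.iso → ℂ) : phi ψ η 1 = ψ 1 * η 1 := by simp [phi]

theorem phi_levP (ψ : (End F W)ˣ → ℂ) (η : s.iso → ℂ) (p : (End F W)ˣ × s.iso) :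
    phi ψ η (levP p) = ψ p.1 * η p.2 := by simp [phi]

theorem phi_Uni (ψ : (End F W)ˣ → ℂ) (η : s.iso → ℂ) (u : s.Par W) (hu : u.1 ∈ s.Uni W) :
    phi ψ η u = phi ψ η 1 := by
  obtain ⟨h1, h2⟩ := mem_Uni_iff.1 hu
  rw [phi_one, phi, h1, h2]

theorem isIrr_phi {ψ : (End F W)ˣ → ℂ} {η : s.iso → ℂ} (hψ : IsIrrCharacter _ ψ)
    (hη : IsIrrCharacter _ η) : IsIrrCharacter _ (phi ψ η) := by
  have := Fintype.ofFinite (End F W)ˣ
  have := Fintype.ofFinite s.iso
  refine isIrr_comp_of_surjective (χ := fun x : (End F W)ˣ × s.iso => ψ x.1 * η x.2) ?_ pi pi_surj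
  refine isIrr_of_isChar_of_inner_self (isChar_prod (isChar_of_isIrr hψ) (isChar_of_isIrr hη)) ?_
  have h1 := inner_self_of_isIrr hψ
  have h2 := inner_self_of_isIrr hη
  simp only [classInner] at h1 h2 ⊢
  rw [Fintype.sum_prod_type, Nat.card_prod, Nat.cast_mul, mul_inv, ← mul_one (1 : ℂ)]
  nth_rw 1 [← h1]
  rw [← h2, mul_mul_mul_comm, Finset.sum_mul_sum]
  congr 1
  exact Finset.sum_congr rfl fun _ _ => Finset.sum_congr rfl fun _ _ => by rw [map_mul]; ring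

theorem isChar_twist {G : Type*} [Group G] {P : Subgroup G} {φ : P → ℂ} (hφ : IsCharacter P φ)
    (lam : G →* ℂˣ) : IsCharacter P fun p => φ p * lam p :=
  isChar_mul hφ (isChar_restrict (isChar_of_isIrr (isIrr_unitsHom lam)) P)

/-- extension of a functional on `W` by zero on a subspace -/
theorem exists_ext {N : Type*} [AddCommGroup N] [Module F N] (Φ : N →ₗ[F] W × V × Dual F W)
    (g : Dual F W) (h : ∀ a n, (a, 0, 0) = Φ n → g a = 0) :
    ∃ b : W × V × Dual F W, (∀ n, (s.hyp W).B (Φ n) b = 0) ∧ b.2.2 = g := by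
  have h1 : g ∘ₗ LinearMap.fst F W N ∈
      LinearMap.range ((LinearMap.inl F W (V × Dual F W)).coprod Φ).dualMap := by
    rw [LinearMap.range_dualMap_eq_dualAnnihilator_ker, Submodule.mem_dualAnnihilator]
    exact fun y hy => h y.1 (-y.2) (by rw [map_neg]; exact eq_neg_of_add_eq_zero_left hy)
  obtain ⟨k, hk⟩ := h1
  obtain ⟨b, hb⟩ := exists_rep (s := s.hyp W) k
  refine ⟨b, fun n => ?_, LinearMap.ext fun a => ?_⟩
  · have := LinearMap.congr_fun hk (0, n)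
    rw [LinearMap.dualMap_apply, LinearMap.coprod_apply, map_zero, zero_add] at this
    rw [hb, this]
    exact g.map_zero
  · have := LinearMap.congr_fun hk (a, 0)
    rw [LinearMap.dualMap_apply, LinearMap.coprod_apply, map_zero, add_zero] at this
    rw [← hB_inl (s := s), hb]
    exact this

/-- an Eichler transformation based at a vector of `W` -/
theorem exists_eich (d : W) (b : W × V × Dual F W) (h : b.2.2 d = 0) :
    ∃ (m : s.Par W) (h1 h2 : _), m.1 = (s.hyp W).eich (d, 0, 0) b 0 h1 h2 ∧ pi2 m = 1 ∧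
      ∀ a, (pi1 m).1 a = a - (s.ε * b.2.2 a) • d := by
  have h2 : (s.hyp W).B b (d, 0, 0) = 0 := by rw [hB_inl', h, mul_zero]
  have h3 : ∀ a, (s.hyp W).eich (d, 0, 0) b 0 (hQ_inl d) h2 (a, 0, 0) =
      (a - (s.ε * b.2.2 a) • d, 0, 0) := fun a => by simp [eich_apply, hB_inl, Prod.ext_iff]
  refine ⟨⟨(s.hyp W).eich (d, 0, 0) b 0 (hQ_inl d) h2, mem_Par.2 fun a => by rw [h3]; rfl⟩, hQ_inl d, h2, rfl, iso_ext fun v => ?_,
    fun a => congrArg Prod.fst (h3 a)⟩
  simp [pi2_apply, eich_apply, hB_inl', one_apply]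

/-- the torus of a hyperbolic pair -/
noncomputable def tor (e b : V) (he : s.Q e = 0) (hb : s.Q b = 0) (h : s.B e b = 1) (μ : Fˣ) :
    s.iso :=
  s.mkIso
    { toFun := fun y => y + ((μ - 1) * s.B y b) • e + ((↑μ⁻¹ - 1) * s.B e y) • b
      map_add' := fun x y => by simp only [map_add, LinearMap.add_apply]; module
      map_smul' := fun c x => by
        simp only [map_smul, LinearMap.smul_apply, smul_eq_mul, RingHom.id_apply]; module }
    (fun y => by
      have h1 := s.δ_ε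
      have h2 := μ.mul_inv
      simp only [LinearMap.coe_mk, AddHom.coe_mk, s.add, s.smul, he, hb, h, map_add, map_smul,
        LinearMap.add_apply, LinearMap.smul_apply, smul_eq_mul, s.symm e y]
      linear_combination ((μ - 1) * s.B y b * s.B e y) * h1 + s.δ * s.B y b * s.B e y * h2)
    (fun y z => by
      have h2 := μ.mul_inv
      simp only [LinearMap.coe_mk, AddHom.coe_mk, h, map_add, map_smul, B_self he, B_self hb,
        LinearMap.add_apply, LinearMap.smul_apply, smul_eq_mul, s.symm e y, s.symm z b, s.symm e b]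
      linear_combination (s.ε * s.B e y * s.B z b + s.B y b * s.B e z) * h2)

theorem tor_apply (e b : V) (he : s.Q e = 0) (hb : s.Q b = 0) (h : s.B e b = 1) (μ : Fˣ) (y : V) :
    tor e b he hb h μ y = y + ((μ - 1) * s.B y b) • e + ((↑μ⁻¹ - 1) * s.B e y) • b := rfl

/-- the image of `W` under `x`, as a linear map -/
noncomputable def img (x : (s.hyp W).iso) : W →ₗ[F] W × V × Dual F W :=
  (x.1 : End F (W × V × Dual F W)) ∘ₗ LinearMap.inl F _ _

theorem img_apply (x : (s.hyp W).iso) (c : W) : img x c = x (c, 0, 0) := rfl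

theorem perp_TS {x : (s.hyp W).iso} (hE : ∀ c, (x (c, 0, 0)).2.2 = 0)
    (hD : ∀ a c, (a, 0, 0) = x (c, 0, 0) → a = 0) : Nonempty (s.TSk (finrank F W)) := by
  let τ : W →ₗ[F] V := LinearMap.fst F _ _ ∘ₗ LinearMap.snd F _ _ ∘ₗ img x
  refine ⟨⟨LinearMap.range τ, ⟨?_, ?_⟩, LinearMap.finrank_range_of_inj
    ((injective_iff_map_eq_zero _).2 fun c hc => ?_)⟩⟩
  · rintro _ ⟨c, rfl⟩
    simpa [hyp_Q, hE, τ, img_apply] using iso_Q x (c, 0, 0)
  · rintro _ ⟨c, rfl⟩ _ ⟨c', rfl⟩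
    simpa [hyp_B, hE, τ, img_apply] using iso_B x (c, 0, 0) (c', 0, 0)
  · have h1 : ((x (c, 0, 0)).1, 0, 0) = x (c, 0, 0) := Prod.ext rfl (Prod.ext hc.symm (hE c).symm)
    rw [hD _ _ h1] at h1
    exact congrArg Prod.fst (iso_inj x (h1.symm.trans (iso_zero x).symm))

variable [Fintype (s.hyp W).iso] {ψ : (End F W)ˣ → ℂ} {η : s.iso → ℂ}

theorem TT2_van_of (hψ : CuS ψ) (hη : IsIrrCharacter _ η) (lam : (s.hyp W).iso →* ℂˣ)
    {x : (s.hyp W).iso} {D : Submodule F W} (h0 : D ≠ ⊥) (h1 : D ≠ ⊤)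
    (h : ∀ d ∈ D, ∀ g : Dual F W, (∀ a ∈ D, g a = 0) → ∃ m : s.Par W, pi2 m = 1 ∧
      x⁻¹ * m * x ∈ s.Uni W ∧ lam m = 1 ∧ ∀ a, (pi1 m).1 a = a + g a • d) :
    TT2 (s.Par W) (phi ψ η) (fun p => phi ψ η p * lam p) x = 0 := by
  have hφ := isChar_of_isIrr (isIrr_phi hψ.irr hη)
  obtain ⟨M, hM⟩ : ∃ M : Subgroup (s.Par W), ∀ m, m ∈ M ↔
      (pi2 m = 1 ∧ x⁻¹ * m * x ∈ s.Uni W) ∧ lam m = 1 :=
    ⟨pi2.ker ⊓ (s.Uni W).comap ((MulAut.conj x⁻¹).toMonoidHom.comp (s.Par W).subtype) ⊓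
      (lam.comp (s.Par W).subtype).ker, fun m => by simp⟩
  have := Fintype.ofFinite M
  obtain ⟨b, hb⟩ := exists_conj_hom M x fun m => Uni_le ((hM _).1 m.2).1.2
  refine TT2_eq_zero hφ (isChar_twist hφ lam) M.subtype b hb ?_
  have h2 := hψ.kill (pi1.comp M.subtype) h0 h1 fun d hd g hg => by
    obtain ⟨m, a1, a2, a3, a4⟩ := h d hd g hg
    exact ⟨⟨m, (hM m).2 ⟨⟨a1, a2⟩, a3⟩⟩, a4⟩
  refine (Finset.sum_congr rfl fun m _ => ?_).trans (((Finset.sum_mul _ _
    (η 1 * conj (phi ψ η 1))).symm.trans (congrArg (· * _) h2)).trans (zero_mul _))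
  have a1 := ((hM _).1 m.2).1.1
  have a2 := ((hM _).1 m.2).1.2
  have a3 := ((hM _).1 m.2).2
  have a4 : lam (b m) = 1 := by
    rw [hb, map_mul, map_mul, a3, mul_one, ← map_mul, inv_mul_cancel, map_one]
  have a5 := phi_Uni ψ η (b m) (by rwa [hb])
  have a6 : phi ψ η m = ψ (pi1 m.1) * η 1 := by rw [phi, a1]
  simp only [a4, a5, a6, Units.val_one, mul_one, Subgroup.coe_subtype, mul_assoc,
    MonoidHom.comp_apply]

/-- the Mackey term vanishes unless `xW` is equal, opposite or orthogonal to `W` -/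
theorem TT2_van (hψ : CuS ψ) (hη : IsIrrCharacter _ η) (lam : (s.hyp W).iso →* ℂˣ)
    (hl : HasE lam.ker) {x : (s.hyp W).iso} (hx : x ∉ s.Par W)
    (h1 : ¬ ∀ a, (∀ c, (x (c, 0, 0)).2.2 a = 0) → a = 0)
    (h2 : ¬ ((∀ c, (x (c, 0, 0)).2.2 = 0) ∧ ∀ a c, (a, 0, 0) = x (c, 0, 0) → a = 0)) :
    TT2 (s.Par W) (phi ψ η) (fun p => phi ψ η p * lam p) x = 0 := by
  by_cases hE : ∀ c, (x (c, 0, 0)).2.2 = 0
  · let D : Submodule F W := (LinearMap.range (img x)).comap (LinearMap.inl F _ _)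
    refine TT2_van_of hψ hη lam (D := D) (fun h => h2 ⟨hE, fun a c hac => ?_⟩) (fun h => hx ?_)
      fun d hd g hg => ?_
    · exact (Submodule.mem_bot F).1 (h ▸ ⟨c, hac.symm⟩)
    · refine (s.Par W).inv_mem_iff.1 (mem_Par.2 fun a => ?_)
      obtain ⟨c, hc⟩ : a ∈ D := h ▸ trivial
      rw [show ((a, 0, 0) : W × V × Dual F W) = x (c, 0, 0) from hc.symm, inv_apply_apply]
      rfl
    · obtain ⟨b, b1, b2⟩ := exists_ext (s := s) (img x) (-s.ε • g) fun a c hac => by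
        rw [LinearMap.smul_apply, hg a ⟨c, hac.symm⟩, smul_zero]
      obtain ⟨m, k1, k2, m1, m2, m3⟩ := exists_eich (s := s) d b (by
        rw [b2, LinearMap.smul_apply, hg d hd, smul_zero])
      refine ⟨m, m2, ?_, m1 ▸ hl _ _ _ _ _, fun a => ?_⟩
      · obtain ⟨c, hc⟩ := hd
        have h3 : x⁻¹ (d, 0, 0) = (c, 0, 0) := by
          rw [show ((d, 0, 0) : W × V × Dual F W) = x (c, 0, 0) from hc.symm, inv_apply_apply]
        rw [m1, eich_conj]
        simp only [h3]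
        exact eich_mem_Uni c (LinearMap.ext fun a => by
          rw [← hB_inl (s := s), ← iso_B_left]; exact b1 a) _ _ _
      · rw [m3, b2, LinearMap.smul_apply, smul_eq_mul, ← mul_assoc, mul_neg, s.ε_sq]
        simp
  · let β : W →ₗ[F] Dual F W := LinearMap.snd F _ _ ∘ₗ LinearMap.snd F _ _ ∘ₗ img x
    have hD : ∀ a, a ∈ (LinearMap.range β).dualCoannihilator ↔ ∀ c, (x (c, 0, 0)).2.2 a = 0 :=
      fun a => by
        rw [Submodule.mem_dualCoannihilator]
        exact ⟨fun h c => h _ ⟨c, rfl⟩, by rintro h _ ⟨c, rfl⟩; exact h c⟩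
    refine TT2_van_of hψ hη lam (D := (LinearMap.range β).dualCoannihilator)
      (fun h => h1 fun a ha => (Submodule.mem_bot F).1 (h ▸ (hD a).2 ha))
      (fun h => hE fun c => LinearMap.ext fun a => (hD a).1 (h ▸ trivial) c) fun d hd g hg => ?_
    obtain ⟨c, rfl⟩ : g ∈ LinearMap.range β := by
      rw [← Subspace.dualCoannihilator_dualAnnihilator_eq (W := LinearMap.range β)]
      exact (Submodule.mem_dualAnnihilator _).2 hg
    have k1 : (s.hyp W).Q (x (c, 0, 0)) = 0 := (iso_Q _ _).trans (hQ_inl c)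
    have k2 : (s.hyp W).B (d, 0, 0) (x (c, 0, 0)) = 0 := (hB_inl _ _).trans ((hD d).1 hd c)
    have h3 : ∀ a, (s.hyp W).eich _ _ 0 k1 k2 (a, 0, 0) = (a + β c a • d, 0, 0) := fun a => by
      simp [eich_apply, hB_inl, hQ_inl, β, img_apply]
    refine ⟨⟨(s.hyp W).eich _ _ 0 k1 k2, mem_Par.2 fun a => by rw [h3]; rfl⟩, iso_ext fun v => ?_, ?_,
      hl _ _ _ k1 k2,
      fun a => congrArg Prod.fst (h3 a)⟩
    · simp [pi2_apply, eich_apply, hB_inl', hQ_inl, one_apply]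
    · rw [eich_conj]
      simp only [inv_apply_apply]
      exact eich_mem_Uni c (LinearMap.ext fun a => by
        rw [← hB_inl (s := s), ← iso_B_left, hB_inl', (hD d).1 hd, mul_zero]; rfl) _ _ _

/-- enough elements fixing `xW` pointwise and a further singular vector modulo `xW` -/
theorem perp_kill (hψ : CuS ψ) (h1 : finrank F W = 1 → ψ ≠ fun _ => 1) [Nontrivial W]
    {x : (s.hyp W).iso} (hE : ∀ c, (x (c, 0, 0)).2.2 = 0)
    (hD : ∀ a c, (a, 0, 0) = x (c, 0, 0) → a = 0) {v : V} (hv : s.Q v = 0) {N : Type*} [Group N]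
    [Fintype N] (f : N →* (End F W)ˣ)
    (hf : ∀ m : s.Par W, pi2 m = 1 → (∀ c, m.1 (x (c, 0, 0)) = x (c, 0, 0)) →
      (∃ (c : W) (t : F), m.1 (x (0, v, 0)) = x (c, t • v, 0)) → ∃ n, f n = pi1 m) :
    ∑ n, ψ (f n) = 0 := by
  let Φ : W × F →ₗ[F] W × V × Dual F W := (x.1 : End F (W × V × Dual F W)) ∘ₗ
    LinearMap.id.prodMap (LinearMap.toSpanSingleton F _ (v, 0))
  have hΦ : ∀ c t, Φ (c, t) = x (c, t • v, 0) := fun c t => by simp [Φ]
  have hΦ1 : ∀ c, Φ (c, 0) = x (c, 0, 0) := fun c => by rw [hΦ, zero_smul]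
  have hΦ2 : Φ (0, 1) = x (0, v, 0) := by rw [hΦ, one_smul]
  have hvv : ∀ n, (s.hyp W).B (Φ n) (x (0, v, 0)) = 0 := fun n => by
    rw [hΦ, iso_B]; simp [hyp_B, B_self hv]
  have hQv : (s.hyp W).Q (x (0, v, 0)) = 0 := by rw [iso_Q]; simp [hyp_Q, hv]
  -- the intersection of `W` with the span has dimension at most one
  obtain ⟨e, he, he'⟩ : ∃ e : W, e ≠ 0 ∧ ∀ a n, (a, 0, 0) = Φ n → ∃ t : F, a = t • e := by
    by_cases h : ∃ e : W, e ≠ 0 ∧ ∃ n, (e, 0, 0) = Φ n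
    · obtain ⟨e, he, n, hn⟩ := h
      have ht : n.2 ≠ 0 := fun h => he (hD e n.1 (by rw [hn, ← hΦ1, ← h]))
      refine ⟨e, he, fun a n' hn' => ⟨n'.2 / n.2, sub_eq_zero.1 (hD _ (n'.1 - (n'.2 / n.2) • n.1) ?_)⟩⟩
      rw [← hΦ1, show (n'.1 - (n'.2 / n.2) • n.1, (0 : F)) = n' - (n'.2 / n.2) • n from
        Prod.ext rfl (by simp [ht]), map_sub, map_smul, ← hn, ← hn']
      simp
    · obtain ⟨e, he⟩ := exists_ne (0 : W)
      exact ⟨e, he, fun a n hn => ⟨0, by_contra fun h' => h ⟨a, by simpa using h', n, hn⟩⟩⟩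
  by_cases hk : finrank F W = 1
  · have := Fintype.ofFinite (End F W)ˣ
    refine sum_eq_zero_of_range (isChar_of_isIrr hψ.irr) f (MonoidHom.id _) (fun l => ?_)
      (sum_eq_zero_of_isIrr hψ.irr (h1 hk))
    have hW := (finrank_eq_one_iff_of_nonzero' e he).1 hk
    obtain ⟨μ, hμ⟩ := hW (l.1 e)
    have hμ0 : μ ≠ 0 := by
      rintro rfl
      exact he (((End.isUnit_iff _).1 l.isUnit).1 (by rw [← hμ, zero_smul, map_zero]))
    obtain ⟨b, b1, b2, b3, b4⟩ : ∃ b : W × V × Dual F W, (s.hyp W).Q b = 0 ∧ b.2.2 e = 1 ∧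
        (∀ c, (s.hyp W).B (x (c, 0, 0)) b = 0) ∧ ∀ r r' : F, ∃ n, x (0, v, 0) +
          (r * (s.hyp W).B (x (0, v, 0)) b) • ((e, 0, 0) : W × V × Dual F W) +
          (r' * (x (0, v, 0)).2.2 e) • b = Φ n := by
      by_cases h : (x (0, v, 0)).2.2 e = 0
      · obtain ⟨g, hg⟩ := Projective.exists_dual_eq_one F he
        obtain ⟨b, b2, b3, b4⟩ : ∃ b : W × V × Dual F W, b.2.2 = g ∧
            (∀ c, (s.hyp W).B (x (c, 0, 0)) b = 0) ∧
            ((s.hyp W).B (x (0, v, 0)) b = 0 ∨ ∃ n, (e, 0, 0) = Φ n) := by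
          by_cases h' : ∃ n, (e, 0, 0) = Φ n
          · obtain ⟨b, b1, b2⟩ := exists_ext (s := s) (img x) g fun a c hac => by
              rw [hD a c hac, map_zero]
            exact ⟨b, b2, b1, Or.inr h'⟩
          · obtain ⟨b, b1, b2⟩ := exists_ext (s := s) Φ g fun a n hn => by
              obtain ⟨t, rfl⟩ := hW a
              by_cases ht : t = 0
              · simp [ht]
              · exact (h' ⟨t⁻¹ • n, by rw [map_smul, ← hn]; simp [ht]⟩).elim
            exact ⟨b, b2, fun c => hΦ1 c ▸ b1 _, Or.inl (hΦ2 ▸ b1 _)⟩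
        refine ⟨_, sing_adj (hQ_inl e) (x := b) (by rw [hB_inl, b2, hg]), by simp [b2, hg],
          fun c => by simp [b3, hB_inl', hE], fun r r' => ?_⟩
        simp only [map_sub, map_smul, hB_inl', h, mul_zero, smul_zero, sub_zero, zero_smul, add_zero]
        rcases b4 with b4 | ⟨n, hn⟩
        · exact ⟨(0, 1), by simp [b4, hΦ2]⟩
        · exact ⟨(0, 1) + _ • n, by rw [map_add, map_smul, hΦ2, hn]⟩
      · refine ⟨((x (0, v, 0)).2.2 e)⁻¹ • x (0, v, 0), by rw [FSp.smul, hQv, mul_zero], by simp [h],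
          fun c => by rw [map_smul, ← hΦ1, hvv, smul_zero], fun r r' => ⟨(1 + r') • (0, 1), ?_⟩⟩
        rw [map_smul, map_smul, B_self hQv, hΦ2, smul_smul, mul_inv_cancel_right₀ h, add_smul]
        simp
    have b2' : (s.hyp W).B (e, 0, 0) b = 1 := (hB_inl _ _).trans b2
    have h3 : ∀ a, tor _ b (hQ_inl e) b1 b2' (Units.mk0 μ hμ0) (a, 0, 0) = (l.1 a, 0, 0) :=
      fun a => by
        obtain ⟨t, rfl⟩ := hW a
        simp only [tor_apply, hB_inl, map_smul, b2, ← hμ]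
        simp [smul_smul, ← add_smul]
        ring_nf
    obtain ⟨n, hn⟩ := hf ⟨tor _ b (hQ_inl e) b1 b2' (Units.mk0 μ hμ0),
      mem_Par.2 fun a => by rw [h3]; rfl⟩
      (iso_ext fun u => by simp [pi2_apply, tor_apply, hB_inl, one_apply])
      (fun c => by simp [tor_apply, b3, hB_inl, hE]) (by
        obtain ⟨n, hn⟩ := b4 (μ - 1) (↑(Units.mk0 μ hμ0)⁻¹ - 1)
        exact ⟨n.1, n.2, by rw [← hΦ, ← hn, tor_apply, hB_inl]; rfl⟩)
    exact ⟨n, hn.trans (Units.ext (LinearMap.ext fun a => congrArg Prod.fst (h3 a)))⟩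
  have hk2 : 2 ≤ finrank F W := by
    have := finrank_pos (R := F) (M := W)
    omega
  obtain ⟨D, d0, d1, d2, d3⟩ : ∃ D : Submodule F W, D ≠ ⊥ ∧ D ≠ ⊤ ∧
      (∀ a n, (a, 0, 0) = Φ n → a ∈ D) ∧ ∀ d ∈ D, (x (0, v, 0)).2.2 d = 0 := by
    by_cases h : (x (0, v, 0)).2.2 = 0
    · refine ⟨F ∙ e, by simpa using he, fun h' => hk ?_, fun a n hn => ?_, fun d _ => by rw [h]; rfl⟩
      · rw [← finrank_top, ← h', finrank_span_singleton he]
      · obtain ⟨t, rfl⟩ := he' a n hn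
        exact Submodule.smul_mem _ _ (Submodule.mem_span_singleton_self e)
    · refine ⟨LinearMap.ker (x (0, v, 0)).2.2, fun h' => ?_, by simpa using h, fun a n hn => ?_,
        fun d hd => hd⟩
      · have := LinearMap.finrank_le_finrank_of_injective (LinearMap.ker_eq_bot.1 h')
        rw [finrank_self] at this
        omega
      · rw [LinearMap.mem_ker, ← hB_inl (s := s), hn, hvv]
  refine hψ.kill f d0 d1 fun d hd g hg => ?_
  obtain ⟨b, b1, b2⟩ := exists_ext (s := s) Φ (-s.ε • g) fun a n hn => by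
    rw [LinearMap.smul_apply, hg a (d2 a n hn), smul_zero]
  obtain ⟨m, k1, k2, m1, m2, m3⟩ := exists_eich (s := s) d b (by
    rw [b2, LinearMap.smul_apply, hg d hd, smul_zero])
  obtain ⟨n, hn⟩ := hf m m2 (fun c => by
    have := b1 (c, 0)
    rw [hΦ1] at this
    simp [m1, eich_apply, this, hB_inl', hE]) ⟨0, 1, by
    have := b1 (0, 1)
    rw [hΦ2] at this
    simp [m1, eich_apply, this, hB_inl', d3 d hd]⟩
  refine ⟨n, fun a => ?_⟩
  rw [hn, m3, b2, LinearMap.smul_apply, smul_eq_mul, ← mul_assoc, mul_neg, s.ε_sq]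
  simp

variable (W) in
/-- the hypothesis on `η` -/
def HypH (η : s.iso → ℂ) : Prop :=
  IsEmpty (s.TSk (finrank F W)) ∨ ∃ j ≤ 1, ∃ ξ : s.iso → ℂ, IsCharacter _ ξ ∧
    ∀ g : s.iso, (Nat.card {z : s.TSk j // g • z = z} : ℂ) = η g + ξ g

set_option maxHeartbeats 800000 in
theorem TT_perp (hψ : CuS ψ) (h1 : finrank F W = 1 → ψ ≠ fun _ => 1) [Nontrivial W]
    (hη : IsIrrCharacter _ η) (H : HypH W η) {x : (s.hyp W).iso}
    (hE : ∀ c, (x (c, 0, 0)).2.2 = 0) (hD : ∀ a c, (a, 0, 0) = x (c, 0, 0) → a = 0) :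
    TT (s.Par W) (phi ψ η) x = 0 := by
  classical
  obtain H | ⟨j, hj, ξ, hξ, H⟩ := H
  · exact (H.false (perp_TS hE hD).some).elim
  have hφ := isChar_of_isIrr (isIrr_phi hψ.irr hη)
  obtain ⟨M, hM⟩ : ∃ M : Subgroup (s.Par W), ∀ m, m ∈ M ↔
      pi2 m = 1 ∧ ∀ c, m.1 (x (c, 0, 0)) = x (c, 0, 0) :=
    ⟨pi2.ker ⊓ ((s.hyp W).fixS (LinearMap.range (img x))).comap (s.Par W).subtype, fun m =>
      and_congr_right fun _ => ⟨fun h c => h _ ⟨c, rfl⟩, by rintro h _ ⟨c, rfl⟩; exact h c⟩⟩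
  have := Fintype.ofFinite M
  have hc1 : ∀ (m : M) a, (x⁻¹ * m * x) (a, 0, 0) = (a, 0, 0) := fun m a => by
    rw [mul_apply, mul_apply, ((hM _).1 m.2).2, inv_apply_apply]
  obtain ⟨b, hb⟩ := exists_conj_hom M x fun m => mem_Par.2 fun a => by rw [hc1]; rfl
  have hb1 : ∀ m, pi1 (b m) = 1 := fun m =>
    Units.ext (LinearMap.ext fun a => by rw [pi1_apply, hb, hc1]; rfl)
  refine TT_eq_zero hφ M.subtype b hb ?_
  have key := sum_eq_zero_of_perm (isChar_comp (isChar_of_isIrr hψ.irr) (pi1.comp M.subtype))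
    (pi2.comp b) (isChar_of_isIrr hη) hξ H fun z N _ hN => by
      obtain ⟨v, hv⟩ : z.1.IsPrincipal :=
        (Submodule.finrank_le_one_iff_isPrincipal z.1).1 (z.2.2.trans_le hj)
      have hvz : v ∈ z.1 := hv ▸ Submodule.mem_span_singleton_self v
      refine perp_kill hψ h1 hE hD (z.2.1.1 v hvz) ((pi1.comp M.subtype).comp N.subtype) ?_
      rintro m m1 m2 ⟨a, t, m3⟩
      have h4 : pi2 (b ⟨m, (hM m).2 ⟨m1, m2⟩⟩) v = t • v := by
        rw [pi2_apply, hb, mul_apply, mul_apply, m3, inv_apply_apply]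
      refine ⟨⟨⟨m, (hM m).2 ⟨m1, m2⟩⟩, hN _ (smul_eq_of_le fun u hu => ?_)⟩, rfl⟩
      have h5 := Submodule.mem_span_singleton.1 (hv ▸ hu)
      rw [← h5.choose_spec, iso_smul, MonoidHom.comp_apply, h4]
      exact z.1.smul_mem _ (z.1.smul_mem _ hvz)
  refine (Finset.sum_congr rfl fun m _ => ?_).trans (((Finset.sum_mul _ _
    (η 1 * conj (ψ 1))).symm.trans (congrArg (· * _) key)).trans (zero_mul _))
  simp only [phi, hb1, Subgroup.coe_subtype, ((hM _).1 m.2).1, map_mul, MonoidHom.comp_apply]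
  ring

end FSp

end Cfsg.Agent.DG
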