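import Cfsg.Agent.Lib.DG.Desc2
import Cfsg.Agent.Lib.Chev.Cl4

/-!
# The matrix groups of the statement
-/

set_option autoImplicit false
set_option linter.unusedSectionVars false

namespace Cfsg.Agent.DG

open Module Matrix FSp

variable {F : Type} [Field F] [Fintype F] {G : Type*} [Group G] {ι κ : Type} [Fintype ι]
  [DecidableEq ι] [Fintype κ]

/-- isomorphic groups have isomorphic commutator subgroups -/
def commCongr {A B : Type*} [Group A] [Group B] (e : A ≃* B) : commutator A ≃* commutator B :=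
  (e.subgroupMap _).trans (MulEquiv.subgroupCongr (by
    rw [map_commutator_eq, MonoidHom.range_eq_top.2 e.surjective, commutator_def]))

theorem wi_coord (s : FSp F (ι → F)) (r : κ → ι) (hr : Function.Injective r) {w : ℕ}
    (hw : Fintype.card κ + w = Fintype.card ι) (h1 : ∀ x : ι → F, (∀ k, x (r k) = 0) → s.Q x = 0)
    (h2 : ∀ x y : ι → F, (∀ k, x (r k) = 0) → (∀ k, y (r k) = 0) → s.B x y = 0)
    (h3 : ∀ x : ι → F, (∀ i, (∀ k, r k ≠ i) → s.B x (Pi.single i 1) = 0) → s.Q x = 0 →
      ∀ k, x (r k) = 0) : s.WI w := by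
  refine ⟨LinearMap.ker (LinearMap.funLeft F F r), ⟨fun x hx => h1 x (congrFun hx),
    fun x hx y hy => h2 x y (congrFun hx) (congrFun hy)⟩, ?_, fun v hv hv' => funext
      (h3 v (fun i hi => hv _ (funext fun k => Pi.single_eq_of_ne (hi k) _)) hv')⟩
  have := LinearMap.finrank_range_add_finrank_ker (LinearMap.funLeft F F r)
  rw [LinearMap.range_eq_top.2 (LinearMap.funLeft_surjective_of_injective F F r hr)] at this
  simp only [finrank_top, finrank_fintype_fun_eq_card] at this
  omega

theorem FSp.WI.exists_sing {V : Type*} [AddCommGroup V] [Module F V] [FiniteDimensional F V]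
    {s : FSp F V} {w : ℕ} (h : s.WI w) (hw : 0 < w) : ∃ e, s.Q e = 0 ∧ e ≠ 0 := by
  obtain ⟨M, h1, rfl, -⟩ := h
  obtain ⟨e, he, he0⟩ := exists_notMem (A := ⊥) (T := M) (by rwa [finrank_bot])
  exact ⟨e, h1.1 e he, by simpa using he0⟩

theorem iso_C {m : ℕ} (hm : 2 ≤ m) (j : G ≃* PSp m F) :
    ∃ s : FSp F (Fin m ⊕ Fin m → F), s.Ty .C m ∧ Cov G (⊤ : Subgroup s.iso) := by
  classical
  let B : (Fin m ⊕ Fin m → F) →ₗ[F] (Fin m ⊕ Fin m → F) →ₗ[F] F :=
    Matrix.toLinearMap₂' F (J (Fin m) F)
  have hB : ∀ x y, B x y = ∑ i, (x (.inr i) * y (.inl i) - x (.inl i) * y (.inr i)) := fun x y => by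
    simp [B, toLinearMap₂'_apply', J, fromBlocks_mulVec, dotProduct, neg_mulVec, sub_eq_add_neg,
      Finset.sum_add_distrib, add_comm]
  have key : ∀ A : Matrix _ _ F, A ∈ symplecticGroup (Fin m) F ↔
      ∀ x y, B (toLin' A x) (toLin' A y) = B x y := fun A => by
    rw [SymplecticGroup.mem_iff', ← (toLinearMap₂' (S₁ := F) (S₂ := F) F).injective.eq_iff]
    simp only [LinearMap.ext_iff, B, toLinearMap₂'_apply', toLin'_apply, ← mulVec_mulVec,
      dotProduct_mulVec _ Aᵀ, vecMul_transpose]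
  let s : FSp F (Fin m ⊕ Fin m → F) :=
    { δ := 0, Q := fun _ => 0, B := B, hδ := .inl rfl, add := by simp, smul := by simp
      self := fun x => by simp [hB, mul_comm], δQ := by simp
      nd := fun e he => funext fun a => by
        have := he (Pi.single a.swap 1)
        rcases a with a | a <;> simpa [hB, Pi.single_apply] using this }
  have hw : s.WI m := wi_coord s .inr Sum.inr_injective (by simp) (fun _ _ => rfl)
    (fun x y hx hy => by simp [s, hB, hx, hy]) fun x hx _ k => by
      simpa [s, hB, Pi.single_apply] using hx (.inl k) (by simp)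
  obtain ⟨e, he, he0⟩ := hw.exists_sing (by omega)
  let φ : symplecticGroup (Fin m) F →* s.iso := MonoidHom.mk'
    (fun A => s.mkIso (toLin' A.1) (fun _ => rfl) ((key _).1 A.2)) fun A A' =>
      iso_ext fun x => by simp [FSp.mul_apply]
  refine ⟨s, ⟨rfl, by simp [two_mul], hw⟩, cov_of_equiv hasE_top (by simp; omega) he he0
    (Subgroup.topEquiv.trans (MulEquiv.ofBijective φ ⟨fun A A' h => ?_, fun g => ?_⟩).symm) j⟩
  · exact Subtype.ext (toLin'.injective (LinearMap.ext fun x => congrArg (fun g : s.iso => g x) h))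
  · exact ⟨⟨LinearMap.toMatrix' g.1, (key _).2 (by rw [toLin'_toMatrix']; exact g.2.2)⟩,
      iso_ext fun x => by simp [φ]⟩

theorem iso_O (β : Matrix ι ι F) (Q : (ι → F) → F) (hQ : ∀ x, Q x = x ⬝ᵥ β *ᵥ x)
    (hnd : ∀ e, (∀ x, x ⬝ᵥ β *ᵥ e + e ⬝ᵥ β *ᵥ x = 0) → e = 0) (hn : 5 ≤ Fintype.card ι)
    (j : G ≃* POmega F Q) (r : κ → ι) (hr : Function.Injective r) {w : ℕ} (h0 : 0 < w)
    (hw : Fintype.card κ + w = Fintype.card ι) (h1 : ∀ x : ι → F, (∀ k, x (r k) = 0) → Q x = 0)
    (h3 : ∀ x : ι → F, (∀ i, (∀ k, r k ≠ i) →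
      x ⬝ᵥ β *ᵥ Pi.single i 1 + Pi.single i 1 ⬝ᵥ β *ᵥ x = 0) → Q x = 0 → ∀ k, x (r k) = 0) :
    ∃ s : FSp F (ι → F), s.δ = 1 ∧ s.WI w ∧ Cov G (commutator s.iso) := by
  let B : (ι → F) →ₗ[F] (ι → F) →ₗ[F] F := Matrix.toLinearMap₂' F (β + βᵀ)
  have hB : ∀ x y, B x y = x ⬝ᵥ β *ᵥ y + y ⬝ᵥ β *ᵥ x := fun x y => by
    rw [toLinearMap₂'_apply', add_mulVec, dotProduct_add, Chev.Cl.dot_transpose]
  have add : ∀ x y, Q (x + y) = Q x + Q y + 1 * B x y := fun x y => by
    simp only [hQ, hB, mulVec_add, add_dotProduct, dotProduct_add]; ring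
  let s : FSp F (ι → F) :=
    { δ := 1, Q := Q, B := B, hδ := .inr rfl, add := add
      smul := fun c x => by simp [hQ, mulVec_smul, mul_assoc, sq]
      self := fun x => by rw [hB, hQ, two_mul]
      δQ := fun x => one_mul _
      nd := fun e he => hnd e fun x => by rw [add_comm, ← hB, he] }
  have hw : s.WI w := wi_coord s r hr hw h1 (fun x y hx hy => by
    have := add x y
    rw [h1 x hx, h1 y hy, h1 _ fun k => by simp [hx, hy]] at this
    linear_combination -this) fun x hx => h3 x fun i hi => hB _ _ ▸ hx i hi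
  obtain ⟨e, he, he0⟩ := hw.exists_sing h0
  let i := (GeneralLinearGroup.toLin (n := ι) (R := F)).trans
    (LinearMap.GeneralLinearGroup.generalLinearEquiv F (ι → F))
  refine ⟨s, rfl, hw, cov_of_equiv (hasE_commutator rfl (by simpa)) (by simp; omega) he he0
    (commCongr ((i.subgroupMap (isometryGroup F Q)).trans (MulEquiv.subgroupCongr ?_)).symm) j⟩
  ext g
  obtain ⟨A, rfl⟩ := i.surjective g
  refine ⟨fun ⟨A', h, e'⟩ => ?_, fun h => ⟨A, fun x _ => h.1 x, rfl⟩⟩
  have h4 : ∀ x, Q (i A x) = Q x := fun x => i.injective e' ▸ h x x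
  refine ⟨h4, fun x y => ?_⟩
  have := h4 (x + y)
  rw [map_add, add, add, h4, h4] at this
  linear_combination this

theorem iso_P {m : ℕ} (hm : 3 ≤ m) (j : G ≃* POmega F (quadFormPlus m F)) :
    ∃ s : FSp F (Fin m ⊕ Fin m → F), s.Ty .P m ∧ Cov G (commutator s.iso) := by
  have key : ∀ x y : Fin m ⊕ Fin m → F, x ⬝ᵥ (fromBlocks 0 1 0 0 : Matrix _ _ F) *ᵥ y =
      ∑ i, x (.inl i) * y (.inr i) := fun x y => by
    simp [fromBlocks_mulVec, dotProduct]
  obtain ⟨s, h1, h2, h3⟩ := iso_O (fromBlocks 0 1 0 0) _ (fun x => by rw [key]; rfl)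
    (fun e he => funext fun a => by
      have := he (Pi.single a.swap 1)
      rw [key, key] at this
      rcases a with a | a <;> simpa [Pi.single_apply] using this) (by simp; omega) j .inr
    Sum.inr_injective (w := m) (by omega) (by simp) (fun x hx => by simp [quadFormPlus, hx])
    fun x hx _ k => by
      have := hx (.inl k) (by simp)
      rw [key, key] at this
      simpa [Pi.single_apply] using this
  exact ⟨s, ⟨h1, by simp [two_mul], h2⟩, h3⟩

theorem iso_B (h2 : (2 : F) ≠ 0) {m : ℕ} (hm : 2 ≤ m) (j : G ≃* POmega F (quadFormOdd m F)) :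
    ∃ s : FSp F (Unit ⊕ (Fin m ⊕ Fin m) → F), s.Ty .B m ∧ Cov G (commutator s.iso) := by
  have key : ∀ x y : Unit ⊕ (Fin m ⊕ Fin m) → F,
      x ⬝ᵥ (fromBlocks 1 0 0 (fromBlocks 0 1 0 0) : Matrix _ _ F) *ᵥ y =
      x (.inl ()) * y (.inl ()) + ∑ i, x (.inr (.inl i)) * y (.inr (.inr i)) := fun x y => by
    simp [fromBlocks_mulVec, dotProduct]
  obtain ⟨s, h1, h2, h3⟩ := iso_O (fromBlocks 1 0 0 (fromBlocks 0 1 0 0)) _
    (fun x => by rw [key, ← sq]; rfl) (fun e he => funext fun a => by
      rcases a with a | a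
      · have := he (Pi.single (.inl ()) 1)
        rw [key, key] at this
        simpa [Pi.single_apply, ← two_mul, h2] using this
      · have := he (Pi.single (.inr a.swap) 1)
        rw [key, key] at this
        rcases a with a | a <;> simpa [Pi.single_apply] using this) (by simp; omega) j
    (Sum.map id .inr : Unit ⊕ Fin m → _) (Sum.map_injective.2 ⟨fun _ _ h => h, Sum.inr_injective⟩)
    (w := m) (by omega) (by simp; omega)
    (fun x hx => by
      have e1 : x (.inl ()) = 0 := hx (.inl ())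
      have e2 : ∀ k, x (.inr (.inr k)) = 0 := fun k => hx (.inr k)
      simp [quadFormOdd, e1, e2])
    fun x hx hq k => by
      have e2 : ∀ k, x (.inr (.inr k)) = 0 := fun k => by
        have := hx (.inr (.inl k)) (by simp)
        rw [key, key] at this
        simpa [Pi.single_apply] using this
      rcases k with k | k
      · simpa [quadFormOdd, e2] using hq
      · exact e2 k
  exact ⟨s, ⟨h1, by simp; omega, h2⟩, h3⟩

theorem iso_M {m : ℕ} (hm : 2 ≤ m) (a b : F)
    (hab : ∀ z₁ z₂ : F, z₁ ^ 2 + a * z₁ * z₂ + b * z₂ ^ 2 = 0 → z₁ = 0 ∧ z₂ = 0)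
    (j : G ≃* POmega F (quadFormMinus m F a b)) :
    ∃ s : FSp F ((Fin m ⊕ Fin m) ⊕ Fin 2 → F), s.Ty .M (m + 1) ∧ Cov G (commutator s.iso) := by
  have key : ∀ x y : (Fin m ⊕ Fin m) ⊕ Fin 2 → F,
      x ⬝ᵥ (fromBlocks (fromBlocks 0 1 0 0) 0 0 !![1, a; 0, b] : Matrix _ _ F) *ᵥ y =
      ∑ i, x (.inl (.inl i)) * y (.inl (.inr i)) + (x (.inr 0) * y (.inr 0) +
        a * x (.inr 0) * y (.inr 1) + b * x (.inr 1) * y (.inr 1)) := fun x y => by
    simp [fromBlocks_mulVec, dotProduct]
    ring
  obtain ⟨s, h1, h2, h3⟩ := iso_O (fromBlocks (fromBlocks 0 1 0 0) 0 0 !![1, a; 0, b]) _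
    (fun x => by rw [key, quadFormMinus]; ring) (fun e he => by
      have h0 := he (Pi.single (.inr 0) 1)
      have h1 := he (Pi.single (.inr 1) 1)
      rw [key, key] at h0 h1
      simp at h0 h1
      have h3 : e (.inr 0) = 0 ∧ e (.inr 1) = 0 := by
        by_cases h2 : (2 : F) = 0
        · by_cases ha : a = 0
          · obtain ⟨s, hs⟩ := Finite.surjective_of_injective (f := fun x : F => x * x)
              (fun x y h => sub_eq_zero.1 (mul_self_eq_zero.1 (by
                simp only at h; linear_combination h + (y * y - x * y) * h2))) b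
            simp only at hs
            exact absurd (hab s 1 (by rw [ha]; linear_combination hs + b * h2)).2 one_ne_zero
          · exact ⟨mul_left_cancel₀ ha (by linear_combination h1 - b * e (.inr 1) * h2),
              mul_left_cancel₀ ha (by linear_combination h0 - e (.inr 0) * h2)⟩
        · exact hab _ _ (mul_left_cancel₀ h2 (by
            linear_combination e (.inr 0) * h0 + e (.inr 1) * h1))
      funext c
      rcases c with c | c
      · have := he (Pi.single (.inl c.swap) 1)
        rw [key, key] at this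
        rcases c with c | c <;> simpa [Pi.single_apply] using this
      · fin_cases c
        · exact h3.1
        · exact h3.2) (by simp; omega) j
    (Sum.map .inr id : Fin m ⊕ Fin 2 → _) (Sum.map_injective.2 ⟨Sum.inr_injective, fun _ _ h => h⟩)
    (w := m) (by omega) (by simp; omega)
    (fun x hx => by
      have e1 : ∀ k, x (.inr k) = 0 := fun k => hx (.inr k)
      have e2 : ∀ k, x (.inl (.inr k)) = 0 := fun k => hx (.inl k)
      simp [quadFormMinus, e1, e2])
    fun x hx hq k => by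
      have e2 : ∀ k, x (.inl (.inr k)) = 0 := fun k => by
        have := hx (.inl (.inl k)) (by simp)
        rw [key, key] at this
        simpa [Pi.single_apply] using this
      rcases k with k | k
      · exact e2 k
      · have := hab (x (.inr 0)) (x (.inr 1)) (by simpa [quadFormMinus, e2] using hq)
        fin_cases k
        · exact this.1
        · exact this.2
  exact ⟨s, ⟨h1, by simp; omega, h2, by omega⟩, h3⟩

end Cfsg.Agent.DG
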