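import Cfsg.Agent.Lib.DG.R32

/-!
Row N3, part 1: the character of degree five of `O₄⁻(2) = S₅`.
-/

set_option autoImplicit false

namespace Cfsg.Agent.DG

open Module Cfsg.Agent.Char Equiv

/-- number of fixed points -/
def fx (σ : Perm (Fin 5)) : ℤ := (Finset.univ.filter fun x => σ x = x).card

theorem fx_norm : ∑ σ : Perm (Fin 5), (fx σ ^ 2 + fx (σ * σ) - 4 * fx σ) ^ 2 = 480 := by
  decide +kernel

theorem fx_even : ∀ σ : Perm (Fin 5), 2 ∣ fx σ ^ 2 + fx (σ * σ) - 4 * fx σ := by decide +kernel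

theorem fx_swap : ∀ x y : Fin 5, x ≠ y →
    fx (swap x y) ^ 2 + fx (swap x y * swap x y) - 4 * fx (swap x y) = 2 := by decide +kernel

theorem exists_five : ∃ χ : Perm (Fin 5) → ℂ, IsIrrCharacter _ χ ∧ χ 1 = 5 ∧
    (∀ g, ∃ n : ℤ, χ g = n) ∧ ∀ x y, x ≠ y → χ (swap x y) = 1 := by
  let χ : Perm (Fin 5) → ℂ := fun σ => ((fx σ ^ 2 + fx (σ * σ) - 4 * fx σ : ℤ) : ℂ) / 2
  have h1 : ∀ σ, permChar (Perm (Fin 5)) (Fin 5) σ = fx σ := fun σ => by
    simp [permChar, fx, Nat.card_eq_fintype_card, Fintype.card_subtype]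
  have h2 : χ 1 = 5 := by
    have : fx 1 = 5 := by decide +kernel
    simp only [χ, mul_one, this]; norm_num
  refine ⟨χ, isIrr_of_isGen_of_inner_self ?_ ?_ (by rw [h2]; norm_num), h2, fun g => ?_,
    fun x y h => ?_⟩
  · have := isGen_sub (isGen_of_isChar (isChar_sym (isChar_permChar (G := Perm (Fin 5)) (Fin 5))))
      (isGen_natCast_smul 2 (isGen_of_isChar (isChar_permChar (G := Perm (Fin 5)) (Fin 5))))
    convert this using 1
    funext σ
    simp only [χ, Pi.sub_apply, Pi.smul_apply, h1, smul_eq_mul]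
    push_cast
    ring
  · have h3 : ∀ σ, χ σ * (starRingEnd ℂ) (χ σ) =
        (((fx σ ^ 2 + fx (σ * σ) - 4 * fx σ) ^ 2 : ℤ) : ℂ) / 4 := fun σ => by
      simp only [χ, map_div₀, map_intCast, map_ofNat]
      push_cast
      ring
    simp only [classInner, h3]
    rw [← Finset.sum_div, ← Int.cast_sum, fx_norm, Nat.card_eq_fintype_card, Fintype.card_perm]
    norm_num [Nat.factorial]
  · obtain ⟨n, hn⟩ := fx_even g
    exact ⟨n, by simp only [χ, hn]; push_cast; ring⟩
  · simp only [χ, fx_swap x y h]; norm_num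

namespace FSp

variable {F V : Type*} [Field F] [Fintype F] [AddCommGroup V] [Module F V] [Finite V]
  {s : FSp F V}

theorem exists_eta_five (h : s.Ty .M 2) (hq : Fintype.card F = 2) :
    ∃ η : s.iso → ℂ, IsIrrCharacter _ η ∧ η 1 = 5 ∧ (∀ g, ∃ n : ℤ, η g = n) ∧
      ∃ a ha, η (s.rf a ha) = 1 := by
  classical
  have := Fintype.ofFinite (s.TSk 1)
  have h5 : Fintype.card (s.TSk 1) = 5 := by
    have := h.card_all
    rw [hq, Nat.card_eq_fintype_card] at this
    norm_num [sn] at this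
    exact_mod_cast this
  have hF : ∀ c : F, c ≠ 0 → c = 1 := fun c hc => by
    simpa [hq] using FiniteField.pow_card_sub_one_eq_one c hc
  have h2 : (1 : F) + 1 = 0 := by
    by_contra e
    exact one_ne_zero (add_eq_left.1 (hF _ e))
  have hδ : s.δ = 1 := h.1
  have hε : s.ε = 1 := by rw [ε, hδ]; norm_num
  have hB : ∀ {x y : s.TSk 1} {u v : V}, x.1 = F ∙ u → y.1 = F ∙ v → x ≠ y → s.B u v = 1 :=
    fun {x y u v} hx hy hxy => hF _ fun e => by
      have hc := (col_iff hx hy).2 e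
      have := h.wi.le (hc.sup hxy).1
      rw [(hc.sup hxy).2] at this
      simp [DG.wi] at this
  have key : ∀ x y : s.TSk 1, x ≠ y → ∃ a ha,
      MulAction.toPermHom s.iso (s.TSk 1) (s.rf a ha) = swap x y := fun x y hxy => by
    obtain ⟨u, -, hu, hx⟩ := exists_gen x
    obtain ⟨v, -, hv, hy⟩ := exists_gen y
    have ha : s.Q (u + v) = 1 := by rw [s.add, hu, hv, hδ, hB hx hy hxy]; simp
    refine ⟨u + v, by rw [ha]; exact one_ne_zero, Equiv.ext fun z => ?_⟩
    change s.rf _ _ • z = _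
    by_cases hzx : z = x
    · rw [hzx, swap_apply_left]
      refine smul_pt hx hy (c := -1) ?_
      rw [rf_apply, ha, map_add, B_self hu, hB hx hy hxy]; simp
    by_cases hzy : z = y
    · rw [hzy, swap_apply_right]
      refine smul_pt hy hx (c := -1) ?_
      rw [rf_apply, ha, map_add, B_self hv, hB hy hx hxy.symm]; simp
    rw [swap_apply_of_ne_of_ne hzx hzy]
    obtain ⟨w, -, -, hz⟩ := exists_gen z
    refine smul_pt hz hz (c := 1) ?_
    rw [rf_apply, ha, map_add, hB hz hx hzx, hB hz hy hzy, h2]; simp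
  have hsurj : Function.Surjective (MulAction.toPermHom s.iso (s.TSk 1)) := by
    rw [← MonoidHom.range_eq_top, eq_top_iff, ← Perm.closure_isSwap, Subgroup.closure_le]
    rintro _ ⟨x, y, hxy, rfl⟩
    obtain ⟨a, ha, e⟩ := key x y hxy
    exact ⟨_, e⟩
  let e := Fintype.equivFinOfCardEq h5
  obtain ⟨χ, c1, c2, c3, c4⟩ := exists_five
  refine ⟨_, isIrr_comp_of_surjective c1 (e.permCongrHom.toMonoidHom.comp
    (MulAction.toPermHom s.iso (s.TSk 1))) (e.permCongrHom.surjective.comp hsurj),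
    by simpa only [map_one] using c2, fun g => c3 _, ?_⟩
  obtain ⟨a, ha, e'⟩ := key (e.symm 0) (e.symm 1) (by simp)
  refine ⟨a, ha, ?_⟩
  rw [MonoidHom.comp_apply, e', ← c4 0 1 (by decide)]
  congr 1
  simp [Equiv.permCongr_def]

end FSp

end Cfsg.Agent.DG
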