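import Cfsg.Agent.Lib.DG.Desc1
import Cfsg.Agent.Lib.Char.Galois

/-!
Rows N2, N3, SGN, SP2: arithmetic of the degree ratios.
-/

set_option autoImplicit false

namespace Cfsg.Agent.DG

open Module Cfsg.Agent.Char

theorem ar_n2 {j d : ℕ} (h : 2 ^ j * d + d = 1494045) : 14 ∣ 2 ^ j * d := by
  rcases j with _ | j
  · omega
  have h7 : (2 ^ (j + 1) + 1) * d = 7 * 213435 := by rw [add_mul, one_mul, h]
  have h1 : 7 ∣ d := by
    refine ((Nat.Prime.dvd_mul (by norm_num)).1 ⟨_, h7⟩).resolve_left fun h => ?_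
    have : ∀ n : ℕ, 2 ^ n % 7 = 1 ∨ 2 ^ n % 7 = 2 ∨ 2 ^ n % 7 = 4 := fun n => by
      induction n with
      | zero => simp
      | succ n ih => rw [pow_succ]; omega
    have := this (j + 1)
    omega
  obtain ⟨e, rfl⟩ := h1
  exact ⟨2 ^ j * e, by ring⟩

theorem ar_n3 {j d : ℕ} (h : 2 ^ j * d + d = 5355) {S : ℤ} {c : ℂ} (hc : c * c = 1)
    (hS : (S : ℂ) ^ 2 * (2 ^ j * d : ℕ) * d = c * 5 ^ 2 * (2 ^ 9 : ℕ) * ((2 ^ j * d : ℕ) - d) ^ 2) :
    1190 ∣ 2 ^ j * d := by
  have hj : j < 13 := by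
    by_contra hj
    have h1 : 2 ^ 13 ≤ 2 ^ j := Nat.pow_le_pow_right two_pos (by omega)
    have h2 : 0 < d := Nat.pos_of_ne_zero (by rintro rfl; simp at h)
    have := Nat.mul_le_mul h1 h2
    omega
  have key : ∀ n m : ℕ, m * m < n → n < (m + 1) * (m + 1) → (S : ℂ) ^ 2 = c * n → False :=
    fun n m h1 h2 h3 => by
      rcases mul_self_eq_one_iff.1 hc with rfl | rfl
      · have h4 : S ^ 2 = n := by exact_mod_cast h3.trans (one_mul _)
        refine Nat.not_exists_sq h1 h2 ⟨S.natAbs, ?_⟩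
        zify
        rw [abs_mul_abs_self, ← h4, sq]
      · have h4 : S ^ 2 = -n := by exact_mod_cast h3.trans (neg_one_mul _)
        have := sq_nonneg S
        omega
  interval_cases j <;> try omega
  · obtain rfl : d = 1071 := by omega
    exact (key 28800 169 (by norm_num) (by norm_num) (by
      push_cast at hS ⊢; linear_combination hS / 4588164)).elim
  · obtain rfl : d = 315 := by omega
    exact (key 180000 424 (by norm_num) (by norm_num) (by
      push_cast at hS ⊢; linear_combination hS / 1587600)).elim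

theorem ar_sgn {j d : ℕ} (h : 3 ^ j * d + d = 95940) {t c : ℂ} (ht : IsIntegral ℤ t)
    (hc : c * c = 1) (hS : (7 * t) ^ 2 * (3 ^ j * d : ℕ) * d =
      c * 90 ^ 2 * (3 ^ 6 : ℕ) * ((3 ^ j * d : ℕ) - d) ^ 2) : 195 ∣ 3 ^ j * d := by
  have hj : j < 11 := by
    by_contra hj
    have h1 : 3 ^ 11 ≤ 3 ^ j := Nat.pow_le_pow_right (by norm_num) (by omega)
    have h2 : 0 < d := Nat.pos_of_ne_zero (by rintro rfl; simp at h)
    have := Nat.mul_le_mul h1 h2
    omega
  interval_cases j <;> try omega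
  obtain rfl : d = 9594 := by omega
  have hc' : IsIntegral ℤ c := by
    rcases mul_self_eq_one_iff.1 hc with rfl | rfl
    · exact isIntegral_one
    · exact isIntegral_one.neg
  have h1 : ((41990400 : ℕ) : ℂ) / (49 : ℕ) = c * t ^ 2 := by
    push_cast at hS ⊢
    linear_combination (-c / 40591772676) * hS - 41990400 / 49 * hc
  have := dvd_of_isIntegral_div (by norm_num) (h1 ▸ hc'.mul (ht.pow 2))
  omega

theorem ar_sp2 {q a b : ℕ} (hq : 1 < q) (hb : 0 < b) (hab : b ≤ a) {u : ℂ} (hu : u ≠ 0) {S : ℂ}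
    (hS : S ^ 2 = u * ((q : ℂ) * (q - 1) ^ 2) ^ 2)
    (h : S ^ 2 * a * b = 1 * ((q : ℂ) - 1) ^ 2 * (u * q ^ 3) * ((a : ℂ) - b) ^ 2) : a = q * b := by
  have h1 : (q : ℂ) - 1 ≠ 0 := by rw [sub_ne_zero]; exact_mod_cast hq.ne'
  have h0 : (q : ℂ) ≠ 0 := by exact_mod_cast (by omega : q ≠ 0)
  have h2 : ((a : ℂ) - q * b) * (b - q * a) = 0 := by
    apply mul_left_cancel₀ (mul_ne_zero hu (pow_ne_zero 2 (mul_ne_zero h0 h1)))
    rw [hS] at h
    linear_combination h
  rcases mul_eq_zero.1 h2 with h3 | h3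
  · exact_mod_cast sub_eq_zero.1 h3
  · have h4 : b = q * a := by exact_mod_cast sub_eq_zero.1 h3
    nlinarith

namespace FSp

variable {F V : Type*} [Field F] [Fintype F] [AddCommGroup V] [Module F V] [Fintype V]
  {s : FSp F V}

theorem sum_inv_seven (h : s.Ty .M 3) (hq : Fintype.card F = 3) (Φ : V → ℂ)
    (hΦ : ∀ (g : s.iso) v, Φ (g v) = Φ v) (h0 : Φ 0 = 0) (hi : ∀ v, IsIntegral ℤ (Φ v)) :
    ∃ t, IsIntegral ℤ t ∧ ∑ v, Φ v = 7 * t := by
  classical
  have h2 : (2 : F) ≠ 0 := two_ne_zero_iff.2 (by rw [hq])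
  have c0 : s.cn ⊥ 0 = 225 := by
    have := h.cn ts_bot
    rw [hq] at this
    simpa [sn] using this
  have c1 : ∀ a : F, a ≠ 0 → s.cn ⊥ a = 252 := fun a ha => by
    have := cn_even h2 h.1 h.2.1 ha
    rw [hq, c0] at this
    omega
  have c2 : ∀ a, s.cn ⊥ a = (Finset.univ.filter fun v => s.Q v = a).card := fun a => by
    rw [cn, Nat.card_eq_fintype_card, Fintype.card_subtype]
    simp [perp_bot]
  have key : ∀ (T : Finset V) (n : ℕ), T.card = 7 * n → (∀ x ∈ T, ∀ y ∈ T, Φ x = Φ y) →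
      ∃ t, IsIntegral ℤ t ∧ ∑ v ∈ T, Φ v = 7 * t := fun T n hT hc => by
    rcases T.eq_empty_or_nonempty with rfl | ⟨x, hx⟩
    · exact ⟨0, isIntegral_zero, by simp⟩
    · refine ⟨n * Φ x, (isIntegral_natCast n).mul (hi x), ?_⟩
      rw [Finset.sum_congr rfl fun y hy => hc y hy x hx, Finset.sum_const, hT, nsmul_eq_mul]
      push_cast; ring
  have k2 : ∀ a : F, ∃ t, IsIntegral ℤ t ∧ ∑ v with s.Q v = a, Φ v = 7 * t := fun a => by
    by_cases ha : a = 0
    · subst ha
      rw [← Finset.sum_erase (a := (0 : V)) _ h0]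
      refine key _ 32 (by rw [Finset.card_erase_of_mem (by simp), ← c2, c0]) fun x hx y hy => ?_
      simp only [Finset.mem_erase, Finset.mem_filter, Finset.mem_univ, true_and] at hx hy
      obtain ⟨g, -, -, c, hc, e⟩ := hasE_top.witt (s := s) (A := ⊥) (Or.inl rfl) hx.2
        (by simp [perp_bot]) (by simpa using hx.1) hy.2 (by simp [perp_bot]) (by simpa using hy.1)
      have hc2 : c * c = 1 := by
        simpa [hq, sq] using FiniteField.pow_card_sub_one_eq_one c hc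
      rw [← hΦ g x, e]
      rcases mul_self_eq_one_iff.1 hc2 with rfl | rfl
      · rw [one_smul]
      · rw [neg_one_smul]; exact hΦ s.negOne y
    · refine key _ 36 (by rw [← c2, c1 a ha]) fun x hx y hy => ?_
      simp only [Finset.mem_filter, Finset.mem_univ, true_and] at hx hy
      obtain ⟨g, -, -, e⟩ := rf_move (s := s) h2 (H := ⊤) (fun _ _ => trivial) (U := ⊥) (x := x)
        (y := y) (by simp [perp_bot]) (by simp [perp_bot]) (hx.trans hy.symm) (hy ▸ ha)
      rw [← e, hΦ]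
  choose t ht using k2
  exact ⟨∑ a, t a, IsIntegral.sum _ fun a _ => (ht a).1, by
    rw [← Finset.sum_fiberwise (s := Finset.univ) (g := s.Q), Finset.mul_sum]
    exact Finset.sum_congr rfl fun a _ => (ht a).2⟩

end FSp

end Cfsg.Agent.DG
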