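import Cfsg.Agent.Lib.DG.Defs

/-!
# Counting singular vectors
-/

set_option autoImplicit false
set_option linter.unusedSectionVars false

namespace Cfsg.Agent.DG

namespace FSp

open Module

variable {F V : Type*} [Field F] [AddCommGroup V] [Module F V] {s : FSp F V}

theorem Q_sub (x y : V) : s.Q (x - y) = s.Q x + s.Q y - s.δ * s.B x y := by
  rw [sub_eq_add_neg, s.add, s.Q_neg, map_neg]; ring

theorem B_self {e : V} (he : s.Q e = 0) : s.B e e = 0 := by rw [s.self, he, mul_zero]

theorem Q_eq_zero (h : s.δ = 0) (x : V) : s.Q x = 0 := by rw [← s.δQ, h, zero_mul]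

theorem perp_anti {A A' : Submodule F V} (h : A ≤ A') : s.perp A' ≤ s.perp A :=
  fun _ hv a ha => hv a (h ha)

theorem le_perp_comm {A A' : Submodule F V} (h : A ≤ s.perp A') : A' ≤ s.perp A :=
  fun a' ha' a ha => s.B_eq_zero_comm (h ha a' ha')

theorem TS.le_perp {A : Submodule F V} (h : s.TS A) : A ≤ s.perp A := h.2

theorem TS.mono {A A' : Submodule F V} (h : s.TS A') (hA : A ≤ A') : s.TS A :=
  ⟨fun x hx => h.1 x (hA hx), fun x hx y hy => h.2 x (hA hx) y (hA hy)⟩

theorem ts_bot : s.TS ⊥ := ⟨fun x hx => by simp [(Submodule.mem_bot F).1 hx],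
  fun x hx _ _ => by simp [(Submodule.mem_bot F).1 hx]⟩

theorem perp_bot : s.perp ⊥ = ⊤ := eq_top_iff.2 fun v _ a ha => by simp [(Submodule.mem_bot F).1 ha]

theorem mem_perp_sup {A : Submodule F V} {e v : V} :
    v ∈ s.perp (A ⊔ F ∙ e) ↔ v ∈ s.perp A ∧ s.B v e = 0 := by
  refine ⟨fun h => ⟨perp_anti le_sup_left h, h e (Submodule.mem_sup_right
    (Submodule.mem_span_singleton_self e))⟩, fun h a ha => ?_⟩
  obtain ⟨b, hb, _, hc, rfl⟩ := Submodule.mem_sup.1 ha
  obtain ⟨c, rfl⟩ := Submodule.mem_span_singleton.1 hc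
  simp [h.1 b hb, h.2]

theorem TS.sup {A : Submodule F V} (h : s.TS A) {e : V} (he : s.Q e = 0) (hA : e ∈ s.perp A) :
    s.TS (A ⊔ F ∙ e) := by
  have key : ∀ x ∈ A ⊔ F ∙ e, ∃ a ∈ A, ∃ c : F, x = a + c • e := fun x hx => by
    obtain ⟨a, ha, _, hb, rfl⟩ := Submodule.mem_sup.1 hx
    obtain ⟨c, rfl⟩ := Submodule.mem_span_singleton.1 hb
    exact ⟨a, ha, c, rfl⟩
  refine ⟨fun x hx => ?_, fun x hx y hy => ?_⟩
  · obtain ⟨a, ha, c, rfl⟩ := key x hx
    simp [s.add, s.smul, he, h.1 a ha, s.B_eq_zero_comm (hA a ha)]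
  · obtain ⟨a, ha, c, rfl⟩ := key x hx
    obtain ⟨b, hb, d, rfl⟩ := key y hy
    simp [h.2 a ha b hb, s.B_eq_zero_comm (hA a ha), hA b hb, B_self he]

variable [FiniteDimensional F V]

theorem finrank_perp (A : Submodule F V) : finrank F (s.perp A) + finrank F A = finrank F V := by
  have h1 : s.perp A = LinearMap.BilinForm.orthogonal s.B A := by
    ext v
    exact forall₂_congr fun w _ => ⟨s.B_eq_zero_comm, s.B_eq_zero_comm⟩
  rw [h1, LinearMap.BilinForm.finrank_orthogonal ⟨s.nd, s.nd'⟩]
  have := Submodule.finrank_le A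
  omega

theorem perp_perp (A : Submodule F V) : s.perp (s.perp A) = A := by
  refine (Submodule.eq_of_le_of_finrank_eq (le_perp_comm le_rfl) ?_).symm
  have := finrank_perp (s := s) A
  have := finrank_perp (s := s) (s.perp A)
  omega

theorem TS.two_mul_le {A : Submodule F V} (h : s.TS A) : 2 * finrank F A ≤ finrank F V := by
  have := finrank_perp (s := s) A
  have := Submodule.finrank_mono h.le_perp
  omega

omit s in
theorem finrank_sup_one {A : Submodule F V} {e : V} (he : e ∉ A) :
    finrank F (A ⊔ F ∙ e : Submodule F V) = finrank F A + 1 := by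
  have h0 : e ≠ 0 := fun h => he (h ▸ A.zero_mem)
  have := Submodule.finrank_sup_add_finrank_inf_eq A (F ∙ e)
  rw [finrank_span_singleton h0, ((Submodule.disjoint_span_singleton' h0).2 he).eq_bot,
    finrank_bot] at this
  omega

omit s in
theorem exists_notMem {A T : Submodule F V} (h : finrank F A < finrank F T) : ∃ v ∈ T, v ∉ A := by
  by_contra! h'
  exact (Submodule.finrank_mono h').not_gt h

theorem TS.exists_max {A : Submodule F V} (h : s.TS A) :
    ∃ M, A ≤ M ∧ s.TS M ∧ ∀ v ∈ s.perp M, s.Q v = 0 → v ∈ M := by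
  induction hn : finrank F V - finrank F A using Nat.strong_induction_on generalizing A with
  | _ n ih =>
  by_cases hA : ∀ v ∈ s.perp A, s.Q v = 0 → v ∈ A
  · exact ⟨A, le_rfl, h, hA⟩
  push Not at hA
  obtain ⟨v, h1, h2, h3⟩ := hA
  have := finrank_sup_one h3
  have := Submodule.finrank_le (A ⊔ F ∙ v)
  obtain ⟨M, hM, hM'⟩ := ih _ (by omega) (h.sup h2 h1) rfl
  exact ⟨M, le_sup_left.trans hM, hM'⟩

section count
variable [Fintype F] [Finite V]

local notation "q" => Fintype.card F

omit s in
theorem card_sub (A : Submodule F V) : Nat.card A = q ^ finrank F A := by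
  rw [← Nat.card_eq_fintype_card, natCard_eq_pow_finrank (K := F)]

variable (s) in
/-- the number of vectors of norm `a` orthogonal to `A` -/
noncomputable def cn (A : Submodule F V) (a : F) : ℕ := Nat.card {v : V // s.Q v = a ∧ v ∈ s.perp A}

theorem cn_step (hδ : s.δ = 1) {A : Submodule F V} (h : s.TS A) {e : V} (he : s.Q e = 0)
    (hA : e ∈ s.perp A) (he' : e ∉ A) (a : F) :
    s.cn A a + q ^ (finrank F V - finrank F A - 2) =
      s.cn (A ⊔ F ∙ e) a + q ^ (finrank F V - finrank F A - 1) := by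
  classical
  haveI := Fintype.ofFinite V
  have d1 := finrank_sup_one he'
  have d2 := (h.sup he hA).two_mul_le
  have d3 := finrank_perp (s := s) A
  have d4 := finrank_perp (s := s) (A ⊔ F ∙ e)
  obtain ⟨r, hr⟩ : ∃ r, finrank F V = finrank F A + r + 2 := ⟨finrank F V - finrank F A - 2, by omega⟩
  let N : Finset V := Finset.univ.filter fun v => v ∈ s.perp A ∧ s.B v e ≠ 0
  let N' : Finset V := Finset.univ.filter fun v => (s.Q v = a ∧ v ∈ s.perp A) ∧ s.B v e ≠ 0
  have c1 : q ^ (r + 1) + N.card = q ^ (r + 2) := by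
    have e1 := card_sub (s.perp A)
    have e2 := card_sub (s.perp (A ⊔ F ∙ e))
    rw [show finrank F (s.perp A) = r + 2 by omega] at e1
    rw [show finrank F (s.perp (A ⊔ F ∙ e)) = r + 1 by omega] at e2
    rw [← e1, ← e2, Nat.card_eq_fintype_card, Nat.card_eq_fintype_card, Fintype.card_subtype,
      Fintype.card_subtype, ← Finset.card_filter_add_card_filter_not
        (s := Finset.univ.filter fun v => v ∈ s.perp A) (fun v => s.B v e = 0)]
    simp only [Finset.filter_filter, mem_perp_sup, N]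
  have c2 : s.cn A a = s.cn (A ⊔ F ∙ e) a + N'.card := by
    rw [cn, cn, Nat.card_eq_fintype_card, Nat.card_eq_fintype_card, Fintype.card_subtype,
      Fintype.card_subtype, ← Finset.card_filter_add_card_filter_not
        (s := Finset.univ.filter fun v => s.Q v = a ∧ v ∈ s.perp A) (fun v => s.B v e = 0)]
    simp only [Finset.filter_filter, mem_perp_sup, N', and_assoc]
  have c3 : N'.card * q = N.card := by
    rw [← Finset.card_univ (α := F), ← Finset.card_product]
    refine Finset.card_bij (fun x _ => x.1 + x.2 • e) (fun x hx => ?_) (fun x hx y hy hxy => ?_)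
      fun v hv => ?_
    · simp only [N', N, Finset.mem_product, Finset.mem_filter, Finset.mem_univ, true_and,
        and_true] at hx ⊢
      exact ⟨add_mem hx.1.2 (Submodule.smul_mem _ _ hA), by simpa [B_self he] using hx.2⟩
    · simp only [N', Finset.mem_product, Finset.mem_filter, Finset.mem_univ, true_and,
        and_true] at hx hy
      have h1 := congrArg s.Q hxy
      have h2 := congrArg (fun v => s.B v e) hxy
      simp only [s.add, s.smul, he, hx.1.1, hy.1.1, hδ, map_add, map_smul, LinearMap.add_apply,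
        LinearMap.smul_apply, B_self he, smul_eq_mul, mul_zero, add_zero] at h1 h2
      have h3 : x.2 = y.2 := mul_right_cancel₀ hx.2 (by linear_combination h1 - y.2 * h2)
      exact Prod.ext (by simpa [h3] using hxy) h3
    · simp only [N, Finset.mem_filter, Finset.mem_univ, true_and] at hv
      refine ⟨(v - ((s.Q v - a) / s.B v e) • e, (s.Q v - a) / s.B v e), ?_, by simp⟩
      simp only [N', Finset.mem_product, Finset.mem_filter, Finset.mem_univ, true_and, and_true]
      refine ⟨⟨?_, sub_mem hv.1 (Submodule.smul_mem _ _ hA)⟩, by simpa [B_self he] using hv.2⟩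
      simp [Q_sub, s.smul, he, hδ, div_mul_cancel₀ _ hv.2]
  rw [show finrank F V - finrank F A - 2 = r by omega,
    show finrank F V - finrank F A - 1 = r + 1 by omega, c2, add_assoc, add_right_inj]
  refine Nat.eq_of_mul_eq_mul_right (Fintype.card_pos (α := F)) ?_
  rw [add_mul, c3, ← pow_succ, ← pow_succ, add_comm, c1]

theorem cn_le (hδ : s.δ = 1) {M : Submodule F V} (hM : s.TS M) (a : F) {A : Submodule F V}
    (h : A ≤ M) : s.cn A a + q ^ (finrank F V - finrank F M - 1) =
      s.cn M a + q ^ (finrank F V - finrank F A - 1) := by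
  induction hn : finrank F M - finrank F A generalizing A with
  | zero =>
    rw [Submodule.eq_of_le_of_finrank_le h (by omega)]
  | succ n ih =>
    obtain ⟨e, he, he'⟩ := exists_notMem (A := A) (T := M) (by omega)
    have d1 := finrank_sup_one he'
    have h1 := ih (A := A ⊔ F ∙ e) (sup_le h ((Submodule.span_singleton_le_iff_mem _ _).2 he))
      (by omega)
    have h2 := cn_step hδ (hM.mono h) (hM.1 e he) (perp_anti h (hM.le_perp he)) he' a
    rw [d1, show finrank F V - (finrank F A + 1) - 1 = finrank F V - finrank F A - 2 by omega] at h1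
    omega

theorem cn_max {M : Submodule F V} (hM : s.TS M) (h : ∀ v ∈ s.perp M, s.Q v = 0 → v ∈ M) :
    s.cn M 0 = q ^ finrank F M := by
  rw [← card_sub]
  exact Nat.card_congr (Equiv.subtypeEquivRight fun v =>
    ⟨fun hv => h v hv.2 hv.1, fun hv => ⟨hM.1 v hv, hM.le_perp hv⟩⟩)

theorem WI.finrank_max {w : ℕ} (hw : s.WI w) {M : Submodule F V} (hM : s.TS M)
    (h : ∀ v ∈ s.perp M, s.Q v = 0 → v ∈ M) : finrank F M = w := by
  obtain ⟨M', hM', rfl, h'⟩ := hw
  rcases s.hδ with hδ | hδ
  · have e1 := Submodule.finrank_mono (show s.perp M ≤ M from fun v hv => h v hv (Q_eq_zero hδ v))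
    have e2 := Submodule.finrank_mono (show s.perp M' ≤ M' from fun v hv => h' v hv (Q_eq_zero hδ v))
    have := finrank_perp (s := s) M
    have := finrank_perp (s := s) M'
    have := hM.two_mul_le
    have := hM'.two_mul_le
    omega
  have e1 := cn_le hδ hM 0 bot_le
  have e2 := cn_le hδ hM' 0 bot_le
  rw [cn_max hM h] at e1
  rw [cn_max hM' h'] at e2
  have hq : 1 < q := Fintype.one_lt_card
  rcases lt_trichotomy (finrank F M) (finrank F M') with hl | hl | hl
  · have := Nat.pow_lt_pow_right hq hl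
    have := Nat.pow_le_pow_right hq.le (show finrank F V - finrank F M' - 1 ≤
      finrank F V - finrank F M - 1 by omega)
    omega
  · exact hl
  · have := Nat.pow_lt_pow_right hq hl
    have := Nat.pow_le_pow_right hq.le (show finrank F V - finrank F M - 1 ≤
      finrank F V - finrank F M' - 1 by omega)
    omega

theorem WI.le {w : ℕ} (hw : s.WI w) {A : Submodule F V} (h : s.TS A) : finrank F A ≤ w := by
  obtain ⟨M, h1, h2, h3⟩ := h.exists_max
  exact hw.finrank_max h2 h3 ▸ Submodule.finrank_mono h1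

theorem WI.cn_zero {w : ℕ} (hw : s.WI w) (hδ : s.δ = 1) {A : Submodule F V} (h : s.TS A) :
    s.cn A 0 + q ^ (finrank F V - w - 1) = q ^ w + q ^ (finrank F V - finrank F A - 1) := by
  obtain ⟨M, h1, h2, h3⟩ := h.exists_max
  have := cn_le hδ h2 0 h1
  rwa [cn_max h2 h3, hw.finrank_max h2 h3] at this

theorem Ty.wi {t : Typ} {j : ℕ} (h : s.Ty t j) : s.WI (wi t j) := by
  cases t
  exacts [h.2.2, h.2.2, h.2.2, h.2.2.1]

theorem Ty.cn {t : Typ} {j : ℕ} (h : s.Ty t j) {A : Submodule F V} (hA : s.TS A) :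
    s.cn A 0 = q ^ finrank F A * (sn t q (j - finrank F A) + 1) := by
  have hq : 0 < q := Fintype.card_pos
  have h1 := h.wi.le hA
  have one : ∀ n, ∃ x, q ^ n = x + 1 := fun n => ⟨q ^ n - 1, (Nat.sub_add_cancel (Nat.one_le_pow _ _ hq)).symm⟩
  cases t with
  | C =>
    obtain ⟨r, rfl⟩ := Nat.exists_eq_add_of_le h1
    have h2 := finrank_perp (s := s) A
    have h3 := card_sub (s.perp A)
    rw [show finrank F (s.perp A) = finrank F A + 2 * r by have := h.2.1; omega, pow_add] at h3
    rw [sn, Nat.add_sub_cancel_left, Nat.sub_add_cancel (Nat.one_le_pow _ _ hq), ← h3]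
    exact Nat.card_congr (Equiv.subtypeEquivRight fun v => and_iff_right (Q_eq_zero h.1 v))
  | B =>
    obtain ⟨r, rfl⟩ := Nat.exists_eq_add_of_le h1
    have h2 := h.2.2.cn_zero h.1 hA
    rw [h.2.1, show 2 * (finrank F A + r) + 1 - (finrank F A + r) - 1 = finrank F A + r by omega,
      show 2 * (finrank F A + r) + 1 - finrank F A - 1 = finrank F A + 2 * r by omega] at h2
    rw [sn, Nat.add_sub_cancel_left, Nat.sub_add_cancel (Nat.one_le_pow _ _ hq), ← pow_add]
    omega
  | P =>
    obtain ⟨r, rfl⟩ := Nat.exists_eq_add_of_le h1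
    have h2 := h.2.2.cn_zero h.1 hA
    rw [h.2.1] at h2
    rw [sn, Nat.add_sub_cancel_left]
    rcases r with _ | r
    · rw [add_zero] at h2
      simpa using h2
    rw [show 2 * (finrank F A + (r + 1)) - (finrank F A + (r + 1)) - 1 = finrank F A + r by omega,
      show 2 * (finrank F A + (r + 1)) - finrank F A - 1 = finrank F A + (r + 1) + r by omega] at h2
    obtain ⟨x, hx⟩ := one (r + 1)
    rw [pow_add _ _ r, pow_add _ (_ + _) r, pow_add _ _ (r + 1), hx] at h2
    rw [hx, Nat.add_sub_cancel, Nat.add_sub_cancel]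
    linarith
  | M =>
    obtain ⟨r, hr⟩ := Nat.exists_eq_add_of_le h1
    obtain rfl : j = finrank F A + (r + 1) := by have := h.2.2.2; simp only [DG.wi] at hr; omega
    have h2 := h.2.2.1.cn_zero h.1 hA
    rw [h.2.1, show 2 * (finrank F A + (r + 1)) - (finrank F A + (r + 1) - 1) - 1 =
      finrank F A + (r + 1) by omega, show finrank F A + (r + 1) - 1 = finrank F A + r by omega,
      show 2 * (finrank F A + (r + 1)) - finrank F A - 1 = finrank F A + (r + 1) + r by omega] at h2
    obtain ⟨x, hx⟩ := one r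
    rw [pow_add _ _ r, pow_add _ (_ + _) r, pow_add _ _ (r + 1), hx] at h2
    rw [sn, Nat.add_sub_cancel_left, Nat.add_sub_cancel, hx, Nat.add_sub_cancel]
    linarith

end count

end FSp

theorem cnt : CntStmt := fun _ _ _ _ _ _ _ _ _ _ h _ hA => ⟨h.wi.le hA, h.cn hA⟩

end Cfsg.Agent.DG
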