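import Cfsg.Agent.Lib.Char.Perm
import Cfsg.Agent.Lib.Char.More

/-!
Row R3, abstract part: rank three permutation characters.
-/

set_option autoImplicit false

namespace Cfsg.Agent.DG

open Cfsg.Agent.Char

open scoped Classical

variable {G X : Type*} [Group G] [MulAction G X] [Fintype X]

theorem isChar_kernel (E : Matrix X X ℂ) (hE : E * E = E)
    (hinv : ∀ (g : G) x y, E (g • x) (g • y) = E x y) :
    IsCharacter G (fun g => ∑ x, E x (g • x)) := by
  let ρ : Representation ℂ G (X → ℂ) :=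
    { toFun := fun g => LinearMap.funLeft ℂ ℂ fun x => g⁻¹ • x
      map_one' := by ext; simp
      map_mul' := fun a b => by ext; simp [mul_smul] }
  have hρ : ∀ g f x, ρ g f x = f (g⁻¹ • x) := fun _ _ _ => rfl
  have h := isChar_trace_mul_of_idempotent ρ (Matrix.toLin' E)
    (by rw [Module.End.mul_eq_comp, ← Matrix.toLin'_mul, hE]) fun g => by
      refine LinearMap.ext fun f => funext fun x => ?_
      simp only [Module.End.mul_apply, Matrix.toLin'_apply, Matrix.mulVec, dotProduct, hρ]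
      rw [← Equiv.sum_comp (MulAction.toPerm g)]
      refine Finset.sum_congr rfl fun y _ => ?_
      rw [← hinv g (g⁻¹ • x) y]
      simp
  convert h using 2 with g
  rw [LinearMap.trace_eq_matrix_trace ℂ (Pi.basisFun ℂ X), Matrix.trace]
  refine Finset.sum_congr rfl fun x _ => ?_
  simp only [Matrix.diag_apply, LinearMap.toMatrix_apply, Pi.basisFun_repr, Pi.basisFun_apply,
    Module.End.mul_apply, Matrix.toLin'_apply, Matrix.mulVec, dotProduct, hρ, Pi.single_apply,
    inv_smul_eq_iff]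
  simp

theorem irr_of_three [Fintype G] {a b c : G → ℂ} (ha : IsCharacter G a) (hb : IsCharacter G b)
    (hc : IsCharacter G c) (a0 : a 1 ≠ 0) (b0 : b 1 ≠ 0) (c0 : c 1 ≠ 0) {n : ℕ} (hn : n ≤ 3)
    (h : classInner (a + b + c) (a + b + c) = n) : IsIrrCharacter G b ∧ IsIrrCharacter G c := by
  obtain ⟨n1, h1⟩ := exists_nat_inner ha ha
  obtain ⟨n2, h2⟩ := exists_nat_inner ha hb
  obtain ⟨n3, h3⟩ := exists_nat_inner ha hc
  obtain ⟨n4, h4⟩ := exists_nat_inner hb ha
  obtain ⟨n5, h5⟩ := exists_nat_inner hb hb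
  obtain ⟨n6, h6⟩ := exists_nat_inner hb hc
  obtain ⟨n7, h7⟩ := exists_nat_inner hc ha
  obtain ⟨n8, h8⟩ := exists_nat_inner hc hb
  obtain ⟨n9, h9⟩ := exists_nat_inner hc hc
  simp only [Char.inner_add_left, Char.inner_add_right, h1, h2, h3, h4, h5, h6, h7, h8, h9] at h
  have h' : n1 + n4 + n7 + (n2 + n5 + n8) + (n3 + n6 + n9) = n := by exact_mod_cast h
  have k : ∀ {x : G → ℂ} {m : ℕ}, x 1 ≠ 0 → classInner x x = m → m ≠ 0 := fun {x m} h0 hm e =>
    h0 (by rw [eq_zero_of_inner_self (φ := x) (by rw [hm, e, Nat.cast_zero])]; rfl)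
  have k1 := k a0 h1
  have k5 := k b0 h5
  have k9 := k c0 h9
  exact ⟨isIrr_of_isChar_of_inner_self hb (by rw [h5, show n5 = 1 by omega, Nat.cast_one]),
    isIrr_of_isChar_of_inner_self hc (by rw [h9, show n9 = 1 by omega, Nat.cast_one])⟩

omit [Fintype X] in
theorem card_orbits_le (C : X → X → Prop) (hr : ∀ x, C x x)
    (hi : ∀ (g : G) x y, C (g • x) (g • y) ↔ C x y)
    (h3 : ∀ x y x' y' : X, (x = y ↔ x' = y') → (C x y ↔ C x' y') →
      ∃ g : G, g • x = x' ∧ g • y = y') :
    Nat.card (MulAction.orbitRel.Quotient G (X × X)) ≤ 3 := by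
  let c : X × X → Fin 3 := fun p => if p.1 = p.2 then 0 else if C p.1 p.2 then 1 else 2
  have c0 : ∀ p, c p = 0 ↔ p.1 = p.2 := fun p => by
    simp only [c]; split_ifs <;> simp_all
  have c2 : ∀ p, c p ≠ 2 ↔ C p.1 p.2 := fun p => by
    simp only [c]; split_ifs <;> simp_all
  have := Nat.card_le_card_of_injective (β := Fin 3) (Quotient.lift c (by
    rintro p p' ⟨g, rfl⟩
    simp [c, hi]) : MulAction.orbitRel.Quotient G (X × X) → Fin 3) (by
    intro p p'
    induction p using Quotient.inductionOn with | h p =>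
    induction p' using Quotient.inductionOn with | h p' =>
    intro h
    change c p = c p' at h
    obtain ⟨g, g1, g2⟩ := h3 p'.1 p'.2 p.1 p.2 (by rw [← c0, ← c0, h]) (by rw [← c2, ← c2, h])
    exact Quotient.sound ⟨g, Prod.ext g1 g2⟩)
  simpa using this

theorem rank_three [Finite G] (C : X → X → Prop) (hr : ∀ x, C x x) (hs : ∀ x y, C x y → C y x)
    (hi : ∀ (g : G) x y, C (g • x) (g • y) ↔ C x y)
    (h3 : ∀ x y x' y' : X, (x = y ↔ x' = y') → (C x y ↔ C x' y') →
      ∃ g : G, g • x = x' ∧ g • y = y')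
    {v c₁ c₂ a b : ℂ} (hv : (Nat.card X : ℂ) = v) (h1 : ∀ x, (Nat.card {z // C z x} : ℂ) = c₁)
    (h2 : ∀ x y, x ≠ y → C x y → (Nat.card {z // C z x ∧ C z y} : ℂ) = c₂)
    (hab : a + b ≠ 0) (hv0 : v ≠ 0) (hvc : v - c₁ ≠ 0) (e1 : c₁ - c₂ = a * b)
    (e2 : (v - c₁) * (c₂ - a + b) = (c₁ - 1) * (a * b))
    (n1 : v - c₁ + (v - 1) * b ≠ 0) (n2 : (v - 1) * a - v + c₁ ≠ 0) :
    ∃ η η' : G → ℂ, IsIrrCharacter G η ∧ IsIrrCharacter G η' ∧
      permChar G X = (fun _ => 1) + η + η' ∧ η 1 * (a + b) = v - c₁ + (v - 1) * b ∧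
      η' 1 * (a + b) = (v - 1) * a - v + c₁ := by
  have := Fintype.ofFinite G
  let M : Matrix X X ℂ := Matrix.of fun x y => if C x y then 1 else 0
  let J : Matrix X X ℂ := Matrix.of fun _ _ => 1
  have hs' : ∀ x y, C x y ↔ C y x := fun x y => ⟨hs x y, hs y x⟩
  have hv' : (Fintype.card X : ℂ) = v := by rw [← hv, Nat.card_eq_fintype_card]
  have h1' : ∀ x, ∑ z, (if C z x then (1 : ℂ) else 0) = c₁ := fun x => by
    rw [← h1 x, Finset.sum_boole, Nat.card_eq_fintype_card, Fintype.card_subtype]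
  have hJJ : J * J = v • J := by ext; simp [J, Matrix.mul_apply, hv']
  have hJM : J * M = c₁ • J := by ext x y; simp [J, M, Matrix.mul_apply, ← h1' y]
  have hMJ : M * J = c₁ • J := by ext x y; simp [J, M, Matrix.mul_apply, ← h1' x, hs' x]
  have hMM' : ∀ x y, (M * M) x y = Nat.card {z // C z x ∧ C z y} := fun x y => by
    simp only [M, Matrix.mul_apply, Matrix.of_apply, hs' x, ite_mul, one_mul, zero_mul, ← ite_and]
    rw [Finset.sum_boole, Nat.card_eq_fintype_card, Fintype.card_subtype]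
  have hMi : ∀ (g : G) x y, (M * M) (g • x) (g • y) = (M * M) x y := fun g x y => by
    simp only [M, Matrix.mul_apply, Matrix.of_apply]
    rw [← Equiv.sum_comp (MulAction.toPerm g)]
    simp [hi]
  have hd : ∀ x, (M * M) x x = c₁ := fun x => by rw [hMM', ← h1 x]; simp
  have hMM : M * M = (a - b) • M + (a * b) • (1 : Matrix X X ℂ) + (c₂ - a + b) • J := by
    ext x y
    simp only [Matrix.add_apply, Matrix.smul_apply, smul_eq_mul, Matrix.one_apply]
    by_cases hxy : x = y
    · subst hxy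
      rw [hd]
      simp only [M, J, Matrix.of_apply, hr, if_true]
      linear_combination e1
    by_cases hc : C x y
    · rw [hMM', h2 x y hxy hc]
      simp only [M, J, Matrix.of_apply, hc, hxy, if_true, if_false]
      ring
    simp only [M, J, Matrix.of_apply, hc, hxy, if_false]
    have k1 : ∑ z, (M * M) x z = c₁ * c₁ := by
      have := congrFun (congrFun (show M * M * J = (c₁ * c₁) • J by
        rw [mul_assoc, hMJ, mul_smul_comm, hMJ, smul_smul]) x) x
      simpa [Matrix.mul_apply (M := M * M), J] using this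
    have k2 : ∀ z, (M * M) x z = (if x = z then c₁ - c₂ else 0) +
        (c₂ - (M * M) x y) * (if C z x then 1 else 0) + (M * M) x y := fun z => by
      by_cases hz : x = z
      · subst hz; rw [hd]; simp [hr]
      by_cases hz' : C x z
      · rw [hMM' x z, h2 x z hz hz']; simp [hz, hs x z hz']
      · obtain ⟨g, g1, g2⟩ := h3 x y x z (by simp [hxy, hz]) (by simp [hc, hz'])
        have := hMi g x y
        rw [g1, g2] at this
        simp [hz, ← hs' x, hz', this]
    rw [Finset.sum_congr rfl fun z _ => k2 z, Finset.sum_add_distrib, Finset.sum_add_distrib,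
      ← Finset.mul_sum, h1'] at k1
    simp only [Finset.sum_ite_eq, Finset.mem_univ, if_true, Finset.sum_const, Finset.card_univ,
      nsmul_eq_mul, hv'] at k1
    apply mul_left_cancel₀ hvc
    change _ * (M * M) x y = _
    linear_combination k1 - e2 + (c₁ - 1) * e1
  have hμ : (c₂ - a + b) * v = (c₁ + b) * (c₁ - a) := by
    linear_combination e2 - c₁ * e1
  let E₁ : Matrix X X ℂ := (a + b)⁻¹ • (M + b • (1 : Matrix X X ℂ) - ((c₁ + b) / v) • J)
  let E₂ : Matrix X X ℂ := (a + b)⁻¹ • (a • (1 : Matrix X X ℂ) - M + ((c₁ - a) / v) • J)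
  have hc2 : c₂ = (c₁ + b) * (c₁ - a) / v + a - b := by
    field_simp
    linear_combination hμ
  have q1 : E₁ * E₁ = E₁ := by
    simp only [E₁, smul_mul_assoc, mul_smul_comm, add_mul, mul_add, sub_mul, mul_sub, hMM, hMJ,
      hJM, hJJ, mul_one, one_mul]
    rw [hc2]
    match_scalars <;> field_simp <;> ring
  have q2 : E₂ * E₂ = E₂ := by
    simp only [E₂, smul_mul_assoc, mul_smul_comm, add_mul, mul_add, sub_mul, mul_sub, hMM, hMJ,
      hJM, hJJ, mul_one, one_mul]
    rw [hc2]
    match_scalars <;> field_simp <;> ring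
  have i1 := isChar_kernel (G := G) E₁ q1 fun g x y => by simp [E₁, M, J, hi, Matrix.one_apply]
  have i2 := isChar_kernel (G := G) E₂ q2 fun g x y => by simp [E₂, M, J, hi, Matrix.one_apply]
  have d1 : (∑ x, E₁ x ((1 : G) • x)) * (a + b) = v - c₁ + (v - 1) * b := by
    simp [E₁, M, J, hr, hv']
    field_simp
    ring
  have d2 : (∑ x, E₂ x ((1 : G) • x)) * (a + b) = (v - 1) * a - v + c₁ := by
    simp [E₂, M, J, hr, hv']
    field_simp
    ring
  have hπ : permChar G X = (fun _ => 1) + (fun g : G => ∑ x, E₁ x (g • x)) +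
      fun g : G => ∑ x, E₂ x (g • x) := by
    funext g
    have k : ∀ x y, E₁ x y + E₂ x y = (if y = x then 1 else 0) - v⁻¹ := fun x y => by
      simp only [E₁, E₂, J, Matrix.smul_apply, Matrix.add_apply, Matrix.sub_apply, smul_eq_mul,
        Matrix.one_apply, Matrix.of_apply, eq_comm (a := x)]
      field_simp
      ring
    simp only [Pi.add_apply, add_assoc, ← Finset.sum_add_distrib, k, Finset.sum_sub_distrib,
      Finset.sum_boole, Finset.sum_const, Finset.card_univ, nsmul_eq_mul, hv', mul_inv_cancel₀ hv0,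
      permChar, Nat.card_eq_fintype_card, Fintype.card_subtype, MulAction.mem_fixedBy]
    ring
  have hn := card_orbits_le C hr hi h3
  have := irr_of_three isChar_one i1 i2 one_ne_zero (fun h => n1 (by rw [← d1, h, zero_mul]))
    (fun h => n2 (by rw [← d2, h, zero_mul])) hn (hπ ▸ inner_permChar_permChar X X)
  exact ⟨_, _, this.1, this.2, hπ, d1, d2⟩

end Cfsg.Agent.DG
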