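import Cfsg.Agent.Lib.DG.HC2

/-!
# The unipotent radical for `k = 1, 2`
-/

set_option autoImplicit false
set_option linter.unusedSectionVars false

namespace Cfsg.Agent.DG

open Module

namespace FSp

variable {F V W : Type*} [Field F] [AddCommGroup V] [Module F V] [AddCommGroup W] [Module F W]
  {s : FSp F V} [FiniteDimensional F V] [FiniteDimensional F W]

theorem SC_of_basis {ι : Type*} (β : Basis ι F (Dual F W)) {σ : Dual F W →ₗ[F] W}
    {τ : Dual F W →ₗ[F] V}
    (h1 : ∀ i j, β j (σ (β i)) + s.ε * β i (σ (β j)) + s.B (τ (β i)) (τ (β j)) = 0)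
    (h2 : ∀ i, s.δ * β i (σ (β i)) + s.Q (τ (β i)) = 0) : s.SC σ τ := by
  have k1 : ∀ f g : Dual F W, g (σ f) + s.ε * f (σ g) + s.B (τ f) (τ g) = 0 := fun f g => by
    have : (Dual.eval F W ∘ₗ σ) + s.ε • (Dual.eval F W ∘ₗ σ).flip + s.B.compl₁₂ τ τ = 0 :=
      β.ext fun i => β.ext fun j => by simpa using h1 i j
    simpa using LinearMap.congr_fun₂ this f g
  refine ⟨k1, fun f => ?_⟩
  have hf : f ∈ Submodule.span F (Set.range β) := β.span_eq ▸ trivial
  induction hf using Submodule.span_induction with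
  | mem _ h => obtain ⟨i, rfl⟩ := h; exact h2 i
  | zero => simp
  | add x y _ _ hx hy =>
    simp only [map_add, LinearMap.add_apply, s.add]
    linear_combination hx + hy + s.δ * k1 x y - x (σ y) * s.δ_ε
  | smul c x _ hx =>
    simp only [map_smul, LinearMap.smul_apply, s.smul, smul_eq_mul]
    linear_combination c ^ 2 * hx

theorem sig_ext {ι : Type*} [Finite ι] [DecidableEq ι] (b : Basis ι F W) {σ σ' : Dual F W →ₗ[F] W}
    (h : ∀ i j, b.repr (σ (b.dualBasis i)) j = b.repr (σ' (b.dualBasis i)) j) : σ = σ' :=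
  b.dualBasis.ext fun i => b.ext_elem (h i)

theorem exists_uni_one (hδ : s.δ = 1) (hW : finrank F W = 1) : ∃ e : V ≃ s.Uni W, e 0 = 1 ∧
    ∀ (g : s.iso) v, (e (g v)).1 = lev (1, g) * (e v).1 * (lev (1, g))⁻¹ := by
  let b := finBasisOfFinrankEq F W hW
  let e : s.Uni W → V := fun u => (u.1 (0, 0, b.dualBasis 0)).2.1
  have he : Function.Bijective e := ⟨fun u u' h => by
    obtain ⟨⟨⟨σ, τ⟩, hp⟩, rfl⟩ := uniEquiv.surjective u
    obtain ⟨⟨⟨σ', τ'⟩, hp'⟩, rfl⟩ := uniEquiv.surjective u'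
    simp only [e, uniEquiv_apply, sieg_inr] at h
    have h1 := hp.2 (b.dualBasis 0)
    have h2 := hp'.2 (b.dualBasis 0)
    simp only [hδ, h, Basis.dualBasis_apply] at h1 h2
    congr 3
    · exact sig_ext b fun i j => by
        rw [Subsingleton.elim i 0, Subsingleton.elim j 0]; linear_combination h1 - h2
    · exact b.dualBasis.ext fun i => by rw [Subsingleton.elim i 0, h], fun t =>
    ⟨⟨_, sieg_mem (b.dualBasis.constr F fun _ => -s.Q t • b 0) (b.dualBasis.constr F fun _ => t)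
      (SC_of_basis b.dualBasis (fun i j => by
        simp only [Basis.constr_basis, Subsingleton.elim i 0, Subsingleton.elim j 0]
        simp [ε, hδ, s.self]; ring) fun i => by
        simp only [Basis.constr_basis, Subsingleton.elim i 0]
        simp [hδ])⟩, by simp only [e, sieg_inr, Basis.constr_basis]⟩⟩
  refine ⟨(Equiv.ofBijective e he).symm, (Equiv.symm_apply_eq _).2 rfl, fun g v => ?_⟩
  obtain ⟨u, rfl⟩ := he.2 v
  have : g (e u) = e ⟨_, Uni_norm (lev_mem (1, g)) u.2⟩ := by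
    simp only [e, mul_apply, ← map_inv, Prod.inv_mk, lev_apply, map_zero, inv_one]
    rfl
  rw [this, Equiv.ofBijective_symm_apply_apply, Equiv.ofBijective_symm_apply_apply]

theorem card_uni_two (hδ : s.δ = 1) (hW : finrank F W = 2) :
    Nat.card (s.Uni W) = Nat.card V * (Nat.card V * Nat.card F) := by
  let b := finBasisOfFinrankEq F W hW
  rw [← Nat.card_congr uniEquiv, ← Nat.card_prod, ← Nat.card_prod]
  refine Nat.card_eq_of_bijective (fun p => (p.1.2 (b.dualBasis 0), p.1.2 (b.dualBasis 1),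
    b.repr (p.1.1 (b.dualBasis 1)) 0)) ⟨?_, ?_⟩
  · rintro ⟨⟨σ, τ⟩, hp⟩ ⟨⟨σ', τ'⟩, hp'⟩ h
    simp only [Prod.mk.injEq] at h
    obtain rfl : τ = τ' := b.dualBasis.ext (Fin.forall_fin_two.2 ⟨h.1, h.2.1⟩)
    have h1 := fun i => (hp.2 (b.dualBasis i)).trans (hp'.2 (b.dualBasis i)).symm
    have h2 := (hp.1 (b.dualBasis 0) (b.dualBasis 1)).trans
      (hp'.1 (b.dualBasis 0) (b.dualBasis 1)).symm
    simp only [hδ, h.2.2, Basis.dualBasis_apply, add_left_inj, one_mul] at h1 h2
    obtain rfl : σ = σ' := sig_ext b (by simp only [Fin.forall_fin_two]; exact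
      ⟨⟨h1 0, h2⟩, h.2.2, h1 1⟩)
    rfl
  · rintro ⟨t, t', c⟩
    refine ⟨⟨(b.dualBasis.constr F ![-s.Q t • b 0 + (-c - s.B t t') • b 1, c • b 0 - s.Q t' • b 1],
      b.dualBasis.constr F ![t, t']), SC_of_basis b.dualBasis ?_ ?_⟩, ?_⟩ <;>
    simp only [Basis.constr_basis, Fin.forall_fin_two]
    · simp [ε, hδ, s.self, s.symm t t']
      refine ⟨⟨?_, ?_⟩, ?_, ?_⟩ <;> ring
    · simp [hδ]
    · simp

end FSp

section Alt

variable {F W : Type*} [Field F] [AddCommGroup W] [Module F W] [FiniteDimensional F W]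

/-- an alternating form on a plane -/
theorem exists_alt (hW : finrank F W = 2) : ∃ (J : W ≃ₗ[F] Dual F W) (b : Basis (Fin 2) F W),
    (∀ a, J a a = 0) ∧ (∀ a c, J c a = -J a c) ∧ J (b 0) (b 1) = 1 ∧
    (∀ (m : End F W) a c, J (m a) c + J a (m c) = LinearMap.trace F W m * J a c) ∧
    ∀ (m : End F W) a c, J (m a) (m c) = LinearMap.det m * J a c := by
  let b := finBasisOfFinrankEq F W hW
  let J : W →ₗ[F] Dual F W := (b.coord 0).smulRight (b.coord 1) - (b.coord 1).smulRight (b.coord 0)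
  have hJ : ∀ a c, J a c = b.repr a 0 * b.repr c 1 - b.repr a 1 * b.repr c 0 := fun a c => by
    simp [J]
  have hi : Function.Injective J := (injective_iff_map_eq_zero _).2 fun a ha => by
    have h0 := LinearMap.congr_fun ha (b 0)
    have h1 := LinearMap.congr_fun ha (b 1)
    simp [hJ] at h0 h1
    exact b.ext_elem (by simp [h0, h1])
  have hm : ∀ (m : End F W) a i, b.repr (m a) i =
      b.repr a 0 * b.repr (m (b 0)) i + b.repr a 1 * b.repr (m (b 1)) i := fun m a i => by
    conv_lhs => rw [← b.sum_repr a, Fin.sum_univ_two]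
    simp only [map_add, map_smul, Finsupp.add_apply, Finsupp.smul_apply, smul_eq_mul]
  refine ⟨LinearMap.linearEquivOfInjective J hi Subspace.dual_finrank_eq.symm, b, fun a => ?_,
    fun a c => ?_, ?_, fun m a c => ?_, fun m a c => ?_⟩ <;>
    simp only [LinearMap.linearEquivOfInjective_apply, hJ]
  · ring
  · ring
  · simp
  · rw [LinearMap.trace_eq_matrix_trace F b, Matrix.trace_fin_two, hm m a, hm m a, hm m c, hm m c]
    simp only [LinearMap.toMatrix_apply]
    ring
  · rw [← LinearMap.det_toMatrix b, Matrix.det_fin_two, hm m a, hm m a, hm m c, hm m c]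
    simp only [LinearMap.toMatrix_apply]
    ring

end Alt

end Cfsg.Agent.DG
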