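import Cfsg.Agent.Lib.DG.Tw
import Cfsg.Agent.Lib.DG.Un
import Cfsg.Agent.Lib.DG.N31
import Cfsg.Agent.Lib.DG.N32
import Cfsg.Agent.Lib.DG.Cu9
import Cfsg.Agent.Lib.DG.R32

/-!
# Rows N2, N3, SGN from the vanishing of the Mackey terms
-/

set_option autoImplicit false
set_option linter.unusedSectionVars false

namespace Cfsg.Agent.DG

open Module Cfsg.Agent.Char Cfsg.Agent.Ind FSp

/-- irreducibility of the inducing character and vanishing of the Mackey terms -/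
def VanStmt : Prop :=
  ∀ (F W U : Type) [Field F] [Fintype F] [AddCommGroup W] [Module F W] [Finite W]
    [AddCommGroup U] [Module F U] [Finite U] (s : FSp F U) [Fintype (s.hyp W).iso] (k a : ℕ)
    (f : Polynomial F → ℂ) (ω : Fˣ →* ℂˣ) (η : s.iso → ℂ) (lam : (s.hyp W).iso →* ℂˣ),
    finrank F W = k → 0 < k → Cusp.{0} F k a f ω →
    (k = 1 → (fun g : (End F W)ˣ => cu f (g : End F W)) ≠ fun _ => 1) → IsIrrCharacter s.iso η →
    (IsEmpty (s.TSk k) ∧ HasE lam.ker ∨ lam = 1 ∧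
      ((η = fun _ => 1) ∨ PtC ⊤ fun g : (⊤ : Subgroup s.iso) => η g)) →
    IsIrrCharacter (s.Par W) (fun p => cu f (pi1 p : End F W) * η (pi2 p)) ∧
    ∀ x, x ∉ s.Par W → (∃ a, a ≠ 0 ∧ ∀ c, (x (c, 0, 0)).2.2 a = 0) →
      TT2 (s.Par W) (fun p => cu f (pi1 p : End F W) * η (pi2 p))
        ((fun p : s.Par W => cu f (pi1 p : End F W) * η (pi2 p)) *
          fun p : s.Par W => (lam p : ℂ)) x = 0

theorem TT_of_one {G : Type*} [Group G] [Fintype G] {P : Subgroup G} {φ : P → ℂ} {x : G}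
    (h : TT2 P φ (φ * fun p : P => ((1 : G →* ℂˣ) p : ℂ)) x = 0) : TT P φ x = 0 := by
  rwa [show (φ * fun p : P => ((1 : G →* ℂˣ) p : ℂ)) = φ from funext fun p => mul_one _] at h

section
variable {F W V : Type} [Field F] [Fintype F] [AddCommGroup W] [Module F W] [Finite W]
  [AddCommGroup V] [Module F V] [Finite V] {s : FSp F V} [Fintype (s.hyp W).iso]
  (J : W ≃ₗ[F] Dual F W) {ψ : (End F W)ˣ → ℂ} {η : s.iso → ℂ}

theorem not_cell {x : (s.hyp W).iso} (h : ∀ u ∈ s.Uni W, ∀ p ∈ s.Par W, x ≠ u * s.wJ J * p) :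
    ∃ a, a ≠ 0 ∧ ∀ c, (x (c, 0, 0)).2.2 a = 0 := by
  by_contra! hc
  obtain ⟨u, hu, p, hp, e⟩ := exists_cell J (x := x) fun a ha => by
    by_contra h0
    obtain ⟨c, hc⟩ := hc a h0
    exact hc (ha c)
  exact h u hu p hp e

theorem hk0Of [Nontrivial W] (hφ : IsIrrCharacter (s.Par W) fun p => ψ (pi1 p) * η (pi2 p))
    (h1 : ∀ m, ψ (alJ J m) = ψ m)
    (van : ∀ x, x ∉ s.Par W → (∃ a, a ≠ 0 ∧ ∀ c, (x (c, 0, 0)).2.2 a = 0) →
      TT (s.Par W) (fun p => ψ (pi1 p) * η (pi2 p)) x = 0) :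
    Hk0 (s.Par W) (s.Uni W) (s.Lev W) (fun p => ψ (pi1 p) * η (pi2 p)) (s.wJ J) where
  irr := hφ
  hU := Uni_le
  hL := Lev_le
  dec := Par_dec
  norm _ hl _ hu := Uni_norm (Lev_le hl) hu
  kerU u hu := by simp only [(mem_Uni_iff.1 hu).1, (mem_Uni_iff.1 hu).2, map_one]
  normW := by rintro _ ⟨⟨m, h⟩, rfl⟩; exact ⟨_, (s.wJ_lev J m h).symm⟩
  invW := by
    rintro _ ⟨⟨m, h⟩, rfl⟩
    rw [wJ_lev, ← coe_levP, ← coe_levP, ebz_coe, ebz_coe]
    simp only [pi1_levP, pi2_levP, h1]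
  opp _ := wJ_opp J
  wP := wJ_notMem J
  van x hx h := van x hx (not_cell J h)

theorem hkOf (H : Hk0 (s.Par W) (s.Uni W) (s.Lev W) (fun p => ψ (pi1 p) * η (pi2 p)) (s.wJ J))
    (h1 : ∀ m, ψ (alJ J m * m⁻¹) = ψ 1) {c : ℂ} (h2 : ψ (s.sqJ J) = c * ψ 1) (hc : c * c = 1) :
    Hk (s.Par W) (s.Uni W) (s.Lev W) (fun p => ψ (pi1 p) * η (pi2 p)) (s.wJ J) c :=
  { H with
    kerW := by
      rintro _ ⟨⟨m, h⟩, rfl⟩
      refine ⟨levP (alJ J m * m⁻¹, 1), ?_, by simp only [pi1_levP, pi2_levP, h1, map_one]⟩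
      rw [wJ_lev, ← map_inv, ← map_mul, coe_levP]
      simp
    sq := ⟨levP (s.sqJ J, 1), (s.wJ_sq J).symm, by
      simp only [pi1_levP, pi2_levP, h2, map_one, mul_assoc]⟩
    hc := hc }

theorem sq_lin {G : Type*} [Group G] {ψ : G → ℂ} (hψ : IsCharacter G ψ) (h1 : ψ 1 = 1)
    (h2 : ∀ m, ψ m⁻¹ = ψ m) (m : G) : ψ m * ψ m = 1 := by
  rw [← h1, ← mul_inv_cancel m, map_mul_of_apply_one hψ h1, h2]

theorem hkLin (H : Hk0 (s.Par W) (s.Uni W) (s.Lev W) (fun p => ψ (pi1 p) * η (pi2 p)) (s.wJ J))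
    (hψ : IsCharacter _ ψ) (h1 : ψ 1 = 1) (h2 : ∀ m, ψ m⁻¹ = ψ m) (h3 : ∀ m, ψ (alJ J m) = ψ m) :
    Hk (s.Par W) (s.Uni W) (s.Lev W) (fun p => ψ (pi1 p) * η (pi2 p)) (s.wJ J) (ψ (s.sqJ J)) :=
  hkOf J H (fun m => by rw [map_mul_of_apply_one hψ h1, h3, h2, sq_lin hψ h1 h2, h1])
    (by rw [h1, mul_one]) (sq_lin hψ h1 h2 _)

theorem deg_add {k : ℕ} (hW : finrank F W = k) {α β : (s.hyp W).iso → ℂ}
    (hR : indFun (s.Par W) (fun p => ψ (pi1 p) * η (pi2 p)) = α + β) :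
    α 1 + β 1 = Nat.card ((s.hyp W).TSk k) * ψ 1 * η 1 := by
  rw [← Pi.add_apply, ← hR, indFun_one, map_one, map_one, mul_assoc, ← hW, ← index_stabilizer (s.W0 W)]
  rfl

theorem lev_rf (a : V) (ha : s.Q a ≠ 0) : lev (1, s.rf a ha) =
    (s.hyp W).rf (0, a, 0) (by simpa [hyp_Q] using ha) := iso_ext fun y => by
  simp only [lev_apply, rf_apply, hyp_Q, hyp_B]
  simp [Prod.ext_iff, End.one_eq_id]

theorem cu_alJ {k a : ℕ} {f : Polynomial F → ℂ} {ω : Fˣ →* ℂˣ} (h : Cusp.{0} F k a f ω)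
    (hW : finrank F W = k) (m : (End F W)ˣ) :
    cu f (alJ J m : End F W) = cu f ((m⁻¹ : (End F W)ˣ) : End F W) := by
  rw [← h.dual W hW m⁻¹]
  refine (cu_equiv f J fun x => ?_).symm
  rw [alJ_apply]; rfl

theorem char_two (h : Fintype.card F = 2) : CharP F 2 := by
  have : (2 : F) = 0 := by simpa [h] using FiniteField.cast_card_eq_zero F
  exact (CharP.charP_iff_prime_eq_zero Nat.prime_two).2 this

theorem twistOf (H : Hk0 (s.Par W) (s.Uni W) (s.Lev W) (fun p => ψ (pi1 p) * η (pi2 p)) (s.wJ J))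
    [CharP F 2] (hδ : s.δ = 1) (h5 : 5 ≤ finrank F (W × V × Dual F W)) {a : V} {ha : s.Q a ≠ 0}
    (h1 : ψ 1 * η (s.rf a ha) ≠ 0)
    (van : ∀ lam : (s.hyp W).iso →* ℂˣ, HasE lam.ker → ∀ x, x ∉ s.Par W →
      (∃ a, a ≠ 0 ∧ ∀ c, (x (c, 0, 0)).2.2 a = 0) → TT2 (s.Par W) (fun p => ψ (pi1 p) * η (pi2 p))
        ((fun p : s.Par W => ψ (pi1 p) * η (pi2 p)) * fun p : s.Par W => (lam p : ℂ)) x = 0)
    {α β : (s.hyp W).iso → ℂ} (hα : IsIrrCharacter _ α) (hβ : IsIrrCharacter _ β)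
    (hR : indFun (s.Par W) (fun p => ψ (pi1 p) * η (pi2 p)) = α + β) :
    IsIrrCharacter (commutator (s.hyp W).iso) fun g => α g := by
  obtain ⟨lam, h2, h3, h4⟩ := exists_sgn (s := s.hyp W) hδ h5
  rw [← h2]
  refine H.twist lam h3 (levP (1, s.rf a ha)) ⟨_, rfl⟩ (by simpa using h1) ?_
    (fun x hx h => van lam (h2 ▸ hasE_commutator hδ h5) x hx (not_cell J h)) hα
    (isChar_of_isIrr hβ) hR
  rw [coe_levP, lev_rf, h4]

end

theorem n2_of (hv : VanStmt) : N2Stmt := by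
  intro F W V _ _ _ _ _ _ _ _ s hq hW h0 h
  have := Fintype.ofFinite (s.hyp W).iso
  have := char_two hq
  have : Nontrivial W := Module.nontrivial_of_finrank_eq_succ hW
  have hq' : Nat.card F = 2 := Nat.card_eq_fintype_card.trans hq
  obtain ⟨f, ω, hf, hr⟩ := exists_sd4.{0} F hq'
  have he : IsEmpty (s.TSk 4) :=
    ⟨fun Z => by have := h0.wi.le Z.2.1; rw [Z.2.2] at this; simp [wi] at this⟩
  have hv := fun lam hl => hv F W V s 4 3 f ω (fun _ => 1) lam hW (by norm_num) hf (by norm_num)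
    isIrr_one (Or.inl ⟨he, hl⟩)
  let J : W ≃ₗ[F] Dual F W := LinearEquiv.ofFinrankEq _ _ Subspace.dual_finrank_eq.symm
  have H := hk0Of J (ψ := fun g => cu f (g : End F W)) (η := fun _ => 1)
    (hv 1 fun _ _ _ _ _ => rfl).1 (fun m => (cu_alJ J hf hW m).trans (hr W hW m))
    fun x hx h => TT_of_one ((hv 1 fun _ _ _ _ _ => rfl).2 x hx h)
  obtain ⟨n, hn⟩ := card_Uni (s := s) (W := W) 2
  obtain ⟨α, β, d, j, hα, hβ, -, hR, h1, h2⟩ := H.main Nat.prime_two hn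
  obtain ⟨a, -, ha⟩ := exists_nonsing (s := s) h0.1 (A := ⊥) (by simp [h0.2.1])
  have hd := hf.deg hW
  have ht := h.card_tsk 4
  rw [hq'] at hd
  rw [hq] at ht
  have h5 := twistOf J (ψ := fun g => cu f (g : End F W)) (η := fun _ => 1) H h0.1
    (by rw [h.2.1]; norm_num) (ha := ha)
    (by simp [hd, Finset.prod_range_succ]) (fun lam hl => (hv lam hl).2) hα hβ hR
  refine ⟨_, _, h5, h1, ar_n2 ?_⟩
  have h3 := deg_add (ψ := fun g : (End F W)ˣ => cu f (g : End F W)) (η := fun _ => 1) hW hR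
  rw [h1, h2, Units.val_one, hd] at h3
  have h4 : Nat.card ((s.hyp W).TSk 4) = 71145 := by
    simp [Finset.prod_range_succ, sn] at ht; omega
  rw [h4] at h3
  norm_num [Finset.prod_range_succ] at h3
  exact_mod_cast h3

theorem n3_of (hv : VanStmt) : N3Stmt := by
  intro F W V _ _ _ _ _ _ _ _ s hq hW h0 h
  have := Fintype.ofFinite (s.hyp W).iso
  have := Fintype.ofFinite (s.Uni W)
  have := char_two hq
  have : Nontrivial W := Module.nontrivial_of_finrank_eq_succ hW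
  have hq' : Nat.card F = 2 := Nat.card_eq_fintype_card.trans hq
  obtain ⟨f, ω, hf, hr⟩ := exists_sd2.{0} F
  obtain ⟨η, hη, hη1, hη2, a, ha, hη3⟩ := exists_eta_five h0 hq
  have he : IsEmpty (s.TSk 2) :=
    ⟨fun Z => by have := h0.wi.le Z.2.1; rw [Z.2.2] at this; simp [wi] at this⟩
  have hv := fun lam hl => hv F W V s 2 _ f ω η lam hW (by norm_num) hf (by norm_num) hη
    (Or.inl ⟨he, hl⟩)
  let J : W ≃ₗ[F] Dual F W := LinearEquiv.ofFinrankEq _ _ Subspace.dual_finrank_eq.symm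
  have hJ := fun m => (cu_alJ J hf hW m).trans ((hr W hW).1 m)
  have H := hk0Of J (ψ := fun g => cu f (g : End F W)) (hv 1 fun _ _ _ _ _ => rfl).1 hJ
    fun x hx h => TT_of_one ((hv 1 fun _ _ _ _ _ => rfl).2 x hx h)
  have hd : cu f (1 : End F W) = 1 := by rw [hf.deg hW, hq']; simp
  have hψ := isChar_of_isIrr (hf.irr W hW)
  have H' := hkLin J H hψ hd (hr W hW).1 hJ
  have hU : Nat.card (s.Uni W) = 2 ^ 9 := by
    rw [card_uni_two h0.1 hW, Module.natCard_eq_pow_finrank (K := F) (V := V), h0.2.1, hq']; rfl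
  obtain ⟨α, β, d, j, hα, hβ, hR, h1, h2, -⟩ := H'.main Nat.prime_two hU
  have ht := h.card_tsk 2
  rw [hq] at ht
  have h5 := twistOf J (ψ := fun g => cu f (g : End F W)) H h0.1
    (by rw [h.2.1]; norm_num) (ha := ha) (by simp [hd, hη3]) (fun lam hl => (hv lam hl).2) hα hβ hR
  have h3 := deg_add (ψ := fun g : (End F W)ˣ => cu f (g : End F W)) hW hR
  have h4 : Nat.card ((s.hyp W).TSk 2) = 1071 := by
    simp [Finset.prod_range_succ, sn] at ht; omega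
  rw [h1, h2, Units.val_one, hd, h4, hη1] at h3
  have h6 := H'.quant hα hβ hR
  obtain ⟨S, hS⟩ := AA_intval (U := s.Uni W) (w := s.wJ J)
    (φ := fun p : s.Par W => cu f (pi1 p : End F W) * η (pi2 p)) fun p => by
      obtain ⟨n, hn⟩ := hη2 (pi2 p)
      rcases mul_self_eq_one_iff.1 (sq_lin hψ hd (hr W hW).1 (pi1 p)) with e | e
      · exact ⟨n, by simp only [e, hn, one_mul]⟩
      · exact ⟨-n, by simp only [e, hn, neg_one_mul, Int.cast_neg]⟩
  simp only [hS, h1, h2, hU, map_one, Units.val_one, hd, hη1, one_mul] at h6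
  exact ⟨_, _, h5, h1, ar_n3 (by norm_num at h3; exact_mod_cast h3) H'.hc h6⟩

theorem sgn_of (hv : VanStmt) : SGNStmt := by
  intro F W V _ _ _ _ _ _ _ _ s hq hW h0 h
  have := Fintype.ofFinite (s.hyp W).iso
  have := Fintype.ofFinite (s.Uni W)
  have := Fintype.ofFinite V
  have : Nontrivial W := Module.nontrivial_of_finrank_eq_succ hW
  have hq' : Nat.card F = 3 := Nat.card_eq_fintype_card.trans hq
  obtain ⟨f, ω, hf, hr⟩ := exists_sd1.{0} F hq'
  obtain ⟨-, η', -, g, -, hη', -, hg, -, hg'⟩ :=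
    (r3 F V s .M 3 ⊤ h0 (hasE_top.rk3 (Or.inl rfl))).2 le_rfl
  obtain rfl : g = 90 := by rw [hq] at hg'; omega
  let η : s.iso → ℂ := fun x => η' ⟨x, trivial⟩
  have hη : IsIrrCharacter _ η := isIrr_comp_equiv hη'.1 Subgroup.topEquiv.symm
  have hη1 : η 1 = 90 := hg
  have hd : cu f (1 : End F W) = 1 := by rw [hf.deg hW]; simp
  have hv := hv F W V s 1 1 f ω η 1 hW one_pos hf (fun _ e => by
    have h1 := hf.neg hW (two_ne_zero_iff.2 (by rw [hq])) 1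
    have h2 : cu f (-(1 : End F W)) = 1 := congrFun e (-1)
    rw [Units.val_one, h2, hd] at h1
    norm_num at h1) hη (Or.inr ⟨rfl, Or.inr hη'⟩)
  let J : W ≃ₗ[F] Dual F W := LinearEquiv.ofFinrankEq _ _ Subspace.dual_finrank_eq.symm
  have hJ := fun m => (cu_alJ J hf hW m).trans (hr W hW m)
  have H := hkLin J (hk0Of J (ψ := fun g => cu f (g : End F W)) hv.1 hJ
    fun x hx h => TT_of_one (hv.2 x hx h)) (isChar_of_isIrr (hf.irr W hW)) hd (hr W hW) hJ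
  obtain ⟨e, e0, he⟩ := exists_uni_one (W := W) h0.1 hW
  have hU : Nat.card (s.Uni W) = 3 ^ 6 := by
    rw [← Nat.card_congr e, Module.natCard_eq_pow_finrank (K := F) (V := V), h0.2.1, hq']
  obtain ⟨α, β, d, j, hα, hβ, hR, h1, h2, -⟩ := H.main Nat.prime_three hU
  have ht := h.card_tsk 1
  rw [hq] at ht
  have h3 := deg_add (ψ := fun g : (End F W)ˣ => cu f (g : End F W)) hW hR
  have h4 : Nat.card ((s.hyp W).TSk 1) = 1066 := by
    simp [sn] at ht; omega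
  rw [h1, h2, Units.val_one, hd, h4, hη1] at h3
  have h6 := H.quant hα hβ hR
  obtain ⟨t, ht, hS⟩ := sum_inv_seven h0 hq (fun v => AA (s.Uni W)
      (fun p : s.Par W => cu f (pi1 p : End F W) * η (pi2 p)) (s.wJ J) (e v)) (fun g v => by
      rw [he]
      refine H.AA_conj ⟨_, rfl⟩ ?_ _
      rw [← inv_mul_eq_iff_eq_mul, ← mul_assoc, wJ_lev, map_one]) (by rw [e0]; exact H.AA_one)
    fun v => H.AA_int _
  rw [Finset.sum_comm, ← e.sum_comp] at h6
  simp only [AA] at hS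
  simp only [hS, h1, h2, hU, map_one, Units.val_one, hd, hη1, one_mul] at h6
  exact ⟨_, _, hα, h1, ar_sgn (by norm_num at h3; exact_mod_cast h3) ht H.hc h6⟩

end Cfsg.Agent.DG
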