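import Cfsg.Agent.Lib.DG.SP2

/-!
# Row HC from the vanishing of the Mackey terms
-/

set_option autoImplicit false

namespace Cfsg.Agent.DG

open Module Cfsg.Agent.Char Cfsg.Agent.Ind FSp
open scoped Classical ComplexConjugate

theorem ind_negOne {F W V : Type} [Field F] [AddCommGroup W] [Module F W] [Finite W]
    [AddCommGroup V] [Module F V] [Finite V] {s : FSp F V} [Fintype (s.hyp W).iso]
    (φ : s.Par W → ℂ) (h : φ (levP (-1, s.negOne)) = φ 1) :
    indFun (s.Par W) φ (s.hyp W).negOne = indFun (s.Par W) φ 1 := by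
  rw [indFun_apply, indFun_apply]
  refine congrArg _ (Finset.sum_congr rfl fun x _ => ?_)
  have : x⁻¹ * (s.hyp W).negOne * x = levP ((-1 : (End F W)ˣ), s.negOne) := by
    rw [coe_levP, ← negOne_eq]
    exact iso_ext fun y => by simp
  rw [this, mul_one, inv_mul_cancel, ← (s.Par W).coe_one, ebz_coe, ebz_coe, h]

theorem i_of (hv : VanStmt) : IStmt := by
  intro F W V _ _ _ _ _ _ _ _ s k a f ω η hW hk hf hn hη h
  have := Fintype.ofFinite (s.hyp W).iso
  have h0 := hf.inner_inv hW hn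
  have hv := hv F W V s k a f ω η 1 hW hk hf (fun _ e => by
    simp only [fun g => congrFun e g, inner_self_of_isIrr isIrr_one] at h0
    exact one_ne_zero h0) hη (h.imp (fun h => ⟨h, fun _ _ _ _ _ => rfl⟩) fun h => ⟨rfl, h⟩)
  let J : W ≃ₗ[F] Dual F W := LinearEquiv.ofFinrankEq _ _ Subspace.dual_finrank_eq.symm
  refine ⟨_, isIrr_ind_of_TT hv.1 fun x hx => ?_, ?_, fun h1 h2 => ?_⟩
  · by_cases hx' : ∀ u ∈ s.Uni W, ∀ p ∈ s.Par W, x ≠ u * s.wJ J * p
    · exact TT_of_one (hv.2 x hx (not_cell J hx'))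
    push Not at hx'
    obtain ⟨u, hu, p, hp, rfl⟩ := hx'
    rw [TT_mul (cf_of_isIrr hv.1) (Uni_le hu) hp]
    refine TT_eq_zero (isChar_of_isIrr hv.1) (levP.comp (MonoidHom.inl _ _))
      (levP.comp ((MonoidHom.inl _ _).comp (alJ J))) (fun m => (s.wJ_lev J m 1).symm) ?_
    have h3 := (mul_eq_zero.1 h0).resolve_left (inv_ne_zero (card_ne_zero' _))
    rw [← mul_zero (η 1 * conj (η 1)), ← h3, Finset.mul_sum]
    refine Finset.sum_congr rfl fun m _ => ?_
    simp only [MonoidHom.comp_apply, MonoidHom.inl_apply, pi1_levP, pi2_levP, cu_alJ J hf hW,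
      map_mul]
    ring
  · rw [indFun_one, map_one, map_one, mul_assoc, ← hW, ← index_stabilizer (s.W0 W)]
    rfl
  · exact ind_negOne _ (by simp only [pi1_levP, pi2_levP, map_one, h2, Units.val_neg, h1])

end Cfsg.Agent.DG
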