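import Cfsg.Agent.Lib.DG.Row1

/-!
# Row SP2
-/

set_option autoImplicit false
set_option linter.unusedSectionVars false

namespace Cfsg.Agent.DG

open Module Cfsg.Agent.Char Cfsg.Agent.Ind FSp
open scoped Classical

theorem fiber_card {F M : Type*} [Field F] [Fintype F] [AddCommGroup M] [Module F M] [Fintype M]
    {f : M →ₗ[F] F} (hf : f ≠ 0) (c : F) :
    (Finset.univ.filter fun x => f x = c).card * Fintype.card F = Fintype.card M := by
  have h := LinearMap.surjective_of_ne_zero hf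
  rw [← Finset.card_univ (α := M), Finset.card_eq_sum_card_fiberwise (f := f) (s := Finset.univ)
    (t := Finset.univ) (by simp), Finset.sum_congr rfl fun d _ =>
      AddMonoidHom.card_fiber_eq_of_mem_range f (h d) (h c), Finset.sum_const, smul_eq_mul,
    mul_comm, Finset.card_univ]

section
variable {F W V : Type} [Field F] [Fintype F] [AddCommGroup W] [Module F W] [Finite W]
  [AddCommGroup V] [Module F V] [Fintype V] {s : FSp F V} (J : W ≃ₗ[F] Dual F W)

theorem pairs_card : ∃ n : ℂ, ∀ c : F, ∑ x : V × V, (if s.B x.1 x.2 = c then 1 else 0 : ℂ) =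
    n + if c = 0 then (Fintype.card V : ℂ) else 0 := by
  refine ⟨∑ t ∈ Finset.univ.erase (0 : V), (Fintype.card V : ℂ) / Fintype.card F, fun c => ?_⟩
  rw [Fintype.sum_prod_type, ← Finset.sum_erase_add _ _ (Finset.mem_univ 0)]
  congr 1
  · refine Finset.sum_congr rfl fun t ht => ?_
    have h0 := Finset.ne_of_mem_erase ht
    rw [Finset.sum_boole, ← fiber_card (f := s.B t)
      (fun e => h0 (s.nd t fun y => by rw [e]; rfl)) c, Nat.cast_mul, mul_div_cancel_right₀]
    exact_mod_cast Fintype.card_ne_zero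
  · by_cases hc : c = 0 <;> simp [hc, eq_comm]

theorem pi1_S3 {u : (s.hyp W).iso} (hu : u ∈ s.Uni W) {σ τ} (hs : s.SC σ τ)
    (h : s.wJ J * u * s.wJ J * sieg σ τ hs * s.wJ J ∈ s.Par W) (h2 : s.sqJ J = 1) :
    (pi1 ⟨_, h⟩ : End F W) = σ ∘ₗ J.toLinearMap := LinearMap.ext fun a => by
  change (s.wJ J (u (s.wJ J (sieg σ τ hs (s.wJ J (a, 0, 0)))))).1 = σ (J a)
  simp only [wJ_apply, Uni_snd hu, map_zero, smul_zero, sieg_inr]
  rw [← sqJ_apply, h2]; rfl

theorem AA_sieg [Fintype (s.hyp W).iso] [Fintype (s.Uni W)] {ψ : End F W → ℂ} {c : ℂ}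
    (H : Hk (s.Par W) (s.Uni W) (s.Lev W) (fun p => ψ (pi1 p : End F W) * 1) (s.wJ J) c)
    (h2 : s.sqJ J = 1) {σ τ} (hs : s.SC σ τ) :
    AA (s.Uni W) (fun p : s.Par W => ψ (pi1 p : End F W) * 1) (s.wJ J) (sieg σ τ hs) =
      if IsUnit (σ ∘ₗ J.toLinearMap : End F W) then ψ (σ ∘ₗ J.toLinearMap) else 0 := by
  split_ifs with h
  · obtain ⟨u, hu, p, hp, e⟩ := exists_cell J (x := s.wJ J * sieg σ τ hs * s.wJ J) fun a ha => by
      refine (forall_dual_apply_eq_zero_iff F a).1 fun g => ?_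
      obtain ⟨b, rfl⟩ := J.surjective g
      obtain ⟨c, rfl⟩ := ((End.isUnit_iff _).1 h).2 b
      have := ha c
      simp only [mul_apply, wJ_apply, map_zero, smul_zero, sieg_inr] at this
      exact this
    have h3 : s.wJ J * u⁻¹ * s.wJ J * sieg σ τ hs * s.wJ J ∈ s.Par W := by
      rw [mul_assoc (_ * _), mul_assoc (_ * _), ← mul_assoc (s.wJ J) (sieg σ τ hs), e, mul_assoc,
        mul_assoc u, inv_mul_cancel_left, ← mul_assoc, wJ_sq]
      exact (s.Par W).mul_mem (lev_mem _) hp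
    rw [H.AA_eq ((s.Uni W).inv_mem hu) h3, pi1_S3 J ((s.Uni W).inv_mem hu) hs h3 h2, mul_one]
  · exact Finset.sum_eq_zero fun u _ => ebz_of_not_mem _ _ fun h' =>
      h (pi1_S3 J u.2 hs h' h2 ▸ Units.isUnit _)

theorem sum_uni [Fintype (s.Uni W)] (hδ : s.δ = 0) (b : Basis (Fin 2) F W) (h1 : ∀ a, J a a = 0)
    (h2 : ∀ a c, J c a = -J a c) (h3 : J (b 0) (b 1) = 1)
    (h4 : ∀ (m : End F W) a c, J (m a) c + J a (m c) = LinearMap.trace F W m * J a c)
    (Φ : s.Uni W → ℂ) (Ψ : End F W → ℂ)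
    (h : ∀ σ τ hs, Φ ⟨sieg σ τ hs, sieg_mem _ _ _⟩ = Ψ (σ ∘ₗ J.toLinearMap)) :
    ∑ v, Φ v = ∑ m, ∑ x : V × V, if s.B x.1 x.2 = LinearMap.trace F W m then Ψ m else 0 := by
  have hε : s.ε = -1 := by simp [ε, hδ]
  let E := Equiv.ofBijective (fun p : (Dual F W →ₗ[F] W) × (Dual F W →ₗ[F] V) =>
    ((p.1 ∘ₗ J.toLinearMap : End F W), p.2 (J (b 0)), p.2 (J (b 1)))) ⟨fun p p' e => by
      simp only [Prod.mk.injEq] at e
      exact Prod.ext ((LinearMap.cancel_right J.surjective).1 e.1)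
        ((b.map J).ext (Fin.forall_fin_two.2 e.2)), fun x =>
      ⟨(x.1 ∘ₗ J.symm.toLinearMap, (b.map J).constr F ![x.2.1, x.2.2]), Prod.ext
        (LinearMap.ext fun a => congrArg x.1 (J.symm_apply_apply a))
        (Prod.ext ((b.map J).constr_basis F _ 0) ((b.map J).constr_basis F _ 1))⟩⟩
  have key : ∀ p, s.SC p.1 p.2 ↔ s.B (E p).2.1 (E p).2.2 = LinearMap.trace F W (E p).1 := by
    rintro ⟨σ, τ⟩
    have k : ∀ a c, J c (σ (J a)) + s.ε * J a (σ (J c)) =
        -(LinearMap.trace F W (σ ∘ₗ J.toLinearMap) * J a c) := fun a c => by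
      rw [← h4, hε, h2 (σ (J a))]; simp only [LinearMap.comp_apply, LinearEquiv.coe_coe]; ring
    refine ⟨fun hs => ?_, fun hs => SC_of_basis (b.map J) ?_ fun i => by simp [hδ, Q_eq_zero hδ]⟩
    · have := hs.1 (J (b 0)) (J (b 1))
      rw [k, h3] at this
      change s.B (τ _) (τ _) = LinearMap.trace F W (σ ∘ₗ J.toLinearMap)
      linear_combination this
    · replace hs : s.B (τ (J (b 0))) (τ (J (b 1))) = LinearMap.trace F W (σ ∘ₗ J.toLinearMap) := hs
      simp only [Basis.map_apply, k]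
      simp only [Fin.forall_fin_two, h1, s.self, Q_eq_zero hδ, h2 (b 0) (b 1),
        h3, s.symm (τ (J (b 0))) (τ (J (b 1))), hs, hε]
      refine ⟨⟨?_, ?_⟩, ?_, ?_⟩ <;> ring
  rw [← Fintype.sum_prod_type', ← Finset.sum_filter, Finset.sum_subtype
    (p := fun x : End F W × V × V => s.B x.2.1 x.2.2 = LinearMap.trace F W x.1) _ (by simp)]
  refine Fintype.sum_equiv (uniEquiv.symm.trans (E.subtypeEquiv key)) _ _ fun v => ?_
  obtain ⟨⟨⟨σ, τ⟩, hs⟩, rfl⟩ := uniEquiv.surjective v
  rw [Equiv.trans_apply, Equiv.symm_apply_apply]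
  exact h σ τ hs

end

theorem sp2_of (hv : VanStmt) : SP2Stmt := by
  intro F W V _ _ _ _ _ _ _ _ s hδ hW
  have := Fintype.ofFinite (s.hyp W).iso
  have := Fintype.ofFinite (s.Uni W)
  have := Fintype.ofFinite (s.Par W)
  have := Fintype.ofFinite V
  have : Nontrivial W := Module.nontrivial_of_finrank_eq_succ hW
  have hε : s.ε = -1 := by simp [ε, hδ]
  have hq : 1 < Fintype.card F := Fintype.one_lt_card
  obtain ⟨f, ω, hf, hr⟩ := exists_sd2.{0} F
  obtain ⟨J, b, j1, j2, j3, j4, j5⟩ := exists_alt hW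
  have hv := hv F W V s 2 _ f ω (fun _ => 1) 1 hW two_pos hf (by norm_num) isIrr_one
    (Or.inr ⟨rfl, Or.inl rfl⟩)
  have hJ : s.sqJ J = 1 := Units.ext (LinearMap.ext fun a => J.flip.injective (by
    rw [sqJ_apply, map_smul, J.flip.apply_symm_apply, hε]
    exact LinearMap.ext fun c => by simpa using (j2 a c).symm))
  have H0 := hk0Of J (ψ := fun g => cu f (g : End F W)) (η := fun _ => 1) hv.1
    (fun m => (cu_alJ J hf hW m).trans ((hr W hW).1 m)) fun x hx h => TT_of_one (hv.2 x hx h)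
  have hk : ∀ m : (End F W)ˣ, cu f ((alJ J m * m⁻¹ : (End F W)ˣ) : End F W) =
      cu f ((1 : (End F W)ˣ) : End F W) := fun m => by
    rw [← (hr W hW).2 (Units.map (LinearMap.det : End F W →* F) m)⁻¹ 1]
    refine congrArg (cu f) (LinearMap.ext fun a => J.injective (LinearMap.ext fun c => ?_))
    have h1 := j5 ((m⁻¹ : (End F W)ˣ) : End F W) a c
    rw [Units.val_mul, End.mul_apply, alJ_apply, LinearMap.comp_apply, h1, ← map_inv]
    simp
  have H := hkOf J (ψ := fun g => cu f (g : End F W)) (η := fun _ => 1) H0 hk (c := 1)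
    (by rw [hJ, one_mul]) (one_mul 1)
  obtain ⟨p, hp⟩ := CharP.exists F
  have := Fact.mk (CharP.char_is_prime F p)
  obtain ⟨n, hn⟩ := card_Uni (s := s) (W := W) p
  obtain ⟨α, β, d, j, hα, hβ, hR, h1, h2, -⟩ := H.main Fact.out hn
  have hd : cu f (1 : End F W) = (Fintype.card F : ℂ) - 1 := by
    rw [hf.deg hW, Nat.card_eq_fintype_card]; simp [Nat.cast_sub hq.le]
  have h3 := deg_add (ψ := fun g : (End F W)ˣ => cu f (g : End F W)) (η := fun _ => 1) hW hR
  have h6 := H.quant hα hβ hR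
  obtain ⟨n₁, hn₁⟩ := pairs_card (s := s)
  have hu : ∀ m : End F W, IsUnit m ↔ m.charpoly.coeff 0 ≠ 0 := fun m => by
    rw [LinearMap.isUnit_iff_isUnit_det, LinearMap.det_eq_sign_charpoly_coeff, isUnit_iff_ne_zero]
    simp
  have h0 : ∑ g : (End F W)ˣ, cu f (g : End F W) = 0 := by
    refine sum_eq_zero_of_range (isChar_of_isIrr (hf.irr W hW)) (MonoidHom.id _)
      (UW (F ∙ b 0)).subtype (fun n => ⟨_, rfl⟩) ?_
    simpa using (prim_cu hf.add).sum_UW (W := F ∙ b 0) (by simpa using b.ne_zero 0) (fun e => by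
      have := finrank_span_singleton (K := F) (b.ne_zero 0)
      rw [e, finrank_top, hW] at this
      omega) 1 fun _ h => h
  have hS : ∑ u : s.Uni W, ∑ v : s.Uni W, extendByZero (s.Par W)
      (fun p => cu f (pi1 p : End F W) * 1) (s.wJ J * u * s.wJ J * v * s.wJ J) = Fintype.card V *
      ∑ g : (End F W)ˣ, if LinearMap.trace F W g = 0 then cu f (g : End F W) else 0 := by
    rw [Finset.sum_comm]
    refine (sum_uni J hδ b j1 j2 j3 j4 _ (fun m => if IsUnit m then cu f m else 0)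
      fun σ τ hs => AA_sieg J H hJ hs).trans ?_
    refine Eq.trans ?_ (add_eq_right.2 (mul_eq_zero_of_right n₁ h0))
    rw [sum_units_eq, sum_units_eq fun g => if LinearMap.trace F W g = 0 then cu f g else 0,
      Finset.mul_sum, Finset.mul_sum, ← Finset.sum_add_distrib]
    refine Finset.sum_congr rfl fun m _ => ?_
    rw [Finset.sum_congr rfl fun x _ => (boole_mul _ _).symm, ← Finset.sum_mul, hn₁]
    simp only [hu]
    split_ifs <;> ring
  have hU : (Nat.card (s.Uni W) : ℂ) = (Fintype.card V : ℂ) ^ 2 * Fintype.card F ^ 3 := by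
    have h7 := sum_uni J hδ b j1 j2 j3 j4 (fun _ => 1) (fun _ => 1) fun _ _ _ => rfl
    have h8 : ∀ c : F, ∑ m : End F W, (if c = LinearMap.trace F W m then 1 else 0 : ℂ) =
        Fintype.card F ^ 3 := fun c => by
      have := fiber_card (f := LinearMap.trace F W) (fun e => by
        simpa [e] using LinearMap.trace_smulRight (b.coord 0) (b 0)) c
      rw [← Nat.card_eq_fintype_card (α := End F W), Module.natCard_eq_pow_finrank (K := F),
        finrank_linearMap, hW, Nat.card_eq_fintype_card, show 2 * 2 = 3 + 1 from rfl, pow_succ,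
        mul_left_inj' (by omega)] at this
      simp only [eq_comm (a := c), Finset.sum_boole, this, Nat.cast_pow]
    rw [Finset.sum_comm] at h7
    simpa [h8, Nat.card_eq_fintype_card, sq] using h7
  have hd0 : 0 < d := by
    obtain ⟨e, he, he'⟩ := exists_pos_nat_of_isIrr hβ
    rwa [show d = e by exact_mod_cast h2.symm.trans he']
  rw [hS] at h6
  simp only [h1, h2, hU, map_one, Units.val_one, hd, mul_one] at h3 h6
  have h9 := ar_sp2 hq hd0 (Nat.le_mul_of_pos_left d (pow_pos (Fact.out : p.Prime).pos j))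
    (pow_ne_zero 2 (Nat.cast_ne_zero.2 Fintype.card_ne_zero)) (by
      rw [mul_pow, sum_traceless hf hW, Nat.card_eq_fintype_card]) h6
  refine ⟨α, _, hα, apply_eq_of_constituent (isCharacter_indFun _ (isChar_of_isIrr H.irr)) hα
    (inner_ne_zero_of_sub (isChar_of_isIrr hα) (by rw [hR]; simpa using isChar_of_isIrr hβ)
      (isChar_of_isIrr hα) (by rw [inner_self_of_isIrr hα]; exact one_ne_zero)) ?_, h1, ?_⟩
  · rw [indFun_apply, indFun_apply]
    congr 1
    refine Finset.sum_congr rfl fun x _ => ?_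
    have : x⁻¹ * (s.hyp W).negOne * x = levP ((-1 : (End F W)ˣ), s.negOne) := by
      rw [coe_levP, ← negOne_eq]
      exact iso_ext fun y => by simp
    rw [this, mul_one, inv_mul_cancel, ← (s.Par W).coe_one, ebz_coe, ebz_coe, pi1_levP, map_one]
    simpa using (hr W hW).2 (-1) 1
  · rw [h9] at h3 ⊢
    have : ((Fintype.card F * d * (Fintype.card F + 1) : ℕ) : ℂ) =
        (Fintype.card F * Nat.card ((s.hyp W).TSk 2) * (Fintype.card F - 1) : ℕ) := by
      push_cast [Nat.cast_sub hq.le] at h3 ⊢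
      linear_combination (Fintype.card F : ℂ) * h3
    exact_mod_cast this

end Cfsg.Agent.DG
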