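import Cfsg.Agent.Lib.DG.HC1b
import Cfsg.Agent.Lib.DG.Desc2

/-!
# Abstract parts of the rows N2, N3, SGN, SP2
-/

set_option autoImplicit false
set_option linter.unusedSectionVars false

namespace Cfsg.Agent.DG

open Cfsg Cfsg.Agent.Char Cfsg.Agent.Ind Module
open scoped ComplexConjugate

variable {G : Type*} [Group G] [Fintype G] {P U L : Subgroup G} {φ : P → ℂ} {w : G} {c : ℂ}

theorem Hk.toHk0 (H : Hk P U L φ w c) (h : ∀ l ∈ L, w⁻¹ * l * w ∈ L) : Hk0 P U L φ w :=
  { H with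
    normW := h
    invW := fun l hl => by
      obtain ⟨z, hz, hz'⟩ := H.kerW l hl
      rw [← ebz_ker_mul (isChar_of_isIrr H.irr) hz' l, hz, inv_mul_cancel_right] }

theorem Hk0.irr_lev (H : Hk0 P U L φ w) :
    IsIrrCharacter L fun l => φ (Subgroup.inclusion H.hL l) := by
  have := Fintype.ofFinite P
  have := Fintype.ofFinite U
  have := Fintype.ofFinite L
  have hφ := isChar_of_isIrr H.irr
  refine isIrr_of_isChar_of_inner_self (isChar_comp hφ _) ?_
  have h1 := sum_mul_conj_of_isIrr H.irr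
  rw [← Nat.card_eq_of_bijective _ H.bij, Nat.card_prod, ← H.bij.sum_comp, Fintype.sum_prod_type,
    Finset.sum_congr rfl (g := fun _ => ∑ l : L, φ (Subgroup.inclusion H.hL l) *
      conj (φ (Subgroup.inclusion H.hL l))), Finset.sum_const, nsmul_eq_mul, Finset.card_univ,
    ← Nat.card_eq_fintype_card, Nat.cast_mul] at h1
  · rw [classInner, mul_left_cancel₀ (card_ne_zero' U) h1, inv_mul_cancel₀ (card_ne_zero' L)]
  refine fun u _ => Finset.sum_congr rfl fun l _ => ?_
  have e1 := ebz_ker_mul hφ (H.kerU ⟨u, H.hU u.2⟩ u.2) l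
  simp only [← ebz_coe P φ, Subgroup.coe_inclusion]
  rw [e1]

theorem sum_twist_eq_zero {χ : G → ℂ} (hχ : IsIrrCharacter G χ) (lam : G →* ℂˣ) {p : G}
    (hp : χ p ≠ 0) (hl : lam p = -1) : ∑ g, χ g * conj (χ g * lam g) = 0 := by
  have := inner_eq_zero_of_isIrr hχ (isIrr_mul_of_apply_one hχ
    (isChar_of_isIrr (isIrr_unitsHom lam)) (by simp)) fun e => hp (by
      have := congrFun e p
      simp only [Pi.mul_apply, hl, Units.val_neg, Units.val_one] at this
      linear_combination this / 2)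
  exact (mul_eq_zero.1 this).resolve_left (inv_ne_zero (card_ne_zero' G))

/-- the constituents stay irreducible on the kernel of a sign character -/
theorem Hk0.twist (H : Hk0 P U L φ w) (lam : G →* ℂˣ) (h : ∀ g, lam g = 1 ∨ lam g = -1)
    (p : P) (hpL : p.1 ∈ L) (hp : φ p ≠ 0) (hl : lam p = -1)
    (van : ∀ x, x ∉ P → (∀ u ∈ U, ∀ p ∈ P, x ≠ u * w * p) →
      TT2 P φ (φ * fun p : P => (lam p : ℂ)) x = 0)
    {a b : G → ℂ} (ha : IsIrrCharacter G a) (hb : IsCharacter G b) (hR : indFun P φ = a + b) :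
    IsIrrCharacter lam.ker fun g => a g := by
  classical
  have := Fintype.ofFinite P
  have := Fintype.ofFinite L
  have hφ := isChar_of_isIrr H.irr
  have hlam := isChar_of_isIrr (isIrr_unitsHom lam)
  have h1 : IsIrrCharacter P (φ * fun p : P => (lam p : ℂ)) :=
    isIrr_mul_of_apply_one H.irr (isChar_restrict hlam P) (by simp)
  have h3 : ∀ x, TT2 P φ (φ * fun p : P => (lam p : ℂ)) x = 0 := fun x => by
    by_cases hx : x ∈ P
    · have := TT2_mul (cf_of_isIrr H.irr) (cf_of_isIrr h1) hx P.one_mem 1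
      rw [mul_one, mul_one] at this
      rw [this]
      exact TT2_eq_zero hφ (isChar_of_isIrr h1) (MonoidHom.id P) (MonoidHom.id P) (by simp)
        (sum_twist_eq_zero H.irr (lam.comp P.subtype) hp hl)
    by_cases hx' : ∀ u ∈ U, ∀ p ∈ P, x ≠ u * w * p
    · exact van x hx hx'
    push Not at hx'
    obtain ⟨u, hu, p', hp', rfl⟩ := hx'
    rw [TT2_mul (cf_of_isIrr H.irr) (cf_of_isIrr h1) (H.hU hu) hp']
    let b : L →* P := ((MulAut.conj w⁻¹).toMonoidHom.comp L.subtype).codRestrict P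
      fun l => by simpa using H.hL (H.normW l l.2)
    have hb : ∀ l : L, (b l : G) = w⁻¹ * l * w := fun l => by simp [b]
    refine TT2_eq_zero hφ (isChar_of_isIrr h1) (Subgroup.inclusion H.hL) b hb ?_
    rw [← sum_twist_eq_zero H.irr_lev (lam.comp L.subtype) (p := ⟨p, hpL⟩) hp hl]
    refine Finset.sum_congr rfl fun l _ => ?_
    simp only [Pi.mul_apply, ← ebz_coe P φ, hb, H.invW l l.2, map_mul lam,
      Subgroup.coe_inclusion, map_inv, mul_right_comm (lam w)⁻¹, inv_mul_cancel, one_mul,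
      MonoidHom.comp_apply, Subgroup.coe_subtype]
  have h4 := inner_ind_eq_zero h3
  rw [indFun_mul_res P φ (cf_of_isCharacter hlam), hR] at h4
  have ha' := isChar_of_isIrr ha
  refine isIrr_res_of_twist ha lam h (fun e => by simp [e, Units.ext_iff] at hl; norm_num at hl) ?_
  by_contra h5
  refine inner_ne_zero_of_sub ha' (by simpa using hb) (isChar_mul (isChar_add ha' hb) hlam) ?_ h4
  rw [inner_comm_of_isChar ha' (isChar_mul (isChar_add ha' hb) hlam)]
  refine inner_ne_zero_of_sub (isChar_mul ha' hlam) ?_ ha' ?_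
  · rw [← sub_mul, add_sub_cancel_left]; exact isChar_mul hb hlam
  · rw [inner_comm_of_isChar (isChar_mul ha' hlam) ha']; exact h5

/-- the inner sum of `S3` -/
noncomputable def AA (U : Subgroup G) [Fintype U] (φ : P → ℂ) (w v : G) : ℂ :=
  ∑ u : U, extendByZero P φ (w * u * w * v * w)

namespace Hk

variable (H : Hk P U L φ w c) [Fintype U]
include H

theorem AA_one : AA U φ w 1 = 0 := by
  obtain ⟨z, hz, -⟩ := H.sq
  refine Finset.sum_eq_zero fun u _ => ebz_of_not_mem P φ fun h => H.wP ?_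
  rw [mul_one, mul_assoc _ w, ← hz, P.mul_mem_cancel_right z.2,
    P.mul_mem_cancel_right (H.hU u.2)] at h
  exact h

theorem AA_conj {l : G} (hl : l ∈ L) (hw : l * w = w * l) (v : G) :
    AA U φ w (l * v * l⁻¹) = AA U φ w v := by
  let k : U ≃ U := Equiv.ofBijective (fun u => ⟨l * u * l⁻¹, H.norm l hl u u.2⟩)
    (Finite.injective_iff_bijective.1 fun a b hab => by simpa using hab)
  rw [AA, AA, ← Equiv.sum_comp k]
  refine Finset.sum_congr rfl fun u _ => ?_
  rw [← ebz_conj_mem P (cf_of_isIrr H.irr) (H.hL hl) (w * u * w * v * w)]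
  congr 1
  have h1 : l⁻¹ * w = w * l⁻¹ := by
    rw [inv_mul_eq_iff_eq_mul, ← mul_assoc, hw, mul_inv_cancel_right]
  change w * (l * u * l⁻¹) * w * (l * v * l⁻¹) * w = _
  calc _ = w * l * u * (l⁻¹ * w * l) * v * (l⁻¹ * w) := by group
    _ = _ := by rw [h1, ← hw]; group

theorem AA_int (v : G) : IsIntegral ℤ (AA U φ w v) := by
  refine IsIntegral.sum _ fun u _ => ?_
  by_cases h : w * u * w * v * w ∈ P
  · rw [ebz_of_mem P φ h]; exact isIntegral_of_isChar (isChar_of_isIrr H.irr) _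
  · rw [ebz_of_not_mem P φ h]; exact isIntegral_zero

theorem AA_eq {u : G} (hu : u ∈ U) {v : G} (h : w * u * w * v * w ∈ P) :
    AA U φ w v = φ ⟨_, h⟩ := by
  obtain ⟨z, hz, -⟩ := H.sq
  rw [AA, Finset.sum_eq_single ⟨u, hu⟩ (fun u' _ hu' => ebz_of_not_mem P φ fun h' => hu' ?_)
    (by simp), ebz_of_mem P φ h]
  have h1 : w⁻¹ * (u' * u⁻¹) * w =
      (z : G)⁻¹ * (w * u' * w * v * w * (w * u * w * v * w)⁻¹) * z := by rw [hz]; group
  exact Subtype.ext (mul_inv_eq_one.1 (H.opp _ (U.mul_mem u'.2 (U.inv_mem hu))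
    (h1 ▸ P.mul_mem (P.mul_mem (P.inv_mem z.2) (P.mul_mem h' (P.inv_mem h))) z.2)))

end Hk

theorem AA_intval [Fintype U] (h : ∀ p, ∃ n : ℤ, φ p = n) :
    ∃ n : ℤ, ∑ u : U, ∑ v : U, extendByZero P φ (w * u * w * v * w) = n := by
  have : ∀ x, ∃ n : ℤ, extendByZero P φ x = n := fun x => by
    by_cases hx : x ∈ P
    · rw [ebz_of_mem P φ hx]; exact h _
    · exact ⟨0, by rw [ebz_of_not_mem P φ hx, Int.cast_zero]⟩
  choose n hn using this
  exact ⟨∑ u : U, ∑ v : U, n (w * u * w * v * w), by simp [hn]⟩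

end Cfsg.Agent.DG
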