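import Cfsg.Agent.Lib.DG.HC3
import Cfsg.Agent.Lib.DG.Row2

/-!
# The vanishing of the Mackey terms off the big cell
-/

set_option autoImplicit false

namespace Cfsg.Agent.DG

open Module Cfsg.Agent.Char Cfsg.Agent.Ind FSp

theorem van : VanStmt := by
  intro F W U _ _ _ _ _ _ _ _ s _ k a f ω η lam hW hk hf h1 hη H
  subst hW
  have hψ := hf.cuS rfl
  have : Nontrivial W := finrank_pos_iff.1 hk
  refine ⟨isIrr_phi hψ.irr hη, fun x hx ⟨b, hb, hb'⟩ => ?_⟩
  have hl : HasE lam.ker := H.elim And.right fun h => h.1 ▸ fun _ _ _ _ _ => rfl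
  by_cases h2 : (∀ c, (x (c, 0, 0)).2.2 = 0) ∧ ∀ a c, (a, 0, 0) = x (c, 0, 0) → a = 0
  · obtain H | ⟨rfl, H⟩ := H
    · exact (H.1.false (perp_TS h2.1 h2.2).some).elim
    have h3 : HypH W η := Or.inr <| H.elim (fun h => ⟨0, zero_le_one, 0, isChar_zero, fun g => by
      have : Unique {z : s.TSk 0 // g • z = z} := by
        have h4 : ∀ z z' : s.TSk 0, z = z' := fun z z' => Subtype.ext
          ((Submodule.finrank_eq_zero.1 z.2.2).trans (Submodule.finrank_eq_zero.1 z'.2.2).symm)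
        exact ⟨⟨⟨⟨⊥, ts_bot, finrank_bot F U⟩, h4 _ _⟩⟩, fun z => Subtype.ext (h4 _ _)⟩
      simp [h]⟩) fun ⟨_, ξ, hξ, h⟩ => ⟨1, le_rfl, fun g => ξ ⟨g, trivial⟩,
        isChar_comp hξ Subgroup.topEquiv.symm.toMonoidHom, fun g => h ⟨g, trivial⟩⟩
    have h5 := TT_perp hψ h1 hη h3 h2.1 h2.2
    rwa [show ((fun p : s.Par W => cu f (pi1 p : End F W) * η (pi2 p)) *
      fun p : s.Par W => ((1 : (s.hyp W).iso →* ℂˣ) p : ℂ)) =
        fun p : s.Par W => cu f (pi1 p : End F W) * η (pi2 p) from funext fun p => mul_one _]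
  · exact TT2_van hψ hη lam hl hx (fun h => hb (h b hb')) h2

end Cfsg.Agent.DG
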